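import Cfsg.Agent.H42.PcDefs

/-! Project PC: piece CV2. -/

set_option autoImplicit false

namespace Cfsg.Agent.H23.PcCv2

open Subgroup Cfsg.Agent.H42.Pc

universe u

theorem cv2 (ab : AbStmt.{u}) (trans : TransStmt.{u}) : Cv2Stmt.{u} := by
  intro G _ _ T U P t cf tU tt hP hU
  have aU : ∀ g ∈ (P : Subgroup G), t⁻¹ * (t⁻¹ * (g * t * g⁻¹)) * t ∈ U := fun g hg =>
    cf.nU.conj_mem' _ (hP g hg) t
  have h1 : ∀ g ∈ (P : Subgroup G), (t * t)⁻¹ * (g * (t * t) * g⁻¹) ∈ T := fun g hg => by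
    convert mul_mem ((cf.mem _).1 (aU g hg)) (hU _ (aU g hg)) using 1
    group
  refine ⟨h1, fun w hw => ?_⟩
  obtain ⟨g, hg, k⟩ := trans G T U P (t * t) cf tt (fun k => tU ((cf.mem t).2 k)) h1 w hw
  refine ⟨_, aU g hg, ?_⟩
  convert mul_mem ((ab G T U cf).1.conj_mem' _ (inv_mem (cf.sq _ (aU g hg))) w) k using 1
  group

end Cfsg.Agent.H23.PcCv2
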