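import Mathlib
import Cfsg.Agent.H11.Kernel
import Cfsg.Agent.H14.InduceChar
import Cfsg.Agent.H14.Constituent
import Cfsg.Agent.H24.Deg
import Cfsg.Agent.H1.Nilp

/-!
# Solvable groups embed in central quotients of groups of central type (Gagola)
-/

set_option autoImplicit false

namespace Cfsg.Agent.H23

open Cfsg Subgroup
open scoped ComplexConjugate

universe u

/-- `K^p ⋊ p^{1+2}`, the Heisenberg group acting through a cyclic shift. -/
@[ext] structure Hw (K : Type u) (p : ℕ) where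
  k : ZMod p → K
  a : ZMod p
  b : ZMod p
  q : ZMod p

namespace Hw

variable {K : Type u} [Group K] {p : ℕ}

instance : Mul (Hw K p) :=
  ⟨fun x y => ⟨fun i => x.k i * y.k (i - x.q), x.a + y.a, x.b + y.b + x.q * y.a, x.q + y.q⟩⟩
instance : One (Hw K p) := ⟨⟨1, 0, 0, 0⟩⟩
instance : Inv (Hw K p) := ⟨fun x => ⟨fun i => (x.k (i + x.q))⁻¹, -x.a, -x.b + x.q * x.a, -x.q⟩⟩

@[simp] theorem mul_k (x y : Hw K p) (i : ZMod p) : (x * y).k i = x.k i * y.k (i - x.q) := rfl
@[simp] theorem mul_a (x y : Hw K p) : (x * y).a = x.a + y.a := rfl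
@[simp] theorem mul_b (x y : Hw K p) : (x * y).b = x.b + y.b + x.q * y.a := rfl
@[simp] theorem mul_q (x y : Hw K p) : (x * y).q = x.q + y.q := rfl
@[simp] theorem one_k (i : ZMod p) : (1 : Hw K p).k i = 1 := rfl
@[simp] theorem one_a : (1 : Hw K p).a = 0 := rfl
@[simp] theorem one_b : (1 : Hw K p).b = 0 := rfl
@[simp] theorem one_q : (1 : Hw K p).q = 0 := rfl
@[simp] theorem inv_k (x : Hw K p) (i : ZMod p) : x⁻¹.k i = (x.k (i + x.q))⁻¹ := rfl
@[simp] theorem inv_a (x : Hw K p) : x⁻¹.a = -x.a := rfl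
@[simp] theorem inv_b (x : Hw K p) : x⁻¹.b = -x.b + x.q * x.a := rfl
@[simp] theorem inv_q (x : Hw K p) : x⁻¹.q = -x.q := rfl

instance : Group (Hw K p) := Group.ofLeftAxioms
  (fun x y z => by ext <;> simp [mul_assoc, sub_sub, add_assoc]; ring)
  (fun x => by ext <;> simp) (fun x => by ext <;> simp)

/-- The underlying product. -/
def equivProd : Hw K p ≃ (ZMod p → K) × ZMod p × ZMod p × ZMod p where
  toFun x := (x.k, x.a, x.b, x.q)
  invFun x := ⟨x.1, x.2.1, x.2.2.1, x.2.2.2⟩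
  left_inv _ := rfl
  right_inv _ := rfl

instance [Finite K] [NeZero p] : Finite (Hw K p) := Finite.of_equiv _ equivProd.symm

theorem card_eq [NeZero p] : Nat.card (Hw K p) = Nat.card K ^ p * p ^ 3 := by
  rw [Nat.card_congr equivProd]; simp [Nat.card_fun, pow_succ, mul_assoc]

/-- The base subgroup. -/
def base (K : Type u) [Group K] (p : ℕ) : Subgroup (Hw K p) where
  carrier := {x | x.q = 0}
  one_mem' := rfl
  mul_mem' := fun {x y} (hx : x.q = 0) (hy : y.q = 0) => by simp [hx, hy]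
  inv_mem' := fun {x} (hx : x.q = 0) => by simp [hx]

theorem mem_base {x : Hw K p} : x ∈ base K p ↔ x.q = 0 := Iff.rfl

instance : (base K p).Normal := ⟨fun n hn g => by simpa [mem_base] using hn⟩

theorem card_base [NeZero p] : Nat.card (base K p) = Nat.card K ^ p * p ^ 2 := by
  rw [Nat.card_congr (⟨fun x => (x.1.k, x.1.a, x.1.b), fun x => ⟨⟨x.1, x.2.1, x.2.2, 0⟩, rfl⟩,
    fun x => Subtype.ext (Hw.ext rfl rfl rfl x.2.symm), fun _ => rfl⟩ :
      base K p ≃ (ZMod p → K) × ZMod p × ZMod p)]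
  simp [Nat.card_fun, pow_succ]

/-- The new centre. -/
def cen (Z : Subgroup K) (p : ℕ) : Subgroup (Hw K p) where
  carrier := {x | x.q = 0 ∧ x.a = 0 ∧ ∀ i, x.k i ∈ Z}
  one_mem' := ⟨rfl, rfl, fun _ => one_mem _⟩
  mul_mem' := by
    rintro x y ⟨h1, h2, h3⟩ ⟨h4, h5, h6⟩
    exact ⟨by simp [h1, h4], by simp [h2, h5], fun i => mul_mem (h3 _) (h6 _)⟩
  inv_mem' := by
    rintro x ⟨h1, h2, h3⟩
    exact ⟨by simp [h1], by simp [h2], fun i => inv_mem (h3 _)⟩

theorem mem_cen {Z : Subgroup K} {x : Hw K p} :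
    x ∈ cen Z p ↔ x.q = 0 ∧ x.a = 0 ∧ ∀ i, x.k i ∈ Z := Iff.rfl

instance (Z : Subgroup K) [hZ : Z.Normal] : (cen Z p).Normal := ⟨by
  rintro x ⟨h1, h2, h3⟩ g
  refine ⟨by simp [h1], by simp [h2], fun i => ?_⟩
  simpa [h1] using hZ.conj_mem _ (h3 _) _⟩

theorem card_cen [NeZero p] (Z : Subgroup K) : Nat.card (cen Z p) = Nat.card Z ^ p * p := by
  rw [Nat.card_congr (⟨fun x => (fun i => ⟨x.1.k i, x.2.2.2 i⟩, x.1.b),
    fun x => ⟨⟨fun i => x.1 i, 0, x.2, 0⟩, rfl, rfl, fun i => (x.1 i).2⟩,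
    fun x => Subtype.ext (Hw.ext rfl x.2.2.1.symm rfl x.2.1.symm), fun _ => rfl⟩ :
      cen Z p ≃ (ZMod p → Z) × ZMod p)]
  simp [Nat.card_fun]

theorem index_cen [Finite K] [NeZero p] (Z : Subgroup K) :
    (cen Z p).index = Z.index ^ p * p ^ 2 := by
  have h1 := (cen Z p).card_mul_index
  rw [card_cen, card_eq, ← Z.card_mul_index] at h1
  refine Nat.eq_of_mul_eq_mul_left
    (Nat.mul_pos (pow_pos (Nat.card_pos (α := Z)) p) (NeZero.pos p)) (h1.trans ?_)
  ring

theorem mk_eq_iff {Z : Subgroup K} [Z.Normal] {x y : Hw K p} :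
    (x : Hw K p ⧸ cen Z p) = y ↔ x.q = y.q ∧ x.a = y.a ∧ ∀ i, (x.k i : K ⧸ Z) = y.k i := by
  simp only [QuotientGroup.eq, mem_cen, mul_q, inv_q, mul_a, inv_a, neg_add_eq_zero, mul_k, inv_k,
    sub_neg_eq_add]
  exact and_congr_right fun _ => and_congr_right fun _ =>
    ⟨fun h i => by simpa using h (i - x.q), fun h i => h _⟩

theorem exists_char [Finite K] [hp : Fact p.Prime] {X : K → ℂ} (hX : IsCharacter K X) :
    ∃ Y : Hw K p → ℂ, IsCharacter _ Y ∧ ∀ x, Y x =
      if x.q = 0 ∧ x.a = 0 then p * (ZMod.stdAddChar x.b * ∏ i, X (x.k i)) else 0 := by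
  classical
  haveI := Fintype.ofFinite (Hw K p)
  let ev : ZMod p → (base K p →* K) := fun i =>
    MonoidHom.mk' (fun x => x.1.k i) fun x y => by simp [mem_base.1 x.2]
  let lam : base K p →* ℂ := MonoidHom.mk ⟨fun x => ZMod.stdAddChar x.1.b, by simp⟩ fun x y => by
    simp [mem_base.1 x.2, AddChar.map_add_eq_mul]
  have h1 := H11.isCharacter_mul (H11.isCharacter_monoidHom lam.toHomUnits)
    (H11.isCharacter_prod Finset.univ _ fun i _ => H11.isCharacter_comp hX (ev i))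
  refine ⟨_, H14.IsCharacter.indFun _ h1, fun x => ?_⟩
  by_cases hq : x.q = 0
  swap
  · rw [H14.indFun_normal_of_not_mem _ _ hq, if_neg fun h => hq h.1]
  rw [show x = ((⟨x, hq⟩ : base K p) : Hw K p) from rfl, H14.indFun_normal_apply]
  have h2 : ∀ g : Hw K p, ∏ i, X ((g * x * g⁻¹).k i) = ∏ i, X (x.k i) := fun g =>
    Fintype.prod_equiv (Equiv.subRight g.q) _ _ fun i => by
      simpa [hq] using H12.isClassFunction_of_isCharacter hX (x.k (i - g.q)) (g.k i)
  have h3 : ∀ g : Hw K p, (g * x * g⁻¹).b = x.b + g.q * x.a := fun g => by simp [hq]; ring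
  simp only [Pi.mul_apply, Finset.prod_apply, MonoidHom.coe_toHomUnits, lam, ev,
    MonoidHom.mk'_apply, MonoidHom.coe_mk, OneHom.coe_mk, h2, h3, AddChar.map_add_eq_mul, hq,
    true_and, ← Finset.sum_mul, ← Finset.mul_sum]
  split_ifs with ha
  · have h4 : (Nat.card K : ℂ) ≠ 0 := H11.card_ne_zero K
    have h5 : (p : ℂ) ≠ 0 := by exact_mod_cast hp.out.ne_zero
    simp only [ha, mul_zero, AddChar.map_zero_eq_one, Finset.sum_const, Finset.card_univ,
      ← Nat.card_eq_fintype_card, card_eq, card_base, nsmul_eq_mul]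
    push_cast
    field_simp
  · have h4 : ∑ g : Hw K p, ZMod.stdAddChar (g.q * x.a) =
        ZMod.stdAddChar x.a * ∑ g : Hw K p, ZMod.stdAddChar (g.q * x.a) := by
      rw [Finset.mul_sum]
      exact (Fintype.sum_equiv (Equiv.mulLeft (⟨1, 0, 0, 1⟩ : Hw K p)) _ _ fun g => by
        simp [add_mul, AddChar.map_add_eq_mul]).symm
    have h5 : ZMod.stdAddChar x.a ≠ 1 := fun h =>
      ha (ZMod.injective_stdAddChar (h.trans (AddChar.map_zero_eq_one _).symm))
    rw [show ∑ g : Hw K p, ZMod.stdAddChar (g.q * x.a) = 0 by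
      by_contra h; exact h5 (mul_right_cancel₀ h (h4.symm.trans (one_mul _).symm))]
    simp

end Hw

/-- The data carried through the induction. -/
def CT (G : Type u) [Group G] (n : ℕ) : Prop :=
  ∃ (H : Type u) (_ : Group H) (_ : Finite H) (Z : Subgroup H) (_ : Z.Normal) (X : H → ℂ),
    IsCharacter H X ∧ (∀ x, x ∉ Z → X x = 0) ∧ (∀ z ∈ Z, X z ^ n = X 1 ^ n) ∧
    X 1 ^ 2 = Z.index ∧ (∃ f : G →* H ⧸ Z, Function.Injective f) ∧
    (∀ r : ℕ, r.Prime → r ∣ Nat.card H → r ∣ Nat.card G) ∧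
    ∀ r : ℕ, r.Prime → r ∣ Nat.card G → ∃ z ∈ Z, X z ≠ X 1 ∧ X z ^ r = X 1 ^ r

theorem CT.step {G : Type u} [Group G] [Finite G] {n p : ℕ} [hp : Fact p.Prime] (hn : p ∣ n)
    (π : G →* Multiplicative (ZMod p)) (hπ : Function.Surjective π) (h : CT π.ker n) :
    CT G n := by
  classical
  obtain ⟨K, _, _, Z, _, X, h1, h2, h3, h4, ⟨f, hf⟩, h5, h6⟩ := h
  obtain ⟨Y, hY, e⟩ := Hw.exists_char (p := p) h1
  have hc : Nat.card G = Nat.card π.ker * p := by
    rw [← π.ker.card_mul_index, index_ker, MonoidHom.range_eq_top.2 hπ]; simp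
  have hY1 : Y 1 = p * X 1 ^ p := by simp [e]
  have hX1 : X 1 ≠ 0 := fun h0 => by
    rw [h0] at h4
    exact Z.index_ne_zero_of_finite (by exact_mod_cast h4.symm.trans (zero_pow two_ne_zero))
  have hp0 : (p : ℂ) ≠ 0 := by exact_mod_cast hp.out.ne_zero
  have hω : ∀ b : ZMod p, ZMod.stdAddChar b ^ p = 1 := fun b => by
    rw [← AddChar.map_nsmul_eq_pow]; simp
  refine ⟨Hw K p, inferInstance, inferInstance, Hw.cen Z p, inferInstance, Y, hY, fun x hx => ?_,
    fun z hz => ?_, ?_, ?_, fun r hr hd => ?_, fun r hr hd => ?_⟩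
  · rw [e]
    split_ifs with h0
    · obtain ⟨i, hi⟩ := not_forall.1 fun h => hx ⟨h0.1, h0.2, h⟩
      rw [Finset.prod_eq_zero (Finset.mem_univ i) (h2 _ hi), mul_zero, mul_zero]
    · rfl
  · obtain ⟨m, rfl⟩ := hn
    rw [hY1, e, if_pos ⟨hz.1, hz.2.1⟩, mul_pow, mul_pow, mul_pow, pow_mul (ZMod.stdAddChar _), hω,
      ← Finset.prod_pow, Finset.prod_congr rfl fun i _ => h3 _ (hz.2.2 i)]
    simp [← pow_mul, mul_comm]
  · rw [hY1, Hw.index_cen]
    push_cast
    rw [← h4]; ring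
  · choose s hs using hπ
    let c : G → ZMod p → π.ker := fun g i =>
      ⟨(s (.ofAdd i))⁻¹ * g * s (.ofAdd (i - (π g).toAdd)), by
        simp [MonoidHom.mem_ker, hs, ofAdd_sub]⟩
    let F : G → Hw K p := fun g => ⟨fun i => (f (c g i)).out, 0, 0, (π g).toAdd⟩
    refine ⟨MonoidHom.mk' (fun g => (F g : Hw K p ⧸ Hw.cen Z p)) fun g g' => ?_,
      (injective_iff_map_eq_one _).2 fun g hg => ?_⟩
    · rw [← QuotientGroup.mk_mul, Hw.mk_eq_iff]
      refine ⟨by simp [F], by simp [F], fun i => ?_⟩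
      simp only [F, Hw.mul_k, QuotientGroup.mk_mul, QuotientGroup.out_eq', ← map_mul]
      exact congrArg f (Subtype.ext (by simp [c, div_div, mul_assoc]))
    · obtain ⟨a1, -, a2⟩ := Hw.mk_eq_iff.1 (hg.trans (QuotientGroup.mk_one _).symm)
      have a3 := a2 0
      simp only [F, QuotientGroup.out_eq', Hw.one_k, QuotientGroup.mk_one, map_eq_one_iff f hf,
        Hw.one_q] at a1 a3
      simpa [c, a1, mul_assoc, inv_mul_eq_one] using congrArg Subtype.val a3
  · rw [Hw.card_eq, hr.dvd_mul] at hd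
    rw [hc]
    exact hd.elim (fun h => (h5 r hr (hr.dvd_of_dvd_pow h)).mul_right _)
      fun h => (hr.dvd_of_dvd_pow h).mul_left _
  · rw [hc, hr.dvd_mul] at hd
    rcases hd with hd | hd
    · obtain ⟨z, hz, a1, a2⟩ := h6 r hr hd
      have a3 : Y ⟨Pi.mulSingle 0 z, 0, 0, 0⟩ * X 1 = Y 1 * X z := by
        rw [e, e, if_pos ⟨rfl, rfl⟩, if_pos ⟨rfl, rfl⟩,
          ← Finset.mul_prod_erase _ _ (Finset.mem_univ 0),
          ← Finset.mul_prod_erase _ _ (Finset.mem_univ 0),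
          Finset.prod_congr (g := fun _ => X 1) rfl fun i hi => by
            simp [Finset.ne_of_mem_erase hi]]
        simp only [Pi.mulSingle_eq_same, Hw.one_k, Hw.one_b]
        ring
      have a4 : Y 1 ≠ 0 := by rw [hY1]; exact mul_ne_zero hp0 (pow_ne_zero _ hX1)
      refine ⟨⟨Pi.mulSingle 0 z, 0, 0, 0⟩, ⟨rfl, rfl, fun i => ?_⟩, fun h0 => a1 ?_, ?_⟩
      · by_cases hi : i = 0
        · simpa [hi] using hz
        · simp [hi]
      · rw [h0] at a3
        exact (mul_left_cancel₀ a4 a3).symm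
      · refine mul_right_cancel₀ (pow_ne_zero r hX1) ?_
        rw [← mul_pow, a3, mul_pow, a2]
    · obtain rfl := (Nat.prime_dvd_prime_iff_eq hr hp.out).1 hd
      have a3 : Y ⟨1, 0, 1, 0⟩ = ZMod.stdAddChar (1 : ZMod r) * Y 1 := by
        rw [hY1, e]; simp; ring
      have a4 : Y 1 ≠ 0 := by rw [hY1]; exact mul_ne_zero hp0 (pow_ne_zero _ hX1)
      refine ⟨⟨1, 0, 1, 0⟩, ⟨rfl, rfl, fun i => one_mem _⟩, fun h0 => ?_, ?_⟩
      · rw [a3, mul_eq_right₀ a4] at h0
        exact one_ne_zero (ZMod.injective_stdAddChar (h0.trans (AddChar.map_zero_eq_one _).symm))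
      · rw [a3, mul_pow, hω, one_mul]

theorem ct_of_isSolvable (n : ℕ) (G : Type u) [Group G] [Finite G] : Group.IsSolvable G →
    (∀ r : ℕ, r.Prime → r ∣ Nat.card G → r ∣ n) → CT G n := by
  refine H1.card_induction (P := fun G _ _ => Group.IsSolvable G →
    (∀ r : ℕ, r.Prime → r ∣ Nat.card G → r ∣ n) → CT G n) (fun G _ _ ih hG hn => ?_) G
  rcases subsingleton_or_nontrivial G with h | h
  · refine ⟨G, inferInstance, inferInstance, ⊤, inferInstance, fun _ => 1, H11.isCharacter_one,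
      by simp, by simp, by simp, ⟨1, fun _ _ _ => Subsingleton.elim _ _⟩, fun _ _ h => h,
      fun r hr hd => absurd hd (by simpa using hr.one_lt.ne')⟩
  haveI : Group.IsSolvable (G ⧸ (⊥ : Subgroup G)) := inferInstance
  obtain ⟨M, _, -, -, hM⟩ := H24.exists_normal_index_prime_of_isSolvable (⊥ : Subgroup G) bot_ne_top
  haveI := Fact.mk hM
  let e : G ⧸ M ≃* Multiplicative (ZMod M.index) := mulEquivOfPrimeCardEq (p := M.index) rfl (by simp)
  let π := e.toMonoidHom.comp (QuotientGroup.mk' M)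
  have hπ : Function.Surjective π := e.surjective.comp (QuotientGroup.mk'_surjective M)
  refine CT.step (hn _ hM M.index_dvd_card) π hπ (ih _ ?_ inferInstance fun r hr hd =>
    hn r hr (hd.trans π.ker.card_subgroup_dvd_card))
  rw [← π.ker.card_mul_index, index_ker, MonoidHom.range_eq_top.2 hπ]
  exact lt_mul_of_one_lt_right Nat.card_pos (by simpa using hM.one_lt)

end Cfsg.Agent.H23
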