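import Mathlib
import Cfsg.Agent.H50.E83Defs2

/-! A unipotent element of order three commuting with a torus element of `E₈`. -/

set_option autoImplicit false

namespace Cfsg.Agent.H23.E83U

open Equiv Cfsg.Lie H37 H40 H34 H29 Module Cfsg.Agent.H50.E83

section

variable {F W : Type*} [Field F] [AddCommGroup W] [Module F W] [FiniteDimensional F W]

theorem finrank_le_add (N : End F W) (A B : Submodule F W) (h : ∀ v ∈ A, N v ∈ B) :
    finrank F A ≤ finrank F B + finrank F (A ⊓ LinearMap.ker N : Submodule F W) := by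
  have h1 := LinearMap.finrank_range_add_finrank_ker (N ∘ₗ A.subtype)
  have h2 : finrank F (LinearMap.range (N ∘ₗ A.subtype)) ≤ finrank F B :=
    Submodule.finrank_mono (by rintro _ ⟨w, rfl⟩; exact h _ w.2)
  have h3 : finrank F (LinearMap.ker (N ∘ₗ A.subtype)) ≤
      finrank F (A ⊓ LinearMap.ker N : Submodule F W) := by
    rw [← Submodule.finrank_map_subtype_eq]
    exact Submodule.finrank_mono (by rintro _ ⟨w, hw, rfl⟩; exact ⟨w.2, hw⟩)
  omega

theorem finrank_le_three (N : End F W) (hN : ∀ v, N (N (N v)) = 0) (A : Submodule F W)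
    (h : ∀ v ∈ A, N v ∈ A) :
    finrank F A ≤ 3 * finrank F (A ⊓ LinearMap.ker N : Submodule F W) := by
  have h1 := finrank_le_add N A (A ⊓ LinearMap.ker (N * N)) fun v hv => ⟨h v hv, hN v⟩
  have h2 := finrank_le_add N (A ⊓ LinearMap.ker (N * N)) (A ⊓ LinearMap.ker N)
    fun v hv => ⟨h v hv.1, hv.2⟩
  have h3 : finrank F (A ⊓ LinearMap.ker (N * N) ⊓ LinearMap.ker N : Submodule F W) ≤
      finrank F (A ⊓ LinearMap.ker N : Submodule F W) :=
    Submodule.finrank_mono (inf_le_inf_right _ inf_le_left)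
  omega

theorem sum_finrank_le (f : End F W) {ι : Type} (s : Finset ι)
    (μ : ι → F) (hμ : Set.InjOn μ s) (A : ι → Submodule F W) (Y : Submodule F W)
    (hA : ∀ i, A i ≤ f.eigenspace (μ i)) (hY : ∀ i, A i ≤ Y) :
    ∑ i ∈ s, finrank F (A i) ≤ finrank F Y := by
  classical
  have hind : iSupIndep fun i : s => A i :=
    ((Module.End.eigenspaces_iSupIndep f).comp (f := fun i : s => μ i)
      fun i j h => Subtype.ext (hμ i.2 j.2 h)).mono fun i => hA i
  have h1 := LinearMap.finrank_range_of_inj hind.dfinsupp_lsum_injective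
  have h2 : finrank F (Π₀ i : s, A i) = ∑ i : s, finrank F (A i) :=
    Module.finrank_directSum F fun i : s => A i
  rw [← Finset.sum_coe_sort s, ← h2, ← h1]
  refine Submodule.finrank_mono ?_
  rw [← Submodule.iSup_eq_range_dfinsupp_lsum]
  exact iSup_le fun i => hY i

end

theorem uni : UniStmt := by
  intro ζ s h b f hζ _ hc hb T hT
  have e : LinearMap.ker (act b - 1) = eig b 1 := by
    ext v
    rw [mem_eig, LinearMap.mem_ker, LinearMap.sub_apply, sub_eq_zero, one_smul, End.one_apply]
  have h3 : ∀ v, (act b - 1) ((act b - 1) ((act b - 1) v)) = 0 := fun v => by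
    have h1 : act b (act b (act b v)) = v := by
      rw [← End.mul_apply, ← End.mul_apply, ← map_mul, ← map_mul, ← pow_three', hb, map_one,
        End.one_apply]
    have h2 : (3 : K) = 0 := by exact_mod_cast CharP.cast_eq_zero K 3
    simp only [LinearMap.sub_apply, End.one_apply, map_sub, h1]
    calc _ = (3 : K) • (act b v - act b (act b v)) := by module
      _ = 0 := by rw [h2, zero_smul]
  refine le_trans (Finset.sum_le_sum fun k _ => ?_) (sum_finrank_le (act h) T
    (fun k => ((ζ ^ k : Kˣ) : K)) (fun k hk l hl e => hT k hk l hl ?_)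
    (fun k => eig h ((ζ ^ k : Kˣ) : K) ⊓ eig b 1) (eig b 1) (fun _ => inf_le_left)
    fun _ => inf_le_right)
  · have := finrank_le_three (act b - 1) h3 (eig h ((ζ ^ k : Kˣ) : K)) fun v hv => by
      refine sub_mem ?_ hv
      rw [mem_eig] at hv ⊢
      rw [← End.mul_apply, ← map_mul, hc.eq, map_mul, End.mul_apply, hv, map_smul]
    rw [e] at this
    unfold mu
    omega
  · have e' : ζ ^ k = ζ ^ l := Units.ext e
    rw [ZMod.intCast_eq_intCast_iff_dvd_sub, ← hζ.zpow_eq_one_iff_dvd, zpow_sub, e', mul_inv_cancel]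

end Cfsg.Agent.H23.E83U
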