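import Mathlib
import Cfsg.Agent.H11.ElDefs

/-!
# A self-centralising involution in the centraliser of a line
-/

set_option autoImplicit false

namespace Cfsg.Agent.H23.ElN43

open Subgroup Cfsg.Agent.H11.EL

universe u

theorem comm_of_mem {G : Type u} [Group G] {L : Subgroup G} {c x : G} (hc : c ∈ Ct L)
    (hx : x ∈ L) : Commute c x := (mem_centralizer_iff.1 hc x hx).symm

theorem n43 (b : Base.{u}) (h41 : N41Stmt.{u}) (h42 : N42Stmt.{u}) (h4x : N4xStmt.{u}) :
    N43Stmt.{u} := by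
  intro G _ _ D A B P hev
  obtain ⟨A', hA', B', hB', hne, hL, k, hk, s, hs, hkk, hso, hu⟩ := h42 D A B P hev
  have hLP := P.ne.lp A P.hA B P.hB P.AB
  have hLP' := P.ne.lp A' hA' B' hB' hne
  have hss : s * s = 1 := by rw [← pow_two, ← hso, pow_orderOf_eq_one]
  have hu1 : k * s ≠ 1 := fun h => by
    have h1 : s ∈ Ct (A ⊔ B) := by
      rw [eq_inv_of_mul_eq_one_right h]; exact inv_mem hk
    rw [(b.la _ hLP.iso).ctr s hs h1, orderOf_one] at hso
    exact absurd hso (by decide)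
  have hu2 : orderOf (k * s) = 2 := orderOf_eq_prime (by
    rw [(comm_of_mem hk hs).mul_pow, pow_two, pow_two, hkk, hss, mul_one]) hu1
  obtain ⟨t, ht, hto, htk⟩ : ∃ t ∈ Ct (A ⊔ B), orderOf t = 2 ∧ ∀ c, Commute c t → Commute c k := by
    by_cases h1 : k = 1
    · obtain ⟨t, ht⟩ := exists_prime_orderOf_dvd_card' (G := Ct (A ⊔ B)) 2 hev.two_dvd
      exact ⟨t, t.2, by rw [orderOf_coe, ht], fun c _ => by rw [h1]; exact Commute.one_right c⟩
    · exact ⟨k, hk, orderOf_eq_prime (by rw [pow_two, hkk]) h1, fun c hc => hc⟩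
  have hcu : ∀ c ∈ Ct (A ⊔ B), Commute c t → Commute c (k * s) := fun c hc h =>
    (htk c h).mul_right (comm_of_mem hc hs)
  obtain ⟨x, hx, w, hw, hxo, hwo, hsx, hsw, hwx⟩ := (b.lb _ hLP.iso).d12 s hs hso
  have hxu : Commute x (k * s) := (comm_of_mem hk hx).symm.mul_right hsx.symm
  have hwu : Commute w (k * s) := (comm_of_mem hk hw).symm.mul_right hsw.symm
  have hxK := h4x D A B A' B' t (k * s) x w P ⟨P.ne, hA', hB', hne⟩ hL ht hto hu hu2 hcu hx hw hxo
    hwo hwx hxu hwu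
  have hN : ∀ g, Commute g (k * s) → g ∈ Nm (A' ⊔ B') := fun g hg =>
    P.ne.ti A' hA' B' hB' hne _ hu hu1 g (by rw [hg.eq, mul_inv_cancel_right]; exact hu)
  refine ⟨t, ht, hto, fun c hc hct => ?_⟩
  have h1 := b.lx (A' ⊔ B') x w c hLP'.iso (hN x hxu) (hN w hwu) (hN c (hcu c hc hct))
    (by rw [← hxo, pow_orderOf_eq_one]) hxK (by rw [← pow_two, ← hwo, pow_orderOf_eq_one]) hwx
    (comm_of_mem hc hx) (comm_of_mem hc hw)
  have h2 : c * c = 1 := by
    by_contra h2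
    exact hL (P.ne.ti' A P.hA B P.hB P.AB A' hA' B' hB' hne _ (mul_mem hc hc) h2 h1).symm
  by_cases h3 : c = 1
  · rw [h3]; exact one_mem _
  · have hle : Ct (A ⊔ B) ≤ Ct A := centralizer_le (SetLike.coe_subset_coe.2 le_sup_left)
    rw [h41 D A B P hev c (hle hc) t (hle ht) (orderOf_eq_prime (by rw [pow_two, h2]) h3) hto hct]
    exact mem_zpowers t

end Cfsg.Agent.H23.ElN43
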