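import Mathlib
import Cfsg.Agent.H23.FullRam
import Cfsg.Agent.H23.Count
import Cfsg.Agent.H12.Blichfeldt
import Cfsg.Agent.S4565

/-! Fully ramified characters: reduction to groups of central type, Sylow and inertia subgroups. -/

set_option autoImplicit false

universe u

namespace Cfsg.Agent.H23.Gag

open Cfsg Subgroup
open scoped commutatorElement

/-- Some irreducible character is fully ramified over `Z`. -/
def FR (H : Type*) [Group H] (Z : Subgroup H) : Prop :=
  ∃ (χ : IrrCharacter H) (θ : IrrCharacter Z) (e : ℕ), e ^ 2 = Z.index ∧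
    ∀ z : Z, χ.1 z = e * θ.1 z

/-- A faithful character of central type. -/
structure CF (Γ : Type*) [Group Γ] (β : IrrCharacter Γ) : Prop where
  ker : H11.charKer β.1 = ⊥
  deg : charDegree β.1 ^ 2 = (center Γ).index

theorem FR.central {H : Type u} [Group H] [Finite H] {Z : Subgroup H} [Z.Normal] (h : FR H Z) :
    ∃ (Γ : Type u) (_ : Group Γ) (_ : Finite Γ) (π : Γ →* H ⧸ Z) (β : IrrCharacter Γ),
      Function.Surjective π ∧ π.ker = center Γ ∧ CF Γ β := by
  obtain ⟨χ, θ, e, he, h⟩ := h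
  haveI := Fintype.ofFinite Z
  obtain ⟨Γ, _, _, π, s, θ', hπ, hc, hs, hconj, hθ', hext, -⟩ :=
    H12.exists_central_extension Z θ.2 (invBy_top_iff.1 (fullram_setup he h).1)
  have he0 : (e : ℂ) ≠ 0 := by
    rintro h0
    rw [Nat.cast_eq_zero.1 h0] at he
    exact index_ne_zero_of_finite (H := Z) (by simpa using he.symm)
  obtain ⟨β, hβ, hk, hm⟩ := H12.exists_factor_of_section hs hconj θ.2 hθ' hext
    (H11.isIrrCharacter_comp_of_surjective χ.2 π hπ) (by
      have : (fun n => χ.1 (π (s n))) = (e : ℂ) • θ.1 := funext fun n => by rw [hs, h]; rfl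
      rw [this, H11.classInner_smul_left, H11.classInner_irr_self θ.2, mul_one]; exact he0)
  have h1 : β 1 = e := by
    have h2 := congrFun hm 1
    have h3 := hext 1
    rw [map_one] at h3
    rw [Pi.mul_apply, map_one, h3] at h2
    exact mul_right_cancel₀ (H11.irr_apply_one_ne_zero θ.2) (h2.trans (h 1))
  have hW := H12.comap_le_charCenter hs hc hβ hk
  have hi : (Z.comap π).index = e ^ 2 := by rw [index_comap_of_surjective _ hπ, he]
  have hW' : Z.comap π = H11.charCenter β := by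
    have h2 := H11.degree_sq_le_index_of_le_charCenter hβ le_rfl h1
    have h3 := relIndex_mul_index hW
    rw [← hi, ← h3] at h2
    have h4 := Nat.pos_of_ne_zero (index_ne_zero_of_finite (H := H11.charCenter β))
    have h5 := relIndex_pos' (Z.comap π) (H11.charCenter β)
    exact le_antisymm hW (relIndex_eq_one.1 (by nlinarith))
  haveI := H11.charKer_normal (H11.isClassFunction_of_irr hβ)
  obtain ⟨β', hβ', hl⟩ := H11.exists_irr_lift hβ _ le_rfl
  have hsurj := QuotientGroup.mk'_surjective (H11.charKer β)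
  have k1 : H11.charKer β' = ⊥ := by
    apply comap_injective hsurj
    rw [← H11.charKer_comp (H11.isCharacter_of_irr hβ'), MonoidHom.comap_bot, QuotientGroup.ker_mk']
    exact congrArg _ (funext hl)
  have k2 : (center (Γ ⧸ H11.charKer β)).comap (QuotientGroup.mk' _) = Z.comap π := by
    ext g
    rw [hW', ← H11.charCenter_eq_center hβ' k1, mem_comap,
      H11.mem_charCenter_iff (H11.isCharacter_of_irr hβ'),
      H11.mem_charCenter_iff (H11.isCharacter_of_irr hβ), QuotientGroup.mk'_apply, hl,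
      ← QuotientGroup.mk_one, hl]
  refine ⟨Γ ⧸ H11.charKer β, inferInstance, inferInstance,
    QuotientGroup.lift _ ((QuotientGroup.mk' Z).comp π) fun g hg =>
      (QuotientGroup.eq_one_iff _).2 (hW'.ge (H11.charKer_le_charCenter β hg)), ⟨β', hβ'⟩,
    fun x => ?_, ?_, k1, ?_⟩
  · obtain ⟨x, rfl⟩ := QuotientGroup.mk_surjective x
    obtain ⟨x, rfl⟩ := hπ x
    exact ⟨x, rfl⟩
  · apply comap_injective hsurj
    rw [k2]
    ext g
    exact QuotientGroup.eq_one_iff (π g)
  · rw [← index_comap_of_surjective _ hsurj, k2, hi,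
      H24.deg_eq (n := e) ((hl 1).trans h1)]

variable {Γ : Type*} [Group Γ] [Finite Γ]

theorem FR.of_mult {N G : Subgroup Γ} (h : N ≤ G) (hn : G ≤ normalizer (N : Set Γ))
    {θ : IrrCharacter N} (hθ : InvBy N G θ.1) {χ : IrrCharacter G}
    (he : mult h χ θ ^ 2 = N.relIndex G) : FR G (N.subgroupOf G) :=
  ⟨χ, ⟨fun n => θ.1 (subgroupOfEquivOfLe h n), H11.isIrrCharacter_comp_mulEquiv θ.2 _⟩,
    mult h χ θ, he, fun z => res_eq_mult_smul h hn (fun h0 => relIndex_ne_zero' N G (by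
      rw [← he, h0]; rfl)) hθ (subgroupOfEquivOfLe h z)⟩

variable {β : IrrCharacter Γ}

theorem CF.cyc (h : CF Γ β) : IsCyclic (center Γ) := H11.isCyclic_center_of_faithful β.2 h.ker

theorem CF.exists_lin (h : CF Γ β) : ∃ θ : IrrCharacter (center Γ), InvBy _ ⊤ θ.1 ∧
    mult le_top (topIrr β) θ ^ 2 = (center Γ).index ∧ charDegree θ.1 = 1 ∧
    ∀ (B : Subgroup Γ) (hB : center Γ ≤ B) (ξ : IrrCharacter B), mult hB ξ θ ≠ 0 →
      ∀ z : B, (z : Γ) ∈ center Γ → ξ.1 z = ξ.1 1 → z = 1 := by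
  obtain ⟨lam, -, hl⟩ := H11.exists_monoidHom_of_le_center β.2 _ le_rfl
  obtain ⟨h1, h2⟩ := fullram_setup (χ := β) (θ := ⟨_, H11.isIrrCharacter_monoidHom lam⟩) h.deg
    fun z => by rw [hl, H24.irr_deg β.2, mul_comm]
  refine ⟨_, h1, h2.symm ▸ h.deg, H24.deg_monoidHom lam, fun B hB ξ h0 z hz e => ?_⟩
  have h3 := res_eq_mult_smul hB le_normalizer' h0 (h1.mono le_top)
  have h4 := (h3 ⟨z, hz⟩).symm.trans (e.trans (h3 1))
  have h5 := mul_left_cancel₀ (Nat.cast_ne_zero.2 h0) h4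
  refine Subtype.ext (mem_bot.1 (h.ker.le ((H11.mem_charKer_irr_iff β.2).2 ?_)))
  refine (hl ⟨z, hz⟩).trans ?_
  rw [show ((lam ⟨z, hz⟩ : ℂˣ) : ℂ) = lam 1 from h5, map_one, Units.val_one, one_mul]

theorem CF.sylow (h : CF Γ β) {p : ℕ} [hp : Fact p.Prime] (P : Sylow p Γ) :
    FR ↥((P : Subgroup Γ) ⊔ center Γ) ((center Γ).subgroupOf _) ∧
      (P : Subgroup Γ) ⊓ centralizer (P : Set Γ) ≤ center Γ := by
  obtain ⟨θ, h1, h2, h3, -⟩ := h.exists_lin
  have hZ : center Γ ≤ (P : Subgroup Γ) ⊔ center Γ := le_sup_right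
  obtain ⟨η, hη⟩ := exists_over hZ θ
  have dec : ∀ x ∈ (P : Subgroup Γ) ⊔ center Γ, ∃ a ∈ (P : Subgroup Γ), ∃ z ∈ center Γ, a * z = x :=
    fun x hx => mem_sup_of_normal_right.1 hx
  obtain ⟨a, ha⟩ := exists_relIndex_eq_pow hp.out hZ le_normalizer' fun x hx => by
    obtain ⟨a, ha, z, hz, rfl⟩ := dec x hx
    obtain ⟨k, hk⟩ := P.2 ⟨a, ha⟩
    refine ⟨k, ?_⟩
    rw [Commute.mul_pow (mem_center_iff.1 hz a), show a ^ p ^ k = 1 from congrArg Subtype.val hk,
      one_mul]
    exact pow_mem hz _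
  have h4 := fullram_sylow hZ le_top le_normalizer' h1 (χ := topIrr β)
    (by rw [h2, relIndex_top_right]) hp.out ha (by
      rw [relIndex_top_right]
      exact fun hd => P.not_dvd_index (hd.trans (index_dvd_of_le le_sup_left))) hη
  refine ⟨FR.of_mult hZ le_normalizer' (h1.mono le_top) h4, fun x hx => ?_⟩
  have h5 := H24.deg_sq_le_index_center η.2
  rw [deg_eq_mult_mul hZ le_normalizer' hη (h1.mono le_top), h3, mul_one, h4] at h5
  have h6 : (center Γ).subgroupOf ((P : Subgroup Γ) ⊔ center Γ) ≤ center _ := fun z hz =>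
    mem_center_iff.2 fun g => Subtype.ext (mem_center_iff.1 hz g)
  have h7 := relIndex_mul_index h6
  have h8 := Nat.pos_of_ne_zero
    (index_ne_zero_of_finite (H := center ↥((P : Subgroup Γ) ⊔ center Γ)))
  have h9 := relIndex_pos' ((center Γ).subgroupOf ((P : Subgroup Γ) ⊔ center Γ)) (center _)
  refine relIndex_eq_one.1 (show ((center Γ).subgroupOf _).relIndex (center _) = 1 by
    rw [relIndex] at h5; nlinarith) (x := ⟨x, mem_sup_left hx.1⟩) (mem_center_iff.2 fun g => ?_)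
  obtain ⟨a, ha, z, hz, e⟩ := dec g g.2
  refine Subtype.ext ?_
  rw [coe_mul, coe_mul, ← e]
  exact (Commute.mul_left (hx.2 a ha) (mem_center_iff.1 hz x).symm).eq

theorem CF.inertia (h : CF Γ β) (K : Subgroup Γ) [K.Normal] (hZ : center Γ ≤ K) :
    ∃ T : Subgroup Γ, K ≤ T ∧ centralizer (K : Set Γ) ≤ T ∧ FR T (K.subgroupOf T) ∧
      T.index ∣ (center Γ).relIndex K ∧
      (K ≤ centralizer (K : Set Γ) → T.index = (center Γ).relIndex K ∧
        ∀ x ∈ T, (∀ k ∈ K, ⁅x, k⁆ ∈ center Γ) → x ∈ centralizer (K : Set Γ)) ∧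
      (⁅K, K⁆ ≤ center Γ → K ⊓ centralizer (K : Set Γ) ≤ center Γ → T = ⊤) := by
  obtain ⟨θ, h1, h2, h3, h4⟩ := h.exists_lin
  obtain ⟨ψ, hψ⟩ := exists_over hZ θ
  have hu : ∀ χ, mult le_top χ ψ ≠ 0 → χ = topIrr β := fun χ h0 =>
    unique_of_mult_sq_eq le_top le_normalizer' h1 (by rw [h2, relIndex_top_right])
      (mult_trans_ne_zero hZ le_top h0 hψ)
  have hKT : K ≤ invStab K ψ.1 := le_invStab (H11.isClassFunction_of_irr ψ.2)
  obtain ⟨η, hη⟩ := exists_over hKT ψ
  obtain ⟨χ, hχ⟩ := exists_over (le_top : invStab K ψ.1 ≤ ⊤) η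
  have h0 := mult_trans_ne_zero hKT le_top hχ hη
  obtain rfl := hu χ h0
  have hinv : InvBy K (invStab K ψ.1) ψ.1 := (le_invStab_iff le_normalizer').1 le_rfl
  have hd : (invStab K ψ.1).index * charDegree ψ.1 ^ 2 = (center Γ).relIndex K := by
    have e1 := mult_sq_mul_relIndex le_top le_normalizer' hu
    have e2 := deg_eq_clifford le_top le_normalizer' h0
    have e3 := relIndex_mul_index hZ
    rw [relIndex_top_right] at e1 e2
    rw [relIndex_top_right] at e1
    rw [← h.deg, ← deg_topIrr, e2, ← e1] at e3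
    apply Nat.eq_of_mul_eq_mul_right (show 0 < mult le_top (topIrr β) ψ ^ 2 * (invStab K ψ.1).index
      from e1 ▸ Nat.pos_of_ne_zero index_ne_zero_of_finite)
    rw [e3]; ring
  refine ⟨invStab K ψ.1, hKT, fun x hx => ⟨le_normalizer' (mem_top x), invEl_of_centralizes _
    fun g hg => by rw [← hx g hg, mul_inv_cancel_right]⟩,
    FR.of_mult hKT le_normalizer' hinv (mult_sq_eq_of_unique hKT le_normalizer' hinv (χ := η)
      fun η' h' => ?_), Dvd.intro _ hd, fun hc => ?_, fun hc hc' => ?_⟩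
  · obtain ⟨χ', hχ'⟩ := exists_over (le_top : invStab K ψ.1 ≤ ⊤) η'
    obtain rfl := hu χ' (mult_trans_ne_zero hKT le_top hχ' h')
    exact clifford_unique_under hKT le_top le_normalizer' inf_le_left hη hχ h' hχ'
  · have e1 : ψ.1 1 = 1 := H11.irr_apply_one_of_comm (fun a b => Subtype.ext (hc b.2 a a.2)) ψ.2
    obtain ⟨lam, hl⟩ := H11.exists_monoidHom_of_apply_one_eq_one (H11.irr_isCharacter ψ) e1
    refine ⟨by rw [← hd, H24.deg_eq (n := 1) (by simpa using e1)]; simp, fun x hx hk k hk' => ?_⟩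
    have e2 := hx.2 ⟨k, hk'⟩ (⟨_, hZ (hk k hk')⟩ * ⟨k, hk'⟩) (by simp [commutatorElement_def])
    have e3 := h4 K hZ ψ hψ ⟨_, hZ (hk k hk')⟩ (hk k hk') (by
      rw [hl] at e2 ⊢
      simp only [map_mul, Units.val_mul, map_one] at e2 ⊢
      exact mul_right_cancel₀ (Units.ne_zero _) (e2.trans (one_mul _).symm))
    exact (commutatorElement_eq_one_iff_mul_comm.1 (congrArg Subtype.val e3)).symm
  · have e1 : H11.charCenter ψ.1 = (center Γ).subgroupOf K := by
      refine le_antisymm (fun z hz => hc' ⟨z.2, fun g hg => ?_⟩) fun z hz =>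
        H11.center_le_charCenter ψ.2 (mem_center_iff.2 fun g => Subtype.ext (mem_center_iff.1 hz g))
      have e2 := (H11.mem_charCenter_irr_iff ψ.2).1 hz ⟨g, hg⟩
      have e3 := h4 K hZ ψ hψ _ (hc (commutator_mem_commutator z.2 hg))
        (H11.apply_eq_of_mem_charKer e2)
      exact (commutatorElement_eq_one_iff_mul_comm.1 (congrArg Subtype.val e3)).symm
    have e2 := H12.degree_sq_eq_index_charCenter_of_commutator_le ψ.2 (by
      rw [e1, _root_.commutator_def, commutator_le]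
      exact fun a _ b _ => hc (commutator_mem_commutator a.2 b.2)) (H24.irr_deg ψ.2)
    rw [e2, e1] at hd
    exact index_eq_one.1 (Nat.eq_of_mul_eq_mul_right (relIndex_pos' (center Γ) K)
      (hd.trans (one_mul _).symm))

end Cfsg.Agent.H23.Gag
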