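import Mathlib
import Cfsg.Agent.H23.Codegree
import Cfsg.Prelude.Def_Transfer

/-!
# Characters vanishing on all but two conjugacy classes (Gagola)
-/

namespace Cfsg.Agent.H23

open Cfsg
open scoped ComplexConjugate

variable {G : Type*} [Group G]

/-- The basic structure attached to a character nonzero on exactly two classes. -/
structure Gag (χ : G → ℂ) (N : Subgroup G) : Prop where
  irr : IsIrrCharacter G χ
  normal : N.Normal
  ne_bot : N ≠ ⊥
  ne_zero_iff : ∀ g, χ g ≠ 0 ↔ g ∈ N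
  isConj : ∀ x ∈ N, ∀ y ∈ N, x ≠ 1 → y ≠ 1 → IsConj x y
  le_ker : ∀ ψ, IsIrrCharacter G ψ → ψ ≠ χ → N ≤ H11.charKer ψ
  ker : H11.charKer χ = ⊥

theorem exists_of_two_classes {χ : G → ℂ} (h1 : χ 1 ≠ 0) (hc : IsClassFunction G χ)
    (h2 : Nat.card {C : ConjClasses G // ∃ g ∈ C.carrier, χ g ≠ 0} = 2) :
    ∃ x : G, x ≠ 1 ∧ ∀ g, χ g ≠ 0 ↔ g = 1 ∨ IsConj x g := by
  obtain ⟨⟨C, x, hx, hx0⟩, hne, huniq⟩ := (Nat.card_eq_two_iff'
    (⟨ConjClasses.mk 1, 1, ConjClasses.mem_carrier_mk, h1⟩ :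
      {C : ConjClasses G // ∃ g ∈ C.carrier, χ g ≠ 0})).1 h2
  obtain rfl : ConjClasses.mk x = C := ConjClasses.mem_carrier_iff_mk_eq.1 hx
  refine ⟨x, fun h => hne (Subtype.ext (by simp [h])), fun g => ⟨fun hg => ?_, ?_⟩⟩
  · by_cases hg1 : g = 1
    · exact Or.inl hg1
    · right
      have := huniq ⟨ConjClasses.mk g, g, ConjClasses.mem_carrier_mk, hg⟩ (fun h => hg1 (by
        have h' := ConjClasses.mk_eq_mk_iff_isConj.1 (congrArg Subtype.val h)
        simpa using h'))
      exact (ConjClasses.mk_eq_mk_iff_isConj.1 (congrArg Subtype.val this)).symm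
  · rintro (rfl | h)
    · exact h1
    · rwa [← H11.classFun_of_isConj hc h]

variable [Finite G]

theorem exists_gag (hG : 2 < Nat.card G) {χ : G → ℂ} (hχ : IsIrrCharacter G χ)
    (h2 : Nat.card {C : ConjClasses G // ∃ g ∈ C.carrier, χ g ≠ 0} = 2) :
    ∃ N : Subgroup G, Gag χ N := by
  classical
  haveI := Fintype.ofFinite G
  haveI := Fintype.ofFinite (IrrCharacter G)
  have hc := H11.isClassFunction_of_irr hχ
  have h10 := H11.irr_apply_one_ne_zero hχ
  obtain ⟨x, hx1, hx⟩ := exists_of_two_classes h10 hc h2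
  have hx0 : χ x ≠ 0 := (hx x).2 (Or.inr (IsConj.refl x))
  set C : Finset G := Finset.univ.filter (IsConj x) with hC
  have hC1 : (1 : G) ∉ C := fun h => hx1 (by simpa [hC] using h)
  have hCpos : 0 < C.card := Finset.card_pos.2 ⟨x, Finset.mem_filter.2 ⟨Finset.mem_univ _, IsConj.refl x⟩⟩
  have hsum : ∀ f : G → ℂ, IsClassFunction G f → ∑ g, χ g * f g = χ 1 * f 1 + C.card * (χ x * f x) := by
    intro f hf
    rw [← Finset.sum_subset (Finset.subset_univ (insert 1 C)) (fun g _ hg => by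
      have : χ g = 0 := by
        by_contra h0
        apply hg
        rcases (hx g).1 h0 with h | h
        · simp [h]
        · simp only [hC, Finset.mem_insert, Finset.mem_filter, Finset.mem_univ, true_and]
          exact Or.inr h
      simp [this]), Finset.sum_insert hC1, Finset.sum_congr rfl (g := fun _ => χ x * f x)
        (fun g hg => by
          have h := (Finset.mem_filter.1 hg).2
          rw [H11.classFun_of_isConj hc h, H11.classFun_of_isConj hf h]),
      Finset.sum_const, nsmul_eq_mul]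
  have hne1 : χ ≠ fun _ => 1 := by
    intro h
    have h3 : Finset.univ = insert 1 C := by
      ext g
      have := (hx g).1 (by simp [h])
      simpa [hC] using this
    have h4 : Nat.card G = C.card + 1 := by
      rw [Nat.card_eq_fintype_card, ← Finset.card_univ, h3, Finset.card_insert_of_notMem hC1]
    have h5 : C.card = (Subgroup.centralizer ({x} : Set G)).index := by
      rw [← H13.card_isConj_eq_index, Nat.card_eq_fintype_card, Fintype.card_subtype]
    have h6 : C.card ∣ C.card + 1 := by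
      rw [← h4, h5]; exact Subgroup.index_dvd_card _
    have h7 := Nat.dvd_one.1 ((Nat.dvd_add_right dvd_rfl).1 h6)
    omega
  have h3 : χ 1 + C.card * χ x = 0 := by
    have := hsum (fun _ => 1) (H11.isClassFunction_const 1)
    simp only [mul_one] at this
    rw [← this, H11.sum_irr_eq_zero hχ hne1]
  have h4 : ∀ ψ, IsIrrCharacter G ψ → ψ ≠ χ → x ∈ H11.charKer ψ := fun ψ hψ hne => by
    have h5 := H11.card_mul_classInner χ ψ
    rw [H11.classInner_irr_of_ne hχ hψ hne.symm, mul_zero,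
      hsum _ (H11.isClassFunction_conj (H11.isClassFunction_of_irr hψ))] at h5
    rw [H11.mem_charKer_irr_iff hψ]
    have h6 : χ 1 * (conj (ψ 1) - conj (ψ x)) = 0 := by
      linear_combination (conj (ψ x)) * (-h3) - h5
    have h7 := sub_eq_zero.1 ((mul_eq_zero.1 h6).resolve_left h10)
    exact ((starRingEnd ℂ).injective h7).symm
  let N : Subgroup G := ⨅ ψ : {ψ : IrrCharacter G // ψ.1 ≠ χ}, H11.charKer ψ.1.1
  have hN : ∀ g, g ∈ N ↔ ∀ ψ, IsIrrCharacter G ψ → ψ ≠ χ → g ∈ H11.charKer ψ := fun g => by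
    simp only [N, Subgroup.mem_iInf]
    exact ⟨fun h ψ hψ hne => h ⟨⟨ψ, hψ⟩, hne⟩, fun h ψ => h _ ψ.1.2 ψ.2⟩
  have hNn : N.Normal := ⟨fun n hn g => (hN _).2 fun ψ hψ hne =>
    (H11.charKer_normal (H11.isClassFunction_of_irr hψ)).conj_mem _ ((hN n).1 hn ψ hψ hne) g⟩
  have hxN : x ∈ N := (hN x).2 h4
  have h5 : ∀ g, χ g ≠ 0 ↔ g ∈ N := fun g => by
    constructor
    · intro h
      rcases (hx g).1 h with rfl | h
      · exact N.one_mem
      · obtain ⟨c, rfl⟩ := isConj_iff.1 h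
        exact hNn.conj_mem _ hxN c
    · intro hg h0
      have : IsConj g 1 := isConj_of_forall_irr_zero_or_eq fun ψ hψ => by
        by_cases h : ψ = χ
        · exact Or.inl (h ▸ h0)
        · exact Or.inr (H11.apply_eq_of_mem_charKer ((hN g).1 hg ψ hψ h)).symm
      rw [isConj_one_left] at this
      exact h10 (this ▸ h0)
  refine ⟨N, hχ, hNn, fun h => hx1 (by simpa [h] using hxN), h5, fun a ha b hb ha1 hb1 => ?_,
    fun ψ hψ hne g hg => (hN g).1 hg ψ hψ hne, ?_⟩
  · exact (((hx a).1 ((h5 a).2 ha)).resolve_left ha1).symm.trans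
      (((hx b).1 ((h5 b).2 hb)).resolve_left hb1)
  · rw [Subgroup.eq_bot_iff_forall]
    intro g hg
    have h6 := H11.apply_eq_of_mem_charKer hg
    refine ((hx g).1 (h6 ▸ h10)).resolve_right fun h => ?_
    rw [H11.classFun_of_isConj hc h, h6] at h3
    have h7 : (1 + (C.card : ℂ)) * χ 1 = 0 := by linear_combination h3
    have h8 : (1 + (C.card : ℂ)) = 0 := (mul_eq_zero.1 h7).resolve_right h10
    exact Nat.cast_add_one_ne_zero C.card ((add_comm _ _).trans h8)

theorem gag_of (hG : 2 < Nat.card G) {χ : G → ℂ} (hχ : IsIrrCharacter G χ)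
    (h2 : Nat.card {C : ConjClasses G // ∃ g ∈ C.carrier, χ g ≠ 0} = 2) {N : Subgroup G}
    (hN : ∀ g, g ∈ N ↔ χ g ≠ 0) : Gag χ N := by
  obtain ⟨M, hM⟩ := exists_gag hG hχ h2
  obtain rfl : N = M := Subgroup.ext fun g => (hN g).trans (hM.ne_zero_iff g)
  exact hM

namespace Gag

variable {χ : G → ℂ} {N : Subgroup G}

omit [Finite G] in
theorem exists_ne_one (h : Gag χ N) : ∃ x ∈ N, x ≠ 1 := by
  by_contra hcon
  push Not at hcon
  exact h.ne_bot ((Subgroup.eq_bot_iff_forall _).2 hcon)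

omit [Finite G] in
theorem not_le_ker (h : Gag χ N) : ¬ N ≤ H11.charKer χ := fun hle =>
  h.ne_bot (le_bot_iff.1 (h.ker ▸ hle))

omit [Finite G] in
theorem eq_of_not_le_ker (h : Gag χ N) {ψ : G → ℂ} (hψ : IsIrrCharacter G ψ)
    (hk : ¬ N ≤ H11.charKer ψ) : ψ = χ := by
  by_contra hne
  exact hk (h.le_ker ψ hψ hne)

theorem le_of_normal (h : Gag χ N) (K : Subgroup G) [K.Normal] (hK : K ≠ ⊥) : N ≤ K := by
  intro g hg
  by_contra hgK
  obtain ⟨ψ, hψ, h1, h2⟩ := H11.exists_irr_le_charKer_not_mem K hgK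
  refine h2 (h.le_ker ψ hψ (fun he => hK ?_) hg)
  rw [he, h.ker] at h1
  exact le_bot_iff.1 h1

omit [Finite G] in
theorem apply_eq_zero (h : Gag χ N) {g : G} (hg : g ∉ N) : χ g = 0 := by
  by_contra h0
  exact hg ((h.ne_zero_iff g).1 h0)

/-- The Camina property. -/
theorem isConj_mul (h : Gag χ N) {g : G} (hg : g ∉ N) {n : G} (hn : n ∈ N) : IsConj g (n * g) :=
  isConj_mul_of_vanish (fun _ hψ hk => h.eq_of_not_le_ker hψ hk ▸ h.apply_eq_zero hg) hn

theorem exists_prime (h : Gag χ N) : ∃ p : ℕ, p.Prime ∧ ∀ x ∈ N, x ^ p = 1 := by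
  obtain ⟨x, hx, hx1⟩ := h.exists_ne_one
  obtain ⟨p, hp, hd⟩ := Nat.exists_prime_and_dvd (orderOf_eq_one_iff.not.2 hx1)
  have h1 : orderOf (x ^ (orderOf x / p)) = p := orderOf_pow_orderOf_div (orderOf_pos x).ne' hd
  refine ⟨p, hp, fun y hy => ?_⟩
  by_cases hy1 : y = 1
  · simp [hy1]
  obtain ⟨c, rfl⟩ := isConj_iff.1 (h.isConj _ (N.pow_mem hx (orderOf x / p)) y hy
    (fun h0 => by rw [h0, orderOf_one] at h1; exact hp.one_lt.ne h1) hy1)
  rw [conj_pow, orderOf_dvd_iff_pow_eq_one.1 h1.dvd]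
  simp

theorem pow_eq_one (h : Gag χ N) {p : ℕ} [hp : Fact p.Prime] (hN : IsPGroup p N) {x : G}
    (hx : x ∈ N) : x ^ p = 1 := by
  obtain ⟨q, hq, h1⟩ := h.exists_prime
  obtain ⟨y, hy, hy1⟩ := h.exists_ne_one
  obtain ⟨k, hk⟩ := hN ⟨y, hy⟩
  have h2 : orderOf y = q := by
    haveI := Fact.mk hq
    exact orderOf_eq_prime (h1 y hy) hy1
  have h3 : q ∣ p ^ k := h2 ▸ orderOf_dvd_of_pow_eq_one (by simpa using congrArg Subtype.val hk)
  obtain rfl := (Nat.prime_dvd_prime_iff_eq hq hp.out).1 (hq.dvd_of_dvd_pow h3)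
  exact h1 x hx

theorem comm (h : Gag χ N) : ∀ a ∈ N, ∀ b ∈ N, a * b = b * a := by
  obtain ⟨p, hp, h1⟩ := h.exists_prime
  haveI := Fact.mk hp
  haveI := h.normal
  have hN : IsPGroup p N := fun x => ⟨1, Subtype.ext (by simpa using h1 x x.2)⟩
  haveI : Nontrivial N := (Subgroup.nontrivial_iff_ne_bot N).2 h.ne_bot
  have h2 := hN.center_nontrivial
  have h3 := h.le_of_normal ((Subgroup.center N).map N.subtype) (by
    rw [Ne, Subgroup.map_eq_bot_iff_of_injective _ N.subtype_injective]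
    exact (Subgroup.nontrivial_iff_ne_bot _).1 h2)
  intro a ha b hb
  obtain ⟨z, hz, rfl⟩ := h3 hb
  exact congrArg Subtype.val (Subgroup.mem_center_iff.1 hz ⟨a, ha⟩)

theorem index_centralizer (h : Gag χ N) {x : G} (hx : x ∈ N) (hx1 : x ≠ 1) :
    (Subgroup.centralizer ({x} : Set G)).index + 1 = Nat.card N := by
  classical
  rw [← H13.card_isConj_eq_index]
  have h1 : {y : G | IsConj x y} = (N : Set G) \ {1} := by
    ext y
    constructor
    · intro hy
      obtain ⟨c, rfl⟩ := isConj_iff.1 hy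
      exact ⟨h.normal.conj_mem _ hx c, by simpa using hx1⟩
    · rintro ⟨hy, hy1⟩
      exact h.isConj x hx y hy hx1 hy1
  have h2 : Nat.card {y // IsConj x y} = ((N : Set G) \ {1}).ncard := by
    rw [← h1]; rfl
  rw [h2, Set.ncard_sdiff_singleton_add_one N.one_mem]
  rfl

/-- An element of prime order `q ≠ p` has `(n y)^q = 1` for all `n ∈ N`. -/
theorem mul_pow_eq_one (h : Gag χ N) {p q : ℕ} [hp : Fact p.Prime] (hN : IsPGroup p N)
    (hq : q.Prime) (hne : q ≠ p) {y : G} (hy : orderOf y = q) {n : G} (hn : n ∈ N) :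
    (n * y) ^ q = 1 := by
  have hyN : y ∉ N := fun hyN => hne ((Nat.prime_dvd_prime_iff_eq hq hp.out).1
    (hy ▸ orderOf_dvd_of_pow_eq_one (h.pow_eq_one hN hyN)))
  obtain ⟨c, hc⟩ := isConj_iff.1 (h.isConj_mul hyN hn)
  rw [← hc, conj_pow, ← hy, pow_orderOf_eq_one]
  simp

end Gag

theorem isPGroup_of_forall_prime {p : ℕ} [hp : Fact p.Prime] (T : Subgroup G)
    (h : ∀ q : ℕ, q.Prime → q ≠ p → ∀ y ∈ T, orderOf y ≠ q) : IsPGroup p T := by
  rw [IsPGroup.iff_card]
  refine ⟨_, Nat.eq_prime_pow_of_unique_prime_dvd Nat.card_pos.ne' fun {q} hq hd => ?_⟩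
  by_contra hne
  haveI := Fact.mk hq
  obtain ⟨y, hy⟩ := exists_prime_orderOf_dvd_card' q hd
  exact h q hq hne y y.2 (by simpa using hy)

namespace Gag

variable {χ : G → ℂ} {N : Subgroup G}

theorem not_dvd_of_add_one (h : Gag χ N) {p : ℕ} [hp : Fact p.Prime] (hN : IsPGroup p N) {m : ℕ}
    (hm : m + 1 = Nat.card N) : ¬ p ∣ m := fun hd => by
  haveI : Nontrivial N := (Subgroup.nontrivial_iff_ne_bot N).2 h.ne_bot
  obtain ⟨k, hk0, hk⟩ := hN.nontrivial_iff_card.1 inferInstance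
  have h1 : p ∣ m + 1 := by rw [hm, hk]; exact dvd_pow_self p hk0.ne'
  exact hp.out.one_lt.ne' (Nat.dvd_one.1 ((Nat.dvd_add_right hd).1 h1))

theorem isPGroup_centralizer (h : Gag χ N) {p : ℕ} [hp : Fact p.Prime] (hN : IsPGroup p N)
    {x : G} (hx : x ∈ N) (hx1 : x ≠ 1) : IsPGroup p (Subgroup.centralizer ({x} : Set G)) :=
  isPGroup_of_forall_prime _ fun q hq hne y hy hyq => by
    have hc : Commute x y := Subgroup.mem_centralizer_singleton_iff.1 hy |>.symm
    have h1 := h.mul_pow_eq_one hN hq hne hyq hx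
    rw [hc.mul_pow, ← hyq, pow_orderOf_eq_one, mul_one, hyq] at h1
    have h2 : orderOf x = p := orderOf_eq_prime (h.pow_eq_one hN hx) hx1
    exact hne ((Nat.prime_dvd_prime_iff_eq hp.out hq).1
      (h2 ▸ orderOf_dvd_of_pow_eq_one h1)).symm

theorem exists_sylow_centralizer (h : Gag χ N) {p : ℕ} [hp : Fact p.Prime] (hN : IsPGroup p N)
    {x : G} (hx : x ∈ N) (hx1 : x ≠ 1) :
    ∃ P : Sylow p G, Subgroup.centralizer ({x} : Set G) = P :=
  ⟨(h.isPGroup_centralizer hN hx hx1).toSylow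
    (h.not_dvd_of_add_one hN (h.index_centralizer hx hx1)), rfl⟩

/-- The inertia group of a nontrivial character of `N` has the order of a point centralizer. -/
theorem card_inertia (h : Gag χ N) [N.Normal] {μ : N → ℂ} (hμ : IsIrrCharacter N μ)
    (hμ1 : μ ≠ fun _ => 1) {x : G} (hx : x ∈ N) (hx1 : x ≠ 1) :
    Nat.card (H14.inertia N μ) = Nat.card (Subgroup.centralizer ({x} : Set G)) := by
  classical
  haveI := Fintype.ofFinite G
  haveI := Fintype.ofFinite N
  have hc := H11.isClassFunction_of_irr h.irr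
  have hμc := H11.isCharacter_of_irr hμ
  have hμ0 : μ 1 = 1 := H11.irr_apply_one_of_comm
    (fun a b => Subtype.ext (h.comm a a.2 b b.2)) hμ
  have hval : ∀ n : N, n ≠ 1 → χ n = χ x := fun n hn =>
    H11.classFun_of_isConj hc (h.isConj _ n.2 x hx (fun h0 => hn (Subtype.ext h0)) hx1)
  have hsum : ∀ f : N → ℂ, ∑ n : N, χ n * f n = χ 1 * f 1 + χ x * (∑ n, f n - f 1) := fun f => by
    rw [← Finset.add_sum_erase _ _ (Finset.mem_univ (1 : N)),
      ← Finset.add_sum_erase _ f (Finset.mem_univ (1 : N)), add_sub_cancel_left, Finset.mul_sum]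
    congr 1
    exact Finset.sum_congr rfl fun n hn => by rw [hval n (Finset.mem_erase.1 hn).1]
  have h1 := hsum fun _ => 1
  simp only [mul_one, Finset.sum_const, Finset.card_univ, nsmul_eq_mul,
    ← Nat.card_eq_fintype_card] at h1
  rw [H11.sum_restrict_eq_zero h.irr N h.not_le_ker] at h1
  have h2 := H11.card_mul_classInner (fun n : N => χ n) μ
  have h3 : ∑ n, conj (μ n) = 0 := by rw [← map_sum, H11.sum_irr_eq_zero hμ hμ1, map_zero]
  rw [hsum, h3, hμ0, map_one] at h2
  have hN0 := H11.card_ne_zero N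
  have h4 : classInner (fun n : N => χ n) μ = - χ x := by
    apply mul_left_cancel₀ hN0
    linear_combination h2 - h1
  have hx0 : χ x ≠ 0 := (h.ne_zero_iff x).2 hx
  have h5 := H14.clifford_degree N h.irr hμ (by rw [h4]; exact neg_ne_zero.2 hx0)
  rw [h4, hμ0, mul_one] at h5
  have h6 := h.index_centralizer hx hx1
  have h7 : ((H14.inertia N μ).index : ℂ) = (Subgroup.centralizer ({x} : Set G)).index := by
    apply mul_left_cancel₀ hx0
    have h8 : ((Subgroup.centralizer ({x} : Set G)).index : ℂ) + 1 = Nat.card N := by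
      exact_mod_cast h6
    linear_combination h5 + h1 - χ x * h8
  have h8 : (H14.inertia N μ).index = (Subgroup.centralizer ({x} : Set G)).index := by
    exact_mod_cast h7
  have h9 := (H14.inertia N μ).card_mul_index
  rw [h8, ← (Subgroup.centralizer ({x} : Set G)).card_mul_index] at h9
  exact Nat.eq_of_mul_eq_mul_right (Nat.pos_of_ne_zero Subgroup.index_ne_zero_of_finite) h9

theorem card_centralizer (h : Gag χ N) [N.Normal] {x : G} (hx : x ∉ N) :
    Nat.card (Subgroup.centralizer ({x} : Set G)) =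
      Nat.card (Subgroup.centralizer ({(x : G ⧸ N)} : Set (G ⧸ N))) := by
  classical
  haveI := Fintype.ofFinite (IrrCharacter G)
  haveI := Fintype.ofFinite (IrrCharacter (G ⧸ N))
  have h1 := H11.sum_norm_sq_apply x
  have h2 := H11.sum_norm_sq_apply (x : G ⧸ N)
  have h3 := H11.sum_irr_le_charKer N (fun ψ : G → ℂ => ‖ψ x‖ ^ 2)
  rw [← Finset.sum_filter_add_sum_filter_not _ (fun ψ => N ≤ H11.charKer ψ.1), h3, h2,
    Finset.sum_eq_zero (fun ψ hψ => by
      rw [h.eq_of_not_le_ker ψ.2 (Finset.mem_filter.1 hψ).2, h.apply_eq_zero hx]; simp),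
    add_zero] at h1
  exact_mod_cast h1.symm

theorem card_centralizer_mul_dvd (h : Gag χ N) [N.Normal] {x : G} (hx : x ∉ N) :
    Nat.card (Subgroup.centralizer ({x} : Set G)) * Nat.card N ∣ Nat.card G := by
  rw [h.card_centralizer hx, ← N.index_mul_card]
  exact Nat.mul_dvd_mul_right (Subgroup.card_subgroup_dvd_card _) _

end Gag

end Cfsg.Agent.H23
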