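import Cfsg.Agent.H98.GbL

/-!
# The linear characters of `GL_n(F)` trivial on the kernel of the determinant
-/

set_option autoImplicit false

namespace Cfsg.Agent.H23.GbEta

open Cfsg Cfsg.Agent.H98.GB

universe u

variable {F : Type u} [Field F] [Fintype F] [DecidableEq F] (C : Ctx F)

theorem tau_inj : Function.Injective C.τ := by
  intro x y h
  let := C.alg
  have := C.ch
  have hm : ¬ C.p0 ∣ Fintype.card F - 1 := fun hd => by
    have h1 := (CharP.cast_eq_zero_iff F C.p0 _).2 hd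
    rw [Nat.cast_sub Fintype.card_pos, FiniteField.cast_card_eq_zero, Nat.cast_one, zero_sub,
      neg_eq_zero] at h1
    exact one_ne_zero h1
  have key : ∀ z : Fˣ, H19.red C.M0 (C.τ z : ℂ) = algebraMap F (H19.kk C.M0) z := fun z => by
    rw [C.hτ]
    refine (H22.Cusp.teich_spec C.hM0 hm ?_).2
    rw [← map_pow, FiniteField.pow_card_sub_one_eq_one _ z.ne_zero, map_one]
  refine Units.ext ((algebraMap F (H19.kk C.M0)).injective ?_)
  rw [← key, ← key, h]

theorem card_units' : Nat.card Fˣ = Fintype.card F - 1 := by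
  rw [Nat.card_units, Nat.card_eq_fintype_card]

theorem orderOf_tau : orderOf C.τ = Fintype.card F - 1 := by
  rw [← card_units', ← IsCyclic.exponent_eq_card]
  refine Nat.dvd_antisymm (orderOf_dvd_of_pow_eq_one (MonoidHom.ext fun x => ?_))
    (Monoid.exponent_dvd_of_forall_pow_eq_one fun x => tau_inj C ?_)
  · rw [MonoidHom.pow_apply, ← map_pow, Monoid.pow_exponent_eq_one, map_one, MonoidHom.one_apply]
  · rw [map_pow, ← MonoidHom.pow_apply, pow_orderOf_eq_one, map_one, MonoidHom.one_apply]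

theorem exists_pow (η : Fˣ →* ℂˣ) : ∃ r, r < Fintype.card F - 1 ∧ C.τ ^ r = η := by
  classical
  have h1 : Nat.card (Fˣ →* ℂˣ) = Nat.card Fˣ :=
    CommGroup.card_monoidHom_of_hasEnoughRootsOfUnity Fˣ ℂ
  have : Finite (Fˣ →* ℂˣ) := Nat.finite_of_card_ne_zero (h1 ▸ Nat.card_pos.ne')
  have h2 : Subgroup.zpowers C.τ = ⊤ :=
    Subgroup.eq_top_of_card_eq _ (by rw [Nat.card_zpowers, orderOf_tau, h1, card_units'])
  have h3 : η ∈ Subgroup.zpowers C.τ := h2 ▸ Subgroup.mem_top η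
  rw [mem_zpowers_iff_mem_range_orderOf, Finset.mem_image] at h3
  obtain ⟨r, hr, h⟩ := h3
  exact ⟨r, orderOf_tau C ▸ Finset.mem_range.1 hr, h⟩

theorem exists_eta (η : Fˣ →* ℂˣ) : ∃ c, C.qL * c = c ∧ C.eta c = η := by
  obtain ⟨r, hr, rfl⟩ := exists_pow C η
  obtain ⟨d, hd⟩ : Fintype.card F - 1 ∣ C.Q := Nat.sub_one_dvd_pow_sub_one _ _
  have hQ : 0 < C.Q := Nat.pos_of_ne_zero (NeZero.ne _)
  have hd0 : 0 < d := Nat.pos_of_mul_pos_left (hd ▸ hQ)
  refine ⟨((r * d : ℕ) : C.L), ?_, ?_⟩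
  · rw [Ctx.qL, ← Nat.cast_mul, ZMod.natCast_eq_natCast_iff]
    refine ((Nat.modEq_iff_dvd' (Nat.le_mul_of_pos_left _ Fintype.card_pos)).2 ⟨r, ?_⟩).symm
    rw [← Nat.sub_one_mul, hd]
    ring
  · rw [Ctx.eta, Ctx.ex, ZMod.val_cast_of_lt (by
      rw [hd]; exact Nat.mul_lt_mul_of_pos_right hr hd0), pow_one,
      show r * d * (Fintype.card F - 1) = r * C.Q by rw [hd]; ring, Nat.mul_div_cancel _ hQ]

omit C in
theorem dl_inj {n : ℕ} (hn : 0 < n) {η η' : Fˣ →* ℂˣ} (h : dl η n = dl η' n) : η = η' := by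
  have : Nonempty (Fin n) := ⟨⟨0, hn⟩⟩
  exact (MonoidHom.cancel_right Matrix.GeneralLinearGroup.det_surjective).1 h

theorem eta (hL : LABStmt.{u}) : ETAStmt.{u} := by
  intro F _ _ _ C
  have L := hL F C
  have h1 : ∀ c c', C.qL * c = c → C.qL * c' = c' → C.eta (c + c') = C.eta c * C.eta c' := by
    intro c c' hc hc'
    have := L.ex_add c c' 1 (by rwa [pow_one]) (by rwa [pow_one])
    rw [pow_one, ← orderOf_tau C] at this
    exact ((pow_eq_pow_iff_modEq (x := C.τ)).2 this).trans (pow_add C.τ _ _)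
  have h0 : C.eta 0 = 1 := by
    rw [Ctx.eta, Ctx.ex, ZMod.val_zero, zero_mul, Nat.zero_div]
    exact pow_zero C.τ
  have hs : ∀ c (j : ℕ), C.qL * c = c → C.qL * (j • c) = j • c := fun c j hc => by
    rw [mul_smul_comm, hc]
  have h2 : ∀ c (j : ℕ), C.qL * c = c → C.eta (j • c) = C.eta c ^ j := by
    intro c j hc
    induction j with
    | zero => rw [zero_smul, h0]; exact (pow_zero (C.eta c)).symm
    | succ j ih => rw [succ_nsmul, h1 _ _ (hs c j hc) hc, ih]; exact (pow_succ (C.eta c) j).symm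
  have hi : ∀ c c', C.qL * c = c → C.qL * c' = c' → C.eta c = C.eta c' → c = c' := by
    intro c c' hc hc' h
    refine L.ex_inj c c' 1 one_pos (by rwa [pow_one]) (by rwa [pow_one]) ?_
    rw [pow_one, ← orderOf_tau C]
    exact (pow_eq_pow_iff_modEq (x := C.τ)).1 h
  refine ⟨h1, h0, h2, fun c hc => ?_, fun c n hc hn => ?_, fun n hn a ha => ?_⟩
  · rw [nsmul_eq_mul, Nat.cast_sub Fintype.card_pos, Nat.cast_one, sub_mul, one_mul]
    exact sub_eq_zero.2 hc
  · have key : ∀ k : ℕ, dl (C.eta c) n ^ k = 1 ↔ k • c = 0 := fun k => by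
      have e : dl (C.eta c) n ^ k = dl (C.eta (k • c)) n := by rw [h2 c k hc]; rfl
      have e0 : (1 : GL (Fin n) F →* ℂˣ) = dl (C.eta 0) n := by rw [h0]; rfl
      rw [e, e0]
      exact ⟨fun h => hi _ _ (hs c k hc) (mul_zero _) (dl_inj hn h), fun h => by rw [h]⟩
    exact Nat.dvd_antisymm (orderOf_dvd_of_pow_eq_one ((key _).2 (addOrderOf_nsmul_eq_zero c)))
      (addOrderOf_dvd_of_nsmul_eq_zero ((key _).1 (pow_orderOf_eq_one _)))
  · have : Nonempty (Fin n) := ⟨⟨0, hn⟩⟩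
    obtain ⟨c, hc, h⟩ := exists_eta C (MonoidHom.liftOfSurjective _
      (Matrix.GeneralLinearGroup.det_surjective (n := Fin n) (R := F)) ⟨a, ha⟩)
    have e : a = dl (C.eta c) n := by
      rw [h, dl]
      exact (MonoidHom.liftOfRightInverse_comp _ _ _ ⟨a, ha⟩).symm
    exact ⟨c, ⟨hc, e⟩, fun c' hc' => hi _ _ hc'.1 hc (dl_inj hn (hc'.2.symm.trans e))⟩

end Cfsg.Agent.H23.GbEta
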