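import Cfsg.Agent.H98.GbH

/-!
# Power sums are controlled by the elementary symmetric functions
-/

set_option autoImplicit false

namespace Cfsg.Agent.H23.GbXG

open Cfsg Finset Cfsg.Agent.H98.GB
open scoped ComplexConjugate

universe u

theorem ee_zero {A : Type*} [CommRing A] [Algebra ℂ A] (P : ℕ → A) : ee P 0 = 1 := by
  rw [ee, nw]

theorem newton {A : Type*} [CommRing A] [Algebra ℂ A] (P : ℕ → A) (k : ℕ) :
    (-1 : ℂ) ^ (k + 1 + 1) • P (k + 1) = ((k + 1 : ℕ) : ℂ) • ee P (k + 1) -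
      ∑ i : Fin k, (-1 : ℂ) ^ ((i : ℕ) + 1 + 1) • (ee P (k - i) * P (i + 1)) := by
  have h : ee P (k + 1) = ((k + 1 : ℕ) : ℂ)⁻¹ •
      ∑ i : Fin (k + 1), ((-1 : ℂ) ^ ((i : ℕ) + 1 + 1) • P (i + 1)) * ee P (k - i) := by
    rw [ee, nw]
  rw [h, smul_inv_smul₀ (Nat.cast_ne_zero.2 k.succ_ne_zero), Fin.sum_univ_castSucc, Fin.val_last,
    Nat.sub_self, ee_zero, mul_one, eq_sub_iff_add_eq, add_comm]
  congr 1
  refine Finset.sum_congr rfl fun i _ => ?_
  rw [Fin.val_castSucc, smul_mul_assoc, mul_comm]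

variable {F : Type u} [Field F] [Fintype F] [DecidableEq F] {η : Fˣ →* ℂˣ} (H : Hall η)

theorem ip_add (n : ℕ) (x y z : H.A) : H.ip n (x + y) z = H.ip n x z + H.ip n y z := by
  simp only [Hall.ip, map_add, Pi.add_apply, H11.classInner_add_left]

theorem ip_smul (n : ℕ) (c : ℂ) (x z : H.A) : H.ip n (c • x) z = c * H.ip n x z := by
  simp only [Hall.ip, map_smul, Pi.smul_apply, H11.classInner_smul_left]

theorem ip_zero_left (n : ℕ) (z : H.A) : H.ip n 0 z = 0 := by
  rw [← zero_smul ℂ (0 : H.A), ip_smul, zero_mul]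

theorem ip_symm {n : ℕ} {x y : H.A} (h : H.ip n x y = 0) : H.ip n y x = 0 := by
  rw [Hall.ip, ← H11.conj_classInner]
  exact (map_eq_zero _).2 h

theorem ip_P (hF : H.Fock) {d K : ℕ} {P : ℕ → H.A}
    (hP : ∀ k, 0 < k → k ≤ K → H.Pr (d * k) (P k)) {k : ℕ} (hk : 0 < k) (hK : k ≤ K) (n : ℕ)
    (y z : H.A) (h : ∀ i w, 0 < i → i ≤ k → H.Hg (d * (k - i)) w → H.ip n (ee P i * w * y) z = 0) :
    H.ip n (P k * y) z = 0 := by
  obtain ⟨k, rfl⟩ : ∃ j, k = j + 1 := ⟨k - 1, by omega⟩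
  let S : Submodule ℂ H.A :=
    { carrier := {x | H.ip n (x * y) z = 0}
      add_mem' := fun {a b} ha hb => by
        change H.ip n ((a + b) * y) z = 0
        rw [add_mul, ip_add, ha, hb, add_zero]
      zero_mem' := by
        change H.ip n (0 * y) z = 0
        rw [zero_mul, ip_zero_left]
      smul_mem' := fun c a ha => by
        change H.ip n ((c • a) * y) z = 0
        rw [smul_mul_assoc, ip_smul, ha, mul_zero] }
  refine (S.smul_mem_iff (s := (-1 : ℂ) ^ (k + 1 + 1)) (by simp)).1 ?_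
  rw [newton]
  refine sub_mem (S.smul_mem _ ?_) (S.sum_mem fun i _ => S.smul_mem _ ?_)
  · have := h (k + 1) 1 hk le_rfl (by rw [Nat.sub_self, mul_zero]; exact hF.hg_one)
    rwa [mul_one] at this
  · have hi := i.2
    refine h (k - i) _ (by omega) (by omega) ?_
    rw [show k + 1 - (k - i) = i + 1 by omega]
    exact (hP _ (by omega) (by omega)).1

theorem xg (hF : FOCKStmt.{u}) (hE : ECOPStmt.{u}) : XGStmt.{u} := by
  intro F _ _ _ η H d K P hd hP
  have hf := hF F η H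
  have he := hE F η H d K P hd hP
  refine ⟨fun k0 v hv h k hk hK => ?_, fun d' K' P' hd' hP' h k k' hk hK hk' hK' => ?_⟩
  · rcases lt_or_ge k0 (d * k) with h1 | h1
    · exact hf.D_lt _ hv h1
    obtain ⟨r, rfl⟩ := Nat.exists_eq_add_of_le h1
    refine hf.ip_self (hf.D_hg _ hv) ?_
    rw [← hf.adj (hP k hk hK).1]
    refine ip_P H hf hP hk hK _ _ _ fun i w hi hik _ => ?_
    rw [show d * k + r = d * i + (d * (k - i) + r) by
      rw [← add_assoc, ← mul_add, Nat.add_sub_cancel' hik], mul_assoc,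
      hf.adj (he i (hik.trans hK)).1, h i hi (hik.trans hK)]
    exact ip_symm H (ip_zero_left H _ _)
  · have hp := hP' k' hk' hK'
    by_cases h1 : d * k = d' * k'
    swap
    · refine ip_symm H ?_
      rw [Hall.ip, hp.1 _ h1, H11.classInner_zero_left]
    rw [← mul_one (P k)]
    refine ip_P H hf hP hk hK _ _ _ fun i w hi hik hw => ?_
    rw [mul_one]
    rcases hik.lt_or_eq with h2 | rfl
    · rw [h1]
      refine (hf.pr_iff (Nat.mul_pos hd' hk') hp.1).1 hp _ _ _ _ (Nat.mul_pos hd hi)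
        (Nat.mul_pos hd (Nat.sub_pos_of_lt h2)) ?_ (he i (hik.trans hK)).1 hw
      rw [← mul_add, Nat.add_sub_cancel' hik, h1]
    · rw [Nat.sub_self, mul_zero] at hw
      rw [hf.hg_zero hw, mul_smul_comm, mul_one, ip_smul]
      refine mul_eq_zero_of_right _ (ip_symm H ?_)
      rw [← mul_one (P' k')]
      refine ip_P H hf hP' hk' hK' _ _ _ fun j w' hj hjk hw' => ?_
      have h3 : d' * j + d' * (k' - j) = d * i := by rw [← mul_add, Nat.add_sub_cancel' hjk, h1]
      rw [mul_one, (he i hK).2.2.1 _ _ _ _ h3 (hE F η H d' K' P' hd' hP' j (hjk.trans hK')).1 hw']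
      split_ifs with h4
      · obtain ⟨c, hc⟩ := h4
        have h5 : 0 < c := Nat.pos_of_mul_pos_left (hc ▸ Nat.mul_pos hd' hj : 0 < d * c)
        have h6 : c ≤ i := Nat.le_of_mul_le_mul_left (by omega) hd
        rw [hc, Nat.mul_div_cancel_left _ hd, ip_symm H (h c j h5 (h6.trans hK) hj (hjk.trans hK')),
          zero_mul]
      · rfl

end Cfsg.Agent.H23.GbXG
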