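import Mathlib

/-!
Unitary representations of finite groups: fixed spaces, averaging projections, stabilisers,
the trace lemma for Heisenberg pairs, spectral decomposition under abelian subgroups.
-/

set_option autoImplicit false
set_option linter.unusedSectionVars false

namespace Cfsg.Agent.H23.MD

open Module Finset
open scoped InnerProductSpace commutatorElement

variable {G V : Type*} [Group G] [Finite G] [NormedAddCommGroup V] [InnerProductSpace ℂ V]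
  [FiniteDimensional ℂ V]

/-- A unitary representation. -/
def Uni (ρ : Representation ℂ G V) : Prop := ∀ g x y, ⟪ρ g x, ρ g y⟫_ℂ = ⟪x, y⟫_ℂ

variable (ρ : Representation ℂ G V)

/-- The vectors fixed by a subgroup. -/
def fix (H : Subgroup G) : Submodule ℂ V where
  carrier := {v | ∀ y ∈ H, ρ y v = v}
  add_mem' ha hb y hy := by rw [map_add, ha y hy, hb y hy]
  zero_mem' y _ := map_zero _
  smul_mem' c v hv y hy := by rw [map_smul, hv y hy]

/-- The elements fixing a vector. -/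
def fxr (v : V) : Subgroup G where
  carrier := {g | ρ g v = v}
  mul_mem' {a b} ha hb := by
    show ρ (a * b) v = v
    rw [map_mul, Module.End.mul_apply, hb, ha]
  one_mem' := by show ρ 1 v = v; simp
  inv_mem' {a} ha := by
    show ρ a⁻¹ v = v
    conv_lhs => rw [← show ρ a v = v from ha]
    simp

/-- The stabiliser of a subspace. -/
def stab (D : Submodule ℂ V) : Subgroup G where
  carrier := {g | ∀ v ∈ D, ρ g v ∈ D}
  mul_mem' {a b} ha hb v hv := by rw [map_mul]; exact ha _ (hb v hv)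
  one_mem' v hv := by simpa using hv
  inv_mem' {a} ha v hv := by
    have h : ∀ k : ℕ, ρ (a ^ k) v ∈ D := fun k => by
      induction k with
      | zero => simpa using hv
      | succ k ih => rw [pow_succ', map_mul]; exact ha _ ih
    have e : a⁻¹ = a ^ (orderOf a - 1) := by
      rw [inv_eq_iff_mul_eq_one, ← pow_succ', Nat.sub_add_cancel (orderOf_pos a), pow_orderOf_eq_one]
    rw [e]; exact h _

/-- The pointwise stabiliser of a subspace. -/
def fxs (D : Submodule ℂ V) : Subgroup G := ⨅ v ∈ D, fxr ρ v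

/-- Averaging over a subgroup. -/
noncomputable def av (H : Subgroup G) : V →ₗ[ℂ] V :=
  letI := Fintype.ofFinite H
  (Nat.card H : ℂ)⁻¹ • ∑ y : H, ρ y

variable {ρ}

theorem mem_fix {H : Subgroup G} {v : V} : v ∈ fix ρ H ↔ ∀ y ∈ H, ρ y v = v := Iff.rfl
theorem mem_fxr {g : G} {v : V} : g ∈ fxr ρ v ↔ ρ g v = v := Iff.rfl
theorem mem_stab {g : G} {D : Submodule ℂ V} : g ∈ stab ρ D ↔ ∀ v ∈ D, ρ g v ∈ D := Iff.rfl
theorem mem_fxs {g : G} {D : Submodule ℂ V} : g ∈ fxs ρ D ↔ ∀ v ∈ D, ρ g v = v := by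
  simp only [fxs, Subgroup.mem_iInf]; rfl
theorem mem_fix_iff_le {H : Subgroup G} {v : V} : v ∈ fix ρ H ↔ H ≤ fxr ρ v := Iff.rfl
theorem fxs_le_stab (D : Submodule ℂ V) : fxs ρ D ≤ stab ρ D := fun _ h v hv => by
  rw [mem_fxs.1 h v hv]; exact hv
theorem fix_anti {H K : Subgroup G} (h : H ≤ K) : fix ρ K ≤ fix ρ H := fun _ hv y hy => hv y (h hy)

theorem mul_app (a b : G) (v : V) : ρ (a * b) v = ρ a (ρ b v) := by rw [map_mul]; rfl
theorem inv_app (a : G) (v : V) : ρ a⁻¹ (ρ a v) = v := by rw [← mul_app]; simp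
theorem app_inv (a : G) (v : V) : ρ a (ρ a⁻¹ v) = v := by rw [← mul_app]; simp
theorem app_ne_zero (a : G) {v : V} (hv : v ≠ 0) : ρ a v ≠ 0 := fun h => hv (by
  rw [← inv_app (ρ := ρ) a v, h, map_zero])

theorem card_ne (H : Subgroup G) : (Nat.card H : ℂ) ≠ 0 := Nat.cast_ne_zero.2 Nat.card_pos.ne'

theorem av_apply (H : Subgroup G) [Fintype H] (v : V) :
    av ρ H v = (Nat.card H : ℂ)⁻¹ • ∑ y : H, ρ y v := by
  unfold av
  rw [LinearMap.smul_apply, LinearMap.sum_apply]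
  congr!

theorem app_av {H : Subgroup G} {y : G} (hy : y ∈ H) (v : V) : ρ y (av ρ H v) = av ρ H v := by
  have := Fintype.ofFinite H
  rw [av_apply, map_smul, map_sum]
  congr 1
  exact Fintype.sum_equiv (Equiv.mulLeft ⟨y, hy⟩) _ _ fun z => by rw [← mul_app]; rfl

theorem av_app {H : Subgroup G} {y : G} (hy : y ∈ H) (v : V) : av ρ H (ρ y v) = av ρ H v := by
  have := Fintype.ofFinite H
  rw [av_apply, av_apply]
  congr 1
  exact Fintype.sum_equiv (Equiv.mulRight ⟨y, hy⟩) _ _ fun z => by rw [← mul_app]; rfl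

theorem av_mem (H : Subgroup G) (v : V) : av ρ H v ∈ fix ρ H := fun _ hy => app_av hy v

theorem av_of_fix {H : Subgroup G} {v : V} (hv : v ∈ fix ρ H) : av ρ H v = v := by
  have := Fintype.ofFinite H
  rw [av_apply, Finset.sum_congr rfl fun (y : H) _ => hv y y.2, sum_const, card_univ,
    ← Nat.card_eq_fintype_card, ← Nat.cast_smul_eq_nsmul ℂ, smul_smul, inv_mul_cancel₀ (card_ne H),
    one_smul]

theorem av_mem_of_le {H : Subgroup G} {D : Submodule ℂ V} (h : H ≤ stab ρ D) {v : V} (hv : v ∈ D) :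
    av ρ H v ∈ D := by
  have := Fintype.ofFinite H
  rw [av_apply]
  exact D.smul_mem _ (D.sum_mem fun y _ => h y.2 v hv)

theorem av_av_of_le {H K : Subgroup G} (h : H ≤ K) (v : V) : av ρ K (av ρ H v) = av ρ K v := by
  have := Fintype.ofFinite H
  rw [av_apply H, map_smul, map_sum, Finset.sum_congr rfl fun (y : H) _ => av_app (h y.2) v, sum_const,
    card_univ, ← Nat.card_eq_fintype_card, ← Nat.cast_smul_eq_nsmul ℂ, smul_smul,
    inv_mul_cancel₀ (card_ne H), one_smul]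

theorem app_av_conj {H K : Subgroup G} {g : G} (h1 : ∀ y ∈ H, g * y * g⁻¹ ∈ K)
    (h2 : ∀ y ∈ K, g⁻¹ * y * g ∈ H) (v : V) : ρ g (av ρ H v) = av ρ K (ρ g v) := by
  have := Fintype.ofFinite H
  have := Fintype.ofFinite K
  let e : H ≃ K := ⟨fun y => ⟨_, h1 y y.2⟩, fun y => ⟨_, h2 y y.2⟩,
    fun y => Subtype.ext (by simp [mul_assoc]), fun y => Subtype.ext (by simp [mul_assoc])⟩
  rw [av_apply, av_apply, map_smul, map_sum, Nat.card_congr e]
  congr 1
  exact Fintype.sum_equiv e _ _ fun y => by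
    show _ = ρ (g * y * g⁻¹) (ρ g v)
    rw [← mul_app, ← mul_app, inv_mul_cancel_right]

theorem app_av_comm {H : Subgroup G} {g : G} (h : ∀ y ∈ H, Commute g y) (v : V) :
    ρ g (av ρ H v) = av ρ H (ρ g v) :=
  app_av_conj (fun y hy => by rw [(h y hy).eq, mul_inv_cancel_right]; exact hy)
    (fun y hy => by rw [mul_assoc, ← (h y hy).eq, inv_mul_cancel_left]; exact hy) v

theorem av_comm {H K : Subgroup G} (h : ∀ y ∈ H, ∀ z ∈ K, Commute y z) (v : V) :
    av ρ H (av ρ K v) = av ρ K (av ρ H v) := by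
  have := Fintype.ofFinite H
  rw [av_apply H, av_apply H, map_smul, map_sum]
  congr 1
  exact Finset.sum_congr rfl fun y _ => app_av_comm (h y y.2) v

theorem app_mem_fix {H K : Subgroup G} {g : G} (h2 : ∀ y ∈ K, g⁻¹ * y * g ∈ H) {v : V}
    (hv : v ∈ fix ρ H) : ρ g v ∈ fix ρ K := fun y hy => by
  conv_rhs => rw [← hv _ (h2 y hy)]
  rw [← mul_app, ← mul_app, ← mul_assoc, mul_inv_cancel_left]

theorem finrank_le_of_app {D E : Submodule ℂ V} (g : G) (h : ∀ v ∈ D, ρ g v ∈ E) :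
    finrank ℂ D ≤ finrank ℂ E :=
  LinearMap.finrank_le_finrank_of_injective (f := (ρ g).restrict h) fun u v e => Subtype.ext (by
    have := congrArg (fun w : E => ρ g⁻¹ w) e
    simpa [LinearMap.restrict_apply, inv_app] using this)

/-- The trace lemma. -/
theorem finrank_eq_card_mul {D : Submodule ℂ V} {Y : Subgroup G} (hY : Y ≤ stab ρ D)
    (h : ∀ y ∈ Y, y ≠ 1 → ∃ z ∈ stab ρ D, ∃ c : ℂ, c ≠ 1 ∧
      ∀ v ∈ D, ρ y (ρ z v) = c • ρ z (ρ y v)) :
    finrank ℂ D = Nat.card Y * finrank ℂ ↥(D ⊓ fix ρ Y) := by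
  classical
  have := Fintype.ofFinite Y
  let r : stab ρ D →* Module.End ℂ D :=
    { toFun := fun g => (ρ g).restrict g.2
      map_one' := LinearMap.ext fun v => Subtype.ext (by simp)
      map_mul' := fun a b => LinearMap.ext fun v => Subtype.ext (mul_app _ _ _) }
  have hr : ∀ g (v : D), (r g v : V) = ρ g v := fun _ _ => rfl
  have h0 : ∀ y : Y, y ≠ 1 → LinearMap.trace ℂ D (r ⟨y, hY y.2⟩) = 0 := fun y hy => by
    obtain ⟨z, hz, c, hc, e⟩ := h y y.2 fun e => hy (Subtype.ext e)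
    have e1 : r ⟨y, hY y.2⟩ * r ⟨z, hz⟩ = c • (r ⟨z, hz⟩ * r ⟨y, hY y.2⟩) :=
      LinearMap.ext fun v => Subtype.ext (e v v.2)
    have e2 : r ⟨z, hz⟩ * r ⟨z, hz⟩⁻¹ = 1 := by rw [← map_mul]; simp
    have e3 : r ⟨z, hz⟩⁻¹ * r ⟨z, hz⟩ = 1 := by rw [← map_mul]; simp
    have e4 : LinearMap.trace ℂ D (r ⟨y, hY y.2⟩) = c * LinearMap.trace ℂ D (r ⟨y, hY y.2⟩) := by
      conv_lhs => rw [← mul_one (r _), ← e2, ← mul_assoc, e1, smul_mul_assoc, map_smul,
        LinearMap.trace_mul_comm, ← mul_assoc, e3, one_mul]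
      rfl
    have : (1 - c) * LinearMap.trace ℂ D (r ⟨y, hY y.2⟩) = 0 := by linear_combination e4
    exact (mul_eq_zero.1 this).resolve_left (sub_ne_zero.2 hc.symm)
  let P : D →ₗ[ℂ] D := (av ρ Y).restrict fun v hv => av_mem_of_le hY hv
  have hP : LinearMap.IsProj ((fix ρ Y).submoduleOf D) P :=
    ⟨fun v => av_mem Y (v : V), fun v hv => Subtype.ext (av_of_fix hv)⟩
  have e : P = (Nat.card Y : ℂ)⁻¹ • ∑ y : Y, r ⟨y, hY y.2⟩ := LinearMap.ext fun v => Subtype.ext (by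
    show av ρ Y v = _
    rw [av_apply]
    simp [hr])
  have t := hP.trace
  rw [e, map_smul, map_sum, Finset.sum_eq_single 1 (fun y _ hy => h0 y hy) (by simp)] at t
  have e1 : r ⟨(1 : Y), hY (1 : Y).2⟩ = 1 := map_one r
  rw [e1, LinearMap.trace_one, smul_eq_mul] at t
  have e2 : finrank ℂ ((fix ρ Y).submoduleOf D) = finrank ℂ ↥(D ⊓ fix ρ Y) := by
    have e3 : (fix ρ Y).submoduleOf D = (D ⊓ fix ρ Y).submoduleOf D := by
      ext v; simp [Submodule.submoduleOf]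
    rw [← (Submodule.submoduleOfEquivOfLe (inf_le_left : D ⊓ fix ρ Y ≤ D)).finrank_eq, e3]
  rw [e2, inv_mul_eq_iff_eq_mul₀ (card_ne Y)] at t
  exact_mod_cast t

theorem sum_finrank_le {ι : Type*} [Fintype ι] (W : ι → Submodule ℂ V) {D : Submodule ℂ V}
    (hD : ∀ i, W i ≤ D) (h : ∀ i j, i ≠ j → ∀ u ∈ W i, ∀ v ∈ W j, ⟪u, v⟫_ℂ = 0) :
    ∑ i, finrank ℂ (W i) ≤ finrank ℂ D := by
  classical
  have ho : OrthogonalFamily ℂ (fun i => W i) fun i => (W i).subtypeₗᵢ :=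
    fun i j hij u v => h i j hij u u.2 v v.2
  have hi := ho.independent.dfinsupp_lsum_injective
  rw [← finrank_directSum]
  refine LinearMap.finrank_le_finrank_of_injective
    (f := (DFinsupp.lsum ℕ fun i => (W i).subtype).codRestrict D fun x => ?_) fun x y e => hi ?_
  · rw [DFinsupp.lsum_apply_apply, DFinsupp.sumAddHom_apply]
    exact D.sum_mem fun i _ => hD i (x i).2
  · exact congrArg Subtype.val e

theorem comm_mem_fxs {L : Submodule ℂ V} (hL : finrank ℂ L ≤ 1) {g g' : G} (hg : g ∈ stab ρ L)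
    (hg' : g' ∈ stab ρ L) : ⁅g, g'⁆ ∈ fxs ρ L := mem_fxs.2 fun v hv => by
  have key : ∀ k ∈ stab ρ L, ∀ u ∈ L, ∃ c : ℂ, ρ k u = c • u := fun k hk u hu => by
    by_cases h0 : u = 0
    · exact ⟨0, by simp [h0]⟩
    obtain ⟨w, hw⟩ := finrank_le_one_iff.1 hL
    obtain ⟨a, ha⟩ := hw ⟨u, hu⟩
    obtain ⟨b, hb⟩ := hw ⟨_, hk u hu⟩
    have ha' : a • (w : V) = u := congrArg Subtype.val ha
    have hb' : b • (w : V) = ρ k u := congrArg Subtype.val hb
    have a0 : a ≠ 0 := fun e => h0 (by rw [← ha', e, zero_smul])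
    exact ⟨b / a, by rw [← hb', ← ha', smul_smul, div_mul_cancel₀ _ a0]⟩
  have hu : ρ (g' * g)⁻¹ v ∈ L := (stab ρ L).inv_mem (mul_mem hg' hg) v hv
  obtain ⟨a, ha⟩ := key g hg _ hu
  obtain ⟨b, hb⟩ := key g' hg' _ hu
  have e : ρ (g * g') (ρ (g' * g)⁻¹ v) = ρ (g' * g) (ρ (g' * g)⁻¹ v) := by
    rw [mul_app, mul_app, ha, hb, map_smul, map_smul, ha, hb, smul_comm]
  rw [app_inv, ← mul_app] at e
  rw [commutatorElement_def, mul_assoc, ← mul_inv_rev]
  exact e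

theorem exists_smul_of_finrank {L : Submodule ℂ V} (hL : finrank ℂ L ≤ 1) {u v : V} (hu : u ∈ L)
    (h0 : u ≠ 0) (hv : v ∈ L) : ∃ c : ℂ, v = c • u := by
  obtain ⟨w, hw⟩ := finrank_le_one_iff.1 hL
  obtain ⟨a, ha⟩ := hw ⟨u, hu⟩
  obtain ⟨b, hb⟩ := hw ⟨v, hv⟩
  have ha' : a • (w : V) = u := congrArg Subtype.val ha
  have hb' : b • (w : V) = v := congrArg Subtype.val hb
  have a0 : a ≠ 0 := fun e => h0 (by rw [← ha', e, zero_smul])
  exact ⟨b / a, by rw [← hb', ← ha', smul_smul, div_mul_cancel₀ _ a0]⟩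

/-- Spectral decomposition under a finite abelian group. -/
theorem exists_spectral {B : Type*} [AddCommGroup B] [Fintype B] (x : B → G) (h0 : x 0 = 1)
    (hx : ∀ s t, x (s + t) = x s * x t) : ∃ P : AddChar B ℂ → V →ₗ[ℂ] V,
      (∀ v, ∑ ψ, P ψ v = v) ∧ (∀ ψ t v, ρ (x t) (P ψ v) = ψ t • P ψ v) ∧
      (∀ D : Submodule ℂ V, (∀ t, x t ∈ stab ρ D) → ∀ ψ, ∀ v ∈ D, P ψ v ∈ D) := by
  classical
  refine ⟨fun ψ => (Fintype.card B : ℂ)⁻¹ • ∑ t, ψ (-t) • ρ (x t), fun v => ?_, fun ψ t v => ?_,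
    fun D hD ψ v hv => ?_⟩
  · simp only [LinearMap.smul_apply, LinearMap.sum_apply]
    rw [← Finset.smul_sum, Finset.sum_comm]
    simp only [← Finset.sum_smul, AddChar.sum_apply_eq_ite, neg_eq_zero]
    rw [Finset.sum_eq_single 0 (fun t _ ht => by simp [ht]) (by simp)]
    simp [h0, smul_smul]
  · simp only [LinearMap.smul_apply, LinearMap.sum_apply, map_smul, map_sum]
    rw [smul_comm (ψ t), Finset.smul_sum (r := ψ t)]
    congr 1
    refine Fintype.sum_equiv (Equiv.addLeft t) _ _ fun s => ?_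
    simp only [Equiv.coe_addLeft, hx, mul_app, smul_smul, ← AddChar.map_add_eq_mul]
    congr 2; abel
  · simp only [LinearMap.smul_apply, LinearMap.sum_apply]
    exact D.smul_mem _ (D.sum_mem fun t _ => D.smul_mem _ (hD t v hv))

namespace Uni

variable (hρ : Uni ρ)
include hρ

theorem adj (g : G) (u v : V) : ⟪ρ g u, v⟫_ℂ = ⟪u, ρ g⁻¹ v⟫_ℂ := by
  rw [← hρ g u, app_inv]

theorem adj' (g : G) (u v : V) : ⟪u, ρ g v⟫_ℂ = ⟪ρ g⁻¹ u, v⟫_ℂ := by
  rw [hρ.adj, inv_inv]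

theorem norm_app (g : G) (v : V) : ‖ρ g v‖ = ‖v‖ := by
  rw [@norm_eq_sqrt_re_inner ℂ, @norm_eq_sqrt_re_inner ℂ _ _ _ _ v, hρ]

theorem norm_eig {g : G} {v : V} {a : ℂ} (hv : v ≠ 0) (e : ρ g v = a • v) : ‖a‖ = 1 := by
  have := hρ.norm_app g v
  rw [e, norm_smul] at this
  exact (mul_eq_right₀ (norm_ne_zero_iff.2 hv)).1 this

theorem orth {g : G} {u v : V} {a b : ℂ} (hu : ρ g u = a • u) (hv : ρ g v = b • v) (h : a ≠ b) :
    ⟪u, v⟫_ℂ = 0 := by
  by_cases h0 : u = 0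
  · simp [h0]
  have e := hρ g u v
  rw [hu, hv, inner_smul_left, inner_smul_right] at e
  have h1 : a * (starRingEnd ℂ) a = 1 := by
    rw [Complex.mul_conj, Complex.normSq_eq_norm_sq, hρ.norm_eig h0 hu]; simp
  have : (b - a) * ⟪u, v⟫_ℂ = 0 := by linear_combination a * e - b * ⟪u, v⟫_ℂ * h1
  exact (mul_eq_zero.1 this).resolve_left (sub_ne_zero.2 h.symm)

theorem inner_av (H : Subgroup G) (u v : V) : ⟪av ρ H u, v⟫_ℂ = ⟪u, av ρ H v⟫_ℂ := by
  have := Fintype.ofFinite H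
  rw [av_apply, av_apply, inner_smul_left, inner_smul_right, sum_inner, inner_sum]
  congr 1
  · simp
  · exact Fintype.sum_equiv (Equiv.inv H) _ _ fun y => by rw [hρ.adj]; rfl

theorem inner_av_right {H : Subgroup G} {u : V} (hu : u ∈ fix ρ H) (v : V) :
    ⟪u, av ρ H v⟫_ℂ = ⟪u, v⟫_ℂ := by rw [← hρ.inner_av, av_of_fix hu]

theorem inner_av_left {H : Subgroup G} {v : V} (hv : v ∈ fix ρ H) (u : V) :
    ⟪av ρ H u, v⟫_ℂ = ⟪u, v⟫_ℂ := by rw [hρ.inner_av, av_of_fix hv]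

theorem inner_av_const {H : Subgroup G} {u v : V} {ω : ℂ}
    (h : ∀ y ∈ H, y ≠ 1 → ⟪u, ρ y v⟫_ℂ = ω) :
    (Nat.card H : ℂ) * ⟪u, av ρ H v⟫_ℂ = ⟪u, v⟫_ℂ + (Nat.card H - 1) * ω := by
  classical
  have := Fintype.ofFinite H
  rw [av_apply, inner_smul_right, ← mul_assoc, mul_inv_cancel₀ (card_ne H), one_mul, inner_sum,
    ← Finset.add_sum_erase _ _ (mem_univ 1),
    Finset.sum_congr rfl fun (y : H) hy => h y y.2 fun e => (ne_of_mem_erase hy) (Subtype.ext e),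
    sum_const, card_erase_of_mem (mem_univ _), card_univ, ← Nat.card_eq_fintype_card, nsmul_eq_mul,
    Nat.cast_sub Nat.card_pos]
  simp

theorem inner_av_zero {H : Subgroup G} {u v : V} (h : ∀ y ∈ H, y ≠ 1 → ⟪u, ρ y v⟫_ℂ = 0) :
    (Nat.card H : ℂ) * ⟪u, av ρ H v⟫_ℂ = ⟪u, v⟫_ℂ := by simpa using hρ.inner_av_const h

theorem inner_av_av (H : Subgroup G) (u v : V) : ⟪av ρ H u, av ρ H v⟫_ℂ = ⟪u, av ρ H v⟫_ℂ :=
  hρ.inner_av_left (av_mem H v) u

theorem orth_of_av {H : Subgroup G} {u v : V} (hu : u ∈ fix ρ H) (hv : av ρ H v = 0) :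
    ⟪u, v⟫_ℂ = 0 := by rw [← hρ.inner_av_right hu, hv, inner_zero_right]

theorem eq_of_inner {g : G} {v : V} (h : ⟪v, ρ g v⟫_ℂ = ⟪v, v⟫_ℂ) : ρ g v = v := by
  have h' : ⟪ρ g v, v⟫_ℂ = ⟪v, v⟫_ℂ := by rw [← inner_conj_symm, h, inner_conj_symm]
  rw [← sub_eq_zero, ← @inner_self_eq_zero ℂ, inner_sub_left, inner_sub_right, inner_sub_right,
    hρ, h, h']
  ring

theorem av_eq_zero {H : Subgroup G} {g : G} (hg : g ∈ H) {v : V} {a : ℂ} (e : ρ g v = a • v)
    (ha : a ≠ 1) : av ρ H v = 0 := by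
  have := av_app (ρ := ρ) hg v
  rw [e, map_smul, ← sub_eq_zero] at this
  have h2 : (a - 1) • av ρ H v = 0 := by rw [sub_smul, one_smul, this]
  exact (smul_eq_zero.1 h2).resolve_left (sub_ne_zero.2 ha)

end Uni

end Cfsg.Agent.H23.MD
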