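import Mathlib
import Cfsg.Agent.H23.MDHil

/-!
Groups with (relative) root subgroups acting on a Hilbert space: Heisenberg groups of long roots,
weight spaces, Lagrangian lines.
-/

set_option autoImplicit false
set_option linter.unusedSectionVars false

namespace Cfsg.Agent.H23.MD

open Module Finset
open scoped InnerProductSpace commutatorElement

variable {κ : Type} [Fintype κ] [DecidableEq κ]

/-- The simple roots. -/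
def e (i : κ) : κ → ℤ := Pi.single i 1

/-- A root system in coordinates, with a class of long roots. -/
structure RT (κ : Type) [Fintype κ] [DecidableEq κ] where
  Φ : Set (κ → ℤ)
  Lg : Set (κ → ℤ)
  p : (κ → ℤ) → (κ → ℤ) →ₗ[ℤ] ℤ
  c : κ → (κ → ℤ) →ₗ[ℤ] ℤ
  fin : Φ.Finite
  lg_sub : ∀ α ∈ Lg, α ∈ Φ
  ne_zero : ∀ γ ∈ Φ, γ ≠ 0
  pos_or : ∀ γ ∈ Φ, 0 ≤ γ ∨ γ ≤ 0
  neg_mem : ∀ γ ∈ Φ, -γ ∈ Φ
  neg_lg : ∀ γ ∈ Lg, -γ ∈ Lg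
  e_mem : ∀ i, e i ∈ Φ
  red : ∀ γ ∈ Φ, ∀ i, (∀ j, j ≠ i → γ j = 0) → γ = e i ∨ γ = -e i
  c_self : ∀ i, c i (e i) = 2
  s_mem' : ∀ i, ∀ γ ∈ Φ, γ - c i γ • e i ∈ Φ
  s_lg' : ∀ i, ∀ γ ∈ Lg, γ - c i γ • e i ∈ Lg
  p_self : ∀ α ∈ Lg, p α α = 2
  p_le : ∀ α ∈ Lg, ∀ γ ∈ Φ, γ ≠ α → p α γ ≤ 1
  p_symm : ∀ α ∈ Lg, ∀ δ ∈ Lg, p α δ = p δ α
  p_e : ∀ i, e i ∈ Lg → p (e i) = c i
  sub_mem : ∀ α ∈ Lg, ∀ γ ∈ Φ, p α γ = 1 → α - γ ∈ Φ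

theorem e_self (i : κ) : e i i = 1 := Pi.single_eq_same _ _
theorem e_ne {i j : κ} (h : j ≠ i) : e i j = 0 := Pi.single_eq_of_ne h _
theorem e_nonneg (i : κ) : 0 ≤ e i := fun j => by
  by_cases h : j = i
  · subst h; simp [e_self]
  · simp [e_ne h]
theorem e_inj {i j : κ} (h : e i = e j) : i = j := by
  by_contra hij
  have := congrFun h i
  rw [e_self, e_ne hij] at this
  exact one_ne_zero this

/-- The height. -/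
def ht : (κ → ℤ) →ₗ[ℤ] ℤ where
  toFun v := ∑ j, v j
  map_add' v w := by simp [sum_add_distrib]
  map_smul' c v := by simp [mul_sum]

theorem ht_apply (v : κ → ℤ) : ht v = ∑ j, v j := rfl
theorem ht_e (i : κ) : ht (e i) = 1 := by simp [ht_apply, e, Pi.single_apply]
theorem ht_nonneg {v : κ → ℤ} (h : 0 ≤ v) : 0 ≤ ht v := sum_nonneg fun j _ => h j

theorem p_comb (f : (κ → ℤ) →ₗ[ℤ] ℤ) (a b : ℤ) (γ δ : κ → ℤ) :
    f (a • γ + b • δ) = a * f γ + b * f δ := by rw [map_add, map_smul, map_smul]; rfl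

namespace RT

variable (R : RT κ)

/-- The simple reflections. -/
def s (i : κ) (γ : κ → ℤ) : κ → ℤ := γ - R.c i γ • e i

/-- The roots occurring in the commutator formula. -/
def cb (γ δ : κ → ℤ) : Set (κ → ℤ) := {β | β ∈ R.Φ ∧ ∃ a b : ℤ, 1 ≤ a ∧ 1 ≤ b ∧ β = a • γ + b • δ}

/-- A Lagrangian set of roots for a long root. -/
def Lag (α : κ → ℤ) (Λ : Set (κ → ℤ)) : Prop :=
  (∀ γ ∈ Λ, γ ∈ R.Φ ∧ R.p α γ = 1) ∧ ∀ γ ∈ R.Φ, R.p α γ = 1 → (γ ∈ Λ ↔ α - γ ∉ Λ)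

variable {R}

theorem s_mem (i : κ) {γ : κ → ℤ} (h : γ ∈ R.Φ) : R.s i γ ∈ R.Φ := R.s_mem' i γ h
theorem s_lg (i : κ) {γ : κ → ℤ} (h : γ ∈ R.Lg) : R.s i γ ∈ R.Lg := R.s_lg' i γ h
theorem s_s (i : κ) (γ : κ → ℤ) : R.s i (R.s i γ) = γ := by
  simp only [s, map_sub, map_smul, R.c_self, smul_eq_mul]
  module
theorem s_ne {i j : κ} (h : j ≠ i) (γ : κ → ℤ) : R.s i γ j = γ j := by simp [s, e_ne h]
theorem s_self (i : κ) (γ : κ → ℤ) : R.s i γ i = γ i - R.c i γ := by simp [s, e_self]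
theorem s_e (i : κ) : R.s i (e i) = -e i := by simp only [s, R.c_self]; module
theorem s_neg (i : κ) (γ : κ → ℤ) : R.s i (-γ) = -R.s i γ := by simp only [s, map_neg]; module
theorem s_add (i : κ) (γ δ : κ → ℤ) : R.s i (γ + δ) = R.s i γ + R.s i δ := by
  simp only [s, map_add]; module
theorem s_neg_e (i : κ) : R.s i (-e i) = e i := by rw [s_neg, s_e, neg_neg]

theorem ht_pos {γ : κ → ℤ} (h : γ ∈ R.Φ) (hp : 0 ≤ γ) : 0 < ht γ := by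
  refine (ht_nonneg hp).lt_of_ne fun e0 => R.ne_zero γ h (funext fun j => ?_)
  exact (sum_eq_zero_iff_of_nonneg fun j _ => hp j).1 e0.symm j (mem_univ j)

theorem pos_of_coord {γ : κ → ℤ} (h : γ ∈ R.Φ) {j : κ} (hj : 0 < γ j) : 0 ≤ γ :=
  (R.pos_or γ h).resolve_right fun h' => absurd (h' j) (not_le.2 hj)

theorem not_pos_neg {γ : κ → ℤ} (h : γ ∈ R.Φ) (hp : 0 ≤ γ) : ¬ γ ≤ 0 := fun h' =>
  R.ne_zero γ h (le_antisymm h' hp)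

theorem exists_coord {γ : κ → ℤ} (h : γ ∈ R.Φ) (hp : 0 ≤ γ) {i : κ} (hi : γ ≠ e i) :
    ∃ j, j ≠ i ∧ 0 < γ j := by
  by_contra hc
  push Not at hc
  rcases R.red γ h i fun j hj => le_antisymm (hc j hj) (hp j) with h1 | h1
  · exact hi h1
  · have := hp i
    rw [h1, Pi.neg_apply, e_self] at this
    exact absurd this (by simp)

theorem s_pos {γ : κ → ℤ} (h : γ ∈ R.Φ) (hp : 0 ≤ γ) {i : κ} (hi : γ ≠ e i) : 0 ≤ R.s i γ := by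
  obtain ⟨j, hj, h0⟩ := exists_coord h hp hi
  exact pos_of_coord (s_mem i h) (j := j) (by rwa [s_ne hj])

theorem s_ne_e {γ : κ → ℤ} (hp : 0 ≤ γ) (i : κ) : R.s i γ ≠ e i := fun h => by
  have := hp i
  rw [← s_s (R := R) i γ, h, s_e, Pi.neg_apply, e_self] at this
  exact absurd this (by simp)

theorem p_ge {α γ : κ → ℤ} (hα : α ∈ R.Lg) (h : γ ∈ R.Φ) (hne : γ ≠ -α) : -1 ≤ R.p α γ := by
  have := R.p_le α hα _ (R.neg_mem γ h) fun e => hne (by rw [← e, neg_neg])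
  rw [map_neg] at this
  omega

theorem eq_of_two_le {α γ : κ → ℤ} (hα : α ∈ R.Lg) (h : γ ∈ R.Φ) (h2 : 2 ≤ R.p α γ) : γ = α := by
  by_contra hne
  have := R.p_le α hα γ h hne
  omega

theorem p_sub {α γ : κ → ℤ} (hα : α ∈ R.Lg) (h : R.p α γ = 1) : R.p α (α - γ) = 1 := by
  rw [map_sub, R.p_self α hα, h]; rfl

theorem cb_empty {α γ δ : κ → ℤ} (hα : α ∈ R.Lg) (h1 : 1 ≤ R.p α γ) (h2 : 1 ≤ R.p α δ)
    (h : γ + δ ≠ α) (β : κ → ℤ) : β ∉ R.cb γ δ := by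
  rintro ⟨hβ, a, b, ha, hb, rfl⟩
  have e1 : R.p α (a • γ + b • δ) = a * R.p α γ + b * R.p α δ := p_comb _ _ _ _ _
  have h3 : 2 ≤ R.p α (a • γ + b • δ) := by rw [e1]; nlinarith
  have e2 := eq_of_two_le hα hβ h3
  rw [e2, R.p_self α hα] at e1
  obtain rfl : a = 1 := by nlinarith
  obtain rfl : b = 1 := by nlinarith
  exact h (by simpa using e2)

theorem add_ne_left {α γ : κ → ℤ} (h : γ ∈ R.Φ) : α + γ ≠ α := fun e =>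
  R.ne_zero γ h (by simpa using e)

end RT

/-- A group with root subgroups. -/
structure GD (R : RT κ) (F : Type*) [Field F] (G : Type*) [Group G] where
  X : (κ → ℤ) → Subgroup G
  x : (κ → ℤ) → F → G
  n : κ → G
  T : Subgroup G
  comm : ∀ γ ∈ R.Φ, ∀ δ ∈ R.Φ, ∀ f : (κ → ℤ) →ₗ[ℤ] ℤ, 0 < f γ → 0 < f δ → ∀ y ∈ X γ, ∀ z ∈ X δ,
    ⁅y, z⁆ ∈ ⨆ β ∈ R.cb γ δ, X β
  x_add : ∀ α ∈ R.Lg, ∀ s t, x α (s + t) = x α s * x α t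
  x_inj : ∀ α ∈ R.Lg, ∀ t, x α t = 1 → t = 0
  mem_X : ∀ α ∈ R.Lg, ∀ y, y ∈ X α ↔ ∃ t, x α t = y
  heis : ∀ α ∈ R.Lg, ∀ γ ∈ R.Φ, R.p α γ = 1 → ∀ y ∈ X γ, y ≠ 1 → ∀ t, ∃ z ∈ X (α - γ), ⁅y, z⁆ = x α t
  X_ne : ∀ γ ∈ R.Φ, ∃ y ∈ X γ, y ≠ 1
  n_conj : ∀ i, ∀ γ ∈ R.Φ, ∀ y ∈ X γ, n i * y * (n i)⁻¹ ∈ X (R.s i γ)
  n_mem : ∀ i, n i ∈ X (e i) ⊔ X (-e i)
  n_sq : ∀ i, n i * n i ∈ T
  T_comm : ∀ h ∈ T, ∀ h' ∈ T, h * h' = h' * h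
  T_conj : ∀ h ∈ T, ∀ γ ∈ R.Φ, ∀ y ∈ X γ, h * y * h⁻¹ ∈ X γ
  n_T : ∀ i, ∀ h ∈ T, n i * h * (n i)⁻¹ ∈ T
  T_trans : ∀ α ∈ R.Lg, ∀ c : F, c ≠ 0 → ∃ h ∈ T, ∀ t, h * x α t * h⁻¹ = x α (c * t)
  sl2 : ∀ i, ∀ y ∈ X (-e i), y ≠ 1 → ∃ u ∈ X (e i), ∃ h ∈ T, ∃ u' ∈ X (e i), y = u * h * n i * u'
  braid : ∀ i j, R.c i (e j) = -1 → R.c j (e i) = -1 → ∃ h ∈ T, n i * n j * n i = n j * n i * n j * h

namespace GD

variable {R : RT κ} {F : Type*} [Field F] [Fintype F] {G : Type*} [Group G] [Finite G]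
  (D : GD R F G) {V : Type*} [NormedAddCommGroup V] [InnerProductSpace ℂ V] [FiniteDimensional ℂ V]
  (ρ : Representation ℂ G V)

/-- Vectors fixed by the root subgroups of a set of roots. -/
def Fx (S : Set (κ → ℤ)) : Submodule ℂ V := fix ρ (⨆ γ ∈ S, D.X γ)

/-- The weight space of a long root subgroup. -/
def eig (α : κ → ℤ) (ψ : AddChar F ℂ) : Submodule ℂ V where
  carrier := {v | ∀ t, ρ (D.x α t) v = ψ t • v}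
  add_mem' ha hb t := by rw [map_add, ha t, hb t, smul_add]
  zero_mem' t := by simp
  smul_mem' c v hv t := by rw [map_smul, hv t, smul_comm]

/-- Weight vectors fixed by a set of root subgroups. -/
def Wt (S : Set (κ → ℤ)) (α : κ → ℤ) (ψ : AddChar F ℂ) : Submodule ℂ V := D.eig ρ α ψ ⊓ D.Fx ρ S

variable {D ρ} {α β γ δ : κ → ℤ} {ψ : AddChar F ℂ} {S Λ Λ' : Set (κ → ℤ)} {u v : V}

theorem mem_Fx : v ∈ D.Fx ρ S ↔ ∀ γ ∈ S, v ∈ fix ρ (D.X γ) := by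
  simp only [Fx, mem_fix_iff_le, iSup_le_iff]

theorem mem_eig : v ∈ D.eig ρ α ψ ↔ ∀ t, ρ (D.x α t) v = ψ t • v := Iff.rfl

theorem mem_Wt : v ∈ D.Wt ρ S α ψ ↔ v ∈ D.eig ρ α ψ ∧ ∀ γ ∈ S, v ∈ fix ρ (D.X γ) := by
  rw [Wt, Submodule.mem_inf, mem_Fx]

theorem x_mem (hα : α ∈ R.Lg) (t : F) : D.x α t ∈ D.X α := (D.mem_X α hα _).2 ⟨t, rfl⟩

theorem x_zero (hα : α ∈ R.Lg) : D.x α 0 = 1 := by
  have := D.x_add α hα 0 0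
  rwa [add_zero, left_eq_mul] at this

theorem x_injective (hα : α ∈ R.Lg) : Function.Injective (D.x α) := fun s t h => by
  have := D.x_add α hα (s - t) t
  rw [sub_add_cancel, h, right_eq_mul] at this
  exact sub_eq_zero.1 (D.x_inj α hα _ this)

theorem card_X (hα : α ∈ R.Lg) : Nat.card (D.X α) = Fintype.card F := by
  rw [← Nat.card_eq_fintype_card]
  exact (Nat.card_congr (Equiv.ofBijective (fun t => (⟨_, x_mem hα t⟩ : D.X α))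
    ⟨fun s t h => x_injective hα (congrArg Subtype.val h), fun y => by
      obtain ⟨t, ht⟩ := (D.mem_X α hα _).1 y.2
      exact ⟨t, Subtype.ext ht⟩⟩)).symm

theorem eig_one (hα : α ∈ R.Lg) : v ∈ D.eig ρ α 1 ↔ v ∈ fix ρ (D.X α) :=
  ⟨fun h y hy => by obtain ⟨t, rfl⟩ := (D.mem_X α hα _).1 hy; simpa using h t,
    fun h t => by simpa using h _ (x_mem hα t)⟩

theorem eig_smul (hα : α ∈ R.Lg) (hv : v ∈ D.eig ρ α ψ) {y : G} (hy : y ∈ D.X α) :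
    ∃ c : ℂ, ρ y v = c • v := by
  obtain ⟨t, rfl⟩ := (D.mem_X α hα _).1 hy
  exact ⟨_, hv t⟩

theorem T_conj' {h : G} (hh : h ∈ D.T) (hγ : γ ∈ R.Φ) {y : G} (hy : y ∈ D.X γ) :
    h⁻¹ * y * h ∈ D.X γ := by simpa using D.T_conj _ (inv_mem hh) γ hγ y hy

theorem n_conj' (i : κ) (hγ : γ ∈ R.Φ) {y : G} (hy : y ∈ D.X γ) :
    (D.n i)⁻¹ * y * D.n i ∈ D.X (R.s i γ) := by
  have := T_conj' (D.n_sq i) (RT.s_mem i hγ) (D.n_conj i γ hγ y hy)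
  rwa [show ∀ a : G, (a * a)⁻¹ * (a * y * a⁻¹) * (a * a) = a⁻¹ * y * a by intro; group] at this

theorem n_T' (i : κ) {h : G} (hh : h ∈ D.T) : (D.n i)⁻¹ * h * D.n i ∈ D.T := by
  have := mul_mem (mul_mem (inv_mem (D.n_sq i)) (D.n_T i h hh)) (D.n_sq i)
  rwa [show ∀ a : G, (a * a)⁻¹ * (a * h * a⁻¹) * (a * a) = a⁻¹ * h * a by intro; group] at this

theorem n_av (i : κ) (hγ : γ ∈ R.Φ) (v : V) :
    ρ (D.n i) (av ρ (D.X γ) v) = av ρ (D.X (R.s i γ)) (ρ (D.n i) v) :=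
  app_av_conj (D.n_conj i γ hγ) (fun _ hy => by
    simpa [RT.s_s] using n_conj' i (RT.s_mem i hγ) hy) v

theorem n_fix (i : κ) (hγ : γ ∈ R.Φ) (hv : v ∈ fix ρ (D.X γ)) :
    ρ (D.n i) v ∈ fix ρ (D.X (R.s i γ)) :=
  app_mem_fix (fun _ hy => by simpa [RT.s_s] using n_conj' i (RT.s_mem i hγ) hy) hv

theorem n_fix' (i : κ) (hγ : γ ∈ R.Φ) (hv : v ∈ fix ρ (D.X γ)) :
    ρ (D.n i)⁻¹ v ∈ fix ρ (D.X (R.s i γ)) :=
  app_mem_fix (fun _ hy => by simpa [RT.s_s] using D.n_conj i _ (RT.s_mem i hγ) _ hy) hv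

theorem T_fix {h : G} (hh : h ∈ D.T) (hγ : γ ∈ R.Φ) (hv : v ∈ fix ρ (D.X γ)) :
    ρ h v ∈ fix ρ (D.X γ) := app_mem_fix (fun _ hy => T_conj' hh hγ hy) hv

theorem T_av {h : G} (hh : h ∈ D.T) (hγ : γ ∈ R.Φ) (v : V) :
    ρ h (av ρ (D.X γ) v) = av ρ (D.X γ) (ρ h v) :=
  app_av_conj (D.T_conj h hh γ hγ) (fun _ hy => T_conj' hh hγ hy) v

theorem app_comm (hγ : γ ∈ R.Φ) (hδ : δ ∈ R.Φ) (f : (κ → ℤ) →ₗ[ℤ] ℤ) (h1 : 0 < f γ) (h2 : 0 < f δ)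
    (h : ∀ β ∈ R.cb γ δ, v ∈ fix ρ (D.X β)) {y z : G} (hy : y ∈ D.X γ) (hz : z ∈ D.X δ) :
    ρ y (ρ z v) = ρ z (ρ y v) := by
  have := (mem_Fx (D := D)).2 h _ (D.comm γ hγ δ hδ f h1 h2 _ (inv_mem hy) _ (inv_mem hz))
  conv_rhs => rw [← this]
  simp only [← mul_app, commutatorElement_def]
  congr 2; group

theorem commute_of (hγ : γ ∈ R.Φ) (hδ : δ ∈ R.Φ) (f : (κ → ℤ) →ₗ[ℤ] ℤ) (h1 : 0 < f γ) (h2 : 0 < f δ)
    (h : ∀ β, β ∉ R.cb γ δ) {y z : G} (hy : y ∈ D.X γ) (hz : z ∈ D.X δ) : Commute y z := by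
  have := D.comm γ hγ δ hδ f h1 h2 _ hy _ hz
  rw [commutatorElement_eq_one_iff_commute.symm]
  simpa [h] using this

theorem commute_p (hα : α ∈ R.Lg) (hγ : γ ∈ R.Φ) (hδ : δ ∈ R.Φ) (h1 : 1 ≤ R.p α γ) (h2 : 1 ≤ R.p α δ)
    (h : γ + δ ≠ α) {y z : G} (hy : y ∈ D.X γ) (hz : z ∈ D.X δ) : Commute y z :=
  commute_of hγ hδ (R.p α) h1 h2 (RT.cb_empty hα h1 h2 h) hy hz

theorem commute_α (hα : α ∈ R.Lg) (hγ : γ ∈ R.Φ) (h1 : 1 ≤ R.p α γ) (t : F) {y : G}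
    (hy : y ∈ D.X γ) : Commute (D.x α t) y :=
  commute_p hα (R.lg_sub α hα) hγ (by rw [R.p_self α hα]; norm_num) h1 (RT.add_ne_left hγ)
    (x_mem hα t) hy

theorem eig_of_commute {g : G} (h : ∀ t, Commute (D.x α t) g) : g ∈ stab ρ (D.eig ρ α ψ) :=
  fun v hv t => by rw [← mul_app, (h t).eq, mul_app, hv t, map_smul]

theorem fix_of_commute {H : Subgroup G} {g : G} (h : ∀ y ∈ H, Commute y g) : g ∈ stab ρ (fix ρ H) :=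
  fun v hv y hy => by rw [← mul_app, (h y hy).eq, mul_app, hv y hy]

theorem stab_inf {A B : Submodule ℂ V} {g : G} (h1 : g ∈ stab ρ A) (h2 : g ∈ stab ρ B) :
    g ∈ stab ρ (A ⊓ B) := fun v hv => ⟨h1 v hv.1, h2 v hv.2⟩

theorem stab_eig (hα : α ∈ R.Lg) (hγ : γ ∈ R.Φ) (h1 : 1 ≤ R.p α γ) :
    D.X γ ≤ stab ρ (D.eig ρ α ψ) := fun _ hy => eig_of_commute fun t => commute_α hα hγ h1 t hy

theorem stab_Fx (hS : ∀ γ ∈ S, γ ∈ R.Φ) (hδ : δ ∈ R.Φ) (f : (κ → ℤ) →ₗ[ℤ] ℤ) (h1 : ∀ γ ∈ S, 0 < f γ)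
    (h2 : 0 < f δ) (h : ∀ γ ∈ S, ∀ β ∈ R.cb γ δ, β ∈ S) : D.X δ ≤ stab ρ (D.Fx ρ S) :=
  fun z hz v hv => mem_Fx.2 fun γ hγ y hy => by
    rw [app_comm (hS γ hγ) hδ f (h1 γ hγ) h2 (fun β hβ => mem_Fx.1 hv β (h γ hγ β hβ)) hy hz,
      mem_Fx.1 hv γ hγ y hy]

theorem stab_Wt (hα : α ∈ R.Lg) (hS : ∀ γ ∈ S, γ ∈ R.Φ) (hδ : δ ∈ R.Φ) (f : (κ → ℤ) →ₗ[ℤ] ℤ)
    (h0 : 0 < f α) (h1 : ∀ γ ∈ S, 0 < f γ) (h2 : 0 < f δ)
    (h : ∀ γ, γ = α ∨ γ ∈ S → ∀ β ∈ R.cb γ δ, D.X β ≤ fxs ρ (D.Wt ρ S α ψ)) :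
    D.X δ ≤ stab ρ (D.Wt ρ S α ψ) := fun z hz v hv => by
  have k : ∀ γ, γ = α ∨ γ ∈ S → ∀ β ∈ R.cb γ δ, v ∈ fix ρ (D.X β) := fun γ hγ β hβ y hy =>
    mem_fxs.1 (h γ hγ β hβ hy) v hv
  refine mem_Wt.2 ⟨fun t => ?_, fun γ hγ y hy => ?_⟩
  · rw [app_comm (R.lg_sub α hα) hδ f h0 h2 (k α (.inl rfl)) (x_mem hα t) hz, (mem_Wt.1 hv).1 t, map_smul]
  · rw [app_comm (hS γ hγ) hδ f (h1 γ hγ) h2 (k γ (.inr hγ)) hy hz, (mem_Wt.1 hv).2 γ hγ y hy]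

theorem le_fxs_Wt (hγ : γ ∈ S) : D.X γ ≤ fxs ρ (D.Wt ρ S α ψ) := fun y hy =>
  mem_fxs.2 fun _ hv => (mem_Wt.1 hv).2 γ hγ y hy

theorem T_stab_Wt (hS : ∀ γ ∈ S, γ ∈ R.Φ) {h : G} (hh : h ∈ D.T) (hc : ∀ t, Commute (D.x α t) h) :
    h ∈ stab ρ (D.Wt ρ S α ψ) := fun v hv =>
  mem_Wt.2 ⟨eig_of_commute hc v (mem_Wt.1 hv).1, fun γ hγ => T_fix hh (hS γ hγ) ((mem_Wt.1 hv).2 γ hγ)⟩

theorem exists_ne_one (hψ : ψ ≠ 1) : ∃ t, ψ t ≠ 1 := by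
  by_contra h
  push Not at h
  exact hψ (AddChar.ext _ _ h)

theorem heis_app (hα : α ∈ R.Lg) (hγ : γ ∈ R.Φ) (hp : R.p α γ = 1) (hψ : ψ ≠ 1) {y : G}
    (hy : y ∈ D.X γ) (h1 : y ≠ 1) : ∃ z ∈ D.X (α - γ), ∃ c : ℂ, c ≠ 1 ∧
      ∀ v ∈ D.eig ρ α ψ, ρ y (ρ z v) = c • ρ z (ρ y v) := by
  obtain ⟨t, ht⟩ := exists_ne_one hψ
  obtain ⟨z, hz, e⟩ := D.heis α hα γ hγ hp y hy h1 t
  refine ⟨z, hz, ψ t, ht, fun v hv => ?_⟩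
  have c1 := commute_α hα hγ hp.ge t hy
  have c2 := commute_α hα (R.sub_mem α hα γ hγ hp) (RT.p_sub hα hp).ge t hz
  have e2 : y * z = z * y * D.x α t := by
    rw [← (c2.mul_right c1).eq, ← e, commutatorElement_def]; group
  rw [← mul_app, e2, mul_app, mul_app, hv t, map_smul, map_smul]

theorem finrank_heis (hα : α ∈ R.Lg) (hγ : γ ∈ R.Φ) (hp : R.p α γ = 1) (hψ : ψ ≠ 1)
    {E : Submodule ℂ V} (hE : E ≤ D.eig ρ α ψ) (h1 : D.X γ ≤ stab ρ E) (h2 : D.X (α - γ) ≤ stab ρ E) :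
    finrank ℂ E = Nat.card (D.X γ) * finrank ℂ ↥(E ⊓ fix ρ (D.X γ)) :=
  finrank_eq_card_mul h1 fun y hy y1 => by
    obtain ⟨z, hz, c, hc, h⟩ := heis_app (ρ := ρ) hα hγ hp hψ hy y1
    exact ⟨z, h2 hz, c, hc, fun v hv => h v (hE hv)⟩

theorem stab_Wt_p (hα : α ∈ R.Lg) (hS : ∀ γ ∈ S, γ ∈ R.Φ ∧ R.p α γ = 1) (hδ : δ ∈ R.Φ)
    (hp : 1 ≤ R.p α δ) (h : α - δ ∉ S) : D.X δ ≤ stab ρ (D.Wt ρ S α ψ) :=
  stab_Wt hα (fun γ hγ => (hS γ hγ).1) hδ (R.p α) (by rw [R.p_self α hα]; norm_num)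
    (fun γ hγ => by rw [(hS γ hγ).2]; norm_num) hp fun γ hγ β hβ => by
    rcases hγ with rfl | hγ
    · exact absurd hβ (RT.cb_empty hα (by rw [R.p_self γ hα]; norm_num) hp (RT.add_ne_left hδ) β)
    · exact absurd hβ (RT.cb_empty hα (hS γ hγ).2.ge hp (fun e => h (by rwa [← e, add_sub_cancel_right])) β)

theorem finrank_eig (hα : α ∈ R.Lg) (hψ : ψ ≠ 1) (S : Finset (κ → ℤ))
    (hS : ∀ γ ∈ S, γ ∈ R.Φ ∧ R.p α γ = 1) (h : ∀ γ ∈ S, α - γ ∉ S) :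
    finrank ℂ (D.eig ρ α ψ) = (∏ γ ∈ S, Nat.card (D.X γ)) * finrank ℂ (D.Wt ρ S α ψ) := by
  classical
  induction S using Finset.induction_on with
  | empty =>
    have : D.Wt ρ (∅ : Finset (κ → ℤ)) α ψ = D.eig ρ α ψ := by ext v; simp [mem_Wt]
    rw [this]; simp
  | insert γ S hγ ih =>
    have hS' : ∀ γ ∈ S, γ ∈ R.Φ ∧ R.p α γ = 1 := fun δ hδ => hS δ (mem_insert_of_mem hδ)
    obtain ⟨h1, h2⟩ := hS γ (mem_insert_self _ _)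
    have e1 : D.Wt ρ (insert γ S : Finset (κ → ℤ)) α ψ = D.Wt ρ S α ψ ⊓ fix ρ (D.X γ) := by
      ext v; simp only [mem_Wt, Submodule.mem_inf, coe_insert, Set.forall_mem_insert]; tauto
    rw [ih hS' fun δ hδ hδ' => h δ (mem_insert_of_mem hδ) (mem_insert_of_mem hδ'), prod_insert hγ, e1,
      finrank_heis hα h1 h2 hψ (E := D.Wt ρ S α ψ) inf_le_left
        (stab_Wt_p hα hS' h1 h2.ge fun h' => h γ (mem_insert_self _ _) (mem_insert_of_mem h'))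
        (stab_Wt_p hα hS' (R.sub_mem α hα γ h1 h2) (RT.p_sub hα h2).ge (by simpa using hγ))]
    ring

theorem exists_equiv (hα : α ∈ R.Lg) (hβ : β ∈ R.Lg) {g : G} (h1 : ∀ y ∈ D.X α, g * y * g⁻¹ ∈ D.X β)
    (h2 : ∀ y ∈ D.X β, g⁻¹ * y * g ∈ D.X α) :
    ∃ φ : F ≃+ F, ∀ t, g⁻¹ * D.x β t * g = D.x α (φ t) := by
  choose a ha using fun t : F => (D.mem_X α hα _).1 (h2 _ (x_mem (D := D) hβ t))
  choose b hb using fun t : F => (D.mem_X β hβ _).1 (h1 _ (x_mem (D := D) hα t))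
  refine ⟨⟨⟨a, b, fun t => x_injective (D := D) hβ ?_, fun t => x_injective (D := D) hα ?_⟩,
    fun s t => x_injective (D := D) hα ?_⟩, fun t => (ha t).symm⟩
  · rw [hb, ha]; group
  · rw [ha, hb]; group
  · show D.x α (a _) = D.x α (a _ + a _)
    rw [D.x_add α hα, ha, ha, ha, D.x_add β hβ]; group

theorem comp_ne_one (hψ : ψ ≠ 1) (φ : F ≃+ F) : ψ.compAddMonoidHom φ.toAddMonoidHom ≠ 1 := fun h => by
  obtain ⟨t, ht⟩ := exists_ne_one hψ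
  have := DFunLike.congr_fun h (φ.symm t)
  simp at this
  exact ht this

theorem app_eig {g : G} {φ : F ≃+ F} (h : ∀ t, g⁻¹ * D.x β t * g = D.x α (φ t)) (hv : v ∈ D.eig ρ α ψ) :
    ρ g v ∈ D.eig ρ β (ψ.compAddMonoidHom φ.toAddMonoidHom) := fun t => by
  have := hv (φ t)
  rw [← h, mul_app, mul_app] at this
  rw [← app_inv (ρ := ρ) g (ρ (D.x β t) _), this, map_smul]
  rfl

theorem trans_A (hα : α ∈ R.Lg) (hβ : β ∈ R.Lg) {g : G} (h1 : ∀ y ∈ D.X α, g * y * g⁻¹ ∈ D.X β)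
    (h2 : ∀ y ∈ D.X β, g⁻¹ * y * g ∈ D.X α) (hψ : ψ ≠ 1) :
    ∃ ν : AddChar F ℂ, ν ≠ 1 ∧ ∀ v ∈ D.eig ρ α ψ, ρ g v ∈ D.eig ρ β ν := by
  obtain ⟨φ, h⟩ := exists_equiv hα hβ h1 h2
  exact ⟨_, comp_ne_one hψ φ, fun v hv => app_eig h hv⟩

theorem trans_B (hα : α ∈ R.Lg) (hβ : β ∈ R.Lg) {g : G} (h1 : ∀ y ∈ D.X α, g * y * g⁻¹ ∈ D.X β)
    (h2 : ∀ y ∈ D.X β, g⁻¹ * y * g ∈ D.X α) (hψ : ψ ≠ 1) :
    ∃ ν : AddChar F ℂ, ν ≠ 1 ∧ ∀ v ∈ D.eig ρ α ν, ρ g v ∈ D.eig ρ β ψ := by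
  obtain ⟨φ, h⟩ := exists_equiv hα hβ h1 h2
  refine ⟨_, comp_ne_one hψ φ.symm, fun v hv => ?_⟩
  convert app_eig h hv using 2
  ext t; simp

theorem exists_T (hα : α ∈ R.Lg) {ψ ν : AddChar F ℂ} (hψ : ψ ≠ 1) (hν : ν ≠ 1) :
    ∃ h ∈ D.T, ∀ v ∈ D.eig ρ α ψ, ρ h v ∈ D.eig ρ α ν := by
  classical
  obtain ⟨c, rfl⟩ : ∃ c, ψ.mulShift c = ν := ((Fintype.bijective_iff_injective_and_card _).2
    ⟨AddChar.to_mulShift_inj_of_isPrimitive (AddChar.IsPrimitive.of_ne_one hψ), by simp⟩).2 ν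
  have hc : c ≠ 0 := fun e => hν (by rw [e, AddChar.mulShift_zero])
  obtain ⟨h, hh, e⟩ := D.T_trans α hα c hc
  refine ⟨h⁻¹, inv_mem hh, fun v hv t => ?_⟩
  have := hv (c * t)
  rw [← e, mul_app, mul_app] at this
  rw [← inv_app (ρ := ρ) h (ρ (D.x α t) _), this, map_smul]
  rfl

theorem spectral (hα : α ∈ R.Lg) : ∃ P : AddChar F ℂ → V →ₗ[ℂ] V,
    (∀ v, ∑ ψ, P ψ v = v) ∧ (∀ ψ v, P ψ v ∈ D.eig ρ α ψ) ∧
      ∀ E : Submodule ℂ V, D.X α ≤ stab ρ E → ∀ ψ, ∀ v ∈ E, P ψ v ∈ E := by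
  obtain ⟨P, h1, h2, h3⟩ := exists_spectral (ρ := ρ) (D.x α) (x_zero hα) (D.x_add α hα)
  exact ⟨P, h1, fun ψ v t => h2 ψ t v, fun E hE => h3 E fun t => hE (x_mem hα t)⟩

variable (hρ : Uni ρ)
include hρ

theorem orth_eig {ψ ν : AddChar F ℂ} (h : ψ ≠ ν) (hu : u ∈ D.eig ρ α ψ) (hv : v ∈ D.eig ρ α ν) :
    ⟪u, v⟫_ℂ = 0 := by
  obtain ⟨t, ht⟩ := DFunLike.ne_iff.1 h
  exact hρ.orth (hu t) (hv t) ht

theorem orth_fix (hα : α ∈ R.Lg) (hψ : ψ ≠ 1) (hu : u ∈ fix ρ (D.X α)) (hv : v ∈ D.eig ρ α ψ) :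
    ⟪u, v⟫_ℂ = 0 := orth_eig hρ hψ.symm ((eig_one hα).2 hu) hv

theorem av_eig (hα : α ∈ R.Lg) (hψ : ψ ≠ 1) (hv : v ∈ D.eig ρ α ψ) : av ρ (D.X α) v = 0 := by
  obtain ⟨t, ht⟩ := exists_ne_one hψ
  exact hρ.av_eq_zero (x_mem hα t) (hv t) ht

theorem orth_heis (hα : α ∈ R.Lg) (hγ : γ ∈ R.Φ) (hp : R.p α γ = 1) (hψ : ψ ≠ 1)
    (hv : v ∈ D.eig ρ α ψ) (h : ∀ z ∈ D.X (α - γ), ∃ a : ℂ, ρ z u = a • u ∧ ρ z v = a • v) {y : G}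
    (hy : y ∈ D.X γ) (h1 : y ≠ 1) : ⟪u, ρ y v⟫_ℂ = 0 := by
  by_cases h0 : v = 0
  · simp [h0]
  obtain ⟨z, hz, c, hc, e⟩ := heis_app (ρ := ρ) hα hγ hp hψ hy h1
  obtain ⟨a, ha, hb⟩ := h z hz
  have e1 := e v hv
  have c0 : c ≠ 0 := fun c0 => app_ne_zero y (app_ne_zero z h0) (by rw [e1, c0, zero_smul])
  have a0 : a ≠ 0 := fun a0 => app_ne_zero z h0 (by rw [hb, a0, zero_smul])
  rw [hb, map_smul] at e1
  refine hρ.orth (b := a / c) ha ?_ fun e2 => hc ?_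
  · rw [div_eq_inv_mul, mul_smul, e1, inv_smul_smul₀ c0]
  · rw [eq_div_iff c0] at e2
    exact (mul_eq_left₀ a0).1 e2

theorem nonorth (hα : α ∈ R.Lg) (hψ : ψ ≠ 1) (hΛ : R.Lag α Λ) (hΛ' : R.Lag α Λ')
    (hv : v ∈ D.Wt ρ Λ α ψ) (h0 : v ≠ 0) : ∃ w ∈ D.Wt ρ Λ' α ψ, ⟪v, w⟫_ℂ ≠ 0 := by
  classical
  have key : ∀ S : Finset (κ → ℤ), (∀ γ ∈ S, γ ∈ Λ') →
      ∃ w ∈ D.Wt ρ {γ | γ ∈ S ∨ γ ∈ Λ ∧ α - γ ∉ S} α ψ, ⟪v, w⟫_ℂ ≠ 0 := fun S => by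
    induction S using Finset.induction_on with
    | empty => exact fun _ => ⟨v, by simpa using hv, inner_self_ne_zero.2 h0⟩
    | insert δ S hδ ih =>
      intro hS
      obtain ⟨w, hw, hne⟩ := ih fun γ hγ => hS γ (mem_insert_of_mem hγ)
      have hδ' := hS δ (mem_insert_self _ _)
      obtain ⟨d1, d2⟩ := hΛ'.1 δ hδ'
      have hn : α - δ ∉ Λ' := (hΛ'.2 δ d1 d2).1 hδ'
      have hw' : w ∈ D.Wt ρ {γ | γ ∈ S ∨ γ ∈ Λ ∧ α - γ ∉ insert δ S} α ψ :=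
        mem_Wt.2 ⟨(mem_Wt.1 hw).1, fun γ hγ => (mem_Wt.1 hw).2 γ
          (hγ.imp_right fun h => ⟨h.1, fun h' => h.2 (mem_insert_of_mem h')⟩)⟩
      have st : D.X δ ≤ stab ρ (D.Wt ρ {γ | γ ∈ S ∨ γ ∈ Λ ∧ α - γ ∉ insert δ S} α ψ) :=
        stab_Wt_p hα (fun γ hγ => hγ.elim (fun h => hΛ'.1 γ (hS γ (mem_insert_of_mem h)))
          fun h => hΛ.1 γ h.1) d1 d2.ge fun h => h.elim (fun h => hn (hS _ (mem_insert_of_mem h)))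
          fun h => h.2 (by simp)
      have hw2 := mem_Wt.1 (av_mem_of_le st hw')
      refine ⟨av ρ (D.X δ) w, mem_Wt.2 ⟨hw2.1, fun γ hγ => ?_⟩, ?_⟩
      · rcases hγ with hγ | hγ
        · rcases mem_insert.1 hγ with rfl | hγ
          exacts [av_mem _ _, hw2.2 γ (.inl hγ)]
        · exact hw2.2 γ (.inr hγ)
      · by_cases hd : δ ∈ Λ
        · rwa [hρ.inner_av_right ((mem_Wt.1 hv).2 δ hd)]
        · have hm : α - δ ∈ Λ := by_contra fun h => hd ((hΛ.2 δ d1 d2).2 h)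
          have := hρ.inner_av_zero (H := D.X δ) (u := v) (v := w) fun y hy y1 =>
            orth_heis hρ hα d1 d2 hψ (mem_Wt.1 hw).1 (fun z hz => ⟨1, by
              rw [one_smul, one_smul]
              exact ⟨(mem_Wt.1 hv).2 _ hm z hz, (mem_Wt.1 hw).2 _ (.inr ⟨hm, by simpa using hδ⟩) z hz⟩⟩)
              hy y1
          exact fun e => hne (by rw [← this, e, mul_zero])
  have hf : Λ'.Finite := R.fin.subset fun γ hγ => (hΛ'.1 γ hγ).1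
  obtain ⟨w, hw, hne⟩ := key hf.toFinset (by simp)
  exact ⟨w, mem_Wt.2 ⟨(mem_Wt.1 hw).1, fun γ hγ => (mem_Wt.1 hw).2 γ (.inl (by simpa using hγ))⟩, hne⟩

theorem finrank_le_one_of (hα : α ∈ R.Lg) (hψ : ψ ≠ 1) (hΛ : R.Lag α Λ) (hΛ' : R.Lag α Λ')
    (h : finrank ℂ (D.Wt ρ Λ α ψ) ≤ 1) : finrank ℂ (D.Wt ρ Λ' α ψ) ≤ 1 := by
  obtain ⟨w, hw⟩ := finrank_le_one_iff.1 h
  have := LinearMap.finrank_le_finrank_of_injective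
    (f := (innerₛₗ ℂ (w : V)).comp (D.Wt ρ Λ' α ψ).subtype) ((injective_iff_map_eq_zero _).2 fun v hv => by
      by_contra h0
      obtain ⟨u, hu, hne⟩ := nonorth hρ hα hψ hΛ' hΛ v.2 fun e => h0 (Subtype.ext e)
      obtain ⟨c, hc⟩ := hw ⟨u, hu⟩
      have hc' : c • (w : V) = u := congrArg Subtype.val hc
      have hv' : ⟪(w : V), (v : V)⟫_ℂ = 0 := hv
      exact hne (by rw [← hc', inner_smul_right, ← inner_conj_symm, hv']; simp))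
  simpa using this

theorem transfer (hα : α ∈ R.Lg) (hψ : ψ ≠ 1) (hΛ : R.Lag α Λ) (hΛ' : R.Lag α Λ')
    (h : finrank ℂ (D.Wt ρ Λ α ψ) ≤ 1) {g : G} (hg : g ∈ stab ρ (D.Wt ρ Λ α ψ))
    (hg' : g ∈ fxs ρ (D.Wt ρ Λ' α ψ)) : g ∈ fxs ρ (D.Wt ρ Λ α ψ) := mem_fxs.2 fun v hv => by
  by_cases h0 : v = 0
  · simp [h0]
  obtain ⟨w, hw, hne⟩ := nonorth hρ hα hψ hΛ hΛ' hv h0
  obtain ⟨c, hc⟩ := exists_smul_of_finrank h hv h0 (hg v hv)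
  by_contra hc1
  exact hne (hρ.orth hc (b := 1) (by rw [one_smul, mem_fxs.1 hg' w hw]) fun e =>
    hc1 (by rw [hc, e, one_smul]))

/-- The lines: in a small faithful representation the Lagrangian weight spaces are lines. -/
theorem finrank_eq_one (hα : α ∈ R.Lg) (hΛ : R.Lag α Λ) (hf : Λ.Finite)
    (hne : ∃ y ∈ D.X α, ∃ v, ρ y v ≠ v) (hβ : β ∈ R.Lg) (hp : R.p α β = 1) {g : G}
    (h2 : ∀ y ∈ D.X α, g⁻¹ * y * g ∈ D.X β)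
    (big : Fintype.card F * finrank ℂ V <
      2 * (Fintype.card F ^ 2 - 1) * ∏ γ ∈ hf.toFinset, Nat.card (D.X γ)) (hψ : ψ ≠ 1) :
    finrank ℂ (D.Wt ρ Λ α ψ) = 1 := by
  classical
  have hβ' := R.lg_sub β hβ
  have same : ∀ {ψ ν : AddChar F ℂ}, ψ ≠ 1 → ν ≠ 1 →
      finrank ℂ (D.eig ρ α ψ) ≤ finrank ℂ (D.eig ρ α ν) := fun hψ hν => by
    obtain ⟨h, -, e⟩ := exists_T (D := D) (ρ := ρ) hα hψ hν
    exact finrank_le_of_app h e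
  have e1 := finrank_eig (D := D) (ρ := ρ) hα hψ hf.toFinset (fun γ hγ => hΛ.1 γ (by simpa using hγ))
    fun γ hγ => by
      have hγ' : γ ∈ Λ := by simpa using hγ
      simpa using (hΛ.2 γ (hΛ.1 γ hγ').1 (hΛ.1 γ hγ').2).1 hγ'
  rw [hf.coe_toFinset] at e1
  have pos : 0 < finrank ℂ (D.eig ρ α ψ) := by
    obtain ⟨y, hy, v, hv⟩ := hne
    obtain ⟨P, h1, h2, -⟩ := spectral (D := D) (ρ := ρ) hα
    obtain ⟨ν, hν, h0⟩ : ∃ ν, ν ≠ 1 ∧ P ν v ≠ 0 := by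
      by_contra hc
      push Not at hc
      have := h1 v
      rw [Finset.sum_eq_single 1 (fun ν _ => hc ν) (by simp)] at this
      exact hv (this ▸ (eig_one hα).1 (h2 1 v) y hy)
    exact (Module.finrank_pos_iff_exists_ne_zero.2 ⟨⟨_, h2 ν v⟩, fun e => h0 (congrArg Subtype.val e)⟩).trans_le
      (same hν hψ)
  have cardψ : Fintype.card {ν : AddChar F ℂ // ν ≠ 1} = Fintype.card F - 1 := by
    simp [Fintype.card_subtype_compl]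
  set d := finrank ℂ (D.eig ρ α ψ)
  have b1 : (Fintype.card F - 1) * d + finrank ℂ (fix ρ (D.X α)) ≤ finrank ℂ V := by
    have := sum_finrank_le (D := ⊤) (fun ν : AddChar F ℂ => D.eig ρ α ν) (fun _ => le_top)
      fun _ _ h u hu v hv => orth_eig hρ h hu hv
    have e2 : D.eig ρ α 1 = fix ρ (D.X α) := by ext v; exact eig_one hα
    rw [← Finset.add_sum_erase _ _ (mem_univ 1), e2, finrank_top] at this
    have h3 := Finset.card_nsmul_le_sum (univ.erase (1 : AddChar F ℂ)) (fun ν => finrank ℂ (D.eig ρ α ν)) d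
      fun ν hν => same hψ (ne_of_mem_erase hν)
    rw [card_erase_of_mem (mem_univ _), card_univ, AddChar.card_eq, smul_eq_mul] at h3
    omega
  have b2 : (Fintype.card F - 1) * d ≤ Fintype.card F * finrank ℂ (fix ρ (D.X β)) := by
    have := sum_finrank_le (D := fix ρ (D.X β))
      (fun ν : {ν : AddChar F ℂ // ν ≠ 1} => D.eig ρ α ν ⊓ fix ρ (D.X β)) (fun _ => inf_le_right)
      fun _ _ h u hu v hv => orth_eig hρ (fun e => h (Subtype.ext e)) hu.1 hv.1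
    refine le_trans ?_ (Nat.mul_le_mul_left _ this)
    rw [Finset.mul_sum, ← cardψ, ← card_univ, ← smul_eq_mul]
    refine Finset.card_nsmul_le_sum _ _ _ fun ν _ => ?_
    rw [← card_X (D := D) hβ, ← finrank_heis hα hβ' hp ν.2 le_rfl (stab_eig hα hβ' hp.ge)
      (stab_eig hα (R.sub_mem α hα β hβ' hp) (RT.p_sub hα hp).ge)]
    exact same hψ ν.2
  have b3 : finrank ℂ (fix ρ (D.X β)) ≤ finrank ℂ (fix ρ (D.X α)) :=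
    finrank_le_of_app g fun v hv => app_mem_fix h2 hv
  set q := Fintype.card F
  obtain ⟨r, hr⟩ : ∃ r, q = r + 1 := ⟨q - 1, (Nat.sub_add_cancel Fintype.card_pos).symm⟩
  have e3 : q ^ 2 - 1 = r * (r + 2) := by rw [hr]; exact Nat.sub_eq_of_eq_add (by ring)
  rw [e3, hr] at big
  rw [hr, Nat.add_sub_cancel] at b1 b2
  set m := finrank ℂ (D.Wt ρ Λ α ψ)
  set N := ∏ γ ∈ hf.toFinset, Nat.card (D.X γ)
  have m0 : m ≠ 0 := fun e => by rw [e] at e1; omega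
  by_contra m1
  have h4 : N * 2 ≤ d := e1 ▸ Nat.mul_le_mul_left N (by omega)
  have h5 : (r + 1) * finrank ℂ (fix ρ (D.X β)) ≤ (r + 1) * finrank ℂ (fix ρ (D.X α)) :=
    Nat.mul_le_mul_left _ b3
  have h6 := Nat.mul_le_mul_left (r + 1) b1
  have h7 := Nat.mul_le_mul_left (r * (r + 2)) h4
  nlinarith

end GD

end Cfsg.Agent.H23.MD
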