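import Mathlib
import Cfsg.Agent.H23.MDRoot

/-!
The lines attached to long simple roots are fixed by all other positive root subgroups; raising;
the dimension count.
-/

set_option autoImplicit false
set_option linter.unusedSectionVars false

namespace Cfsg.Agent.H23.MD

open Module Finset
open scoped InnerProductSpace commutatorElement

variable {κ : Type} [Fintype κ] [DecidableEq κ]

namespace RT

variable (R : RT κ)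

/-- The positive Lagrangian of a simple root. -/
def Λ (i : κ) : Set (κ → ℤ) := {γ | γ ∈ R.Φ ∧ 0 ≤ γ ∧ R.p (e i) γ = 1}
/-- The positive roots not below `β`. -/
def K (β : κ → ℤ) : Set (κ → ℤ) := {γ | γ ∈ R.Φ ∧ 0 ≤ γ ∧ ¬ γ ≤ β}
/-- The positive roots. -/
def P : Set (κ → ℤ) := {γ | γ ∈ R.Φ ∧ 0 ≤ γ}

variable {R} {i j : κ} {α β γ δ : κ → ℤ}

theorem ind_down {Q : (κ → ℤ) → Prop} (h : ∀ β ∈ R.Φ, (∀ γ ∈ R.Φ, ht β < ht γ → Q γ) → Q β) :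
    ∀ β ∈ R.Φ, Q β := by
  obtain ⟨M, hM⟩ := (R.fin.image ht).bddAbove
  have : ∀ n : ℕ, ∀ β ∈ R.Φ, M - ht β < n → Q β := fun n => by
    induction n with
    | zero => intro β hβ h0; have := hM ⟨β, hβ, rfl⟩; simp at h0; omega
    | succ n ih => exact fun β hβ h0 => h β hβ fun γ hγ hlt => ih γ hγ (by push_cast at h0; omega)
  exact fun β hβ => this ((M - ht β).toNat + 1) β hβ (by push_cast; omega)

theorem ind_up {Q : (κ → ℤ) → Prop} (h : ∀ β, 0 ≤ β → (∀ γ, 0 ≤ γ → ht γ < ht β → Q γ) → Q β) :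
    ∀ β, 0 ≤ β → Q β := by
  have : ∀ n : ℕ, ∀ β : κ → ℤ, 0 ≤ β → ht β < n → Q β := fun n => by
    induction n with
    | zero => intro β hβ h0; have := ht_nonneg hβ; simp at h0; omega
    | succ n ih => exact fun β hβ h0 => h β hβ fun γ hγ hlt => ih γ hγ (by push_cast at h0; omega)
  exact fun β hβ => this ((ht β).toNat + 1) β hβ (by push_cast; omega)

theorem mem_K_e : γ ∈ R.K (e i) ↔ γ ∈ R.Φ ∧ 0 ≤ γ ∧ γ ≠ e i := by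
  refine ⟨fun h => ⟨h.1, h.2.1, fun e0 => h.2.2 e0.le⟩, fun h => ⟨h.1, h.2.1, fun h' => ?_⟩⟩
  obtain ⟨j, hj, h0⟩ := exists_coord h.1 h.2.1 h.2.2
  have : γ j ≤ e i j := h' j
  rw [e_ne hj] at this
  omega

theorem pos_iff_sub (hi : e i ∈ R.Lg) (h : γ ∈ R.Φ) (hp : R.p (e i) γ = 1) :
    0 ≤ γ ↔ ¬ 0 ≤ e i - γ := by
  refine ⟨fun h1 h2 => ?_, fun h1 => (R.pos_or γ h).resolve_right fun h2 => h1 fun j => ?_⟩
  · obtain ⟨j, hj, h0⟩ := exists_coord h h1 (i := i) fun e0 => by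
      rw [e0, R.p_self _ hi] at hp; omega
    have := h2 j
    simp only [Pi.sub_apply, e_ne hj, Pi.zero_apply] at this
    omega
  · have := h2 j
    have := e_nonneg i j
    simp only [Pi.sub_apply, Pi.zero_apply] at *
    omega

theorem lag_Λ (hi : e i ∈ R.Lg) : R.Lag (e i) (R.Λ i) :=
  ⟨fun _ h => ⟨h.1, h.2.2⟩, fun γ h hp =>
    ⟨fun h1 h2 => (pos_iff_sub hi h hp).1 h1.2.1 h2.2.1, fun h1 => ⟨h, (pos_iff_sub hi h hp).2 fun h2 =>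
      h1 ⟨R.sub_mem _ hi γ h hp, h2, p_sub hi hp⟩, hp⟩⟩⟩

theorem coord_Λ (hi : e i ∈ R.Lg) (h : γ = e i ∨ γ ∈ R.Λ i) : 1 ≤ γ i := by
  rcases h with rfl | h
  · exact (e_self i).ge
  have := ((R.pos_or _ (R.sub_mem _ hi γ h.1 h.2.2)).resolve_left
    ((pos_iff_sub hi h.1 h.2.2).1 h.2.1)) i
  simp only [Pi.sub_apply, e_self, Pi.zero_apply] at this
  omega

theorem exists_f (hγ : 1 ≤ R.p α γ) (hδ : δ ∈ R.Φ) (h0 : R.p α δ = 0) :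
    ∃ f : (κ → ℤ) →ₗ[ℤ] ℤ, 0 < f γ ∧ 0 < f δ := by
  obtain ⟨g, hg⟩ : ∃ g : (κ → ℤ) →ₗ[ℤ] ℤ, 0 < g δ := by
    rcases R.pos_or δ hδ with h | h
    · exact ⟨ht, ht_pos hδ h⟩
    · exact ⟨-ht, by simpa using ht_pos (R.neg_mem δ hδ) (neg_nonneg.2 h)⟩
  refine ⟨(|g γ| + 1) • R.p α + g, ?_, by simpa [h0] using hg⟩
  simp only [LinearMap.add_apply, LinearMap.smul_apply, smul_eq_mul]
  nlinarith [abs_nonneg (g γ), neg_abs_le (g γ)]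

theorem cb_pos (hγ : 0 ≤ γ) (hδ : 0 ≤ δ) (h : β ∈ R.cb γ δ) : γ + δ ≤ β := by
  obtain ⟨-, a, b, ha, hb, rfl⟩ := h
  intro j
  have h1 : 0 ≤ γ j := hγ j
  have h2 : 0 ≤ δ j := hδ j
  simp only [Pi.add_apply, Pi.smul_apply, smul_eq_mul]
  nlinarith

theorem ht_mono {γ δ : κ → ℤ} (h : γ ≤ δ) : ht γ ≤ ht δ := sum_le_sum fun j _ => h j

theorem cb_K (hγ : γ = β ∨ γ ∈ R.K β) (hβ : 0 ≤ β) (hδ : δ ∈ R.Φ) (h0 : 0 ≤ δ) {ε : κ → ℤ}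
    (h : ε ∈ R.cb γ δ) : ε ∈ R.K β := by
  have h1 : 0 ≤ γ := hγ.elim (fun e => e ▸ hβ) fun h => h.2.1
  have h2 := cb_pos h1 h0 h
  refine ⟨h.1, (add_nonneg h1 h0).trans h2, fun h3 => ?_⟩
  rcases hγ with rfl | hγ
  · have := ht_mono (h2.trans h3)
    have := ht_pos hδ h0
    rw [map_add] at *
    omega
  · exact hγ.2.2 ((le_add_of_nonneg_right h0).trans (h2.trans h3))

end RT

namespace GD

variable {R : RT κ} {F : Type*} [Field F] [Fintype F] {G : Type*} [Group G] [Finite G]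
  (D : GD R F G) {V : Type*} [NormedAddCommGroup V] [InnerProductSpace ℂ V] [FiniteDimensional ℂ V]
  (ρ : Representation ℂ G V)

/-- A torus element centralising `X α` acts fixed point freely on `X δ`. -/
def Tor (α δ : κ → ℤ) : Prop :=
  ∃ h ∈ D.T, (∀ t, Commute (D.x α t) h) ∧ ∀ y ∈ D.X δ, h * y * h⁻¹ = y → y = 1

/-- The combinatorial conditions at a long simple root. -/
structure Cond (i : κ) : Prop where
  lg : e i ∈ R.Lg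
  h0 : ∀ δ ∈ R.Φ, R.p (e i) δ = 0 → D.Tor (e i) δ ∨
    (δ ∈ R.Lg ∧ ∃ ε ∈ R.Φ, R.p (e i) ε = 0 ∧ R.p δ ε = 1)
  h1 : ∀ β ∈ R.Φ, 0 ≤ β → R.p (e i) β = -1 → 0 < β i → D.Tor (e i) β ∨
    (β ∈ R.Lg ∧ ∃ ε ∈ R.Φ, 0 ≤ ε ∧ 0 ≤ β - ε ∧ R.p β ε = 1 ∧ (ε ∈ R.Lg ∨ 0 ≤ R.p (e i) ε) ∧
      (β - ε ∈ R.Lg ∨ 0 ≤ R.p (e i) (β - ε)))
  h2 : ∀ δ ∈ R.Φ, 0 ≤ δ → R.p (e i) δ = -1 → D.Tor (e i) δ ∨
    (δ ∈ R.Lg ∧ ((∃ ε ∈ R.Φ, 0 ≤ ε ∧ 0 ≤ δ - ε ∧ R.p δ ε = 1) ∨ ∃ j, δ = e j))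

/-- The condition for a simple neighbour. -/
def Nb (i j : κ) : Prop := D.Tor (e i) (e j) ∨ ∃ k, R.p (e i) (e k) = 0 ∧ R.c k (e j) < 0

/-- The Lagrangian weight spaces are lines. -/
def Line (i : κ) : Prop := ∀ ψ : AddChar F ℂ, ψ ≠ 1 → finrank ℂ (D.Wt ρ (R.Λ i) (e i) ψ) = 1

variable {D ρ} {α β γ δ ε : κ → ℤ} {ψ : AddChar F ℂ} {S : Set (κ → ℤ)} {u v : V} {i j : κ}

theorem kill_tor (hS : ∀ γ ∈ S, γ ∈ R.Φ) (hL : finrank ℂ (D.Wt ρ S α ψ) ≤ 1) (hδ : δ ∈ R.Φ)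
    (h : D.Tor α δ) (st : D.X δ ≤ stab ρ (D.Wt ρ S α ψ)) : D.X δ ≤ fxs ρ (D.Wt ρ S α ψ) := by
  obtain ⟨h, hh, hc, hf⟩ := h
  let φ : D.X δ → D.X δ := fun z => ⟨h * z * h⁻¹ * (z : G)⁻¹,
    mul_mem (D.T_conj h hh δ hδ z z.2) (inv_mem z.2)⟩
  have inj : Function.Injective φ := fun z w e0 => by
    have e1 : h * z * h⁻¹ * (z : G)⁻¹ = h * w * h⁻¹ * (w : G)⁻¹ := congrArg Subtype.val e0
    have := hf ((w : G)⁻¹ * z) (mul_mem (inv_mem w.2) z.2) (by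
      calc h * ((w : G)⁻¹ * z) * h⁻¹ = (h * w * h⁻¹)⁻¹ * (h * z * h⁻¹ * (z : G)⁻¹) * z := by group
        _ = _ := by rw [e1]; group)
    exact Subtype.ext (inv_mul_eq_one.1 this).symm
  intro y hy
  obtain ⟨z, hz⟩ := Finite.surjective_of_injective inj ⟨y, hy⟩
  rw [← show ⁅h, (z : G)⁆ = y from congrArg Subtype.val hz]
  exact comm_mem_fxs hL (T_stab_Wt hS hh hc) (st z.2)

theorem kill_heis {E : Submodule ℂ V} (hL : finrank ℂ E ≤ 1) (hδ : δ ∈ R.Lg) (hε : ε ∈ R.Φ)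
    (hp : R.p δ ε = 1) (h1 : D.X ε ≤ stab ρ E) (h2 : D.X (δ - ε) ≤ stab ρ E) : D.X δ ≤ fxs ρ E := by
  intro y hy
  obtain ⟨t, rfl⟩ := (D.mem_X δ hδ y).1 hy
  obtain ⟨w, hw, w1⟩ := D.X_ne ε hε
  obtain ⟨z, hz, e0⟩ := D.heis δ hδ ε hε hp w hw w1 t
  rw [← e0]
  exact comm_mem_fxs hL (h1 hw) (h2 hz)

theorem stab_Wt' (hα : α ∈ R.Lg) (hS : ∀ γ ∈ S, γ ∈ R.Φ) (hδ : δ ∈ R.Φ)
    (hf : ∀ γ, γ = α ∨ γ ∈ S → ∃ f : (κ → ℤ) →ₗ[ℤ] ℤ, 0 < f γ ∧ 0 < f δ)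
    (h : ∀ γ, γ = α ∨ γ ∈ S → ∀ β ∈ R.cb γ δ, D.X β ≤ fxs ρ (D.Wt ρ S α ψ)) :
    D.X δ ≤ stab ρ (D.Wt ρ S α ψ) := fun z hz v hv => by
  have k : ∀ γ, γ = α ∨ γ ∈ S → ∀ β ∈ R.cb γ δ, v ∈ fix ρ (D.X β) := fun γ hγ β hβ y hy =>
    mem_fxs.1 (h γ hγ β hβ hy) v hv
  refine mem_Wt.2 ⟨fun t => ?_, fun γ hγ y hy => ?_⟩
  · obtain ⟨f, h1, h2⟩ := hf α (.inl rfl)
    rw [app_comm (R.lg_sub α hα) hδ f h1 h2 (k α (.inl rfl)) (x_mem hα t) hz, (mem_Wt.1 hv).1 t, map_smul]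
  · obtain ⟨f, h1, h2⟩ := hf γ (.inr hγ)
    rw [app_comm (hS γ hγ) hδ f h1 h2 (k γ (.inr hγ)) hy hz, (mem_Wt.1 hv).2 γ hγ y hy]

theorem st_perp (hα : α ∈ R.Lg) (hS : ∀ γ ∈ S, γ ∈ R.Φ ∧ R.p α γ = 1) (hδ : δ ∈ R.Φ)
    (h0 : R.p α δ = 0) (h1 : ∀ γ ∈ S, ∀ b : ℤ, 1 ≤ b → γ + b • δ ∈ R.Φ → γ + b • δ ∈ S)
    (h2 : ∀ γ ∈ S, ∀ b : ℤ, 1 ≤ b → (2 : ℤ) • γ + b • δ ≠ α) : D.X δ ≤ stab ρ (D.Wt ρ S α ψ) := by
  refine stab_Wt' hα (fun γ hγ => (hS γ hγ).1) hδ (fun γ hγ => RT.exists_f (α := α) ?_ hδ h0) ?_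
  · rcases hγ with rfl | hγ
    · rw [R.p_self _ hα]; norm_num
    · exact (hS γ hγ).2.ge
  rintro γ hγ β ⟨hβ, a, b, ha, hb, rfl⟩
  have e1 := p_comb (R.p α) a b γ δ
  rw [h0, mul_zero, add_zero] at e1
  rcases hγ with rfl | hγ
  · rw [R.p_self _ hα] at e1
    have e2 := RT.eq_of_two_le hα hβ (by omega)
    rw [e2, R.p_self _ hα] at e1
    obtain rfl : a = 1 := by omega
    rw [one_smul, add_eq_left, smul_eq_zero] at e2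
    exact absurd e2 (not_or.2 ⟨by omega, R.ne_zero δ hδ⟩)
  · rw [(hS γ hγ).2, mul_one] at e1
    rcases ha.eq_or_lt with rfl | ha
    · rw [one_smul] at hβ ⊢
      exact le_fxs_Wt (h1 γ hγ b hb hβ)
    · have e2 := RT.eq_of_two_le hα hβ (by omega)
      rw [e2, R.p_self _ hα] at e1
      subst e1
      exact absurd e2 (h2 γ hγ b hb)

theorem st0 (hi : e i ∈ R.Lg) (hδ : δ ∈ R.Φ) (h0 : R.p (e i) δ = 0) (h1 : 0 ≤ δ i) :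
    D.X δ ≤ stab ρ (D.Wt ρ (R.Λ i) (e i) ψ) :=
  st_perp hi (RT.lag_Λ hi).1 hδ h0 (fun γ hγ b hb h => ⟨h, RT.pos_of_coord h (j := i) (by
      have := RT.coord_Λ hi (.inr hγ)
      simp only [Pi.add_apply, Pi.smul_apply, smul_eq_mul]
      nlinarith), by rw [map_add, map_smul, h0, hγ.2.2]; simp⟩) fun γ hγ b hb h => by
    have := RT.coord_Λ hi (.inr hγ)
    have h2 := congrFun h i
    simp only [Pi.add_apply, Pi.smul_apply, smul_eq_mul, e_self] at h2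
    nlinarith

theorem stab_K (hβ : β ∈ R.Lg) (h0 : 0 ≤ β) (hδ : δ ∈ R.Φ) (h1 : 0 ≤ δ) :
    D.X δ ≤ stab ρ (D.Wt ρ (R.K β) β ψ) :=
  stab_Wt hβ (fun _ h => h.1) hδ ht (RT.ht_pos (R.lg_sub β hβ) h0) (fun _ h => RT.ht_pos h.1 h.2.1)
    (RT.ht_pos hδ h1) fun _ hγ _ h => le_fxs_Wt (RT.cb_K hγ h0 hδ h1 h)

variable (hρ : Uni ρ)
include hρ

theorem Cond.fx0 (c : D.Cond i) (hψ : ψ ≠ 1) (hL : finrank ℂ (D.Wt ρ (R.Λ i) (e i) ψ) ≤ 1)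
    (hδ : δ ∈ R.Φ) (h0 : R.p (e i) δ = 0) (h1 : 0 ≤ δ i) :
    D.X δ ≤ fxs ρ (D.Wt ρ (R.Λ i) (e i) ψ) := by
  have st := st0 (D := D) (ρ := ρ) (ψ := ψ) c.lg hδ h0 h1
  rcases c.h0 δ hδ h0 with h | ⟨hl, ε, hε, e0, e1⟩
  · exact kill_tor (fun _ h => h.1) hL hδ h st
  have ha : R.p δ (e i) = 0 := by rw [← R.p_symm _ c.lg _ hl, h0]
  let Λ' : Set (κ → ℤ) := {γ | (γ ∈ R.Φ ∧ R.p (e i) γ = 1) ∧ (0 < R.p δ γ ∨ R.p δ γ = 0 ∧ 0 ≤ γ)}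
  have lag : R.Lag (e i) Λ' := ⟨fun _ h => h.1, fun γ hγ hp => by
    have := RT.pos_iff_sub c.lg hγ hp
    have h2 : R.p δ (e i - γ) = -R.p δ γ := by rw [map_sub, ha, zero_sub]
    simp only [Λ', Set.mem_ofPred_eq, hγ, hp, R.sub_mem _ c.lg γ hγ hp, RT.p_sub c.lg hp, h2,
      true_and, and_self, this]
    by_cases h : 0 ≤ e i - γ <;>
      simp only [h, not_true, not_false_iff, and_true, and_false, or_false] <;> omega⟩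
  have key : ∀ ε ∈ R.Φ, R.p (e i) ε = 0 → R.p δ ε = 1 → D.X ε ≤ stab ρ (D.Wt ρ Λ' (e i) ψ) :=
    fun ε hε e0 e1 => st_perp c.lg lag.1 hε e0 (fun γ hγ b hb h => ⟨⟨h, by
        rw [map_add, map_smul, e0, hγ.1.2]; simp⟩, .inl (by
        rw [map_add, map_smul, e1, smul_eq_mul]
        rcases hγ.2 with h | h <;> omega)⟩) fun γ hγ b hb h => by
      have := p_comb (R.p δ) 2 b γ ε
      rw [h, ha, e1] at this
      rcases hγ.2 with h | h <;> omega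
  have := kill_heis (finrank_le_one_of hρ c.lg hψ (RT.lag_Λ c.lg) lag hL) hl hε e1 (key ε hε e0 e1)
    (key _ (R.sub_mem δ hl ε hε e1) (by rw [map_sub, h0, e0]; rfl) (RT.p_sub hl e1))
  exact fun y hy => transfer hρ c.lg hψ (RT.lag_Λ c.lg) lag hL (st hy) (this hy)

theorem Cond.st_pos (c : D.Cond i) (hψ : ψ ≠ 1) (hL : finrank ℂ (D.Wt ρ (R.Λ i) (e i) ψ) ≤ 1)
    (hδ : δ ∈ R.Φ) (h0 : 0 ≤ δ) (h : ∀ γ, γ = e i ∨ γ ∈ R.Λ i → ∀ β ∈ R.cb γ δ, 0 ≤ β →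
      R.p (e i) β = -1 → 0 < β i → ht δ < ht β → D.X β ≤ fxs ρ (D.Wt ρ (R.Λ i) (e i) ψ)) :
    D.X δ ≤ stab ρ (D.Wt ρ (R.Λ i) (e i) ψ) := by
  refine stab_Wt c.lg (fun _ h => h.1) hδ ht (by rw [ht_e]; norm_num) (fun _ h => RT.ht_pos h.1 h.2.1)
    (RT.ht_pos hδ h0) fun γ hγ β hβ => ?_
  have g0 : 0 ≤ γ := hγ.elim (fun e0 => e0 ▸ e_nonneg i) fun h => h.2.1
  have g1 : 0 < ht γ := hγ.elim (fun e0 => by rw [e0, ht_e]; norm_num) fun h => RT.ht_pos h.1 h.2.1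
  have h2 := RT.cb_pos g0 h0 hβ
  have h3 : 0 ≤ β := (add_nonneg g0 h0).trans h2
  have h4 := RT.ht_mono h2
  have h5 := RT.ht_pos hδ h0
  rw [map_add] at h4
  have h6 := R.p_le _ c.lg β hβ.1 fun e0 => by rw [e0, ht_e] at h4; omega
  have h7 := RT.p_ge c.lg hβ.1 fun e0 => by rw [e0, map_neg, ht_e] at h4; omega
  have h8 : 0 < β i := by
    have := h2 i
    have := RT.coord_Λ c.lg hγ
    have : 0 ≤ δ i := h0 i
    simp only [Pi.add_apply] at *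
    omega
  rcases (by omega : R.p (e i) β = 1 ∨ R.p (e i) β = 0 ∨ R.p (e i) β = -1) with e0 | e0 | e0
  · exact le_fxs_Wt ⟨hβ.1, h3, e0⟩
  · exact c.fx0 hρ hψ hL hβ.1 e0 h8.le
  · exact h γ hγ β hβ h3 e0 h8 (by omega)

theorem Cond.st_good (c : D.Cond i) (hψ : ψ ≠ 1) (hL : finrank ℂ (D.Wt ρ (R.Λ i) (e i) ψ) ≤ 1)
    (hδ : δ ∈ R.Φ) (h0 : 0 ≤ δ) (h : δ ∈ R.Lg ∨ 0 ≤ R.p (e i) δ) :
    D.X δ ≤ stab ρ (D.Wt ρ (R.Λ i) (e i) ψ) := by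
  refine c.st_pos hρ hψ hL hδ h0 fun γ hγ β hβ _ e0 _ hlt => ?_
  exfalso
  obtain ⟨hβ, a, b, ha, hb, rfl⟩ := hβ
  have g0 : γ ∈ R.Φ ∧ 0 ≤ γ ∧ 1 ≤ R.p (e i) γ := by
    rcases hγ with rfl | hγ
    · exact ⟨R.e_mem i, e_nonneg i, by rw [R.p_self _ c.lg]; norm_num⟩
    · exact ⟨hγ.1, hγ.2.1, hγ.2.2.ge⟩
  rw [p_comb] at e0
  rcases h with h | h
  · have h1 := R.p_le δ h _ hβ fun e1 => by rw [e1] at hlt; omega
    have h2 := RT.p_ge h g0.1 fun e1 => RT.not_pos_neg hδ h0 (neg_nonneg.1 (e1 ▸ g0.2.1))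
    have h3 := RT.p_ge c.lg hδ fun e1 => RT.not_pos_neg hδ h0 (e1 ▸ neg_nonpos.2 (e_nonneg i))
    rw [p_comb, R.p_self δ h] at h1
    nlinarith [g0.2.2]
  · nlinarith [g0.2.2]

theorem Cond.st (c : D.Cond i) (hψ : ψ ≠ 1) (hL : finrank ℂ (D.Wt ρ (R.Λ i) (e i) ψ) ≤ 1)
    (hδ : δ ∈ R.Φ) (h0 : 0 ≤ δ) : D.X δ ≤ stab ρ (D.Wt ρ (R.Λ i) (e i) ψ) := by
  have key : ∀ β ∈ R.Φ, 0 ≤ β → R.p (e i) β = -1 → 0 < β i →
      D.X β ≤ fxs ρ (D.Wt ρ (R.Λ i) (e i) ψ) := RT.ind_down fun β hβ ih b0 b1 b2 => by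
    rcases c.h1 β hβ b0 b1 b2 with h | ⟨hl, ε, hε, e0, e1, e2, e3, e4⟩
    · exact kill_tor (fun _ h => h.1) hL hβ h
        (c.st_pos hρ hψ hL hβ b0 fun _ _ β' h1 h2 h3 h4 h5 => ih β' h1.1 h5 h2 h3 h4)
    · exact kill_heis hL hl hε e2 (c.st_good hρ hψ hL hε e0 e3)
        (c.st_good hρ hψ hL (R.sub_mem β hl ε hε e2) e1 e4)
  exact c.st_pos hρ hψ hL hδ h0 fun _ _ β h1 h2 h3 h4 _ => key β h1.1 h2 h3 h4

theorem Cond.fx (c : D.Cond i) (hψ : ψ ≠ 1) (hL : finrank ℂ (D.Wt ρ (R.Λ i) (e i) ψ) ≤ 1)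
    (hδ : δ ∈ R.Φ) (h0 : 0 ≤ δ) (h1 : δ ≠ e i) :
    D.X δ ≤ fxs ρ (D.Wt ρ (R.Λ i) (e i) ψ) ∨ ∃ j, δ = e j ∧ δ ∈ R.Lg ∧ R.p (e i) δ = -1 := by
  have h6 := R.p_le _ c.lg δ hδ h1
  have h7 := RT.p_ge c.lg hδ fun e1 => RT.not_pos_neg hδ h0 (e1 ▸ neg_nonpos.2 (e_nonneg i))
  rcases (by omega : R.p (e i) δ = 1 ∨ R.p (e i) δ = 0 ∨ R.p (e i) δ = -1) with e0 | e0 | e0
  · exact .inl (le_fxs_Wt ⟨hδ, h0, e0⟩)
  · exact .inl (c.fx0 hρ hψ hL hδ e0 (h0 i))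
  rcases c.h2 δ hδ h0 e0 with h | ⟨hl, ⟨ε, hε, e1, e2, e3⟩ | ⟨j, hj⟩⟩
  · exact .inl (kill_tor (fun _ h => h.1) hL hδ h (c.st hρ hψ hL hδ h0))
  · exact .inl (kill_heis hL hl hε e3 (c.st hρ hψ hL hε e1)
      (c.st hρ hψ hL (R.sub_mem δ hl ε hε e3) e2))
  · exact .inr ⟨j, hj, hl, e0⟩

theorem Cond.n_fxs (c : D.Cond i) (hψ : ψ ≠ 1) (hL : finrank ℂ (D.Wt ρ (R.Λ i) (e i) ψ) ≤ 1) {k : κ}
    (h : R.p (e i) (e k) = 0) : D.X (e k) ⊔ D.X (-e k) ≤ fxs ρ (D.Wt ρ (R.Λ i) (e i) ψ) := by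
  have hk : i ≠ k := fun e0 => by rw [← e0, R.p_self _ c.lg] at h; omega
  exact sup_le (c.fx0 hρ hψ hL (R.e_mem k) h (e_nonneg k i))
    (c.fx0 hρ hψ hL (R.neg_mem _ (R.e_mem k)) (by rw [map_neg, h, neg_zero]) (by simp [e_ne hk]))

theorem Cond.fx_nb (c : D.Cond i) (hψ : ψ ≠ 1) (hL : finrank ℂ (D.Wt ρ (R.Λ i) (e i) ψ) ≤ 1)
    (h : D.Nb i j) : D.X (e j) ≤ fxs ρ (D.Wt ρ (R.Λ i) (e i) ψ) := by
  rcases h with h | ⟨k, h1, h2⟩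
  · exact kill_tor (fun _ h => h.1) hL (R.e_mem j) h (c.st hρ hψ hL (R.e_mem j) (e_nonneg j))
  have hjk : j ≠ k := fun e0 => by rw [e0, R.c_self] at h2; omega
  have s1 : R.s k (e j) j = 1 := by rw [RT.s_ne hjk, e_self]
  have s2 : 0 < R.s k (e j) k := by rw [RT.s_self, e_ne hjk.symm]; omega
  have ns : ∀ l, R.s k (e j) ≠ e l := fun l e0 => by
    rw [e0] at s1 s2
    by_cases h : j = l
    · rw [← h, e_ne hjk.symm] at s2; omega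
    · rw [e_ne h] at s1; omega
  have hm := RT.s_mem k (R.e_mem j)
  rcases c.fx hρ hψ hL hm (RT.pos_of_coord hm s2) (ns i) with h | ⟨l, h, -⟩
  · intro y hy
    have hn := c.n_fxs hρ hψ hL h1 (D.n_mem k)
    have := mul_mem (mul_mem (inv_mem hn) (h (D.n_conj k _ (R.e_mem j) y hy))) hn
    simpa [mul_assoc] using this
  · exact absurd h (ns l)

/-- The line is fixed by all positive root subgroups other than that of the simple root. -/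
theorem Cond.fx_K (c : D.Cond i) (hL : D.Line ρ i)
    (h : ∀ j, e j ∈ R.Lg → R.p (e i) (e j) = -1 → D.Nb i j ∨ (D.Cond j ∧ D.Line ρ j ∧ D.Nb j i))
    (hψ : ψ ≠ 1) : D.Wt ρ (R.Λ i) (e i) ψ = D.Wt ρ (R.K (e i)) (e i) ψ := by
  have hL1 := (hL ψ hψ).le
  refine le_antisymm (fun v hv => mem_Wt.2 ⟨(mem_Wt.1 hv).1, fun δ hδ y hy => ?_⟩) fun v hv =>
    mem_Wt.2 ⟨(mem_Wt.1 hv).1, fun δ hδ => (mem_Wt.1 hv).2 δ (RT.mem_K_e.2 ⟨hδ.1, hδ.2.1, fun e0 => by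
      have := hδ.2.2
      rw [e0, R.p_self _ c.lg] at this
      omega⟩)⟩
  obtain ⟨d1, d2, d3⟩ := RT.mem_K_e.1 hδ
  rcases c.fx hρ hψ hL1 d1 d2 d3 with h1 | ⟨j, rfl, hj, hp⟩
  · exact mem_fxs.1 (h1 hy) v hv
  rcases h j hj hp with h1 | ⟨c', hL', h1⟩
  · exact mem_fxs.1 (c.fx_nb hρ hψ hL1 h1 hy) v hv
  by_cases h0 : v = 0
  · simp [h0]
  obtain ⟨Q, q1, q2, q3⟩ := spectral (D := D) (ρ := ρ) hj
  have z : ∀ ν, ν ≠ 1 → Q ν v = 0 := fun ν hν => by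
    have m1 := q3 _ (c.st hρ hψ hL1 d1 d2) ν v hv
    have m2 : Q ν v ∈ D.Wt ρ (R.Λ j) (e j) ν := mem_Wt.2 ⟨q2 ν v, fun γ hγ y hy => by
      have ns : ∀ l, γ ≠ e l := fun l e0 => by
        have h2 := RT.coord_Λ hj (.inr hγ)
        have h3 := hγ.2.2
        by_cases hl : j = l
        · rw [e0, ← hl, R.p_self _ hj] at h3; omega
        · rw [e0, e_ne hl] at h2; omega
      rcases c.fx hρ hψ hL1 hγ.1 hγ.2.1 (ns i) with h2 | ⟨l, h2, -⟩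
      · exact mem_fxs.1 (h2 hy) _ m1
      · exact absurd h2 (ns l)⟩
    have m3 : Q ν v ∈ fix ρ (D.X (e i)) := fun y hy =>
      mem_fxs.1 (c'.fx_nb hρ hν (hL' ν hν).le h1 hy) _ m2
    exact inner_self_eq_zero.1 (orth_fix hρ c.lg hψ m3 (mem_Wt.1 m1).1)
  have := q1 v
  rw [Finset.sum_eq_single 1 (fun ν _ => z ν) (by simp)] at this
  exact this ▸ (eig_one hj).1 (q2 1 v) y hy

omit hρ in
theorem raise (dd : (κ → ℤ) → ℕ)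
    (base : ∀ i, e i ∈ R.Lg → ∀ ψ : AddChar F ℂ, ψ ≠ 1 → 1 ≤ finrank ℂ (D.Wt ρ (R.K (e i)) (e i) ψ))
    (h : ∀ β ∈ R.Lg, 0 ≤ β → (∃ i, β = e i ∧ dd β ≤ 1) ∨ ∃ i, 0 < R.c i β ∧ R.p β (e i) = 1 ∧
      0 ≤ R.s i β ∧ (∀ γ ∈ R.Φ, γ ≠ e i → R.c i γ ≤ R.c i β) ∧
      dd β ≤ Nat.card (D.X (β - e i)) * dd (R.s i β)) :
    ∀ β, 0 ≤ β → β ∈ R.Lg → ∀ ψ : AddChar F ℂ, ψ ≠ 1 → dd β ≤ finrank ℂ (D.Wt ρ (R.K β) β ψ) :=
  RT.ind_up fun β b0 ih hβ ψ hψ => by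
    rcases h β hβ b0 with ⟨i, rfl, h1⟩ | ⟨i, h1, h2, h3, h4, h5⟩
    · exact h1.trans (base i hβ ψ hψ)
    have hβ' := RT.s_lg i hβ
    have hγ := R.sub_mem β hβ _ (R.e_mem i) h2
    have g0 : 0 ≤ β - e i := fun j => by
      have := h3 j
      by_cases hj : j = i
      · subst hj
        simp only [RT.s_self, Pi.sub_apply, e_self, Pi.zero_apply] at *
        omega
      · simpa [RT.s_ne hj, e_ne hj] using this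
    obtain ⟨ν, hν, tr⟩ := trans_B (D := D) (ρ := ρ) hβ' hβ (g := D.n i)
      (fun y hy => by simpa [RT.s_s] using D.n_conj i _ (R.lg_sub _ hβ') y hy)
      (fun y hy => n_conj' i (R.lg_sub _ hβ) hy) hψ
    have i1 := ih _ h3 (by simp only [RT.s, map_sub, map_smul, ht_e, smul_eq_mul]; omega) hβ' ν hν
    rw [finrank_heis hβ hγ (RT.p_sub hβ h2) hψ (E := D.Wt ρ (R.K β) β ψ) inf_le_left
      (stab_K hβ b0 hγ g0) (by rw [sub_sub_cancel]; exact stab_K hβ b0 (R.e_mem i) (e_nonneg i))]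
    refine h5.trans (Nat.mul_le_mul_left _ (i1.trans (finrank_le_of_app (ρ := ρ) (D.n i) fun v hv => ?_)))
    have key : ∀ γ ∈ R.Φ, R.s i γ ∈ R.K (R.s i β) → ρ (D.n i) v ∈ fix ρ (D.X γ) := fun γ hγ hK => by
      simpa [RT.s_s] using n_fix i (RT.s_mem i hγ) ((mem_Wt.1 hv).2 _ hK)
    refine ⟨mem_Wt.2 ⟨tr v (mem_Wt.1 hv).1, fun γ hγ => key γ hγ.1 ?_⟩, key _ hγ ?_⟩
    · have ne : γ ≠ e i := fun e0 => hγ.2.2 (e0 ▸ sub_nonneg.1 g0)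
      refine ⟨RT.s_mem i hγ.1, RT.s_pos hγ.1 hγ.2.1 ne, fun hle => hγ.2.2 fun j => ?_⟩
      have : R.s i γ j ≤ R.s i β j := hle j
      have h6 := h4 γ hγ.1 ne
      by_cases hj : j = i
      · subst hj
        simp only [RT.s_self] at this
        show γ j ≤ β j
        omega
      · simpa [RT.s_ne hj] using this
    · have e1 : R.s i (β - e i) = R.s i β + e i := by
        rw [sub_eq_add_neg, RT.s_add, RT.s_neg_e]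
      refine ⟨RT.s_mem i hγ, e1 ▸ add_nonneg h3 (e_nonneg i), fun hle => ?_⟩
      have : R.s i (β - e i) i ≤ R.s i β i := hle i
      rw [e1, Pi.add_apply, e_self] at this
      omega

theorem count (dd : (κ → ℤ) → ℕ) (B : Finset (κ → ℤ)) (hB : ∀ β ∈ B, β ∈ R.Lg ∧ 0 ≤ β)
    (h : ∀ β ∈ B, ∀ ψ : AddChar F ℂ, ψ ≠ 1 → dd β ≤ finrank ℂ (D.Wt ρ (R.K β) β ψ)) :
    (Fintype.card F - 1) * ∑ β ∈ B, dd β + finrank ℂ (D.Fx ρ R.P) ≤ finrank ℂ V := by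
  classical
  let W : Option (B × {ψ : AddChar F ℂ // ψ ≠ 1}) → Submodule ℂ V := fun o =>
    o.elim (D.Fx ρ R.P) fun b => D.Wt ρ (R.K b.1) b.1 b.2
  have o1 : ∀ (b : B × {ψ : AddChar F ℂ // ψ ≠ 1}), ∀ u ∈ W none, ∀ v ∈ W (some b), ⟪u, v⟫_ℂ = 0 :=
    fun b u hu v hv => orth_fix hρ (hB _ b.1.2).1 b.2.2
      (mem_Fx.1 hu _ ⟨R.lg_sub _ (hB _ b.1.2).1, (hB _ b.1.2).2⟩) (mem_Wt.1 hv).1
  have o2 : ∀ b b' : B × {ψ : AddChar F ℂ // ψ ≠ 1}, ¬ (b'.1 : κ → ℤ) ≤ b.1 → ∀ u ∈ W (some b),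
      ∀ v ∈ W (some b'), ⟪u, v⟫_ℂ = 0 := fun b b' hb u hu v hv => orth_fix hρ (hB _ b'.1.2).1 b'.2.2
      ((mem_Wt.1 hu).2 _ ⟨R.lg_sub _ (hB _ b'.1.2).1, (hB _ b'.1.2).2, hb⟩) (mem_Wt.1 hv).1
  have := sum_finrank_le (D := ⊤) W (fun _ => le_top) (by
    rintro (_ | b) (_ | b') hne u hu v hv
    · exact absurd rfl hne
    · exact o1 b' u hu v hv
    · rw [← inner_conj_symm, o1 b v hv u hu, map_zero]
    · by_cases h1 : (b'.1 : κ → ℤ) ≤ b.1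
      · by_cases h2 : (b.1 : κ → ℤ) ≤ b'.1
        · have e1 : b.1 = b'.1 := Subtype.ext (le_antisymm h2 h1)
          have hv' : v ∈ D.eig ρ b.1 b'.2 := e1 ▸ (mem_Wt.1 hv).1
          refine orth_eig hρ (fun e2 => hne ?_) (mem_Wt.1 hu).1 hv'
          rw [Prod.ext e1 (Subtype.ext e2)]
        · rw [← inner_conj_symm, o2 b' b h2 v hv u hu, map_zero]
      · exact o2 b b' h1 u hu v hv)
  rw [Fintype.sum_option, finrank_top, add_comm] at this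
  refine le_trans (Nat.add_le_add_right ?_ _) this
  rw [Fintype.sum_prod_type, Finset.mul_sum, ← Finset.sum_coe_sort B]
  refine Finset.sum_le_sum fun b _ => ?_
  have cardψ : Fintype.card {ν : AddChar F ℂ // ν ≠ 1} = Fintype.card F - 1 := by
    simp [Fintype.card_subtype_compl]
  rw [← cardψ, ← card_univ, ← smul_eq_mul]
  exact Finset.card_nsmul_le_sum _ _ _ fun ν _ => h b b.2 ν ν.2

end GD

end Cfsg.Agent.H23.MD
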