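import Mathlib
import Cfsg.Agent.H23.MDLine

/-!
The vectors fixed by the maximal unipotent subgroup in a small representation.
-/

set_option autoImplicit false
set_option linter.unusedSectionVars false

namespace Cfsg.Agent.H23.MD

open Module Finset
open scoped InnerProductSpace commutatorElement

variable {κ : Type} [Fintype κ] [DecidableEq κ]

namespace GD

variable {R : RT κ} {F : Type*} [Field F] [Fintype F] {G : Type*} [Group G] [Finite G]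
  (D : GD R F G) {V : Type*} [NormedAddCommGroup V] [InnerProductSpace ℂ V] [FiniteDimensional ℂ V]
  (ρ : Representation ℂ G V)

/-- What is known about the lines at a long simple root. -/
structure Gd (i : κ) : Prop where
  lg : e i ∈ R.Lg
  one : ∀ ψ : AddChar F ℂ, ψ ≠ 1 → finrank ℂ (D.Wt ρ (R.K (e i)) (e i) ψ) = 1
  eqK : ∀ ψ : AddChar F ℂ, ψ ≠ 1 → D.Wt ρ (R.Λ i) (e i) ψ = D.Wt ρ (R.K (e i)) (e i) ψ
  neg : ∀ ψ : AddChar F ℂ, ψ ≠ 1 → ∀ k, R.p (e i) (e k) = 0 →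
    D.X (-e k) ≤ fxs ρ (D.Wt ρ (R.K (e i)) (e i) ψ)

/-- The Hecke operator. -/
noncomputable def t (i : κ) (y : V) : V := av ρ (D.X (e i)) (ρ (D.n i) y)

/-- The fixed vectors of `U` orthogonal to those fixed by the rank one group. -/
noncomputable def U (i : κ) : Submodule ℂ V := D.Fx ρ R.P ⊓ (D.Fx ρ R.P ⊓ fix ρ (D.X (-e i)))ᗮ

/-- Eigenvectors of the torus. -/
def Eig (θ : G → ℂ) (y : V) : Prop := ∀ h ∈ D.T, ρ h y = θ h • y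

/-- The projection to the fixed vectors of `U`. -/
noncomputable def pr : V →ₗ[ℂ] V := av ρ (⨆ γ ∈ R.P, D.X γ)

variable {D ρ} {α β γ δ ε : κ → ℤ} {ψ : AddChar F ℂ} {u v w y z : V} {i j : κ} {θ : G → ℂ}

theorem mem_U : y ∈ D.U ρ i ↔ y ∈ D.Fx ρ R.P ∧
    ∀ w ∈ D.Fx ρ R.P, w ∈ fix ρ (D.X (-e i)) → ⟪w, y⟫_ℂ = 0 := by
  simp only [U, Submodule.mem_inf, Submodule.mem_orthogonal, and_imp]

theorem e_P (i : κ) : e i ∈ R.P := ⟨R.e_mem i, e_nonneg i⟩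

theorem P_fix (hy : y ∈ D.Fx ρ R.P) (i : κ) : y ∈ fix ρ (D.X (e i)) := mem_Fx.1 hy _ (e_P i)

theorem P_M (hy : y ∈ D.Fx ρ R.P) (i : κ) : y ∈ D.Fx ρ (R.K (e i)) :=
  mem_Fx.2 fun γ hγ => mem_Fx.1 hy γ ⟨hγ.1, hγ.2.1⟩

theorem s_K (hγ : γ ∈ R.K (e i)) : R.s i γ ∈ R.K (e i) := by
  obtain ⟨h1, h2, h3⟩ := RT.mem_K_e.1 hγ
  exact RT.mem_K_e.2 ⟨RT.s_mem i h1, RT.s_pos h1 h2 h3, RT.s_ne_e h2 i⟩

theorem n_M (hy : y ∈ D.Fx ρ (R.K (e i))) : ρ (D.n i) y ∈ D.Fx ρ (R.K (e i)) :=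
  mem_Fx.2 fun γ hγ => by simpa [RT.s_s] using n_fix i (s_K hγ).1 (mem_Fx.1 hy _ (s_K hγ))

theorem n_M' (hy : y ∈ D.Fx ρ (R.K (e i))) : ρ (D.n i)⁻¹ y ∈ D.Fx ρ (R.K (e i)) :=
  mem_Fx.2 fun γ hγ => by simpa [RT.s_s] using n_fix' i (s_K hγ).1 (mem_Fx.1 hy _ (s_K hγ))

theorem stab_M (i : κ) : D.X (e i) ≤ stab ρ (D.Fx ρ (R.K (e i))) :=
  stab_Fx (fun _ h => h.1) (R.e_mem i) ht (fun _ h => RT.ht_pos h.1 h.2.1) (by rw [ht_e]; norm_num)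
    fun _ hγ _ h => RT.cb_K (.inr hγ) (e_nonneg i) (R.e_mem i) (e_nonneg i) h

theorem P_of (hy : y ∈ D.Fx ρ (R.K (e i))) (h : y ∈ fix ρ (D.X (e i))) : y ∈ D.Fx ρ R.P :=
  mem_Fx.2 fun γ hγ => by
    by_cases e0 : γ = e i
    · exact e0 ▸ h
    · exact mem_Fx.1 hy γ (RT.mem_K_e.2 ⟨hγ.1, hγ.2, e0⟩)

theorem av_P (hy : y ∈ D.Fx ρ (R.K (e i))) : av ρ (D.X (e i)) y ∈ D.Fx ρ R.P :=
  P_of (av_mem_of_le (stab_M i) hy) (av_mem _ _)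

theorem t_P (hy : y ∈ D.Fx ρ (R.K (e i))) : D.t ρ i y ∈ D.Fx ρ R.P := av_P (n_M hy)

theorem T_Fx {S : Set (κ → ℤ)} (hS : ∀ γ ∈ S, γ ∈ R.Φ) {h : G} (hh : h ∈ D.T) (hy : y ∈ D.Fx ρ S) :
    ρ h y ∈ D.Fx ρ S := mem_Fx.2 fun γ hγ => T_fix hh (hS γ hγ) (mem_Fx.1 hy γ hγ)

theorem pr_av (hγ : γ ∈ R.P) (v : V) : D.pr ρ (av ρ (D.X γ) v) = D.pr ρ v :=
  av_av_of_le (le_iSup₂_of_le (f := fun γ (_ : γ ∈ R.P) => D.X γ) γ hγ le_rfl) v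

theorem pr_of (hy : y ∈ D.Fx ρ R.P) : D.pr ρ y = y := av_of_fix hy

theorem pr_n (hy : y ∈ D.Fx ρ R.P) (i : κ) : D.pr ρ (ρ (D.n i) y) = D.t ρ i y := by
  rw [← pr_av (e_P i)]; exact pr_of (t_P (P_M hy i))

theorem n_W (hw : w ∈ D.Fx ρ R.P) (h : w ∈ fix ρ (D.X (-e i))) : ρ (D.n i) w = w :=
  (sup_le (P_fix hw i) h : _ ≤ fxr ρ w) (D.n_mem i)

theorem n_W' (hw : w ∈ D.Fx ρ R.P) (h : w ∈ fix ρ (D.X (-e i))) : ρ (D.n i)⁻¹ w = w :=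
  (fxr ρ w).inv_mem (n_W hw h)

theorem t_W (hw : w ∈ D.Fx ρ R.P) (h : w ∈ fix ρ (D.X (-e i))) : D.t ρ i w = w := by
  rw [t, n_W hw h, av_of_fix (P_fix hw i)]

theorem t_add (u v : V) : D.t ρ i (u + v) = D.t ρ i u + D.t ρ i v := by simp [t]
theorem t_smul (c : ℂ) (v : V) : D.t ρ i (c • v) = c • D.t ρ i v := by simp [t]

theorem T_t {h : G} (hh : h ∈ D.T) (v : V) :
    ρ h (D.t ρ i v) = D.t ρ i (ρ ((D.n i)⁻¹ * h * D.n i) v) := by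
  rw [t, t, T_av hh (R.e_mem i), ← mul_app, ← mul_app, ← mul_assoc, mul_inv_cancel_left]

theorem Eig.t (h : D.Eig ρ θ y) (i : κ) :
    D.Eig ρ (fun h => θ ((D.n i)⁻¹ * h * D.n i)) (D.t ρ i y) := fun k hk => by
  rw [T_t hk, h _ (n_T' i hk), t_smul]

theorem t_eq (y : V) : D.t ρ i y = ρ (D.n i) (av ρ (D.X (-e i)) y) := by
  rw [n_av i (R.neg_mem _ (R.e_mem i)), RT.s_neg_e]; rfl

theorem exists_char : ∃ ψ : AddChar F ℂ, ψ ≠ 1 := by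
  classical
  exact Fintype.exists_ne_of_one_lt_card (by rw [AddChar.card_eq]; exact Fintype.one_lt_card) 1

theorem Gd.exists_ne (c : D.Gd ρ i) (hψ : ψ ≠ 1) : ∃ v ∈ D.Wt ρ (R.K (e i)) (e i) ψ, v ≠ 0 := by
  obtain ⟨v, hv⟩ := Module.finrank_pos_iff_exists_ne_zero.1 ((c.one ψ hψ).ge : 0 < _)
  exact ⟨v, v.2, fun e0 => hv (Subtype.ext e0)⟩

section adj

variable (h1 : R.c i (e j) = -1)
include h1

theorem s_adj : R.s i (e j) = e i + e j := by rw [RT.s, h1]; module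
theorem s_adj' : R.s i (e i + e j) = e j := by rw [← s_adj h1, RT.s_s]
theorem adj_mem : e i + e j ∈ R.Φ := s_adj h1 ▸ RT.s_mem i (R.e_mem j)
theorem adj_P : e i + e j ∈ R.P := ⟨adj_mem h1, add_nonneg (e_nonneg i) (e_nonneg j)⟩
theorem adj_K : e i + e j ∈ R.K (e i) :=
  RT.mem_K_e.2 ⟨adj_mem h1, (adj_P h1).2, RT.add_ne_left (R.e_mem j)⟩
theorem adj_ne : i ≠ j := fun e0 => by rw [e0, R.c_self] at h1; omega
theorem adj_p (hi : e i ∈ R.Lg) : R.p (e i) (e i + e j) = 1 := by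
  rw [R.p_e i hi, map_add, R.c_self, h1]; rfl

end adj

variable (hρ : Uni ρ)
include hρ

theorem decomp (hi : e i ∈ R.Lg) (hz : z ∈ D.Fx ρ (R.K (e i))) : ∃ f : AddChar F ℂ → V,
    ∑ ψ, f ψ = z ∧ (∀ ψ, f ψ ∈ D.Wt ρ (R.K (e i)) (e i) ψ) ∧ ∀ ψ, ⟪f ψ, z⟫_ℂ = 0 → f ψ = 0 := by
  obtain ⟨Q, q1, q2, q3⟩ := spectral (D := D) (ρ := ρ) hi
  refine ⟨fun ψ => Q ψ z, q1 z, fun ψ => ⟨q2 ψ z, q3 _ (stab_M i) ψ z hz⟩, fun ψ h => ?_⟩
  conv at h => lhs; rhs; rw [← q1 z]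
  rwa [inner_sum, Finset.sum_eq_single ψ (fun ν _ hν => orth_eig hρ hν.symm (q2 ψ z) (q2 ν z)) (by simp),
    inner_self_eq_zero] at h

theorem t_mem_U (hv : v ∈ D.Fx ρ (R.K (e i))) (h : ∀ w ∈ D.Fx ρ R.P, w ∈ fix ρ (D.X (-e i)) → ⟪w, v⟫_ℂ = 0) :
    D.t ρ i v ∈ D.U ρ i := mem_U.2 ⟨t_P hv, fun w hw hw' => by
  rw [t, hρ.inner_av_right (P_fix hw i), hρ.adj', n_W' hw hw', h w hw hw']⟩

theorem t_U (hy : y ∈ D.U ρ i) : D.t ρ i y ∈ D.U ρ i :=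
  t_mem_U hρ (P_M (mem_U.1 hy).1 i) (mem_U.1 hy).2

theorem t_L (hi : e i ∈ R.Lg) (hψ : ψ ≠ 1) (hv : v ∈ D.Wt ρ (R.K (e i)) (e i) ψ) :
    D.t ρ i v ∈ D.U ρ i := t_mem_U hρ hv.2 fun _ hw _ => orth_fix hρ hi hψ (P_fix hw i) hv.1

theorem U_eq_zero (hy : y ∈ D.U ρ i) (h : y ∈ fix ρ (D.X (-e i))) : y = 0 :=
  inner_self_eq_zero.1 ((mem_U.1 hy).2 y (mem_U.1 hy).1 h)

theorem T_U {h : G} (hh : h ∈ D.T) (hy : y ∈ D.U ρ i) : ρ h y ∈ D.U ρ i :=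
  mem_U.2 ⟨T_Fx (fun _ h => h.1) hh (mem_U.1 hy).1, fun w hw hw' => by
    rw [hρ.adj']
    exact (mem_U.1 hy).2 _ (T_Fx (fun _ h => h.1) (inv_mem hh) hw)
      (T_fix (inv_mem hh) (R.neg_mem _ (R.e_mem i)) hw')⟩

theorem fix_of_orth (hi : e i ∈ R.Lg) (hy : y ∈ D.Fx ρ R.P) (h : ∀ ψ : AddChar F ℂ, ψ ≠ 1 →
    ∀ v ∈ D.Wt ρ (R.K (e i)) (e i) ψ, ⟪D.t ρ i v, y⟫_ℂ = 0) : y ∈ fix ρ (D.X (-e i)) := by
  obtain ⟨f, f1, f2, f3⟩ := decomp hρ hi (n_M' (P_M hy i))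
  rw [Finset.sum_eq_single 1 (fun ψ _ hψ => f3 ψ (by
    rw [← hρ.adj, ← hρ.inner_av_left (P_fix hy i)]; exact h ψ hψ _ (f2 ψ))) (by simp)] at f1
  have := n_fix i (R.e_mem i) (f1 ▸ (eig_one hi).1 (f2 1).1)
  rwa [app_inv, RT.s_e] at this

theorem Gd.mult_one (c : D.Gd ρ i) (hy : y ∈ D.U ρ i) (h0 : y ≠ 0) (e1 : D.Eig ρ θ y)
    (hz : z ∈ D.U ρ i) (e2 : D.Eig ρ θ z) : ∃ a : ℂ, z = a • y := by
  obtain ⟨ψ, hψ⟩ := exists_char (F := F)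
  obtain ⟨v, hv, v0⟩ := c.exists_ne hψ
  have key : ∀ w ∈ D.U ρ i, D.Eig ρ θ w → ⟪D.t ρ i v, w⟫_ℂ = 0 → w = 0 := fun w hw ew h =>
    U_eq_zero hρ hw (fix_of_orth hρ c.lg (mem_U.1 hw).1 fun ν hν u hu => by
      obtain ⟨k, hk, e0⟩ := exists_T (D := D) (ρ := ρ) c.lg hψ hν
      obtain ⟨a, rfl⟩ := exists_smul_of_finrank (c.one ν hν).le (u := ρ k v)
        ⟨e0 v hv.1, T_Fx (fun _ h => h.1) hk hv.2⟩ (app_ne_zero k v0) hu
      have := T_t (ρ := ρ) (i := i) (D.n_T i k hk) v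
      rw [show (D.n i)⁻¹ * (D.n i * k * (D.n i)⁻¹) * D.n i = k by group] at this
      rw [t_smul, ← this, inner_smul_left, hρ.adj, ew _ (inv_mem (D.n_T i k hk)), inner_smul_right, h]
      simp)
  have ne : ⟪D.t ρ i v, y⟫_ℂ ≠ 0 := fun h => h0 (key y hy e1 h)
  refine ⟨⟪D.t ρ i v, z⟫_ℂ / ⟪D.t ρ i v, y⟫_ℂ, sub_eq_zero.1 (key _ (sub_mem hz (Submodule.smul_mem _ _ hy))
    (fun h hh => ?_) ?_)⟩
  · rw [map_sub, map_smul, e1 h hh, e2 h hh, smul_sub, smul_comm]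
  · rw [inner_sub_right, inner_smul_right, div_mul_cancel₀ _ ne, sub_self]

theorem norm_t (hi : e i ∈ R.Lg) (hy : y ∈ D.Fx ρ R.P) (h0 : y ≠ 0) (e1 : D.Eig ρ θ y) :
    ∃ h ∈ D.T, ∀ ω, ω = (starRingEnd ℂ) (θ h) * ⟪y, D.t ρ i y⟫_ℂ →
      (Fintype.card F : ℂ) * ⟪D.t ρ i y, D.t ρ i y⟫_ℂ = ⟪y, y⟫_ℂ + (Fintype.card F - 1) * ω ∧
      (ω = ⟪y, y⟫_ℂ → y ∈ fix ρ (D.X (-e i))) := by
  have hl := R.neg_lg _ hi
  obtain ⟨a, ha, h, hh, b, hb, e0⟩ := D.sl2 i _ (x_mem hl 1) fun e0 => one_ne_zero (D.x_inj _ hl _ e0)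
  refine ⟨h⁻¹, inv_mem hh, fun ω hω => ?_⟩
  have k1 : ⟪y, ρ (D.x (-e i) 1) y⟫_ℂ = ω := by
    rw [e0, mul_app, mul_app, mul_app, P_fix hy i b hb, hρ.adj', P_fix hy i _ (inv_mem ha), hρ.adj',
      e1 _ (inv_mem hh), inner_smul_left, hω, t, hρ.inner_av_right (P_fix hy i)]
  have k2 : ∀ g ∈ D.X (-e i), g ≠ 1 → ⟪y, ρ g y⟫_ℂ = ω := fun g hg g1 => by
    obtain ⟨s, rfl⟩ := (D.mem_X _ hl g).1 hg
    obtain ⟨k, hk, e2⟩ := D.T_trans _ hl s fun e0 => g1 (by rw [e0, x_zero hl])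
    have e3 := e1 _ (inv_mem hk)
    have e4 : (starRingEnd ℂ) (θ k⁻¹) * θ k⁻¹ = 1 := by
      rw [Complex.conj_mul', hρ.norm_eig h0 e3]; simp
    rw [← mul_one s, ← e2, mul_app, mul_app, hρ.adj', e3, map_smul, inner_smul_left, inner_smul_right,
      ← mul_assoc, e4, one_mul, k1]
  refine ⟨?_, fun e5 g hg => ?_⟩
  · rw [t_eq, hρ, hρ.inner_av_av, ← card_X (D := D) hl]
    exact hρ.inner_av_const k2
  · by_cases g1 : g = 1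
    · simp [g1]
    · exact hρ.eq_of_inner ((k2 g hg g1).trans e5)

theorem kappa (hi : e i ∈ R.Lg) (hy : y ∈ D.U ρ i) (h0 : y ≠ 0) (e1 : D.Eig ρ θ y) {k : ℂ}
    (hk : D.t ρ i y = k • y) :
    ∃ h ∈ D.T, (starRingEnd ℂ) (θ h) * k * Fintype.card F = -1 ∧ ‖k‖ * Fintype.card F = 1 := by
  obtain ⟨h, hh, H⟩ := norm_t hρ hi (mem_U.1 hy).1 h0 e1
  obtain ⟨a, b⟩ := H _ rfl
  have N0 : ⟪y, y⟫_ℂ ≠ 0 := inner_self_ne_zero.2 h0
  have n1 := hρ.norm_eig h0 (e1 h hh)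
  rw [hk, inner_smul_right] at b
  rw [hk, inner_smul_left, inner_smul_right] at a
  set ω := (starRingEnd ℂ) (θ h) * k with hω
  have n2 : ‖ω‖ = ‖k‖ := by rw [hω, norm_mul, Complex.norm_conj, n1, one_mul]
  have q1 : (1 : ℝ) < Fintype.card F := by exact_mod_cast Fintype.one_lt_card
  have e2 : (Fintype.card F : ℂ) * (‖k‖ : ℂ) ^ 2 = 1 + (Fintype.card F - 1) * ω := by
    rw [← Complex.conj_mul']
    apply mul_right_cancel₀ N0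
    rw [hω]; linear_combination a
  have e3 : ω.im = 0 := by
    have := congrArg Complex.im e2
    norm_cast at this
    simp at this
    rcases this with h | h
    · linarith
    · exact h
  obtain ⟨r, hr⟩ : ∃ r : ℝ, ω = r := ⟨ω.re, Complex.ext rfl e3⟩
  have e4 : ‖k‖ ^ 2 = r ^ 2 := by rw [← n2, hr, Complex.norm_real, Real.norm_eq_abs, sq_abs]
  have e5 : (Fintype.card F : ℝ) * r ^ 2 = 1 + (Fintype.card F - 1) * r := by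
    rw [← e4]; rw [hr] at e2; exact_mod_cast e2
  have r1 : r ≠ 1 := fun e0 => h0 (U_eq_zero hρ hy (b (by rw [← mul_assoc, ← hω, hr, e0]; simp)))
  have e6 : r * Fintype.card F = -1 := by
    have : (r - 1) * (r * Fintype.card F + 1) = 0 := by linear_combination e5
    linarith [(mul_eq_zero.1 this).resolve_left (sub_ne_zero.2 r1)]
  refine ⟨h, hh, by rw [← hω, hr]; exact_mod_cast e6, ?_⟩
  rw [← n2, hr, Complex.norm_real, Real.norm_eq_abs, abs_of_neg (by nlinarith)]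
  linarith

theorem U_orth (ci : D.Gd ρ i) (cj : D.Gd ρ j) (h : R.p (e i) (e j) = 0) (hy : y ∈ D.U ρ i)
    (hz : z ∈ D.U ρ j) : ⟪y, z⟫_ℂ = 0 := by
  have h' : R.p (e j) (e i) = 0 := by rw [R.p_symm _ cj.lg _ ci.lg, h]
  refine (mem_U.1 hz).2 y (mem_U.1 hy).1 (fix_of_orth hρ cj.lg (mem_U.1 hy).1 fun ψ hψ v hv => ?_)
  refine (mem_U.1 hy).2 _ (t_P hv.2) ?_
  have m := R.neg_mem _ (R.e_mem i)
  have e0 : R.s j (-e i) = -e i := by rw [RT.s, map_neg, ← R.p_e j cj.lg, h']; simp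
  have h1 : ρ (D.n j) v ∈ fix ρ (D.X (-e i)) :=
    e0 ▸ n_fix j m fun g hg => mem_fxs.1 (cj.neg ψ hψ i h' hg) v hv
  obtain ⟨f, f1, f2⟩ := RT.exists_f (α := e j) (γ := e j) (by rw [R.p_self _ cj.lg]; norm_num) m
    (by rw [map_neg, h', neg_zero])
  refine av_mem_of_le (fun g hg => fix_of_commute fun k hk => (commute_of (R.e_mem j) m f f1 f2 ?_ hg hk).symm) h1
  rintro β ⟨hβ, a, b, ha, hb, rfl⟩
  have e1 := p_comb (R.p (e j)) a b (e j) (-e i)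
  rw [map_neg, h', R.p_self _ cj.lg] at e1
  have e2 := congrFun (RT.eq_of_two_le cj.lg hβ (by omega)) i
  have hij : i ≠ j := fun e3 => by rw [e3, R.p_self _ cj.lg] at h; omega
  simp [e_ne hij, e_self] at e2
  omega

section adj

variable (ci : D.Gd ρ i) (cj : D.Gd ρ j) (h1 : R.c i (e j) = -1) (h2 : R.c j (e i) = -1)
include ci cj h1 h2

theorem phiA (hψ : ψ ≠ 1) (hv : v ∈ D.Wt ρ (R.K (e i)) (e i) ψ) : ∃ ν : AddChar F ℂ, ν ≠ 1 ∧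
    ρ (D.n i) (ρ (D.n j) v) ∈ D.eig ρ (e j) ν ∧
      av ρ (D.X (e i + e j)) (ρ (D.n i) (ρ (D.n j) v)) ∈ D.Wt ρ (R.K (e j)) (e j) ν := by
  have s1 : R.s j (e i) = e i + e j := by rw [s_adj h2, add_comm]
  have s2 : R.s j (e i + e j) = e i := by rw [add_comm, s_adj' h2]
  have hc : e i + e j ∈ R.Lg := s1 ▸ RT.s_lg j ci.lg
  obtain ⟨μ, hμ, t1⟩ := trans_A (D := D) (ρ := ρ) ci.lg hc (g := D.n j)
    (fun y hy => s1 ▸ D.n_conj j _ (R.e_mem i) y hy) (fun y hy => s2 ▸ n_conj' j (adj_mem h1) hy) hψ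
  obtain ⟨ν, hν, t2⟩ := trans_A (D := D) (ρ := ρ) hc cj.lg (g := D.n i)
    (fun y hy => s_adj' h1 ▸ D.n_conj i _ (adj_mem h1) y hy)
    (fun y hy => s_adj h1 ▸ n_conj' i (R.e_mem j) hy) hμ
  have m1 := t2 _ (t1 v hv.1)
  refine ⟨ν, hν, m1, ?_⟩
  have m2 : ρ (D.n i) (ρ (D.n j) v) ∈ D.Wt ρ {γ | γ ∈ R.Λ j ∧ γ ≠ e i + e j} (e j) ν :=
    mem_Wt.2 ⟨m1, fun γ hγ => by
      obtain ⟨⟨g1, g2, g3⟩, g4⟩ := hγ
      have a1 : γ ≠ e i := fun e0 => by rw [e0, R.p_e j cj.lg, h2] at g3; omega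
      have a2 : R.s i γ ≠ e j := fun e0 => g4 (by rw [← s_adj h1, ← e0, RT.s_s])
      have a3 : R.s j (R.s i γ) ≠ e i := fun e0 => by
        rw [show γ = e j by rw [← s_adj' h1, ← s1, ← e0, RT.s_s, RT.s_s], R.p_self _ cj.lg] at g3
        omega
      have a4 := RT.s_mem i g1
      have := n_fix i (RT.s_mem j (RT.s_mem j a4)) (n_fix j (RT.s_mem j a4) ((mem_Wt.1 hv).2 _
        (RT.mem_K_e.2 ⟨RT.s_mem j a4, RT.s_pos a4 (RT.s_pos g1 g2 a1) a2, a3⟩)))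
      simpa [RT.s_s] using this⟩
  have pc : R.p (e j) (e i + e j) = 1 := by rw [add_comm]; exact adj_p h2 cj.lg
  have m3 := mem_Wt.1 (av_mem_of_le (stab_Wt_p cj.lg (fun γ hγ => ⟨hγ.1.1, hγ.1.2.2⟩) (adj_mem h1) pc.ge
    fun h => by
      have := h.1.2.1 i
      simp [e_self] at this) m2)
  rw [← cj.eqK ν hν]
  refine mem_Wt.2 ⟨m3.1, fun γ hγ => ?_⟩
  by_cases e0 : γ = e i + e j
  · exact e0 ▸ av_mem _ _
  · exact m3.2 γ ⟨hγ, e0⟩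

theorem phiB (hz : z ∈ D.Fx ρ (R.K (e i))) (h0 : av ρ (D.X (e i)) z = 0) :
    av ρ (D.X (e i + e j)) (ρ (D.n i) (ρ (D.n j) z)) ∈ fix ρ (D.X (e i)) ∧
    (Fintype.card F : ℂ) * ⟪av ρ (D.X (e i + e j)) (ρ (D.n i) (ρ (D.n j) z)),
      av ρ (D.X (e i + e j)) (ρ (D.n i) (ρ (D.n j) z))⟫_ℂ = ⟪z, z⟫_ℂ := by
  obtain ⟨f, f1, f2, f3⟩ := decomp hρ ci.lg hz
  have f4 := f3 1 (hρ.orth_of_av ((eig_one ci.lg).1 (f2 1).1) h0)
  constructor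
  · rw [← f1, map_sum, map_sum, map_sum]
    refine Submodule.sum_mem _ fun ψ _ => ?_
    by_cases hψ : ψ = 1
    · simp [hψ, f4]
    obtain ⟨ν, -, -, h⟩ := phiA hρ ci cj h1 h2 hψ (f2 ψ)
    exact (mem_Wt.1 h).2 _ (RT.mem_K_e.2 ⟨R.e_mem i, e_nonneg i, fun e0 => adj_ne h1 (e_inj e0)⟩)
  · have m := R.neg_mem _ (R.e_mem j)
    have pm : R.p (e i) (-e j) = 1 := by rw [map_neg, R.p_e i ci.lg, h1, neg_neg]
    rw [← s_adj h1, ← n_av i (R.e_mem j), ← RT.s_neg_e (R := R) j, ← n_av j m, hρ, hρ, hρ.inner_av_av,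
      ← card_X (D := D) (R.neg_lg _ cj.lg)]
    refine hρ.inner_av_zero fun y hy y1 => ?_
    rw [← f1, map_sum, sum_inner]
    refine Finset.sum_eq_zero fun ψ _ => ?_
    rw [inner_sum]
    refine Finset.sum_eq_zero fun ν _ => ?_
    by_cases hν : ψ = ν
    · subst hν
      by_cases hψ : ψ = 1
      · simp [hψ, f4]
      refine orth_heis hρ ci.lg m pm hψ (f2 ψ).1 (fun g hg => ⟨1, ?_⟩) hy y1
      rw [sub_neg_eq_add] at hg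
      rw [one_smul, (mem_Wt.1 (f2 ψ)).2 _ (adj_K h1) g hg]
      exact ⟨rfl, rfl⟩
    · exact orth_eig hρ hν (f2 ψ).1 (stab_eig ci.lg m pm.ge hy _ (f2 ν).1)

theorem exists_U : ∃ y ∈ D.U ρ i, y ≠ 0 := by
  by_contra hc
  push Not at hc
  obtain ⟨ψ, hψ⟩ := exists_char (F := F)
  obtain ⟨v1, hv1, v0⟩ := ci.exists_ne hψ
  obtain ⟨h, hh, br⟩ := D.braid i j h1 h2
  have s1 : R.s j (e i) = e i + e j := by rw [s_adj h2, add_comm]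
  have s2 : R.s j (e i + e j) = e i := by rw [add_comm, s_adj' h2]
  have hc' : e i + e j ∈ R.Lg := s1 ▸ RT.s_lg j ci.lg
  have hm := adj_mem h1
  obtain ⟨ψ', hψ', t1⟩ := trans_A (D := D) (ρ := ρ) ci.lg ci.lg (g := h⁻¹)
    (D.T_conj _ (inv_mem hh) _ (R.e_mem i)) (fun y hy => T_conj' (inv_mem hh) (R.e_mem i) hy) hψ
  have hv : ρ h⁻¹ v1 ∈ D.Wt ρ (R.K (e i)) (e i) ψ' := ⟨t1 _ hv1.1, T_Fx (fun _ h => h.1) (inv_mem hh) hv1.2⟩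
  obtain ⟨a1, a2⟩ := phiB hρ ci cj h1 h2 hv1.2 (av_eig hρ ci.lg hψ hv1.1)
  obtain ⟨b1, -⟩ := phiB hρ ci cj h1 h2 (n_M hv.2) (hc _ (t_L hρ ci.lg hψ' hv))
  obtain ⟨ν, hν, c1, c2⟩ := phiA hρ ci cj h1 h2 hψ hv1
  have e1 : ρ (D.n i) (ρ (D.n j) (ρ (D.n i) (ρ h⁻¹ v1))) = ρ (D.n j) (ρ (D.n i) (ρ (D.n j) v1)) := by
    simp only [← mul_app, ← mul_assoc, br, mul_inv_cancel_right]
  rw [e1] at b1
  set w := ρ (D.n i) (ρ (D.n j) v1)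
  set w0 := av ρ (D.X (e i + e j)) w
  -- `w1 = w - w0` is killed by the averages over `X c` and `X a`
  have k0 : av ρ (D.X (e i + e j)) (w - w0) = 0 := by rw [map_sub, av_of_fix (av_mem _ _), sub_self]
  have k1 : av ρ (D.X (e i)) (w - w0) = 0 := by
    have n1 : ρ (D.n j) w0 ∈ fix ρ (D.X (e i + e j)) := s1 ▸ n_fix j (R.e_mem i) a1
    have n2 : ρ (D.n j) w0 ∈ fix ρ (D.X (e i)) := s2 ▸ n_fix j hm (av_mem _ _)
    set r := av ρ (D.X (e i + e j)) (ρ (D.n j) (w - w0)) with hr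
    have r1 : r ∈ fix ρ (D.X (e i)) := by
      rw [hr, map_sub, map_sub, av_of_fix n1]; exact sub_mem b1 n2
    have r2 : ⟪r, r⟫_ℂ = 0 := by
      have r3 := n_fix' j (R.e_mem i) r1
      rw [s1] at r3
      conv_lhs => rhs; rw [hr]
      rw [hρ.inner_av_right (av_mem _ _), hρ.adj']
      exact hρ.orth_of_av r3 k0
    have := n_av (D := D) (ρ := ρ) j (R.e_mem i) (w - w0)
    rw [s1, ← hr, inner_self_eq_zero.1 r2] at this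
    by_contra h0
    exact app_ne_zero _ h0 this
  have pa : R.p (e i + e j) (e i) = 1 := by rw [R.p_symm _ hc' _ ci.lg, adj_p h1 ci.lg]
  have pc : R.p (e j) (e i + e j) = 1 := by rw [add_comm]; exact adj_p h2 cj.lg
  obtain ⟨Q, q1, q2, q3⟩ := spectral (D := D) (ρ := ρ) hc'
  let E : Submodule ℂ V := D.eig ρ (e j) ν ⊓ (LinearMap.ker (av ρ (D.X (e i))) ⊓
    LinearMap.ker (av ρ (D.X (e i + e j))))
  have stE : D.X (e i + e j) ≤ stab ρ E := fun g hg => stab_inf (stab_eig cj.lg hm pc.ge hg)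
    (stab_inf (fun u hu => by
      rw [LinearMap.mem_ker] at hu ⊢
      rw [← app_av_comm fun y hy => commute_p hc' hm (R.e_mem i) (by rw [R.p_self _ hc']; norm_num) pa.ge
        (RT.add_ne_left (R.e_mem i)) hg hy, hu, map_zero]) fun u hu => by
      rw [LinearMap.mem_ker] at hu ⊢
      rw [av_app hg, hu])
  have z : ∀ μ, Q μ (w - w0) = 0 := fun μ => by
    obtain ⟨y1, y2, y3⟩ := q3 E stE μ _ ⟨sub_mem c1 c2.1, k1, k0⟩
    by_cases hμ : μ = 1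
    · subst hμ
      rw [← av_of_fix ((eig_one hc').1 (q2 1 (w - w0)))]; exact y3
    have := hρ.inner_av_zero (H := D.X (e i)) (u := Q μ (w - w0)) (v := Q μ (w - w0)) fun y hy h1' =>
      orth_heis hρ hc' (R.e_mem i) pa hμ (q2 μ _) (fun g hg => by
        rw [add_sub_cancel_left] at hg
        obtain ⟨a, ha⟩ := eig_smul cj.lg y1 hg
        exact ⟨a, ha, ha⟩) hy h1'
    rw [show av ρ (D.X (e i)) _ = 0 from y2, inner_zero_right, mul_zero] at this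
    exact inner_self_eq_zero.1 this.symm
  have e2 : w0 = w := by
    have := q1 (w - w0)
    simp only [z, sum_const_zero] at this
    exact (sub_eq_zero.1 this.symm).symm
  rw [e2, hρ, hρ, mul_eq_right₀ (inner_self_ne_zero.2 v0)] at a2
  exact Fintype.one_lt_card.ne' (by exact_mod_cast a2)

omit hρ in
theorem pr_two (hy : y ∈ D.Fx ρ R.P) : D.pr ρ (ρ (D.n i) (ρ (D.n j) y)) = D.t ρ i (D.t ρ j y) := by
  rw [← pr_n (t_P (P_M hy j)), t, n_av i (R.e_mem j), s_adj h1, pr_av (adj_P h1)]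

omit hρ in
theorem pr_three (hy : y ∈ D.Fx ρ R.P) :
    D.pr ρ (ρ (D.n i) (ρ (D.n j) (ρ (D.n i) y))) = D.t ρ i (D.t ρ j (D.t ρ i y)) := by
  rw [← pr_two ci cj h1 h2 (t_P (P_M hy i)), t, n_av j (R.e_mem i), s_adj h2, n_av i (adj_mem h2),
    add_comm, s_adj' h1, pr_av (e_P j)]

theorem not_parallel (hy : y ∈ D.U ρ i) (hy' : y ∈ D.U ρ j) (h0 : y ≠ 0) (e1 : D.Eig ρ θ y) {k k' : ℂ}
    (hk : D.t ρ i y = k • y) (hk' : D.t ρ j y = k' • y) : False := by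
  obtain ⟨-, -, -, n1⟩ := kappa hρ ci.lg hy h0 e1 hk
  obtain ⟨-, -, -, n2⟩ := kappa hρ cj.lg hy' h0 e1 hk'
  have yP := (mem_U.1 hy).1
  obtain ⟨h, hh, br⟩ := D.braid i j h1 h2
  have s1 : R.s j (e i) = e i + e j := by rw [s_adj h2, add_comm]
  have s2 : R.s j (e i + e j) = e i := by rw [add_comm, s_adj' h2]
  have hc' : e i + e j ∈ R.Lg := s1 ▸ RT.s_lg j ci.lg
  have hm := adj_mem h1
  have pa : R.p (e i + e j) (e i) = 1 := by rw [R.p_symm _ hc' _ ci.lg, adj_p h1 ci.lg]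
  have z0 : av ρ (D.X (e i)) (ρ (D.n i) y - k • y) = 0 := by
    rw [map_sub, map_smul, av_of_fix (P_fix yP i), ← hk]; exact sub_self _
  obtain ⟨a1, a2⟩ := phiB hρ ci cj h1 h2 (sub_mem (n_M (P_M yP i)) (Submodule.smul_mem _ k (P_M yP i))) z0
  have c1 : av ρ (D.X (e i)) (av ρ (D.X (e i + e j)) (ρ (D.n i) (ρ (D.n j) y))) = (k' * k) • y := by
    rw [← s_adj h1, ← n_av i (R.e_mem j)]
    change D.t ρ i (D.t ρ j y) = _
    rw [hk', t_smul, hk, smul_smul]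
  have c2 : av ρ (D.X (e i)) (av ρ (D.X (e i + e j)) (ρ (D.n i) (ρ (D.n j) (ρ (D.n i) y)))) =
      (θ h * (k' * k)) • ρ (D.n j) y := by
    have : ρ (D.n i) (ρ (D.n j) (ρ (D.n i) y)) = θ h • ρ (D.n j) (ρ (D.n i) (ρ (D.n j) y)) := by
      rw [← mul_app, ← mul_app, br, mul_app, e1 h hh, map_smul, mul_app, mul_app]
    rw [this, map_smul, map_smul, mul_smul, ← map_smul (ρ (D.n j)), ← c1, n_av j (R.e_mem i),
      n_av j hm, s1, s2, av_comm fun g hg g' hg' => (commute_p hc' hm (R.e_mem i)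
        (by rw [R.p_self _ hc']; norm_num) pa.ge (RT.add_ne_left (R.e_mem i)) hg' hg).symm]
  rw [← av_of_fix a1] at a2
  simp only [map_sub, map_smul, c1, c2] at a2
  have b1 : ⟪y, ρ (D.n i) y⟫_ℂ = k * ⟪y, y⟫_ℂ := by
    rw [← hρ.inner_av_right (P_fix yP i)]
    change ⟪y, D.t ρ i y⟫_ℂ = _
    rw [hk, inner_smul_right]
  have b2 : ⟪ρ (D.n i) y - k • y, ρ (D.n i) y - k • y⟫_ℂ = (1 - (‖k‖ : ℂ) ^ 2) * ⟪y, y⟫_ℂ := by
    rw [inner_sub_left, inner_sub_right, inner_sub_right, hρ, inner_smul_left, inner_smul_left,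
      inner_smul_right, inner_smul_right, ← inner_conj_symm (ρ (D.n i) y) y, b1, map_mul, inner_conj_symm,
      ← Complex.conj_mul']
    ring
  rw [b2, inner_self_eq_norm_sq_to_K, inner_self_eq_norm_sq_to_K] at a2
  have b3 : ‖(θ h * (k' * k)) • ρ (D.n j) y - k • (k' * k) • y‖ ≤ (‖k'‖ * ‖k‖ + ‖k‖ * (‖k'‖ * ‖k‖)) * ‖y‖ := by
    refine (norm_sub_le _ _).trans_eq ?_
    simp only [norm_smul, norm_mul, hρ.norm_app, hρ.norm_eig h0 (e1 h hh)]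
    ring
  have a3 : (Fintype.card F : ℝ) * ‖(θ h * (k' * k)) • ρ (D.n j) y - k • (k' * k) • y‖ ^ 2 =
      (1 - ‖k‖ ^ 2) * ‖y‖ ^ 2 := by
    apply Complex.ofReal_injective
    push_cast
    exact a2
  have q2 : (2 : ℝ) ≤ Fintype.card F := by exact_mod_cast Fintype.one_lt_card
  have e3 : ‖k'‖ = ‖k‖ := mul_right_cancel₀ (by linarith) (n2.trans n1.symm)
  rw [e3] at b3
  have b4 := pow_le_pow_left₀ (norm_nonneg _) b3 2
  generalize ‖(θ h * (k' * k)) • ρ (D.n j) y - k • (k' * k) • y‖ = A at *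
  set r := ‖k‖
  have r0 : 0 < r := by by_contra h; nlinarith [norm_nonneg k]
  have r1 : r ≤ 1 / 2 := by nlinarith
  have y0 : 0 < ‖y‖ ^ 2 := by positivity
  have a4 : A ^ 2 = r * (1 - r ^ 2) * ‖y‖ ^ 2 := by
    rw [mul_assoc, ← a3, ← mul_assoc, n1, one_mul]
  rw [a4, mul_pow] at b4
  have b5 := le_of_mul_le_mul_right b4 y0
  have b6 : 1 - r ≤ r ^ 3 * (1 + r) := by
    apply le_of_mul_le_mul_left _ (show 0 < r * (1 + r) by positivity)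
    nlinarith
  nlinarith [pow_le_pow_left₀ r0.le r1 3]

end adj

end GD

end Cfsg.Agent.H23.MD
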