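import Mathlib
import Cfsg.Agent.H23.MDHecke

/-!
Lower bounds for the dimension of the space of `U`-fixed vectors, and the final count.
-/

set_option autoImplicit false
set_option linter.unusedSectionVars false

namespace Cfsg.Agent.H23.MD

open Module Finset
open scoped InnerProductSpace commutatorElement

variable {κ : Type} [Fintype κ] [DecidableEq κ]

namespace GD

variable {R : RT κ} {F : Type*} [Field F] [Fintype F] {G : Type*} [Group G] [Finite G]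
  (D : GD R F G) {V : Type*} [NormedAddCommGroup V] [InnerProductSpace ℂ V] [FiniteDimensional ℂ V]
  (ρ : Representation ℂ G V)

/-- The weight is moved by the simple reflection. -/
def Mv (i : κ) (θ : G → ℂ) : Prop := ∃ h ∈ D.T, θ ((D.n i)⁻¹ * h * D.n i) ≠ θ h

/-- Weights of the torus on the fixed vectors of `U`. -/
def Wg (θ : G → ℂ) : Prop := ∃ y ∈ D.Fx ρ R.P, y ≠ 0 ∧ D.Eig ρ θ y

variable {D ρ} {ψ : AddChar F ℂ} {u v w y z : V} {i j : κ} {θ : G → ℂ}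

theorem Mv.adj (h : D.Mv i θ) (h1 : R.c i (e j) = -1) (h2 : R.c j (e i) = -1) :
    D.Mv j θ ∨ D.Mv j fun h => θ ((D.n i)⁻¹ * h * D.n i) := by
  by_contra hc
  simp only [Mv, not_or, not_exists, not_and, not_not] at hc
  obtain ⟨h, hh, ne⟩ := h
  obtain ⟨k, hk, br⟩ := D.braid i j h1 h2
  have e1 : (D.n i)⁻¹ * ((D.n j)⁻¹ * ((D.n i)⁻¹ * h * D.n i) * D.n j) * D.n i =
      (D.n j)⁻¹ * ((D.n i)⁻¹ * ((D.n j)⁻¹ * h * D.n j) * D.n i) * D.n j := by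
    have m := n_T' j (n_T' i (n_T' j hh))
    calc _ = (D.n i * D.n j * D.n i)⁻¹ * h * (D.n i * D.n j * D.n i) := by group
      _ = k⁻¹ * ((D.n j)⁻¹ * ((D.n i)⁻¹ * ((D.n j)⁻¹ * h * D.n j) * D.n i) * D.n j * k) := by
        rw [br]; group
      _ = _ := by rw [D.T_comm _ m k hk, inv_mul_cancel_left]
  have e2 : (D.n i)⁻¹ * ((D.n i)⁻¹ * h * D.n i) * D.n i = h := by
    calc _ = (D.n i * D.n i)⁻¹ * (h * (D.n i * D.n i)) := by group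
      _ = _ := by rw [D.T_comm _ hh _ (D.n_sq i), inv_mul_cancel_left]
  have a1 := hc.2 _ (n_T' i hh)
  rw [e1, e2, hc.1 _ (n_T' i (n_T' j hh)), hc.2 h hh] at a1
  exact ne a1

theorem eig_induction {E K : Submodule ℂ V} (hE : D.T ≤ stab ρ E) (hy : y ∈ E)
    (h : ∀ z ∈ E, ∀ θ, D.Eig ρ θ z → z ∈ K) : y ∈ K := by
  classical
  letI : CommGroup D.T := { (inferInstance : Group D.T) with
    mul_comm := fun a b => Subtype.ext (D.T_comm _ a.2 _ b.2) }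
  have := Fintype.ofFinite (Additive D.T)
  obtain ⟨P, p1, p2, p3⟩ := exists_spectral (ρ := ρ) (B := Additive D.T)
    (fun b => (b.toMul : D.T)) rfl fun _ _ => rfl
  rw [← p1 y]
  exact K.sum_mem fun χ _ => h _ (p3 E (fun t => hE t.toMul.2) χ y hy)
    (fun g => if h : g ∈ D.T then χ (Additive.ofMul ⟨g, h⟩) else 0) fun h hh => by
      simp only [dif_pos hh]; exact p2 χ (Additive.ofMul ⟨h, hh⟩) y

variable (hρ : Uni ρ)
include hρ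

theorem Mv.memU (h : D.Mv i θ) (hy : y ∈ D.Fx ρ R.P) (e1 : D.Eig ρ θ y) : y ∈ D.U ρ i :=
  mem_U.2 ⟨hy, fun w hw hw' => by
    obtain ⟨h, hh, ne⟩ := h
    have a1 := hρ h w y
    have a2 := hρ ((D.n i)⁻¹ * h * D.n i) w y
    rw [e1 _ (n_T' i hh), mul_app, mul_app, n_W hw hw', n_W' (T_Fx (fun _ h => h.1) hh hw)
      (T_fix hh (R.neg_mem _ (R.e_mem i)) hw'), inner_smul_right] at a2
    rw [e1 _ hh, inner_smul_right] at a1
    have : (θ ((D.n i)⁻¹ * h * D.n i) - θ h) * ⟪ρ h w, y⟫_ℂ = 0 := by linear_combination a2 - a1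
    rw [← a1, (mul_eq_zero.1 this).resolve_left (sub_ne_zero.2 ne), mul_zero]⟩

theorem Wg.mv (hi : e i ∈ R.Lg) (hw : D.Wg ρ θ) (_h : D.Mv i θ) :
    D.Wg ρ fun h => θ ((D.n i)⁻¹ * h * D.n i) := by
  obtain ⟨y, hy, h0, e1⟩ := hw
  refine ⟨_, t_P (P_M hy i), fun e0 => ?_, e1.t i⟩
  obtain ⟨k, -, H⟩ := norm_t hρ hi hy h0 e1
  have := (H _ rfl).1
  simp only [e0, inner_zero_right, mul_zero, add_zero] at this
  exact h0 (inner_self_eq_zero.1 this.symm)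

theorem two_le (ci : D.Gd ρ i) (cj : D.Gd ρ j) (h1 : R.c i (e j) = -1) (h2 : R.c j (e i) = -1) :
    2 ≤ finrank ℂ (D.Fx ρ R.P) := by
  by_contra hc
  have hL : finrank ℂ (D.Fx ρ R.P) ≤ 1 := by omega
  obtain ⟨y, hy, y0⟩ := exists_U hρ ci cj h1 h2
  obtain ⟨z, hz, z0⟩ := exists_U hρ cj ci h2 h1
  have yP := (mem_U.1 hy).1
  obtain ⟨a, rfl⟩ := exists_smul_of_finrank hL (mem_U.1 hz).1 z0 yP
  have key : ∀ h, ∃ c : ℂ, h ∈ D.T → ρ h (a • z) = c • a • z := fun h => by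
    by_cases hh : h ∈ D.T
    · obtain ⟨c, hc⟩ := exists_smul_of_finrank hL yP y0 (T_Fx (fun _ h => h.1) hh yP)
      exact ⟨c, fun _ => hc⟩
    · exact ⟨0, fun h => absurd h hh⟩
  choose θ hθ using key
  obtain ⟨k, hk⟩ := exists_smul_of_finrank hL yP y0 (t_P (P_M yP i))
  obtain ⟨k', hk'⟩ := exists_smul_of_finrank hL yP y0 (t_P (P_M yP j))
  exact not_parallel hρ ci cj h1 h2 hy (Submodule.smul_mem _ a hz) y0 (fun h hh => hθ h hh) hk hk'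

theorem not_mv (hG : ∀ i, D.Gd ρ i) {c a₁ a₂ a₃ : κ} (h1 : R.c c (e a₁) = -1) (h2 : R.c c (e a₂) = -1)
    (h3 : R.c c (e a₃) = -1) (h12 : R.c a₁ (e a₂) = 0) (h13 : R.c a₁ (e a₃) = 0) (h23 : R.c a₂ (e a₃) = 0)
    (conn : ∀ i, Relation.ReflTransGen (fun i j => R.c i (e j) = -1) i c) (hw : D.Wg ρ θ) (i : κ) :
    ¬ D.Mv i θ := fun hm => by
  have sy : ∀ i j, R.c i (e j) = R.c j (e i) := fun i j => by
    rw [← R.p_e i (hG i).lg, ← R.p_e j (hG j).lg, R.p_symm _ (hG i).lg _ (hG j).lg]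
  have key : ∀ j, Relation.ReflTransGen (fun i j => R.c i (e j) = -1) i j →
      ∃ θ, D.Wg ρ θ ∧ D.Mv j θ := fun j hj => by
    induction hj with
    | refl => exact ⟨θ, hw, hm⟩
    | tail _ h ih =>
      obtain ⟨θ, w1, m1⟩ := ih
      rcases m1.adj h (sy _ _ ▸ h) with m2 | m2
      exacts [⟨_, w1, m2⟩, ⟨_, w1.mv hρ (hG _).lg m1, m2⟩]
  obtain ⟨θ, w1, m1⟩ := key c (conn i)
  have w2 := w1.mv hρ (hG _).lg m1
  have no : ∀ {θ a b}, D.Wg ρ θ → R.c a (e b) = 0 → D.Mv a θ → D.Mv b θ → False := by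
    rintro θ a b ⟨y, hy, y0, ey⟩ h ma mb
    exact y0 (inner_self_eq_zero.1 (U_orth hρ (hG a) (hG b) (by rw [R.p_e a (hG a).lg, h])
      (ma.memU hρ hy ey) (mb.memU hρ hy ey)))
  rcases m1.adj h1 (sy _ _ ▸ h1) with b1 | b1 <;> rcases m1.adj h2 (sy _ _ ▸ h2) with b2 | b2 <;>
    rcases m1.adj h3 (sy _ _ ▸ h3) with b3 | b3
  exacts [no w1 h12 b1 b2, no w1 h12 b1 b2, no w1 h13 b1 b3, no w2 h23 b2 b3, no w1 h23 b2 b3,
    no w2 h13 b1 b3, no w2 h12 b1 b2, no w2 h12 b1 b2]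

omit hρ in
theorem eig_one_of (h : ∀ θ, D.Wg ρ θ → ∀ i, ¬ D.Mv i θ)
    (hT : D.T ≤ Subgroup.closure {g | ∃ i, ∃ h ∈ D.T, g = (D.n i)⁻¹ * h * D.n i * h⁻¹})
    (hy : y ∈ D.Fx ρ R.P) : D.Eig ρ 1 y := fun k hk => by
  rw [Pi.one_apply, one_smul]
  refine eig_induction (K := fix ρ D.T) (fun h hh v hv => T_Fx (fun _ h => h.1) hh hv) hy
    (fun z hz θ H => ?_) k hk
  by_cases h0 : z = 0
  · simp [h0]
  refine hT.trans ((Subgroup.closure_le (fxr ρ z)).2 ?_)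
  rintro _ ⟨i, l, hl, rfl⟩
  have := h _ ⟨_, hz, h0, H⟩ i
  simp only [Mv, not_exists, not_and, not_not] at this
  show ρ _ _ = _
  rw [mul_app, H _ (inv_mem hl), map_smul, H _ (n_T' i hl), this l hl, ← H l hl,
    ← map_smul, ← H _ (inv_mem hl), app_inv]

theorem t_formula (c : D.Gd ρ i) (H : ∀ y ∈ D.Fx ρ R.P, D.Eig ρ 1 y) (hu : u ∈ D.U ρ i)
    (u1 : ⟪u, u⟫_ℂ = 1) (hy : y ∈ D.Fx ρ R.P) :
    D.t ρ i y = y - ((1 + (Fintype.card F : ℂ)⁻¹) * ⟪u, y⟫_ℂ) • u := by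
  have u0 : u ≠ 0 := fun e0 => by simp [e0] at u1
  have uP := (mem_U.1 hu).1
  obtain ⟨k, hk⟩ := c.mult_one hρ hu u0 (H u uP) (t_U hρ hu) (H _ (t_P (P_M uP i)))
  obtain ⟨h, -, e1, -⟩ := kappa hρ c.lg hu u0 (H u uP) hk
  have q0 : (Fintype.card F : ℂ) ≠ 0 := Nat.cast_ne_zero.2 Fintype.card_ne_zero
  have e2 : k = -(Fintype.card F : ℂ)⁻¹ := by
    simp only [Pi.one_apply, map_one, one_mul] at e1
    field_simp
    exact e1
  have m := sub_mem hy (Submodule.smul_mem _ ⟪u, y⟫_ℂ uP)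
  have := t_W m (fix_of_orth hρ c.lg m fun ψ hψ v hv => by
    obtain ⟨a, ha⟩ := c.mult_one hρ hu u0 (H u uP) (t_L hρ c.lg hψ hv) (H _ (t_P hv.2))
    rw [ha, inner_smul_left, inner_sub_right, inner_smul_right, u1]
    simp)
  rw [← sub_add_cancel y (⟪u, y⟫_ℂ • u), t_add, this, t_smul, hk, e2, sub_add_cancel]
  module

theorem gram_le (ci : D.Gd ρ i) (cj : D.Gd ρ j) (h1 : R.c i (e j) = -1) (h2 : R.c j (e i) = -1)
    (H : ∀ y ∈ D.Fx ρ R.P, D.Eig ρ 1 y) (hu : u ∈ D.U ρ i) (u1 : ⟪u, u⟫_ℂ = 1) (hv : v ∈ D.U ρ j)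
    (v1 : ⟪v, v⟫_ℂ = 1) : ‖⟪u, v⟫_ℂ‖ ≤ 1 / 2 := by
  have u0 : u ≠ 0 := fun e0 => by simp [e0] at u1
  have uP := (mem_U.1 hu).1
  have vP := (mem_U.1 hv).1
  obtain ⟨h, hh, br⟩ := D.braid i j h1 h2
  have e1 : D.t ρ i (D.t ρ j (D.t ρ i u)) = D.t ρ j (D.t ρ i (D.t ρ j u)) := by
    rw [← pr_three ci cj h1 h2 uP, ← pr_three cj ci h2 h1 uP, ← mul_app, ← mul_app, br, mul_app,
      H u uP h hh, Pi.one_apply, one_smul, mul_app, mul_app]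
  set k := 1 + (Fintype.card F : ℂ)⁻¹ with hk
  have ti : ∀ a b : ℂ, D.t ρ i (a • u + b • v) = (a - k * (a + b * ⟪u, v⟫_ℂ)) • u + b • v := fun a b => by
    rw [t_formula hρ ci H hu u1 (add_mem (Submodule.smul_mem _ a uP) (Submodule.smul_mem _ b vP)),
      inner_add_right, inner_smul_right, inner_smul_right, u1]
    module
  have tj : ∀ a b : ℂ, D.t ρ j (a • u + b • v) = a • u + (b - k * (a * ⟪v, u⟫_ℂ + b)) • v := fun a b => by
    rw [t_formula hρ cj H hv v1 (add_mem (Submodule.smul_mem _ a uP) (Submodule.smul_mem _ b vP)),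
      inner_add_right, inner_smul_right, inner_smul_right, v1]
    module
  have u2 : u = (1 : ℂ) • u + (0 : ℂ) • v := by simp
  rw [u2, ti, tj, ti, tj, ti, tj] at e1
  have e2 : (k * (1 - k + k ^ 2 * (⟪u, v⟫_ℂ * ⟪v, u⟫_ℂ))) • (u - ⟪v, u⟫_ℂ • v) = 0 := by
    linear_combination (norm := module) -e1
  have q0 : (0 : ℝ) < Fintype.card F := by exact_mod_cast Fintype.card_pos
  have k1 : k = ((1 + (Fintype.card F : ℝ)⁻¹ : ℝ) : ℂ) := by rw [hk]; push_cast; rfl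
  have k0 : (0 : ℝ) < 1 + (Fintype.card F : ℝ)⁻¹ := by positivity
  rcases smul_eq_zero.1 e2 with e3 | e3
  · have e4 := (mul_eq_zero.1 e3).resolve_left (by rw [k1]; exact_mod_cast k0.ne')
    rw [← inner_conj_symm v u, Complex.mul_conj', k1] at e4
    have e5 : 1 - (1 + (Fintype.card F : ℝ)⁻¹) + (1 + (Fintype.card F : ℝ)⁻¹) ^ 2 * ‖⟪u, v⟫_ℂ‖ ^ 2 = 0 := by
      exact_mod_cast e4
    generalize 1 + (Fintype.card F : ℝ)⁻¹ = r at e5 k0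
    refine le_of_sq_le_sq (le_of_mul_le_mul_left ?_ (pow_pos k0 2)) (by norm_num)
    nlinarith [sq_nonneg (r - 2)]
  · have uj : u ∈ D.U ρ j := by rw [sub_eq_zero.1 e3]; exact Submodule.smul_mem _ _ hv
    obtain ⟨a, ha⟩ := ci.mult_one hρ hu u0 (H u uP) (t_U hρ hu) (H _ (t_P (P_M uP i)))
    obtain ⟨b, hb⟩ := cj.mult_one hρ uj u0 (H u uP) (t_U hρ uj) (H _ (t_P (P_M uP j)))
    exact (not_parallel hρ ci cj h1 h2 hu uj u0 (H u uP) ha hb).elim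

theorem card_le (hG : ∀ i, D.Gd ρ i) (hA : ∀ i j, i ≠ j → R.c i (e j) = 0 ∨ R.c i (e j) = -1)
    (nb : ∀ i, ∃ j, R.c i (e j) = -1) (H : ∀ y ∈ D.Fx ρ R.P, D.Eig ρ 1 y)
    (pd : ∀ r : κ → ℝ, ∑ i, ∑ j, (R.c i (e j) : ℝ) * (r i * r j) ≤ 0 → r = 0) :
    Fintype.card κ ≤ finrank ℂ (D.Fx ρ R.P) := by
  have sy : ∀ i j, R.c i (e j) = R.c j (e i) := fun i j => by
    rw [← R.p_e i (hG i).lg, ← R.p_e j (hG j).lg, R.p_symm _ (hG i).lg _ (hG j).lg]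
  have ex : ∀ i, ∃ u ∈ D.U ρ i, ⟪u, u⟫_ℂ = 1 := fun i => by
    obtain ⟨j, hj⟩ := nb i
    obtain ⟨y, hy, y0⟩ := exists_U hρ (hG i) (hG j) hj (sy _ _ ▸ hj)
    refine ⟨((‖y‖ : ℂ)⁻¹) • y, Submodule.smul_mem _ _ hy, ?_⟩
    have := norm_smul_inv_norm (𝕜 := ℂ) y0
    rw [inner_self_eq_norm_sq_to_K]
    exact (congrArg (fun r : ℝ => (r : ℂ) ^ 2) this).trans (by simp)
  choose u hu u1 using ex
  refine LinearIndependent.fintype_card_le_finrank (b := fun i => (⟨u i, (mem_U.1 (hu i)).1⟩ : D.Fx ρ R.P))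
    (Fintype.linearIndependent_iff.2 fun x hx i => ?_)
  have e0 : ∑ i, x i • u i = 0 := by simpa using congrArg Subtype.val hx
  have e1 : ∑ i, ∑ j, (⟪x i • u i, x j • u j⟫_ℂ).re = 0 := by
    simp only [← Complex.re_sum, ← inner_sum, e0, inner_zero_right, Complex.zero_re, Finset.sum_const_zero]
  have := pd (fun i => ‖x i‖) (by
    rw [← mul_zero 2, ← e1, Finset.mul_sum]
    refine Finset.sum_le_sum fun i _ => ?_
    rw [Finset.mul_sum]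
    refine Finset.sum_le_sum fun j _ => ?_
    rw [inner_smul_left, inner_smul_right]
    by_cases hij : i = j
    · subst hij
      rw [R.c_self, u1, mul_one, Complex.conj_mul']
      norm_cast
      rw [sq]
    rcases hA i j hij with h | h
    · rw [U_orth hρ (hG i) (hG j) (by rw [R.p_e i (hG i).lg, h]) (hu i) (hu j), h]; simp
    · have a1 := gram_le hρ (hG i) (hG j) h (sy _ _ ▸ h) H (hu i) (u1 i) (hu j) (u1 j)
      have a2 := Complex.abs_re_le_norm ((starRingEnd ℂ) (x i) * (x j * ⟪u i, u j⟫_ℂ))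
      rw [norm_mul, norm_mul, Complex.norm_conj] at a2
      have a3 := mul_le_mul_of_nonneg_left a1 (mul_nonneg (norm_nonneg (x i)) (norm_nonneg (x j)))
      rw [h]
      push_cast
      nlinarith [neg_abs_le ((starRingEnd ℂ) (x i) * (x j * ⟪u i, u j⟫_ℂ)).re])
  simpa using congrFun this i

theorem gd_of (hc : ∀ i, e i ∈ R.Lg → D.Cond i) (hL : ∀ i, e i ∈ R.Lg → D.Line ρ i)
    (hnb : ∀ i j, e i ∈ R.Lg → e j ∈ R.Lg → R.p (e i) (e j) = -1 → D.Nb i j ∨ D.Nb j i)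
    (hi : e i ∈ R.Lg) : D.Gd ρ i := by
  have e1 : ∀ ψ : AddChar F ℂ, ψ ≠ 1 → D.Wt ρ (R.Λ i) (e i) ψ = D.Wt ρ (R.K (e i)) (e i) ψ := fun ψ hψ =>
    (hc i hi).fx_K hρ (hL i hi) (fun j hj hp => (hnb i j hi hj hp).imp_right fun h =>
      ⟨hc j hj, hL j hj, h⟩) hψ
  exact ⟨hi, fun ψ hψ => e1 ψ hψ ▸ hL i hi ψ hψ, e1, fun ψ hψ k hk =>
    e1 ψ hψ ▸ le_sup_right.trans ((hc i hi).n_fxs hρ hψ (hL i hi ψ hψ).le hk)⟩

theorem line_of (hf : ∀ g, (∀ v, ρ g v = v) → g = 1) (hi : e i ∈ R.Lg) {β : κ → ℤ} (hβ : β ∈ R.Lg)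
    (hp : R.p (e i) β = 1) {g : G} (h2 : ∀ y ∈ D.X (e i), g⁻¹ * y * g ∈ D.X β) (S : Finset (κ → ℤ))
    (hS : ∀ γ ∈ S, γ ∈ R.Λ i) (big : Fintype.card F * finrank ℂ V <
      2 * (Fintype.card F ^ 2 - 1) * ∏ γ ∈ S, Nat.card (D.X γ)) : D.Line ρ i := fun ψ hψ => by
  have fin : (R.Λ i).Finite := R.fin.subset fun _ h => h.1
  refine finrank_eq_one hρ hi (RT.lag_Λ hi) fin ?_ hβ hp h2 (big.trans_le (Nat.mul_le_mul_left _
    (Finset.prod_le_prod_of_subset_of_one_le' (fun γ hγ => by simpa using hS γ hγ)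
      fun _ _ _ => Nat.card_pos))) hψ
  obtain ⟨y, hy, y1⟩ := D.X_ne _ (R.e_mem i)
  exact ⟨y, hy, not_forall.1 fun h => y1 (hf y h)⟩

theorem count' (hG : ∀ i, e i ∈ R.Lg → D.Gd ρ i) (dd : (κ → ℤ) → ℕ)
    (h : ∀ β ∈ R.Lg, 0 ≤ β → (∃ i, β = e i ∧ dd β ≤ 1) ∨ ∃ i, 0 < R.c i β ∧ R.p β (e i) = 1 ∧
      0 ≤ R.s i β ∧ (∀ γ ∈ R.Φ, γ ≠ e i → R.c i γ ≤ R.c i β) ∧
      dd β ≤ Nat.card (D.X (β - e i)) * dd (R.s i β)) (B : Finset (κ → ℤ))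
    (hB : ∀ β ∈ B, β ∈ R.Lg ∧ 0 ≤ β) :
    (Fintype.card F - 1) * ∑ β ∈ B, dd β + finrank ℂ (D.Fx ρ R.P) ≤ finrank ℂ V :=
  count hρ dd B hB fun β hβ => raise dd (fun i hi ψ hψ => ((hG i hi).one ψ hψ).ge) h β (hB β hβ).2 (hB β hβ).1

end GD

end Cfsg.Agent.H23.MD
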