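import Mathlib
import Cfsg.Agent.H23.MDFin
import Cfsg.Agent.H80.ChevLift
import Cfsg.Agent.H75.Siegel

/-!
From root data to the abstract setting; unitarisation; the simply laced case.
-/

set_option autoImplicit false
set_option linter.unusedSectionVars false

namespace Cfsg.Agent.H23.MD

open Module Finset H34 H80 H40 Cfsg.Lie
open scoped InnerProductSpace commutatorElement

universe u

theorem exists_uni {G : Type u} [Group G] [Finite G] [IsSimpleGroup G] {k : ℕ}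
    (ρ : Representation ℂ G (Fin k → ℂ)) (h : ρ.IsIrreducible) (hk : 2 ≤ k) :
    ∃ (E : Type u) (_ : NormedAddCommGroup E) (_ : InnerProductSpace ℂ E) (_ : FiniteDimensional ℂ E)
      (σ : Representation ℂ G E), Uni σ ∧ finrank ℂ E = k ∧ ∀ g, (∀ v, σ g v = v) → g = 1 := by
  classical
  have := Fintype.ofFinite G
  let φ : (Fin k → ℂ) →ₗ[ℂ] EuclideanSpace ℂ (G × Fin k) :=
    (WithLp.linearEquiv 2 ℂ (G × Fin k → ℂ)).symm.toLinearMap ∘ₗ
      LinearMap.pi fun p : G × Fin k => LinearMap.proj p.2 ∘ₗ ρ p.1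
  have hφ : ∀ x p, φ x p = ρ p.1 x p.2 := fun _ _ => rfl
  have hinj : Function.Injective φ := by
    intro x y h
    funext i
    have := congrArg (fun v : EuclideanSpace ℂ (G × Fin k) => v (1, i)) h
    simpa [hφ] using this
  let e := LinearEquiv.ofInjective φ hinj
  let σ : Representation ℂ G (LinearMap.range φ) := e.conjAlgEquiv ℂ |>.toMonoidHom.comp ρ
  have hσ : ∀ g x, σ g (e x) = e (ρ g x) := fun g x => by
    simp [σ, LinearEquiv.conjAlgEquiv_apply]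
  refine ⟨LinearMap.range φ, inferInstance, inferInstance, inferInstance, σ, fun g x y => ?_, ?_, fun g hg => ?_⟩
  · obtain ⟨x, rfl⟩ := e.surjective x
    obtain ⟨y, rfl⟩ := e.surjective y
    rw [hσ, hσ]
    change ⟪φ (ρ g x), φ (ρ g y)⟫_ℂ = ⟪φ x, φ y⟫_ℂ
    simp only [PiLp.inner_apply, hφ]
    refine Fintype.sum_equiv ((Equiv.mulRight g).prodCongr (Equiv.refl _)) _ _ fun p => ?_
    simp
  · rw [← e.finrank_eq, finrank_fin_fun]
  · rcases IsSimpleGroup.eq_bot_or_eq_top_of_normal ρ.ker inferInstance with h1 | h1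
    · exact Subgroup.mem_bot.1 (h1 ▸ MonoidHom.mem_ker.2
        (LinearMap.ext fun v => e.injective (by rw [← hσ, hg]; rfl)))
    · have := H75.finrank_le_one_of_trivial ρ h fun g => MonoidHom.mem_ker.1 (h1 ▸ Subgroup.mem_top g)
      rw [finrank_fin_fun] at this
      omega

variable {κ : Type} [Fintype κ] [DecidableEq κ]

/-- Coordinates for a signed system. -/
structure Lk {Ψ : Type*} (S : SignedSys κ Ψ) (R : RT κ) where
  v : Ψ → κ → ℤ
  inj : Function.Injective v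
  mem : ∀ a, a ∈ R.Φ ↔ ∃ A, v A = a
  α : ∀ i, v (S.α i) = e i
  neg : ∀ A, v (S.neg A) = -v A
  s : ∀ i A, v (S.s i A) = R.s i (v A)
  univ : S.Phi Set.univ = Set.univ

theorem RT.s_comb (R : RT κ) (i : κ) (a b : ℤ) (γ δ : κ → ℤ) :
    R.s i (a • γ + b • δ) = a • R.s i γ + b • R.s i δ := by
  simp only [RT.s, map_add, map_smul, smul_eq_mul]
  module

namespace Lk

variable {Ψ : Type*} [Finite Ψ] {S : SignedSys κ Ψ} {R : RT κ} (l : Lk S R) {G : Type*} [Group G]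
  (P : RD S G)

theorem v_mem (A : Ψ) : l.v A ∈ R.Φ := (l.mem _).2 ⟨A, rfl⟩

/-- The root subgroup of a vector. -/
def X (a : κ → ℤ) : Subgroup G := rootU P.X {A | l.v A = a}

theorem X_v (A : Ψ) : l.X P (l.v A) = P.X A :=
  le_antisymm (rootU_le fun B (h : l.v B = l.v A) x hx => by rwa [l.inj h] at hx)
    fun _ hx => mem_rootU (r := A) (A := {B | l.v B = l.v A}) rfl hx

theorem comm (h : ∀ A B, S.pos A → S.pos B → ∀ y ∈ P.X A, ∀ z ∈ P.X B,
      ⁅y, z⁆ ∈ rootU P.X {C | l.v C ∈ R.cb (l.v A) (l.v B)}) {A B : Ψ} (hn : B ≠ S.neg A) :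
    ∀ y ∈ P.X A, ∀ z ∈ P.X B, ⁅y, z⁆ ∈ rootU P.X {C | l.v C ∈ R.cb (l.v A) (l.v B)} := by
  obtain ⟨w, hw, h1, h2⟩ := exists_W_pos_pos l.univ hn
  obtain ⟨L, rfl⟩ := S.mem_W_iff.1 hw
  clear hw hn
  induction L using List.reverseRecOn generalizing A B with
  | nil => exact h A B h1 h2
  | append_singleton L i ih =>
    intro y hy z hz
    rw [SignedSys.word_append] at h1 h2
    have := ih (A := S.s i A) (B := S.s i B) (by simpa using h1) (by simpa using h2) _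
      (P.n_conj i A y hy) _ (P.n_conj i B z hz)
    have h3 := conj_mem_rootU (g := (P.n i)⁻¹) (K := rootU P.X {C | l.v C ∈ R.cb (l.v A) (l.v B)})
      (fun C hC x hx => mem_rootU (r := S.s i C) ?_ (by simpa using RD.n_conj' i hx)) this
    · convert h3 using 1
      simp only [commutatorElement_def]; group
    · obtain ⟨-, a, b, ha, hb, e0⟩ := hC
      exact ⟨l.v_mem _, a, b, ha, hb, by rw [l.s, e0, R.s_comb, l.s, l.s, RT.s_s, RT.s_s]⟩

include l in
theorem X_ne (A : Ψ) : ∃ y ∈ P.X A, y ≠ 1 := by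
  obtain ⟨L, i, h⟩ := RD.exists_nw_simple l.univ (S.neg A)
  obtain ⟨x, hx, h1⟩ := P.nondeg i
  have h2 := RD.nw_conj' L hx
  rw [← h, ← S.map_neg (S.word_mem_W L), S.neg_neg, perm_inv_app] at h2
  refine ⟨_, h2, fun e0 => h1 ?_⟩
  rw [conj_inv_eq_one_iff.1 e0]
  exact one_mem _

open Classical in
/-- The abstract data of a root datum. -/
noncomputable def gd {F : Type*} [Field F] (x : Ψ → F → G)
    (comm : ∀ A B, S.pos A → S.pos B → ∀ y ∈ P.X A, ∀ z ∈ P.X B,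
      ⁅y, z⁆ ∈ rootU P.X {C | l.v C ∈ R.cb (l.v A) (l.v B)})
    (x_add : ∀ A, l.v A ∈ R.Lg → ∀ s t, x A (s + t) = x A s * x A t)
    (x_inj : ∀ A, l.v A ∈ R.Lg → ∀ t, x A t = 1 → t = 0)
    (mem_X : ∀ A, l.v A ∈ R.Lg → ∀ y, y ∈ P.X A ↔ ∃ t, x A t = y)
    (heis : ∀ A B C, l.v A ∈ R.Lg → R.p (l.v A) (l.v B) = 1 → l.v C = l.v A - l.v B →
      ∀ y ∈ P.X B, y ≠ 1 → ∀ w ∈ P.X A, ∃ z ∈ P.X C, ⁅y, z⁆ = w)
    (T_comm : ∀ h ∈ P.H, ∀ h' ∈ P.H, h * h' = h' * h)
    (T_trans : ∀ A, l.v A ∈ R.Lg → ∀ c : F, c ≠ 0 → ∃ h ∈ P.H, ∀ t, h * x A t * h⁻¹ = x A (c * t)) :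
    GD R F G :=
  have xv : ∀ A t, (if h : ∃ B, l.v B = l.v A then x h.choose t else 1) = x A t := fun A t => by
    have h : ∃ B, l.v B = l.v A := ⟨A, rfl⟩
    rw [dif_pos h, l.inj h.choose_spec]
  { X := l.X P
    x a t := if h : ∃ B, l.v B = a then x h.choose t else 1
    n := P.n
    T := P.H
    comm γ hγ δ hδ f h1 h2 y hy z hz := by
      obtain ⟨A, rfl⟩ := (l.mem _).1 hγ
      obtain ⟨B, rfl⟩ := (l.mem _).1 hδ
      rw [X_v] at hy hz
      refine rootU_le (fun C hC w hw => ?_) (l.comm P comm (fun e0 => ?_) y hy z hz)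
      · exact Subgroup.mem_iSup_of_mem _ (Subgroup.mem_iSup_of_mem hC (by rwa [X_v]))
      · rw [e0, l.neg, map_neg] at h2
        omega
    x_add α hα s t := by
      obtain ⟨A, rfl⟩ := (l.mem _).1 (R.lg_sub _ hα)
      simp only [xv, x_add A hα]
    x_inj α hα t := by
      obtain ⟨A, rfl⟩ := (l.mem _).1 (R.lg_sub _ hα)
      simpa only [xv] using x_inj A hα t
    mem_X α hα y := by
      obtain ⟨A, rfl⟩ := (l.mem _).1 (R.lg_sub _ hα)
      simpa only [xv, X_v] using mem_X A hα y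
    heis α hα γ hγ hp y hy h1 t := by
      obtain ⟨C, hC⟩ := (l.mem _).1 (R.sub_mem α hα γ hγ hp)
      obtain ⟨A, rfl⟩ := (l.mem _).1 (R.lg_sub _ hα)
      obtain ⟨B, rfl⟩ := (l.mem _).1 hγ
      rw [← hC, xv, X_v]
      exact heis A B C hα hp hC y (by rwa [X_v] at hy) h1 _ ((mem_X A hα _).2 ⟨t, rfl⟩)
    X_ne γ hγ := by
      obtain ⟨A, rfl⟩ := (l.mem _).1 hγ
      rw [X_v]
      exact l.X_ne P A
    n_conj i γ hγ y hy := by
      obtain ⟨A, rfl⟩ := (l.mem _).1 hγ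
      rw [← l.s, X_v]
      exact P.n_conj i A y (by rwa [X_v] at hy)
    n_mem i := by rw [← l.α, ← l.neg, X_v, X_v]; exact P.n_mem i
    n_sq := P.n_sq
    T_comm := T_comm
    T_conj h hh γ hγ y hy := by
      obtain ⟨A, rfl⟩ := (l.mem _).1 hγ
      rw [X_v] at hy ⊢
      exact P.H_conj h hh A y hy
    n_T := P.n_H
    T_trans α hα c hc := by
      obtain ⟨A, rfl⟩ := (l.mem _).1 (R.lg_sub _ hα)
      simpa only [xv] using T_trans A hα c hc
    sl2 i y hy h1 := by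
      rw [← l.α, ← l.neg, X_v] at hy
      rw [← l.α, X_v]
      exact P.sl2 i y hy h1
    braid i j h1 h2 := by
      obtain ⟨h, hh, e0⟩ := RD.nw_mul_n (P := P) (l := [i, j]) (i := i) (j := j) (l.inj (by
        simp only [SignedSys.word_cons, SignedSys.word_nil, mul_one, Equiv.Perm.mul_apply, l.s, l.α,
          RT.s, h2, map_sub, map_smul, h1, R.c_self]
        module))
      refine ⟨_, RD.nw_H' [j, i, j] hh, ?_⟩
      simp only [RD.nw_cons, RD.nw_nil, mul_one] at e0 ⊢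
      rw [e0]
      group }

section
variable {F : Type*} [Field F] {x : Ψ → F → G} {h1 h2 h3 h4 h5 h6 h7}

theorem gd_X (A : Ψ) : (l.gd P x h1 h2 h3 h4 h5 h6 h7).X (l.v A) = P.X A := l.X_v P A
theorem gd_x (A : Ψ) (t : F) : (l.gd P x h1 h2 h3 h4 h5 h6 h7).x (l.v A) t = x A t := by
  have h : ∃ B, l.v B = l.v A := ⟨A, rfl⟩
  exact (dif_pos h).trans (by rw [l.inj h.choose_spec])
theorem gd_T : (l.gd P x h1 h2 h3 h4 h5 h6 h7).T = P.H := rfl
theorem gd_n : (l.gd P x h1 h2 h3 h4 h5 h6 h7).n = P.n := rfl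

end

end Lk

section RS

variable {Φ : Type*} [Finite Φ] (R : RS κ Φ) (L : ℤ) (hL : ∀ r, R.len r ≤ L)
  (hb : ∀ r s, s ≠ r → s ≠ R.neg r → R.pair r s * R.pair s r ≤ 3)

open Classical in
/-- The coroot form of a vector. -/
noncomputable def cpv (a : κ → ℤ) : (κ → ℤ) →ₗ[ℤ] ℤ := if h : ∃ r, R.rc r = a then R.cp h.choose else 0

omit [Finite Φ] in
theorem cpv_rc (r : Φ) : cpv R (R.rc r) = R.cp r := by
  have h : ∃ s, R.rc s = R.rc r := ⟨r, rfl⟩
  rw [cpv, dif_pos h, R.rc_inj h.choose_spec]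

/-- The root system with its long roots. -/
noncomputable def ofRS : RT κ where
  Φ := Set.range R.rc
  Lg := {a | ∃ r, R.len r = L ∧ R.rc r = a}
  p := cpv R
  c := R.wtv
  fin := Set.finite_range _
  lg_sub _ h := h.imp fun _ h => h.2
  ne_zero := by rintro _ ⟨r, rfl⟩; exact R.rc_ne_zero r
  pos_or := by rintro _ ⟨r, rfl⟩; exact R.pos_or_neg r
  neg_mem := by rintro _ ⟨r, rfl⟩; exact ⟨_, R.rc_neg r⟩
  neg_lg := by rintro _ ⟨r, h, rfl⟩; exact ⟨_, (R.len_neg r).trans h, R.rc_neg r⟩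
  e_mem i := ⟨_, R.rc_simple i⟩
  red := by
    rintro _ ⟨r, rfl⟩ i h
    rcases R.eq_simple_or_of_support h with rfl | rfl
    exacts [.inl (R.rc_simple i), .inr (by rw [R.rc_neg, R.rc_simple]; rfl)]
  c_self i := (R.wtv_single i i).trans (R.A_self i)
  s_mem' := by rintro i _ ⟨r, rfl⟩; exact ⟨_, R.rc_refl' i r⟩
  s_lg' := by rintro i _ ⟨r, h, rfl⟩; exact ⟨_, (R.len_refl i r).trans h, R.rc_refl' i r⟩
  p_self := by rintro _ ⟨r, -, rfl⟩; rw [cpv_rc]; exact R.pair_self r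
  p_le := by
    rintro _ ⟨r, h, rfl⟩ _ ⟨s, rfl⟩ hne
    rw [cpv_rc]
    change R.pair r s ≤ 1
    by_cases h2 : s = R.neg r
    · rw [h2, R.pair_neg_right, R.pair_self]; norm_num
    have a1 := hb r s (fun e0 => hne (e0 ▸ rfl)) h2
    have a2 := R.len_mul_pair r s
    have a3 := hL s
    have a4 := R.len_pos s
    by_contra hc
    have a5 : R.pair r s ≤ R.pair s r := by
      by_contra h5
      nlinarith
    nlinarith
  p_symm := by
    rintro _ ⟨r, h, rfl⟩ _ ⟨s, h', rfl⟩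
    rw [cpv_rc, cpv_rc]
    have a2 := R.len_mul_pair r s
    rw [h, h'] at a2
    exact mul_left_cancel₀ (h ▸ R.len_ne_zero r) a2
  p_e i _ := by rw [e, ← R.rc_simple, cpv_rc, R.cp_simple]
  sub_mem := by
    rintro _ ⟨r, -, rfl⟩ _ ⟨s, rfl⟩ h
    rw [cpv_rc] at h
    exact ⟨R.neg (R.τ r s), by rw [R.rc_neg, R.rc_τ, show R.pair r s = 1 from h]; simp⟩

/-- The coordinates of the roots. -/
noncomputable def lkRS : Lk (sgn R) (ofRS R L hL hb) where
  v := R.rc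
  inj := R.rc_inj
  mem _ := Iff.rfl
  α := R.rc_simple
  neg := R.rc_neg
  s := R.rc_σ
  univ := Phi_univ R

theorem ofRS_p (r s : Φ) : (ofRS R L hL hb).p (R.rc r) (R.rc s) = R.pair r s := by
  change cpv R _ _ = _
  rw [cpv_rc]; rfl

theorem ofRS_lg (r : Φ) : R.rc r ∈ (ofRS R L hL hb).Lg ↔ R.len r = L :=
  ⟨fun ⟨_, h, e0⟩ => R.rc_inj e0 ▸ h, fun h => ⟨r, h, rfl⟩⟩

end RS

end Cfsg.Agent.H23.MD
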