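import Mathlib
import Cfsg.Agent.H23.MDRD
import Cfsg.Agent.H40.Tab
import Cfsg.Agent.H40.ChevPar
import Cfsg.Agent.H37.TwAut
import Cfsg.Agent.H34.Chev3

/-!
Minimal degrees of the simply laced exceptional Chevalley groups.
-/

set_option autoImplicit false
set_option linter.unusedSectionVars false

namespace Cfsg.Agent.H23.MD

open Module Finset H34 H80 H40 H37 Cfsg.Lie
open scoped InnerProductSpace commutatorElement

variable {κ : Type} [Fintype κ] [DecidableEq κ]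

theorem pd_of (A : κ → κ → ℤ) (hs : ∀ i j, A i j = A j i) (ho : ∀ i j, i ≠ j → A i j ≤ 0) (m : κ → ℤ)
    (hm : ∀ i, 0 < m i) (hA : ∀ i, 0 < ∑ j, A i j * m j) (r : κ → ℝ)
    (h : ∑ i, ∑ j, (A i j : ℝ) * (r i * r j) ≤ 0) : r = 0 := by
  have hm' : ∀ i, (0 : ℝ) < m i := fun i => by exact_mod_cast hm i
  let g : κ → κ → ℝ := fun i j => A i j * m j / m i * r i ^ 2
  have h1 : ∑ i, ∑ j, (g i j + g j i) ≤ 0 := by
    refine le_trans ?_ (mul_nonpos_of_nonneg_of_nonpos zero_le_two h)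
    simp only [Finset.mul_sum]
    refine sum_le_sum fun i _ => sum_le_sum fun j _ => ?_
    have := hm' i
    have := hm' j
    rw [← sub_nonpos, show g i j + g j i - 2 * (A i j * (r i * r j)) =
      A i j * ((m j * r i - m i * r j) ^ 2 / (m i * m j)) by simp only [g, hs j i]; field_simp; ring]
    by_cases hij : i = j
    · simp [hij]
    · exact mul_nonpos_of_nonpos_of_nonneg (by exact_mod_cast ho i j hij) (by positivity)
  simp only [sum_add_distrib] at h1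
  rw [sum_comm (f := fun i j => g j i)] at h1
  have h2 : ∀ i, ∑ j, g i j = (∑ j, A i j * m j : ℤ) / m i * r i ^ 2 := fun i => by
    simp only [g, ← sum_mul, ← sum_div]; push_cast; rfl
  have h3 : ∀ i, (0 : ℝ) < (∑ j, A i j * m j : ℤ) / m i := fun i =>
    div_pos (by exact_mod_cast hA i) (hm' i)
  simp only [h2] at h1
  have h4 := (sum_eq_zero_iff_of_nonneg fun i _ => mul_nonneg (h3 i).le (sq_nonneg (r i))).1
    (le_antisymm (not_lt.1 fun h => (add_pos h h).not_ge h1) (sum_nonneg fun i _ => mul_nonneg (h3 i).le (sq_nonneg (r i))))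
  exact funext fun i => by simpa [(h3 i).ne'] using (mul_eq_zero.1 (h4 i (mem_univ i))).resolve_left (h3 i).ne'

theorem pos_of_mul_pos_of_nonneg' {a b : ℤ} (h : 0 < a * b) (ha : 0 ≤ a) : 1 ≤ b :=
  not_lt.1 fun hb => h.not_ge (mul_nonpos_of_nonneg_of_nonpos ha (by omega))

theorem RT.exists_simple {R : RT κ} {β : κ → ℤ} (hβ : β ∈ R.Lg) (h0 : 0 ≤ β) :
    (∃ j, β = e j) ∨ ∃ j, R.p β (e j) = 1 ∧ 0 ≤ β - e j := by
  have h1 : ∑ j, β j * R.p β (e j) = 2 := by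
    rw [← R.p_self β hβ]
    conv_rhs => rw [LinearMap.pi_apply_eq_sum_univ]
    exact sum_congr rfl fun j _ => by
      rw [smul_eq_mul]; congr 2; funext k; simp [e, Pi.single_apply, eq_comm]
  obtain ⟨j, -, hj⟩ := exists_lt_of_sum_lt (s := univ) (f := fun _ => (0 : ℤ))
    (g := fun j => β j * R.p β (e j)) (by simp [h1])
  by_cases hb : β = e j
  · exact .inl ⟨j, hb⟩
  have h2 := R.p_le β hβ _ (R.e_mem j) (Ne.symm hb)
  have h3 : 0 ≤ β j := h0 j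
  refine .inr ⟨j, le_antisymm h2 (pos_of_mul_pos_of_nonneg' hj h3), fun k => ?_⟩
  by_cases hk : k = j
  · subst hk
    simp only [Pi.zero_apply, Pi.sub_apply, e_self]
    by_contra hc
    obtain h4 : β k = 0 := by omega
    simp [h4] at hj
  · simpa [e_ne hk] using h0 k

theorem GD.laced {R : RT κ} {F : Type*} [Field F] [Fintype F] {G : Type*} [Group G] [Finite G]
    (D : GD R F G) {V : Type*} [NormedAddCommGroup V] [InnerProductSpace ℂ V] [FiniteDimensional ℂ V]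
    {ρ : Representation ℂ G V} (hρ : Uni ρ) (hf : ∀ g, (∀ v, ρ g v = v) → g = 1)
    (hL : ∀ γ ∈ R.Φ, γ ∈ R.Lg)
    (h0 : ∀ i, ∀ δ ∈ R.Φ, R.p (e i) δ = 0 → ∃ ε ∈ R.Φ, R.p (e i) ε = 0 ∧ R.p δ ε = 1)
    (A : κ → κ → ℤ) (hA : ∀ i j, R.c i (e j) = A i j)
    (hnb : ∀ i j, A i j = -1 → (∃ k, A i k = 0 ∧ A k j < 0) ∨ ∃ k, A j k = 0 ∧ A k i < 0)
    (ho : ∀ i j, i ≠ j → A i j = 0 ∨ A i j = -1) (d : κ → ℕ) {c a₁ a₂ a₃ : κ}
    (hd : ∀ i, (i = c ∨ ∃ j, A i j = -1 ∧ d j < d i)) (hc : A c a₁ = -1 ∧ A c a₂ = -1 ∧ A c a₃ = -1 ∧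
      A a₁ a₂ = 0 ∧ A a₁ a₃ = 0 ∧ A a₂ a₃ = 0) (m : κ → ℤ) (hm : ∀ i, 0 < m i)
    (hm' : ∀ i, 0 < ∑ j, A i j * m j)
    (hT : D.T ≤ Subgroup.closure {g | ∃ i, ∃ h ∈ D.T, g = (D.n i)⁻¹ * h * D.n i * h⁻¹})
    {N : ℕ} (hN : ∀ i, ∃ S : Finset (κ → ℤ), (∀ γ ∈ S, γ ∈ R.Λ i) ∧ S.card = N)
    (big : Fintype.card F * finrank ℂ V < 2 * (Fintype.card F ^ 2 - 1) * Fintype.card F ^ N)
    (B : Finset (κ → ℤ)) (hB : ∀ β ∈ B, β ∈ R.Φ ∧ 0 ≤ β) :
    (Fintype.card F - 1) * ∑ β ∈ B, Fintype.card F ^ (ht β - 1).toNat + Fintype.card κ ≤ finrank ℂ V := by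
  have lg := fun i => hL _ (R.e_mem i)
  have sy : ∀ i j, A i j = A j i := fun i j => by
    rw [← hA, ← hA, ← R.p_e i (lg i), ← R.p_e j (lg j), R.p_symm _ (lg i) _ (lg j)]
  have nb : ∀ i, ∃ j, A i j = -1 := fun i => (hd i).elim (fun h => ⟨_, h ▸ hc.1⟩) fun ⟨j, h, _⟩ => ⟨j, h⟩
  have hG : ∀ i, D.Gd ρ i := fun i => by
    refine GD.gd_of hρ (fun i hi => ⟨hi, fun δ hδ h => .inr ⟨hL _ hδ, h0 i δ hδ h⟩,
      fun β hβ h1 h2 h3 => .inr ⟨hL _ hβ, ?_⟩, fun β hβ h1 h2 => .inr ⟨hL _ hβ, ?_⟩⟩) (fun i hi => ?_)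
      (fun i j hi hj h => ?_) (lg i)
    · rcases RT.exists_simple (hL _ hβ) h1 with ⟨j, rfl⟩ | ⟨j, h4, h5⟩
      · by_cases hij : i = j
        · rw [hij, R.p_self _ (lg j)] at h2; omega
        · simp [e_ne hij] at h3
      · exact ⟨_, R.e_mem j, e_nonneg j, h5, h4, .inl (lg j), .inl (hL _ (R.sub_mem _ (hL _ hβ) _ (R.e_mem j) h4))⟩
    · exact (RT.exists_simple (hL _ hβ) h1).symm.imp_left fun ⟨j, h4, h5⟩ => ⟨_, R.e_mem j, e_nonneg j, h5, h4⟩
    · obtain ⟨j, hj⟩ := nb i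
      obtain ⟨S, h1, h2⟩ := hN i
      refine GD.line_of hρ hf hi (RT.s_lg j hi) ?_ (fun _ => GD.n_conj' j (R.e_mem i)) S h1 ?_
      · rw [RT.s, map_sub, map_smul, R.p_self _ hi, R.p_e i hi, hA, hA, sy j, hj]; rfl
      · rwa [prod_congr rfl fun γ hγ => GD.card_X (hL _ (h1 γ hγ).1), prod_const, h2]
    · rw [R.p_e i hi, hA] at h
      simp only [GD.Nb, R.p_e i hi, R.p_e j hj, hA]
      exact (hnb i j h).imp .inr .inr
  have conn : ∀ n i, d i = n → Relation.ReflTransGen (fun i j => R.c i (e j) = -1) i c := fun n => by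
    induction n using Nat.strong_induction_on with
    | _ n ih =>
      intro i hi
      rcases hd i with rfl | ⟨j, h1, h2⟩
      exacts [.refl, .head ((hA _ _).trans h1) (ih _ (hi ▸ h2) j rfl)]
  have h1 := GD.card_le hρ hG (by simpa only [hA] using ho) (by simpa only [hA] using nb)
    (fun y hy => GD.eig_one_of (fun θ hw i => GD.not_mv hρ hG ((hA _ _).trans hc.1) ((hA _ _).trans hc.2.1)
      ((hA _ _).trans hc.2.2.1) ((hA _ _).trans hc.2.2.2.1) ((hA _ _).trans hc.2.2.2.2.1)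
      ((hA _ _).trans hc.2.2.2.2.2) (fun i => conn _ i rfl) hw i) hT hy)
    (by simpa only [hA] using pd_of A sy (fun i j h => by have := ho i j h; omega) m hm hm')
  refine le_trans (Nat.add_le_add_left h1 _) (GD.count' hρ (fun i _ => hG i) _ (fun β hβ h2 => ?_) B
    fun β hβ => ⟨hL _ (hB β hβ).1, (hB β hβ).2⟩)
  refine (RT.exists_simple hβ h2).imp (fun ⟨j, h⟩ => ⟨j, h, by simp [h, ht_e]⟩) fun ⟨j, h3, h4⟩ => ?_
  have h5 : R.c j β = 1 := by rw [← R.p_e j (lg j), R.p_symm _ (lg j) _ hβ, h3]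
  have h6 : R.s j β = β - e j := by rw [RT.s, h5, one_smul]
  have h7 := R.sub_mem _ hβ _ (R.e_mem j) h3
  refine ⟨j, by omega, h3, h6 ▸ h4, fun γ hγ h => ?_, ?_⟩
  · rw [h5, ← R.p_e j (lg j)]; exact R.p_le _ (lg j) γ hγ h
  · have := RT.ht_pos h7 h4
    rw [GD.card_X (hL _ h7), h6, ← pow_succ']
    rw [map_sub, ht_e] at this ⊢
    exact (congrArg _ (by omega)).le

section Chev

variable {D : ChevalleyDatum} (C : Cert D) (K : Type*) [Field K] (L : ℤ) (hL : ∀ r, C.R.len r ≤ L)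

/-- The root system of a datum. -/
noncomputable abbrev rtC : RT (Fin D.rank) := ofRS C.R L hL fun _ _ h1 h2 => (pair_bounds h1 h2).2

variable {C K} in
theorem comm_cone {r s : Fin D.nroots} (h : s ≠ C.R.neg r) {y z : D.group K} (hy : y ∈ (rdC C K).X r)
    (hz : z ∈ (rdC C K).X s) : ⁅y, z⁆ ∈ rootU (rdC C K).X (H35.Cone C.R r s) := by
  obtain ⟨t, rfl⟩ := mem_XC.1 hy
  obtain ⟨u, rfl⟩ := mem_XC.1 hz
  by_cases h1 : r = s
  · subst h1
    rw [commutatorElement_eq_one_iff_mul_comm.2 (by rw [← Cert.xg_add, ← Cert.xg_add, add_comm])]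
    exact one_mem _
  have := H35.wd_commWord_mem C (Y := (rdC C K).X) (r := s) (s := r) (fun k _ => xg_mem k) (-u) (-t)
  rw [wd_eq h1 (fun e0 => h (by rw [e0, C.R.neg_neg])), Cert.xg_neg, Cert.xg_neg, inv_inv, inv_inv] at this
  exact rootU_mono (fun _ => H35.cone_comm) this

/-- The abstract data of a Chevalley group. -/
noncomputable def gdC (h1 : ∀ r s k, C.R.len k = L → IsSum C.R r s k → C.R.pair k r = 1 →
      Tri ((rdC C K).X r) ((rdC C K).X s) ((rdC C K).X k))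
    (h2 : ∀ r, ∃ a, C.R.pair a r = 1) : GD (rtC C L hL) K (D.group K) :=
  (lkRS C.R L hL _).gd (rdC C K) (fun r => C.xg K r)
    (fun _ _ hr hs _ hy _ hz => rootU_mono (fun k hk => And.intro ⟨k, rfl⟩ hk)
      (comm_cone (hr.ne_neg hs) hy hz))
    (fun r _ => Cert.xg_add r) (fun r _ _ => (Cert.xg_eq_one_iff r.2).1) (fun _ _ _ => mem_XC)
    (fun k r s hk hp e0 => (h1 r s k ((ofRS_lg _ _ _ _ k).1 hk) (by
      have : C.R.rc s = C.R.rc k - C.R.rc r := e0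
      simp [IsSum, this]) ((ofRS_p _ _ _ _ k r).symm.trans hp)).surj')
    (fun h hh h' hh' => HC_commute h hh h' hh')
    (fun r _ c hc => by
      obtain ⟨a, ha⟩ := h2 r
      exact ⟨_, hg_mem a hc, fun t => by rw [Cert.hg_conj a.2 r.2 hc, ← H80.pair_eq C, ha, zpow_one]⟩)

variable {C K}

theorem eq_of_ch {g h : D.group K} (hg : g ∈ (C.split K).H) (hh : h ∈ (C.split K).H)
    (e0 : ∀ r : Fin D.nroots, ch g r = ch h r) : g = h := by
  obtain ⟨c, rfl⟩ := Cert.mem_H_iff.1 hg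
  obtain ⟨d, rfl⟩ := Cert.mem_H_iff.1 hh
  refine Cert.tg_eq_iff.2 fun j => Units.ext ?_
  have := e0 (C.R.simple j)
  rwa [ch_tg _ (C.R.simple j).2, ch_tg _ (C.R.simple j).2, C.simple_val] at this

theorem H_le_closure (nb : ∀ i, ∃ j, C.R.A j i = -1) : (rdC C K).H ≤ Subgroup.closure
    {g | ∃ i, ∃ h ∈ (rdC C K).H, g = ((rdC C K).n i)⁻¹ * h * (rdC C K).n i * h⁻¹} := fun g hg => by
  obtain ⟨c, rfl⟩ := (Cert.mem_H_iff (C := C)).1 hg
  refine Pi.mulSingle_induction (fun c => C.tg K c ∈ _) c (by simp) (fun _ _ h1 h2 => by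
    simpa using mul_mem h1 h2) fun i t => Subgroup.subset_closure ?_
  obtain ⟨j, hj⟩ := nb i
  have h1 := hg_mem (C := C) (C.R.simple j) t.ne_zero
  have hn : (rdC C K).n i ∈ (C.split K).N := Cert.ng_mem_N (C.V.basic.simple_lt i i.2) one_ne_zero
  have h2 := Split.conj_mem_H' hn h1
  refine ⟨i, _, h1, eq_mul_inv_of_mul_eq (eq_of_ch (mul_mem (Cert.tg_mem_H _) h1) h2 fun r => ?_)⟩
  rw [ch_mul (Cert.tg_mem_H _) h1 r.2, ← ch_conj_N hn h2, ← Cert.hg_simple, ← C.simple_val,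
    show (C.split K).ν ((rdC C K).n i) = C.S.s i from Cert.ν_ng i one_ne_zero,
    show ∀ a b : D.group K, a * (a⁻¹ * b * a) * a⁻¹ = b by intros; group,
    ch_hg (Fin.is_lt _) r.2 t.ne_zero, ch_hg (Fin.is_lt _) r.2 t.ne_zero,
    ch_hg (Fin.is_lt _) (Fin.is_lt _) t.ne_zero, ← zpow_add₀ t.ne_zero, ← H80.pair_eq C, ← H80.pair_eq C, ← H80.pair_eq C]
  simp only [RS.pair_simple_left, sgn_s, RS.σ_apply, RS.wt_refl, hj]
  congr 1; ring

theorem rc_eq_co (hs : ∀ r s, C.R.pair r s = C.R.pair s r) (r : Fin D.nroots) (i : Fin D.rank) :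
    C.R.rc r i = co D r i := by
  rw [← C.co_eq]
  revert i
  refine congrFun (C.R.root_induction (P := fun r => C.R.rc r = C.R.co r)
    (fun i => by rw [C.R.co_simple, C.R.rc_simple]) (fun r i ih => ?_) r)
  rw [RS.σ_apply, C.R.co_refl, C.R.rc_refl', hs, RS.pair_simple_left, ih]

theorem len_eq (hs : ∀ r s, C.R.pair r s = C.R.pair s r) {θ : Fin D.nroots} (hθ : ∀ i < D.rank, co D θ i ≠ 0)
    (r : Fin D.nroots) : C.R.len r = C.R.len θ := by
  obtain ⟨j, hj⟩ := Function.ne_iff.1 (C.R.rc_ne_zero r)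
  have h1 := C.R.rc_co r j
  have h2 := C.R.rc_co θ j
  rw [C.co_eq, ← rc_eq_co hs] at h1 h2
  rw [← mul_left_cancel₀ hj h1, mul_left_cancel₀ (rc_eq_co hs θ j ▸ hθ j j.2) h2]

theorem chev_laced [Fintype K] [IsSimpleGroup (D.group K)] (hs : ∀ r s, C.R.pair r s = C.R.pair s r)
    (V : Valid D) (hT : chkT D V.cor V.car = true) {θ : ℕ} (hθ : θ < D.nroots ∧ ∀ i < D.rank, co D θ i ≠ 0)
    (hu : ∀ i < D.rank, ∃ a < D.nroots, D.pairing a (D.simple i) = 1) {c : List (List ℤ)} (hc : IsCartan C.R c)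
    (A : Fin D.rank → Fin D.rank → ℤ) (hA : A = fun i j => (c.getD i.1 []).getD j.1 0)
    (d : Fin D.rank → ℕ) (m : Fin D.rank → ℤ) (a : Fin 4 → Fin D.rank)
    (h : (∀ i j, A i j = -1 → (∃ k, A i k = 0 ∧ A k j < 0) ∨ ∃ k, A j k = 0 ∧ A k i < 0) ∧
      (∀ i j, i ≠ j → A i j = 0 ∨ A i j = -1) ∧ (∀ i, (i = a 0 ∨ ∃ j, A i j = -1 ∧ d j < d i)) ∧
      (A (a 0) (a 1) = -1 ∧ A (a 0) (a 2) = -1 ∧ A (a 0) (a 3) = -1 ∧ A (a 1) (a 2) = 0 ∧ A (a 1) (a 3) = 0 ∧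
        A (a 2) (a 3) = 0) ∧ (∀ i, 0 < m i) ∧ (∀ i, 0 < ∑ j, A i j * m j) ∧ ∀ i, ∃ j, A j i = -1)
    (T : Tab) (hT' : tabOf D = T) {N : ℕ}
    (hN : ∀ i < T.l, ((List.range T.n).filter fun r => T.Pos r ∧ T.ca i r = 1).length = N) {hts : List ℕ}
    (hh : ((List.range T.n).filter fun r => T.Pos r).map (fun r => (sumLt (T.cr r) T.l - 1).toNat) = hts)
    {k : ℕ} (ρ : Representation ℂ (D.group K) (Fin k → ℂ)) (hρ : ρ.IsIrreducible) (hk : 2 ≤ k)
    (big : Fintype.card K * k < 2 * (Fintype.card K ^ 2 - 1) * Fintype.card K ^ N) :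
    (Fintype.card K - 1) * (hts.map (Fintype.card K ^ ·)).sum + D.rank ≤ k := by
  classical
  subst hT' hh
  obtain ⟨E, _, _, _, σ, h1, rfl, h2⟩ := exists_uni ρ hρ hk
  have hl := len_eq hs (θ := ⟨θ, hθ.1⟩) hθ.2
  have key : ∀ (p : ℕ → Prop) [DecidablePred p] (f : ℕ → ℕ) (g : (Fin D.rank → ℤ) → ℕ),
      (∀ r : Fin D.nroots, g (C.R.rc r) = f r) → ∑ β ∈ (univ.filter fun r : Fin D.nroots => p r).image C.R.rc, g β =
      (((List.range D.nroots).filter fun r => p r).map f).sum := fun p _ f g hg => by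
    rw [sum_image fun _ _ _ _ h => C.R.rc_inj h, sum_filter, ← List.sum_toFinset _ (List.nodup_range.filter _),
      List.toFinset_filter, List.toFinset_range, sum_filter, sum_range]
    simp [hg]
  have := (gdC C K _ (fun r => (hl r).le) (fun r s k _ h _ => h.tri hs) (exists_unit_of_simple hu)).laced h1 h2
    (by rintro _ ⟨r, rfl⟩; exact ⟨r, hl r, rfl⟩) (fun i => by
      rintro _ ⟨r, rfl⟩ h0
      rw [e, ← C.R.rc_simple, ofRS_p] at h0
      obtain ⟨b, h3, h4⟩ := chkT_sound V hT hs (C.R.simple i) r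
        (fun e0 => by rw [e0, C.R.pair_self] at h0; omega) (ne_neg_of_pair h0.ge)
      exact ⟨_, ⟨b, rfl⟩, by rw [e, ← C.R.rc_simple, ofRS_p, hs, h3], by rw [ofRS_p, hs, h4]⟩)
    A (fun i j => hA ▸ (C.R.wtv_single i j).trans (hc.2 i j)) h.1 h.2.1 d h.2.2.1 h.2.2.2.1 m h.2.2.2.2.1
    h.2.2.2.2.2.1 (H_le_closure fun i => (h.2.2.2.2.2.2 i).imp fun j hj => (hc.2 j i).trans (by simpa only [hA] using hj))
    (fun i => ⟨(univ.filter fun r : Fin D.nroots => (tabOf D).Pos r ∧ (tabOf D).ca i r = 1).image C.R.rc, ?_, ?_⟩) big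
    ((univ.filter fun r : Fin D.nroots => (tabOf D).Pos r).image C.R.rc) ?_
  · rw [key (tabOf D).Pos (fun r => Fintype.card K ^ (sumLt ((tabOf D).cr r) D.rank - 1).toNat) _ fun r => by
      rw [ht_apply, sumLt_fin]; simp only [rc_eq_co hs]; rfl, Fintype.card_fin] at this
    rwa [List.map_map]
  · simp only [mem_image, mem_filter, mem_univ, true_and]
    rintro _ ⟨r, ⟨h3, h4⟩, rfl⟩
    exact ⟨⟨r, rfl⟩, (tab_pos C r).1 h3, by rw [e, ← C.R.rc_simple, ofRS_p, RS.pair_simple_left, C.wt_eq]; exact h4⟩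
  · rw [card_eq_sum_ones, key (fun r => (tabOf D).Pos r ∧ (tabOf D).ca i r = 1) (fun _ => 1) _ fun _ => rfl,
      ← hN i i.2]
    simp [tabOf]
  · simp only [mem_image, mem_filter, mem_univ, true_and]
    rintro _ ⟨r, h3, rfl⟩
    exact ⟨⟨r, rfl⟩, (tab_pos C r).1 h3⟩

end Chev

theorem big_of {q k N t : ℕ} (hq : 2 ≤ q) (hk : k < t) (h : 2 * t ≤ 3 * q ^ (N + 1)) :
    q * k < 2 * (q ^ 2 - 1) * q ^ N := by
  have h1 : 4 ≤ q ^ 2 := by nlinarith
  have h2 : 0 < q ^ N := by positivity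
  obtain ⟨r, hr⟩ := Nat.exists_eq_add_of_le' (show 1 ≤ q ^ 2 by omega)
  have h3 : q * q ^ (N + 1) = (r + 1) * q ^ N := by rw [← hr]; ring
  rw [hr, Nat.add_sub_cancel]
  have h4 : 3 * q ^ N ≤ r * q ^ N := Nat.mul_le_mul_right _ (by omega)
  nlinarith

theorem min_E8 {K : Type*} [Field K] [Fintype K] {k : ℕ} (ρ : Representation ℂ (chevE8.group K) (Fin k → ℂ))
    (hρ : ρ.IsIrreducible) (hk : 2 ≤ k) : Fintype.card K * (Fintype.card K ^ 12 + 1) *
      (Fintype.card K ^ 10 + 1) * (Fintype.card K ^ 6 + 1) ≤ k := not_lt.1 fun hc => by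
  have := (isSimpleGroup (D := chevE8) (F := K) (by simp) (by rintro (h | h) <;> exact absurd (congrArg (·.rank) h) (by decide))).1
  have hq : 2 ≤ Fintype.card K := Fintype.one_lt_card
  have := chev_laced (C := cert (by simp)) (laced_of_mem (by simp) _) validE8 chkT_E8 (θ := 239) (by decide +kernel)
    (unit_of_mem (by simp)) (isCartan_E8 _) _ rfl (fun i => [2, 1, 1, 0, 1, 2, 3, 4].getD i 0)
    (fun i => [46, 68, 91, 135, 110, 84, 57, 29].getD i 0) ![⟨3, by decide⟩, ⟨1, by decide⟩, ⟨2, by decide⟩, ⟨4, by decide⟩]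
    (by refine ⟨?_, ?_, ?_, ?_, ?_, ?_, ?_⟩ <;> decide +kernel) _
    (tabOf_eq validE8) (N := 28) (by decide +kernel) (hts := [0, 0, 1, 0, 1, 2, 0, 1, 2, 3, 0, 1, 2, 3, 4, 0, 1, 2,
      3, 4, 5, 0, 1, 2, 3, 4, 5, 2, 3, 4, 5, 6, 4, 5, 6, 7, 6, 7, 8, 8, 9, 10, 0, 1, 2, 3, 4, 5, 6, 3, 4, 5, 6, 7, 5,
      6, 7, 8, 7, 8, 9, 9, 10, 11, 6, 7, 8, 9, 8, 9, 10, 10, 11, 12, 9, 10, 11, 11, 12, 13, 12, 13, 14, 15, 10, 11,
      12, 12, 13, 14, 13, 14, 15, 16, 14, 15, 16, 17, 18, 15, 16, 17, 18, 19, 20, 21, 16, 17, 18, 19, 20, 21, 22, 22,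
      23, 24, 25, 26, 27, 28]) (by decide +kernel) ρ hρ hk (big_of hq hc ?_)
  · refine (hc.trans_le (le_of_eq ?_)).not_ge this
    obtain ⟨p, hp⟩ := Nat.exists_eq_add_of_le' (show 1 ≤ Fintype.card K by omega)
    simp only [hp, List.map_cons, List.map_nil, List.sum_cons, List.sum_nil, Nat.add_sub_cancel]
    change _ = _ + 8
    ring
  · generalize Fintype.card K = q at hq
    have h1 : 64 * (q ^ 12 + 1) ≤ 65 * q ^ 12 := by have := Nat.pow_le_pow_left hq 12; omega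
    have h2 : 64 * (q ^ 10 + 1) ≤ 65 * q ^ 10 := by have := Nat.pow_le_pow_left hq 10; omega
    have h3 : 64 * (q ^ 6 + 1) ≤ 65 * q ^ 6 := by have := Nat.pow_le_pow_left hq 6; omega
    have : 64 ^ 3 * (q * (q ^ 12 + 1) * (q ^ 10 + 1) * (q ^ 6 + 1)) ≤ 65 ^ 3 * q ^ (28 + 1) := by
      convert Nat.mul_le_mul_left q (Nat.mul_le_mul (Nat.mul_le_mul h1 h2) h3) using 1 <;> ring
    omega

theorem min_E6 {K : Type*} [Field K] [Fintype K] {k : ℕ} (ρ : Representation ℂ (chevE6.group K) (Fin k → ℂ))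
    (hρ : ρ.IsIrreducible) (hk : 2 ≤ k) : Fintype.card K * (Fintype.card K ^ 6 + Fintype.card K ^ 3 + 1) *
      (Fintype.card K ^ 4 + 1) ≤ k := not_lt.1 fun hc => by
  have := (isSimpleGroup (D := chevE6) (F := K) (by simp) (by rintro (h | h) <;> exact absurd (congrArg (·.rank) h) (by decide))).1
  have hq : 2 ≤ Fintype.card K := Fintype.one_lt_card
  have := chev_laced (C := cert (by simp)) (laced_of_mem (by simp) _) validE6 chkT_E6 (θ := 71) (by decide +kernel)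
    (unit_of_mem (by simp)) (isCartan_E6 _) _ rfl (fun i => [2, 1, 1, 0, 1, 2].getD i 0)
    (fun i => [8, 11, 15, 21, 15, 8].getD i 0) ![⟨3, by decide⟩, ⟨1, by decide⟩, ⟨2, by decide⟩, ⟨4, by decide⟩]
    (by refine ⟨?_, ?_, ?_, ?_, ?_, ?_, ?_⟩ <;> decide +kernel) _
    (tabOf_eq validE6) (N := 10) (by decide +kernel) (hts := [0, 0, 1, 0, 1, 2, 0, 1, 2, 3, 0, 1, 2, 3, 2, 3, 4, 4,
      5, 6, 0, 1, 2, 3, 4, 3, 4, 5, 5, 6, 7, 6, 7, 8, 9, 10]) (by decide +kernel) ρ hρ hk (big_of hq hc ?_)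
  · refine (hc.trans_le (le_of_eq ?_)).not_ge this
    obtain ⟨p, hp⟩ := Nat.exists_eq_add_of_le' (show 1 ≤ Fintype.card K by omega)
    simp only [hp, List.map_cons, List.map_nil, List.sum_cons, List.sum_nil, Nat.add_sub_cancel]
    change _ = _ + 6
    ring
  · generalize Fintype.card K = q at hq
    have h0 := Nat.pow_le_pow_left hq 3
    have h1 : 64 * (q ^ 6 + q ^ 3 + 1) ≤ 73 * q ^ 6 := by nlinarith
    have h2 : 16 * (q ^ 4 + 1) ≤ 17 * q ^ 4 := by have := Nat.pow_le_pow_left hq 4; omega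
    have : 64 * 16 * (q * (q ^ 6 + q ^ 3 + 1) * (q ^ 4 + 1)) ≤ 73 * 17 * q ^ (10 + 1) := by
      convert Nat.mul_le_mul_left q (Nat.mul_le_mul h1 h2) using 1 <;> ring
    omega

end Cfsg.Agent.H23.MD
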