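import Mathlib
import Cfsg.Agent.H23.MDChev
import Cfsg.Agent.H80.TwBase

/-!
The twisted groups of simply laced type as groups with relative root subgroups.
-/

set_option autoImplicit false
set_option linter.unusedSectionVars false

namespace Cfsg.Agent.H23.MD

open Module Finset H34 H80 H40 H37 Cfsg.Lie
open scoped commutatorElement

section nm

variable {G : Type*} [Group G] (σ : G →* G)

/-- The norm map. -/
def nm (d : ℕ) (z : G) : G := ((List.range d).map fun i => σ^[i] z).prod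

variable {σ} {d : ℕ} {y z : G}

theorem nm_succ : nm σ (d + 1) z = nm σ d z * σ^[d] z := by simp [nm, List.range_succ]

theorem nm_succ' : nm σ (d + 1) z = z * σ (nm σ d z) := by
  induction d with
  | zero => simp [nm]
  | succ d ih =>
    rw [nm_succ (d := d + 1), Function.iterate_succ_apply']
    conv_lhs => rw [ih]
    rw [nm_succ, map_mul, mul_assoc]

theorem nm_mem {K : Subgroup G} (h : ∀ i, σ^[i] z ∈ K) : nm σ d z ∈ K :=
  list_prod_mem fun _ hx => by obtain ⟨i, -, rfl⟩ := List.mem_map.1 hx; exact h i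

theorem commute_nm (h : ∀ i, Commute y (σ^[i] z)) : Commute y (nm σ d z) :=
  Commute.list_prod_right _ _ fun _ hx => by obtain ⟨i, -, rfl⟩ := List.mem_map.1 hx; exact h i

theorem nm_fix (h : σ^[d] z = z) (hc : ∀ i, Commute z (σ^[i] z)) : σ (nm σ d z) = nm σ d z :=
  mul_left_cancel (a := z) (by rw [← nm_succ', nm_succ, h, (commute_nm hc).eq])

theorem comm_mul_aux {a b c : G} : ⁅a, b * c⁆ = ⁅a, b⁆ * (b * ⁅a, c⁆ * b⁻¹) := by
  simp only [commutatorElement_def]; group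

theorem comm_nm (hy : σ y = y) (hc : ∀ i j, Commute (σ^[i] ⁅y, z⁆) (σ^[j] z)) :
    ⁅y, nm σ d z⁆ = nm σ d ⁅y, z⁆ := by
  have key : ∀ i, ⁅y, σ^[i] z⁆ = σ^[i] ⁅y, z⁆ := fun i => by
    induction i with
    | zero => rfl
    | succ i ih => rw [Function.iterate_succ_apply', Function.iterate_succ_apply', ← ih,
        map_commutatorElement, hy]
  induction d with
  | zero => simp [nm]
  | succ d ih =>
    rw [nm_succ, nm_succ, ← ih, comm_mul_aux, key, ← (commute_nm (hc d)).eq, mul_inv_cancel_right]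

end nm

variable {κ : Type} [Fintype κ] [DecidableEq κ] {D : ChevalleyDatum} {C : Cert D} {K : Type*} [Field K]

/-- Closed sets of positive roots. -/
def ICl (C : Cert D) (A : Set (Fin D.nroots)) : Prop :=
  (∀ r ∈ A, C.R.Pos r) ∧ ∀ r ∈ A, ∀ s ∈ A, H35.Cone C.R r s ⊆ A

theorem ICl.filt {A : Set (Fin D.nroots)} (h : ICl C A) : Filt (C.split K).X A C.R.ht := fun r hr s hs x hx y hy => by
  refine gen_mono (fun t ht => ?_) ((Split.U_eq_gen (P := C.split K) _).le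
    (comm_cone ((h.1 r hr).ne_neg (h.1 s hs)) hx hy))
  have h1 := (C.R.ht_pos_iff r).2 (h.1 r hr)
  have h2 := (C.R.ht_pos_iff s).2 (h.1 s hs)
  refine ⟨h.2 r hr s hs ht, ?_⟩
  obtain ⟨a, b, ha, hb, e0⟩ := ht
  have : C.R.ht t = a * C.R.ht r + b * C.R.ht s := by simp only [RS.ht, e0, map_add, map_smul, smul_eq_mul]
  constructor <;> nlinarith

theorem ICl.inter {A : Set (Fin D.nroots)} (h : ICl C A) {w : Equiv.Perm (Fin D.nroots)} (hw : w ∈ C.S.W) :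
    ICl C (A ∩ {r | C.S.pos (w r)}) :=
  ⟨fun r hr => h.1 r hr.1, fun r hr s hs t ht => ⟨h.2 r hr.1 s hs.1 ht, by
    obtain ⟨a, b, ha, hb, e0⟩ := ht
    exact C.btw_of_rc ha.le hb.le e0 w hw hr.2 hs.2⟩⟩

theorem ICl.gen_fix {τ : (C.split K).Twist} (R : Reps τ.T κ) {A : Set (Fin D.nroots)} (hA : ICl C A)
    (hs : ∀ r ∈ A, ∀ s, cls τ.T s = cls τ.T r → s ∈ A) {g : D.group K} (hg : g ∈ (C.split K).U A)
    (hf : g ∈ τ.fix) : g ∈ rootU (relX τ) (cls τ.T '' A) := by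
  obtain ⟨O⟩ := nonempty_convexOrd (R.phi_univ (C.split K).phi_univ)
  induction hn : A.ncard using Nat.strong_induction_on generalizing A g with
  | _ n ih =>
  rcases A.eq_empty_or_nonempty with rfl | hne
  · rw [Split.eq_one_of_mem_U (by simp) hg]; exact one_mem _
  obtain ⟨r, hr, hm⟩ := Set.exists_min_image A (fun r => O.ord (cls τ.T r)) (Set.toFinite A) hne
  obtain ⟨w, hw, a, -, h1⟩ := O.wit (cls τ.T r) (hA.1 r hr)
  obtain ⟨v, rfl⟩ := R.mem_W.1 hw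
  have hv := τ.T.fixJ_le_W _ v.2
  rw [Split.U_eq_gen] at hg
  obtain ⟨c, hc, x, hx, rfl⟩ := hA.filt.exists_mul (Set.toFinite A) (T₁ := {r | C.S.pos (v.1 r)})
    (T₂ := C.S.inv v.1) (fun r hr => (em _).imp_right fun h => ⟨hA.1 r hr, h⟩) hg
  rw [← Split.U_eq_gen] at hc hx
  obtain ⟨h2, h3⟩ := τ.fix_dec v.2 (Split.U_sub hc fun _ h => h.2) (Split.U_sub hx fun _ h => h.2.2) hf
  refine mul_mem (rootU_mono (Set.image_mono Set.inter_subset_left) (ih _ ?_ (hA.inter hv)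
    (fun s hs' t e => ⟨hs s hs'.1 t e, (cls_eq_iff.1 e v v.2).2 hs'.2⟩) hc h2 rfl))
    (mem_rootU (r := cls τ.T r) (Set.mem_image_of_mem _ hr) (Subgroup.mem_inf.2 ⟨Split.U_sub hx fun s h => ?_, h3⟩))
  · rw [← hn]
    exact Set.ncard_lt_ncard ⟨Set.inter_subset_left, fun h =>
      (h1 (cls τ.T r) (hA.1 r hr)).2 le_rfl (h hr).2⟩ (Set.toFinite A)
  · exact O.inj _ _ h.2.1 (hA.1 r hr) (le_antisymm ((h1 (cls τ.T s) h.2.1).1 h.2.2) (hm s h.1))

theorem commute_or (hs : ∀ r s, C.R.pair r s = C.R.pair s r) (r s : Fin D.nroots) :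
    0 ≤ C.R.pair r s ∨ s = C.R.neg r ∨ ∃ k, IsSum C.R r s k := by
  by_cases h1 : s = r
  · exact .inl (by rw [h1, C.R.pair_self]; norm_num)
  refine (em (s = C.R.neg r)).elim (fun h => .inr (.inl h)) fun h2 => ?_
  rcases pair_cases hs h1 h2 with h | h | h
  exacts [.inr (.inr ⟨_, isSum_of_pair_neg h⟩), .inl h.ge, .inl (by omega)]

theorem commute_X (hs : ∀ r s, C.R.pair r s = C.R.pair s r) {r s : Fin D.nroots} (h : 0 ≤ C.R.pair r s)
    {x y : D.group K} (hx : x ∈ (C.split K).X r) (hy : y ∈ (C.split K).X s) : Commute x y := by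
  obtain ⟨t, rfl⟩ := Cert.mem_X.1 hx
  obtain ⟨u, rfl⟩ := Cert.mem_X.1 hy
  exact commute_of_pair hs h t u

/-- The data of a twisted group. -/
structure TD (τ : (C.split K).Twist) (R : Reps τ.T κ) (R' : RT κ) (φ : K →+* K) (d : ℕ)
    (L : (Fin D.rank → ℤ) →ₗ[ℤ] κ → ℤ) : Prop where
  hs : ∀ r s, C.R.pair r s = C.R.pair s r
  mem : ∀ a, a ∈ R'.Φ ↔ ∃ r, L (C.R.rc r) = a
  α : ∀ a, L (C.R.rc (C.S.α (R.e a))) = e a
  s : ∀ a r, L (C.R.rc (C.S.wJ (τ.T.orb (R.e a)) r)) = R'.s a (L (C.R.rc r))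
  mono : ∀ x, 0 ≤ x → 0 ≤ L x
  red : ∀ γ ∈ R'.Φ, γ + γ ∉ R'.Φ
  lg : ∀ r, L (C.R.rc r) ∈ R'.Lg → (∀ t, τ.σ (C.xg K r t) = C.xg K r (φ t)) ∧
    (∀ s, L (C.R.rc s) = L (C.R.rc r) → s = r) ∧ (∀ s, R'.p (L (C.R.rc r)) (L (C.R.rc s)) = C.R.pair r s) ∧
    ∃ a, τ.T.ρ a = a ∧ C.R.pair a r = 1
  cl : ∀ r s, L (C.R.rc s) = L (C.R.rc r) → ∃ i, s = τ.T.ρ^[i] r
  dist : ∀ r, L (C.R.rc r) ∉ R'.Lg → ∀ i, 0 < i → i < d → τ.T.ρ^[i] r ≠ r
  σh : ∀ (r : Fin D.nroots) t, t ≠ 0 → τ.σ (C.hg K r t) = C.hg K (τ.T.ρ r) (φ t)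
  chρ : ∀ g ∈ (C.split K).H, g ∈ τ.fix → ∀ r : Fin D.nroots, ch g (τ.T.ρ r) = φ (ch g r)
  σd : ∀ (r : Fin D.nroots) t, τ.σ^[d] (C.xg K r t) = C.xg K r t
  ρd : ∀ r, τ.T.ρ^[d] r = r
  φd : ∀ t, φ^[d] t = t
  tr : ∃ v, ∑ i ∈ range d, φ^[i] v ≠ 0
  Hf : ∀ h ∈ (C.split K).H, h ∈ τ.fix → h ∈ τ.G1

/-- The fixed field. -/
abbrev Fix (φ : K →+* K) : Subfield K := φ.eqLocusField (RingHom.id K)

namespace TD

variable {τ : (C.split K).Twist} {R : Reps τ.T κ} {R' : RT κ} {φ : K →+* K} {d : ℕ}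
  {L : (Fin D.rank → ℤ) →ₗ[ℤ] κ → ℤ} (h : TD τ R R' φ d L) {r s k : Fin D.nroots}
include h

theorem v_mem (r : Fin D.nroots) : L (C.R.rc r) ∈ R'.Φ := (h.mem _).2 ⟨r, rfl⟩

theorem pos_iff : C.S.pos r ↔ 0 ≤ L (C.R.rc r) :=
  ⟨h.mono _, fun h1 => by_contra fun h2 => RT.not_pos_neg (h.v_mem r) h1 (by
    simpa using h.mono _ (neg_nonneg.2 ((C.R.not_pos_iff r).1 h2)))⟩

theorem cls_iff : cls τ.T r = cls τ.T s ↔ L (C.R.rc r) = L (C.R.rc s) := by
  refine ⟨R.rel_of_cls (C.split K).phi_univ (fun r s => L (C.R.rc r) = L (C.R.rc s))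
    (fun a r s e0 => by rw [h.s, h.s, e0]) fun a r hr s hs => ?_, fun e0 => ?_⟩
  · have key : ∀ r ∈ C.S.inv (C.S.wJ (τ.T.orb (R.e a))), L (C.R.rc r) = e a := fun r hr =>
      by_contra fun hc => hr.2 (h.pos_iff.2 (h.s a r ▸ RT.s_pos (h.v_mem r) (h.pos_iff.1 hr.1) hc))
    rw [key r hr, key s hs]
  · obtain ⟨i, rfl⟩ := h.cl s r e0
    clear e0
    induction i with
    | zero => rfl
    | succ i ih => rw [Function.iterate_succ_apply', cls_ρ, ih]

/-- The coordinates of the relative roots. -/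
noncomputable def lk : Lk R.sys R' where
  v := Quotient.lift (fun r => L (C.R.rc r)) fun _ _ e0 => h.cls_iff.1 (Quotient.sound e0)
  inj A B e0 := by
    obtain ⟨r, rfl⟩ := cls_surj A
    obtain ⟨s, rfl⟩ := cls_surj B
    exact h.cls_iff.2 e0
  mem a := (h.mem a).trans ⟨fun ⟨r, e0⟩ => ⟨cls _ r, e0⟩, fun ⟨A, e0⟩ => by
    obtain ⟨r, rfl⟩ := cls_surj A
    exact ⟨r, e0⟩⟩
  α := h.α
  neg A := by
    obtain ⟨r, rfl⟩ := cls_surj A
    exact (congrArg L (C.R.rc_neg r)).trans (map_neg _ _)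
  s a A := by
    obtain ⟨r, rfl⟩ := cls_surj A
    exact h.s a r
  univ := R.phi_univ (C.split K).phi_univ

theorem lk_v (r : Fin D.nroots) : h.lk.v (cls τ.T r) = L (C.R.rc r) := rfl

theorem v_iter (i : ℕ) (r : Fin D.nroots) : L (C.R.rc (τ.T.ρ^[i] r)) = L (C.R.rc r) := by
  induction i with
  | zero => rfl
  | succ i ih => rw [Function.iterate_succ_apply', h.cls_iff.1 (cls_ρ _), ih]

omit h in
theorem iter_X (i : ℕ) {x : D.group K} (hx : x ∈ (C.split K).X r) :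
    τ.σ^[i] x ∈ (C.split K).X (τ.T.ρ^[i] r) := by
  induction i with
  | zero => exact hx
  | succ i ih => rw [Function.iterate_succ_apply', Function.iterate_succ_apply']; exact τ.map_X _ _ ih

omit h in
theorem v_sum (e0 : IsSum C.R r s k) : L (C.R.rc k) = L (C.R.rc r) + L (C.R.rc s) := by
  rw [show C.R.rc k = _ from e0]; simp

theorem pair_cls (e0 : L (C.R.rc s) = L (C.R.rc r)) : 0 ≤ C.R.pair r s := by
  rcases commute_or h.hs r s with h1 | rfl | ⟨k, h1⟩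
  · exact h1
  · rw [C.R.rc_neg, map_neg, neg_eq_iff_add_eq_zero, ← two_smul ℤ, smul_eq_zero] at e0
    exact absurd (e0.resolve_left two_ne_zero) (R'.ne_zero _ (h.v_mem r))
  · have := h.v_mem k
    rw [v_sum h1, e0] at this
    exact absurd this (h.red _ (h.v_mem r))

theorem nm_mem_relX (r : Fin D.nroots) (t : K) : nm τ.σ d (C.xg K r t) ∈ relX τ (cls τ.T r) :=
  Subgroup.mem_inf.2 ⟨nm_mem fun i => Split.mem_U (A := {s | cls τ.T s = cls τ.T r}) (r := τ.T.ρ^[i] r)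
    (h.cls_iff.2 (h.v_iter i r)) (iter_X i (Cert.xg_mem_X r t)),
    show τ.σ _ = _ from nm_fix (h.σd r t) fun i => commute_X h.hs (h.pair_cls (h.v_iter i r)) (Cert.xg_mem_X r t)
      (iter_X i (Cert.xg_mem_X r t))⟩

theorem mem_long (hk : L (C.R.rc k) ∈ R'.Lg) {g : D.group K} :
    g ∈ relX τ (cls τ.T k) ↔ ∃ t : Fix φ, C.xg K k t = g := by
  refine ⟨fun hg => ?_, ?_⟩
  swap
  · rintro ⟨t, rfl⟩
    exact Subgroup.mem_inf.2 ⟨Split.mem_U (A := {s | cls τ.T s = cls τ.T k}) (r := k) rfl (Cert.xg_mem_X k (t : K)),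
      show τ.σ _ = _ from ((h.lg k hk).1 t).trans (congrArg _ t.2)⟩
  obtain ⟨t, rfl⟩ := Cert.mem_X.1 (Split.U_le_X (fun s hs => (h.lg k hk).2.1 s (h.cls_iff.1 hs)) hg.1)
  exact ⟨⟨t, Cert.xg_injective k.2 (((h.lg k hk).1 t).symm.trans hg.2)⟩, rfl⟩

theorem nm_long (hk : L (C.R.rc k) ∈ R'.Lg) (t : K) (n : ℕ) :
    nm τ.σ n (C.xg K k t) = C.xg K k (∑ i ∈ range n, φ^[i] t) := by
  have key : ∀ i, τ.σ^[i] (C.xg K k t) = C.xg K k (φ^[i] t) := fun i => by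
    induction i with
    | zero => rfl
    | succ i ih => rw [Function.iterate_succ_apply', ih, (h.lg k hk).1, Function.iterate_succ_apply']
  induction n with
  | zero => simp [nm, Cert.xg_zero]
  | succ n ih => rw [nm_succ, ih, key, sum_range_succ, Cert.xg_add]

theorem tr_surj (t : Fix φ) : ∃ u, ∑ i ∈ range d, φ^[i] u = t := by
  obtain ⟨u, hu⟩ := h.tr
  have h1 : φ (∑ i ∈ range d, φ^[i] u) = ∑ i ∈ range d, φ^[i] u := by
    have := sum_range_succ' (fun i => φ^[i] u) d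
    rw [sum_range_succ, h.φd] at this
    simp only [map_sum, ← Function.iterate_succ_apply' φ]
    exact (add_right_cancel this).symm
  generalize hc : ∑ i ∈ range d, φ^[i] u = c at hu h1
  have h2 : φ (t / c) = t / c := by rw [map_div₀, h1, show φ t = t from t.2]
  refine ⟨t / c * u, ?_⟩
  simp only [iterate_map_mul, Function.iterate_fixed h2, ← mul_sum, hc, div_mul_cancel₀ _ hu]

theorem heis (hk : L (C.R.rc k) ∈ R'.Lg) (hp : R'.p (L (C.R.rc k)) (L (C.R.rc r)) = 1)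
    (e0 : L (C.R.rc s) = L (C.R.rc k) - L (C.R.rc r)) {y w : D.group K} (hy : y ∈ relX τ (cls τ.T r))
    (h1 : y ≠ 1) (hw : w ∈ relX τ (cls τ.T k)) : ∃ z ∈ relX τ (cls τ.T s), ⁅y, z⁆ = w := by
  classical
  have hc : ∀ a b, cls τ.T a = cls τ.T r → cls τ.T b = cls τ.T r → ∀ x ∈ (C.split K).X a,
      ∀ y ∈ (C.split K).X b, Commute x y := fun a b ha hb x hx y hy =>
    commute_X h.hs (h.pair_cls (h.cls_iff.1 (hb.trans ha.symm))) hx hy
  obtain ⟨l, hl, hl'⟩ := Filt.exists_list (Set.toFinite {a | cls τ.T a = cls τ.T r})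
  obtain ⟨f, f1, -, rfl⟩ := Filt.exists_prod (X := (C.split K).X) (f := 0) (fun a ha b hb x hx y hy => by
    rw [(hc a b ha hb x hx y hy).eq]; simp) hl hl' ((Split.U_eq_gen (P := C.split K) _).le hy.1)
  obtain ⟨a, ha, h2⟩ : ∃ a ∈ l, f a ≠ 1 := by
    by_contra! h2
    exact h1 (List.prod_eq_one fun x hx => by obtain ⟨a, ha, rfl⟩ := List.mem_map.1 hx; exact h2 a ha)
  have va := h.cls_iff.1 ((hl' a).1 ha)
  have h3 := isSum_of_pair ((h.hs a k).trans (((h.lg k hk).2.2.1 a).symm.trans (va ▸ hp)))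
  generalize C.R.τ a k = b at h3
  have vb : L (C.R.rc b) = L (C.R.rc s) := by rw [e0, v_sum h3, va]; simp
  obtain ⟨t, rfl⟩ := (h.mem_long hk).1 hw
  obtain ⟨u, hu⟩ := h.tr_surj t
  obtain ⟨z, hz, h4⟩ := (h3.tri (K := K) h.hs).surj' _ (f1 a) h2 _ (xg_mem k u)
  have h5 : ⁅(l.map f).prod, z⁆ = C.xg K k u := by
    rw [((List.perm_cons_erase ha).map f).prod_eq' (List.pairwise_map.2 (List.pairwise_of_forall_mem_list
      fun a ha b hb => hc a b ((hl' a).1 ha) ((hl' b).1 hb) _ (f1 a) _ (f1 b))), ← h4, List.map_cons, List.prod_cons]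
    have : Commute z ((l.erase a).map f).prod := Commute.list_prod_right _ _ fun x hx => by
      obtain ⟨c, hc, rfl⟩ := List.mem_map.1 hx
      obtain ⟨h6, h7⟩ := hl.mem_erase_iff.1 hc
      have vc := h.cls_iff.1 ((hl' c).1 h7)
      rcases commute_or h.hs c b with h8 | h8 | ⟨m, h8⟩
      · exact (commute_X h.hs h8 (f1 c) hz).symm
      · refine absurd ?_ (R'.ne_zero _ (h.v_mem k))
        rw [v_sum h3, h8, C.R.rc_neg, map_neg, va, vc, add_neg_cancel]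
      · obtain rfl := (h.lg k hk).2.1 m (by rw [v_sum h3, v_sum h8, va, vc])
        exact absurd (h8.symm.eq_of_eq h3.symm) h6
    simp only [commutatorElement_def, mul_inv_rev]
    rw [mul_assoc (f a), ← this.eq]
    group
  obtain ⟨u', rfl⟩ := mem_XC.1 hz
  refine ⟨_, h.cls_iff.2 vb ▸ h.nm_mem_relX b u', ?_⟩
  rw [comm_nm hy.2 fun i j => ?_, h5, h.nm_long hk, hu]
  rw [h5]
  refine commute_X h.hs ?_ (iter_X i (Cert.xg_mem_X k u)) (iter_X j (Cert.xg_mem_X b u'))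
  rw [(h.lg k hk).2.1 _ (h.v_iter i k), ← (h.lg k hk).2.2.1, h.v_iter, vb, e0, RT.p_sub hk hp]
  norm_num

theorem comm (hr : C.S.pos r) (hs : C.S.pos s) {y z : D.group K} (hy : y ∈ relX τ (cls τ.T r))
    (hz : z ∈ relX τ (cls τ.T s)) :
    ⁅y, z⁆ ∈ rootU (relX τ) {A | h.lk.v A ∈ R'.cb (L (C.R.rc r)) (L (C.R.rc s))} := by
  let A := {t | L (C.R.rc t) ∈ R'.cb (L (C.R.rc r)) (L (C.R.rc s))}
  let B := {t | ∃ a b : ℤ, 0 ≤ a ∧ 0 ≤ b ∧ L (C.R.rc t) = a • L (C.R.rc r) + b • L (C.R.rc s)}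
  have hB : ∀ t ∈ B, C.R.Pos t := fun t ⟨a, b, ha, hb, e0⟩ => h.pos_iff.2
    (e0 ▸ add_nonneg (smul_nonneg ha (h.pos_iff.1 hr)) (smul_nonneg hb (h.pos_iff.1 hs)))
  have hAB : A ⊆ B := fun t ⟨_, a, b, ha, hb, e0⟩ => ⟨a, b, by omega, by omega, e0⟩
  have key : ∀ {t u} {a b a' b' : ℤ}, L (C.R.rc t) = a • L (C.R.rc r) + b • L (C.R.rc s) →
      L (C.R.rc u) = a' • L (C.R.rc r) + b' • L (C.R.rc s) → 0 ≤ a → 0 ≤ b → 0 ≤ a' → 0 ≤ b' →
      1 ≤ a + a' → 1 ≤ b + b' → H35.Cone C.R t u ⊆ A := by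
    rintro t u a b a' b' e1 e2 h1 h2 h3 h4 h5 h6 m ⟨c, c', hc, hc', e3⟩
    exact ⟨h.v_mem m, c * a + c' * a', c * b + c' * b', by nlinarith, by nlinarith, by
      rw [e3, map_add, map_smul, map_smul, e1, e2]; module⟩
  have hA : ICl C A := ⟨fun t ht => hB t (hAB ht), fun t ⟨_, a, b, ha, hb, e1⟩ u ⟨_, a', b', ha', hb', e2⟩ =>
    key e1 e2 (by omega) (by omega) (by omega) (by omega) (by omega) (by omega)⟩
  have cm : ∀ {t u}, t ∈ B → u ∈ B → H35.Cone C.R t u ⊆ A → ∀ x ∈ (C.split K).X t, ∀ y ∈ (C.split K).X u,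
      x * y * x⁻¹ * y⁻¹ ∈ gen (C.split K).X A := fun ht hu h1 x hx y hy => gen_mono h1
    ((Split.U_eq_gen (P := C.split K) _).le (comm_cone ((hB _ ht).ne_neg (hB _ hu)) hx hy))
  have hN : gen (C.split K).X B ≤ Subgroup.normalizer (gen (C.split K).X A : Set (D.group K)) :=
    gen_le fun t (⟨a, b, ha, hb, e1⟩ : t ∈ B) => le_normalizer_of_conj_mem fun x hx _ => conj_mem_gen
      fun u (⟨h1, a', b', ha', hb', e2⟩ : u ∈ A) y hy => by
        rw [← inv_mul_cancel_right (x * y * x⁻¹) y]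
        exact mul_mem (cm ⟨a, b, ha, hb, e1⟩ (hAB ⟨h1, a', b', ha', hb', e2⟩) (key e1 e2 ha hb (by omega) (by omega)
          (by omega) (by omega)) x hx y hy) (mem_gen (show u ∈ A from ⟨h1, a', b', ha', hb', e2⟩) hy)
  have e1 : ∀ t, cls τ.T t = cls τ.T r → L (C.R.rc t) = (1 : ℤ) • L (C.R.rc r) + (0 : ℤ) • L (C.R.rc s) :=
    fun t ht => by simpa using h.cls_iff.1 ht
  have e2 : ∀ t, cls τ.T t = cls τ.T s → L (C.R.rc t) = (0 : ℤ) • L (C.R.rc r) + (1 : ℤ) • L (C.R.rc s) :=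
    fun t ht => by simpa using h.cls_iff.1 ht
  have h1 : y * z * y⁻¹ * z⁻¹ ∈ gen (C.split K).X A := comm_mem_of_gen
    ((gen_mono fun t ht => (⟨_, _, le_rfl, zero_le_one, e2 t ht⟩ : t ∈ B)).trans hN) (fun u hu z hz => by
      have := comm_mem_of_gen (x := z) ((gen_mono fun t ht => (⟨_, _, zero_le_one, le_rfl, e1 t ht⟩ : t ∈ B)).trans hN)
        (fun t ht y hy => cm ⟨_, _, le_rfl, zero_le_one, e2 u hu⟩ ⟨_, _, zero_le_one, le_rfl, e1 t ht⟩
          (key (e2 u hu) (e1 t ht) le_rfl zero_le_one zero_le_one le_rfl (by omega) (by omega)) z hz y hy)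
        ((Split.U_eq_gen (P := C.split K) _).le hy.1)
      simpa [mul_assoc] using inv_mem this) ((Split.U_eq_gen (P := C.split K) _).le hz.1)
  refine rootU_mono ?_ (hA.gen_fix R (fun t ht u e0 => ?_) ((Split.U_eq_gen (P := C.split K) _).ge h1)
    (mul_mem (cj1 _ hy.2 hz.2) (inv_mem hz.2)))
  · rintro _ ⟨t, ht, rfl⟩; exact ht
  · show L (C.R.rc u) ∈ R'.cb _ _
    rw [h.cls_iff.1 e0]; exact ht

theorem out_eq (hk : L (C.R.rc k) ∈ R'.Lg) : Quotient.out (cls τ.T k) = k :=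
  (h.lg k hk).2.1 _ (h.cls_iff.1 (Quotient.out_eq _))

open Classical in
omit h in
variable (τ φ) in
/-- The parametrisation of the long root subgroups. -/
noncomputable def xl (A : RQ τ.T) (t : Fix φ) : τ.G1 :=
  if hx : C.xg K (Quotient.out A : Fin D.nroots) t ∈ τ.G1 then ⟨_, hx⟩ else 1

theorem coe_xl (hk : L (C.R.rc k) ∈ R'.Lg) (t : Fix φ) : (xl τ φ (cls τ.T k) t : D.group K) = C.xg K k t := by
  rw [xl, h.out_eq hk, dif_pos (relX_le_G1 _ ((h.mem_long hk).2 ⟨t, rfl⟩))]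

/-- The abstract data of a twisted group. -/
noncomputable def gd : GD R' (Fix φ) τ.G1 :=
  h.lk.gd (relRD R) (xl τ φ)
    (fun A B hA hB y hy z hz => by
      obtain ⟨r, rfl⟩ := cls_surj A
      obtain ⟨s, rfl⟩ := cls_surj B
      exact (mem_rootU_subgroupOf relX_le_G1).2 (h.comm hA hB hy hz))
    (fun A hA s t => by
      obtain ⟨r, rfl⟩ := cls_surj A
      exact Subtype.ext (by simp [h.coe_xl hA, Cert.xg_add]))
    (fun A hA t e0 => by
      obtain ⟨r, rfl⟩ := cls_surj A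
      exact Subtype.ext ((Cert.xg_eq_one_iff r.2).1 ((h.coe_xl hA t).symm.trans (congrArg Subtype.val e0))))
    (fun A hA y => by
      obtain ⟨r, rfl⟩ := cls_surj A
      exact (h.mem_long hA).trans (exists_congr fun t => by rw [← h.coe_xl hA]; exact Subtype.ext_iff.symm))
    (fun A B E hA hp e0 y hy h1 w hw => by
      obtain ⟨k, rfl⟩ := cls_surj A
      obtain ⟨r, rfl⟩ := cls_surj B
      obtain ⟨s, rfl⟩ := cls_surj E
      obtain ⟨z, hz, e1⟩ := h.heis hA hp e0 hy (fun e1 => h1 (Subtype.ext e1)) hw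
      exact ⟨⟨z, relX_le_G1 _ hz⟩, hz, Subtype.ext e1⟩)
    (fun g hg g' hg' => relRD_H_comm g hg g' hg')
    (fun A hA c hc => by
      obtain ⟨k, rfl⟩ := cls_surj A
      obtain ⟨a, h1, h2⟩ := (h.lg k hA).2.2.2
      have h0 : (c : K) ≠ 0 := by simpa using hc
      have h3 := Cert.hg_mem_H (C := C) a.2 h0
      refine ⟨⟨_, h.Hf _ h3 ((h.σh a c h0).trans (by rw [h1, show φ c = c from c.2]; rfl))⟩,
        mem_relRD_H.2 h3, fun t => Subtype.ext ?_⟩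
      simp [h.coe_xl hA, Cert.hg_conj a.2 k.2 h0, ← H80.pair_eq C, h2])

theorem gd_X (r : Fin D.nroots) : h.gd.X (L (C.R.rc r)) = (relRD R).X (cls τ.T r) :=
  h.lk.gd_X _ (cls τ.T r)

theorem coe_gd_x (hk : L (C.R.rc k) ∈ R'.Lg) (t : Fix φ) : (h.gd.x (L (C.R.rc k)) t : D.group K) = C.xg K k t :=
  (congrArg Subtype.val (h.lk.gd_x _ (cls τ.T k) t)).trans (h.coe_xl hk t)

theorem clsCh : ClsCh τ := fun r s e0 g hg hf h1 => by
  obtain ⟨i, rfl⟩ := h.cl r s (h.cls_iff.1 e0.symm)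
  clear e0
  induction i with
  | zero => exact h1
  | succ i ih => rw [Function.iterate_succ_apply', h.chρ g hg hf, ih, map_one]

theorem tor_of [Finite K] (hk : L (C.R.rc k) ∈ R'.Lg) {g : D.group K} (hg : g ∈ (C.split K).H) (hf : g ∈ τ.fix)
    (h1 : ch g k = 1) (h2 : ch g r ≠ 1) : h.gd.Tor (L (C.R.rc k)) (L (C.R.rc r)) := by
  have hg' : (⟨g, h.Hf g hg hf⟩ : τ.G1) ∈ (relRD R).H := mem_relRD_H.2 hg
  refine ⟨_, hg', fun t => Subtype.ext ?_, fun y hy e0 => (h.clsCh.fpf hg' h2).inj y (h.gd_X r ▸ hy) ?_⟩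
  · have := ch_conj hg k.2 (t : K)
    rw [h1, one_mul, mul_inv_eq_iff_eq_mul] at this
    simpa [h.coe_gd_x hk] using this.symm
  · rw [commutatorElement_def, e0, mul_inv_cancel]

theorem exists_nm_hg (a : Fin D.nroots) {c : K} (hc : c ≠ 0) : ∃ g ∈ (C.split K).H, g ∈ τ.fix ∧
    ∀ s : Fin D.nroots, ch g s = ∏ i ∈ range d, φ^[i] c ^ C.R.pair (τ.T.ρ^[i] a) s := by
  have h0 : ∀ i, φ^[i] c ≠ 0 := fun i => by
    rw [← RingHom.coe_pow]; exact (_root_.map_ne_zero _).2 hc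
  have key : ∀ i, τ.σ^[i] (C.hg K a c) = C.hg K (τ.T.ρ^[i] a) (φ^[i] c) := fun i => by
    induction i with
    | zero => rfl
    | succ i ih => rw [Function.iterate_succ_apply', ih, h.σh _ _ (h0 i), Function.iterate_succ_apply',
        Function.iterate_succ_apply']
  have h1 : ∀ i, τ.σ^[i] (C.hg K a c) ∈ (C.split K).H := fun i => key i ▸ Cert.hg_mem_H (Fin.is_lt _) (h0 i)
  refine ⟨nm τ.σ d (C.hg K a c), nm_mem h1, nm_fix (by rw [key, h.ρd, h.φd])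
    fun i => Cert.H_comm _ (h1 0) _ (h1 i), fun s => ?_⟩
  generalize d = n
  induction n with
  | zero =>
    have := ch_mul (one_mem (C.split K).H) (one_mem _) s.2
    rw [mul_one, left_eq_mul₀ (ch_ne_zero (one_mem (C.split K).H) s.2)] at this
    simpa [nm] using this
  | succ n ih => rw [nm_succ, ch_mul (nm_mem h1) (h1 n) s.2, ih, prod_range_succ, key,
      ch_hg (Fin.is_lt _) s.2 (h0 n), H80.pair_eq C]

theorem ch_long (hk : L (C.R.rc k) ∈ R'.Lg) (a : Fin D.nroots) (c : K) :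
    ∏ i ∈ range d, φ^[i] c ^ C.R.pair (τ.T.ρ^[i] a) k =
      (∏ i ∈ range d, φ^[i] c) ^ R'.p (L (C.R.rc k)) (L (C.R.rc a)) := by
  rw [← prod_zpow]
  exact prod_congr rfl fun i _ => by rw [h.hs, ← (h.lg k hk).2.2.1, h.v_iter]

theorem tor_short [Finite K] {c : K} (h1 : ∏ i ∈ range d, φ^[i] c = 1) (h2 : c ^ 2 ≠ 1) {α δ : κ → ℤ}
    (hα : α ∈ R'.Lg) (hδ : δ ∈ R'.Φ) (h3 : δ ∉ R'.Lg) : h.gd.Tor α δ := by
  obtain ⟨k, rfl⟩ := (h.mem _).1 (R'.lg_sub _ hα)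
  obtain ⟨r, rfl⟩ := (h.mem _).1 hδ
  obtain ⟨n, rfl⟩ : ∃ n, d = n + 1 := ⟨d - 1, by
    obtain ⟨u, hu⟩ := h.tr
    rcases d with _ | d <;> simp at hu ⊢⟩
  have hc : c ≠ 0 := by rintro rfl; simp at h1
  obtain ⟨g, hg, hf, h4⟩ := h.exists_nm_hg r hc
  refine h.tor_of hα hg hf (by rw [h4, h.ch_long hα, h1, one_zpow]) ?_
  rw [h4, prod_range_succ', prod_eq_one fun i hi => ?_, one_mul]
  · simpa [C.R.pair_self, zpow_ofNat] using h2
  have h5 := h.dist r h3 (i + 1) (by omega) (by simpa using hi)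
  have h6 := h.v_iter (i + 1) r
  generalize τ.T.ρ^[i + 1] r = s at h5 h6
  have h7 := h.pair_cls h6.symm
  rcases pair_cases h.hs h5.symm (ne_neg_of_pair h7) with h8 | h8 | h8
  · omega
  · rw [h8, zpow_zero]
  · have := v_sum (L := L) (isSum_of_pair h8)
    rw [h6, left_eq_add] at this
    exact absurd this (R'.ne_zero _ (h.v_mem _))

end TD

theorem Lk.card_X {Ψ : Type*} [Finite Ψ] {S : SignedSys κ Ψ} {R : RT κ} (l : Lk S R) {G : Type*} [Group G]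
    (P : RD S G) (A : Ψ) : ∃ i, (l.v A ∈ R.Lg ↔ e i ∈ R.Lg) ∧ Nat.card (P.X A) = Nat.card (P.X (S.α i)) := by
  obtain ⟨w, i, e0⟩ := RD.exists_nw_simple l.univ A
  refine ⟨i, ?_⟩
  rw [← l.α, ← e0]
  clear e0
  induction w with
  | nil => simp
  | cons j w ih =>
    rw [SignedSys.word_cons, Equiv.Perm.mul_apply, l.s, ih.1, ih.2]
    generalize S.word w A = B
    refine ⟨⟨RT.s_lg j, fun h => by simpa [RT.s_s] using RT.s_lg j h⟩, Nat.card_congr
      ⟨fun x => ⟨_, P.n_conj j B x x.2⟩, fun x => ⟨(P.n j)⁻¹ * x * P.n j, ?_⟩, fun x => ?_, fun x => ?_⟩⟩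
    · simpa [← Equiv.Perm.mul_apply, S.s_mul_self] using RD.n_conj' j x.2
    all_goals exact Subtype.ext (by simp [mul_assoc])

end Cfsg.Agent.H23.MD
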