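import Mathlib
import Cfsg.Agent.H23.MDTw
import Cfsg.Agent.H34.TwE6
import Cfsg.Agent.H34.TwD4

/-!
Explicit relative root systems and graph twists.
-/

set_option autoImplicit false
set_option linter.unusedSectionVars false

namespace Cfsg.Agent.H23.MD

open Module Finset H34 H80 H40 H37 Cfsg.Lie
open scoped commutatorElement

variable {κ : Type} [Fintype κ] [DecidableEq κ]

/-- A linear form. -/
def lf (a : κ → ℤ) : (κ → ℤ) →ₗ[ℤ] ℤ where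
  toFun γ := ∑ j, a j * γ j
  map_add' v w := by simp [mul_add, sum_add_distrib]
  map_smul' c v := by simp [mul_sum, mul_left_comm]

/-- The pairing with a long root. -/
def pf (A : κ → κ → ℤ) (dv α : κ → ℤ) : κ → ℤ := fun j => ∑ i, α i / dv i * A i j

/-- A root system given by lists. -/
def RT.ofL (Φ Lg : List (κ → ℤ)) (A : κ → κ → ℤ) (dv : κ → ℤ)
    (h1 : (∀ α ∈ Lg, α ∈ Φ ∧ -α ∈ Lg ∧ lf (pf A dv α) α = 2 ∧ ∀ i, α - lf (A i) α • e i ∈ Lg) ∧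
      (∀ γ ∈ Φ, γ ≠ 0 ∧ ((∀ i, 0 ≤ γ i) ∨ ∀ i, γ i ≤ 0) ∧ -γ ∈ Φ ∧
        ∀ i, γ - lf (A i) γ • e i ∈ Φ ∧ ((∀ j, j ≠ i → γ j = 0) → γ = e i ∨ γ = -e i)) ∧
      ∀ i, e i ∈ Φ ∧ lf (A i) (e i) = 2 ∧ (e i ∈ Lg → pf A dv (e i) = A i))
    (h2 : ∀ α ∈ Lg, ∀ γ ∈ Φ, (γ ≠ α → lf (pf A dv α) γ ≤ 1) ∧ (lf (pf A dv α) γ = 1 → α - γ ∈ Φ) ∧
      (γ ∈ Lg → lf (pf A dv α) γ = lf (pf A dv γ) α)) : RT κ where
  Φ := {γ | γ ∈ Φ}
  Lg := {γ | γ ∈ Lg}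
  p α := lf (pf A dv α)
  c i := lf (A i)
  fin := List.finite_toSet _
  lg_sub α h := (h1.1 α h).1
  ne_zero γ h := (h1.2.1 γ h).1
  pos_or γ h := (h1.2.1 γ h).2.1
  neg_mem γ h := (h1.2.1 γ h).2.2.1
  neg_lg γ h := (h1.1 γ h).2.1
  e_mem i := (h1.2.2 i).1
  red γ h i := ((h1.2.1 γ h).2.2.2 i).2
  c_self i := (h1.2.2 i).2.1
  s_mem' i γ h := ((h1.2.1 γ h).2.2.2 i).1
  s_lg' i γ h := (h1.1 γ h).2.2.2 i
  p_self α h := (h1.1 α h).2.2.1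
  p_le α h γ h' := (h2 α h γ h').1
  p_symm α h γ h' := (h2 α h γ (h1.1 γ h').1).2.2 h'
  p_e i h := congrArg lf ((h1.2.2 i).2.2 h)
  sub_mem α h γ h' := (h2 α h γ h').2.1

variable {D : ChevalleyDatum} {C : Cert D} {K : Type*} [Field K]

theorem TD.of_graph [Finite K] {ρl pl : List ℕ} {π : ℕ → ℕ} {η : ℕ → ℤ} (G : GraphData D ρl π η)
    (T : TwData D π pl) (φ : K →+* K) {hf} {R : Reps ((C.graphHom G φ).twist T hf).T κ} {R' : RT κ} {d : ℕ}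
    {L : (Fin D.rank → ℤ) →ₗ[ℤ] κ → ℤ} (hs : ∀ r s, C.R.pair r s = C.R.pair s r) {gw : List (List ℕ)}
    (hW : IsOrbWords ((C.graphHom G φ).sym T) pl gw) (v : ℕ → κ → ℤ)
    (hv : ∀ r < D.nroots, L (fun i => co D r i) = v r) (h1 : ∀ a ∈ R'.Φ, a + a ∉ R'.Φ ∧ ∃ r < D.nroots, v r = a)
    (h2 : ∀ r < D.nroots, v r ∈ R'.Φ ∧ π^[d] r = r ∧ ∏ i ∈ range d, η (π^[i] r) = 1 ∧
      (v r ∉ R'.Lg → ∀ i < d, 0 < i → π^[i] r ≠ r) ∧ ∀ s < D.nroots, v s = v r → ∃ i < d, s = π^[i] r)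
    (h3 : ∀ a, v (D.simple (R.e a)) = e a ∧
      ∀ r < D.nroots, v ((gw.getD (R.e a) []).foldr D.reflectRoot r) = R'.s a (v r))
    (h4 : ∀ r < D.nroots, v r ∈ R'.Lg → π r = r ∧ η r = 1 ∧ (∀ s < D.nroots, R'.p (v r) (v s) = D.pairing r s) ∧
      ∃ a < D.nroots, π a = a ∧ D.pairing a r = 1)
    (h5 : ∀ x, 0 ≤ x → 0 ≤ L x) (h6 : ∀ t, φ^[d] t = t) (h7 : ∃ v, ∑ i ∈ range d, φ^[i] v ≠ 0)
    (h8 : ∀ h ∈ (C.split K).H, h ∈ ((C.graphHom G φ).twist T hf).fix → h ∈ ((C.graphHom G φ).twist T hf).G1) :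
    TD ((C.graphHom G φ).twist T hf) R R' φ d L := by
  have e1 : ∀ r : Fin D.nroots, L (C.R.rc r) = v r := fun r => by
    rw [← hv r r.2]; congr 1; funext i; exact rc_eq_co hs r i
  have e2 : ∀ i (r : Fin D.nroots), (((C.graphHom G φ).twist T hf).T.ρ^[i] r : ℕ) = π^[i] r := fun i r => by
    induction i with
    | zero => rfl
    | succ i ih => rw [Function.iterate_succ_apply', Function.iterate_succ_apply', ← ih]; rfl
  have e3 : ∀ (r : Fin D.nroots) t i, ((C.graphHom G φ).twist T hf).σ^[i] (C.xg K r t) =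
      C.xg K (π^[i] r) ((∏ j ∈ range i, η (π^[j] r) : ℤ) * φ^[i] t) := fun r t i => by
    induction i with
    | zero => simp
    | succ i ih =>
      rw [Function.iterate_succ_apply', ih, Function.iterate_succ_apply', Function.iterate_succ_apply', prod_range_succ]
      refine ((C.graphHom G φ).map _ (e2 i r ▸ Fin.is_lt _) _).trans (congrArg _ ?_)
      change (η _ : K) * φ _ = _
      rw [map_mul, map_intCast]; push_cast; ring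
  refine ⟨hs, fun a => ⟨fun h => ?_, ?_⟩, fun a => ?_, fun a r => ?_, h5, fun γ h => (h1 γ h).1, fun r hr => ?_,
    fun r s h => ?_, fun r h i h0 hi e0 => ?_, fun r t ht => map_hg G T φ r.2 ht,
    fun g hg hf r => ch_graph G φ hg hf r.2, fun r t => ?_, fun r => Fin.ext ((e2 d r).trans (h2 r r.2).2.1),
    h6, h7, h8⟩
  · obtain ⟨r, hr, rfl⟩ := (h1 a h).2
    exact ⟨⟨r, hr⟩, e1 _⟩
  · rintro ⟨r, rfl⟩
    exact e1 r ▸ (h2 r r.2).1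
  · rw [e1, ← (h3 a).1]; exact congrArg v (C.simple_val _)
  · rw [e1, e1, ← (h3 a).2 r r.2]; exact congrArg v (wJ_val hW _ _)
  · rw [e1] at hr
    obtain ⟨k1, k2, k3, a, k4, k5, k6⟩ := h4 r r.2 hr
    refine ⟨fun t => ?_, fun s h => ?_, fun s => by rw [e1, e1, k3 s s.2, H80.pair_eq],
      ⟨a, k4⟩, Fin.ext k5, (H80.pair_eq C _ _).trans k6⟩
    · simpa [k1, k2] using e3 r t 1
    · obtain ⟨i, -, h⟩ := (h2 r r.2).2.2.2.2 s s.2 (by rwa [e1, e1] at h)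
      exact Fin.ext (h.trans (Function.iterate_fixed k1 i))
  · obtain ⟨i, -, h⟩ := (h2 r r.2).2.2.2.2 s s.2 (by rwa [e1, e1] at h)
    exact ⟨i, Fin.ext (h.trans (e2 i r).symm)⟩
  · exact (h2 r r.2).2.2.2.1 (e1 r ▸ h) i hi h0 ((e2 i r).symm.trans (congrArg Fin.val e0))
  · rw [e3, (h2 r r.2).2.1, (h2 r r.2).2.2.1, h6]; simp

theorem TD.card_X {τ : (C.split K).Twist} {R : Reps τ.T κ} {R' : RT κ} {φ : K →+* K} {d : ℕ}
    {L : (Fin D.rank → ℤ) →ₗ[ℤ] κ → ℤ} (h : TD τ R R' φ d L) {γ : κ → ℤ} (hγ : γ ∈ R'.Φ) :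
    ∃ i, (γ ∈ R'.Lg ↔ e i ∈ R'.Lg) ∧ Nat.card (h.gd.X γ) = Nat.card (τ.UJ (R.e i)) := by
  obtain ⟨r, rfl⟩ := (h.mem _).1 hγ
  obtain ⟨i, h1, h2⟩ := h.lk.card_X (relRD R) (cls τ.T r)
  refine ⟨i, h1, ?_⟩
  rw [h.gd_X, h2, ← relX_α]
  exact Nat.card_congr (Subgroup.subgroupOfEquivOfLe (relX_le_G1 _)).toEquiv

theorem GD.cond_of {R : RT κ} {F : Type*} [Field F] [Fintype F] {G : Type*} [Group G] [Finite G] {D : GD R F G}
    {i : κ} (hi : e i ∈ R.Lg) (hT : ∀ δ ∈ R.Φ, δ ∉ R.Lg → D.Tor (e i) δ)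
    (h : ∀ δ ∈ R.Lg, D.Tor (e i) δ ∨ (R.p (e i) δ = 0 → ∃ ε ∈ R.Φ, R.p (e i) ε = 0 ∧ R.p δ ε = 1) ∧
      (0 ≤ δ → R.p (e i) δ = -1 → (0 < δ i → ∃ ε ∈ R.Φ, 0 ≤ ε ∧ 0 ≤ δ - ε ∧ R.p δ ε = 1 ∧
        (ε ∈ R.Lg ∨ 0 ≤ R.p (e i) ε) ∧ (δ - ε ∈ R.Lg ∨ 0 ≤ R.p (e i) (δ - ε))) ∧
      ((∃ ε ∈ R.Φ, 0 ≤ ε ∧ 0 ≤ δ - ε ∧ R.p δ ε = 1) ∨ ∃ j, δ = e j))) : D.Cond i :=
  ⟨hi, fun δ hδ h0 => (em _).elim (fun hl => (h δ hl).imp_right fun h => ⟨hl, h.1 h0⟩) fun hl => .inl (hT δ hδ hl),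
    fun δ hδ h0 h1 h2 => (em _).elim (fun hl => (h δ hl).imp_right fun h => ⟨hl, (h.2 h0 h1).1 h2⟩)
      fun hl => .inl (hT δ hδ hl),
    fun δ hδ h0 h1 => (em _).elim (fun hl => (h δ hl).imp_right fun h => ⟨hl, (h.2 h0 h1).2⟩)
      fun hl => .inl (hT δ hδ hl)⟩

theorem exists_uni'.{u} {G : Type u} [Group G] [Finite G] [IsSimpleGroup G] {G' : Type u} [Group G'] (f : G' ≃* G) {k : ℕ}
    (ρ : Representation ℂ G (Fin k → ℂ)) (h : ρ.IsIrreducible) (hk : 2 ≤ k) :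
    ∃ (E : Type u) (_ : NormedAddCommGroup E) (_ : InnerProductSpace ℂ E) (_ : FiniteDimensional ℂ E)
      (σ : Representation ℂ G' E), Uni σ ∧ finrank ℂ E = k ∧ ∀ g, (∀ v, σ g v = v) → g = 1 := by
  obtain ⟨E, _, _, _, σ, h1, h2, h3⟩ := exists_uni ρ h hk
  exact ⟨E, _, _, inferInstance, σ.comp f.toMonoidHom, fun g => h1 (f g), h2,
    fun g hg => f.map_eq_one_iff.1 (h3 _ hg)⟩

section field

variable [Fintype K] {φ : K →+* K} {q d : ℕ} (hφ : ∀ t, φ t = t ^ q) (hq : 2 ≤ q)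
include hφ

theorem iter_frob (i : ℕ) (t : K) : φ^[i] t = t ^ q ^ i := by
  induction i with
  | zero => simp
  | succ i ih => rw [Function.iterate_succ_apply', ih, hφ, ← pow_mul, pow_succ]

include hq

theorem card_Fix (hK : Fintype.card K = q ^ d) [Fintype (Fix φ)] : Fintype.card (Fix φ) = q :=
  Nat.card_eq_fintype_card.symm.trans ((Nat.card_congr (Equiv.subtypeEquivRight fun t => by
    rw [← hφ]; rfl)).trans (card_fixed (by omega) hK))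

theorem exists_tr (hK : Fintype.card K = q ^ (d + 1)) : ∃ v, ∑ i ∈ range (d + 1), φ^[i] v ≠ 0 := by
  by_contra! h
  open Polynomial in
  have h1 : (∑ i ∈ range (d + 1), X ^ q ^ i : K[X]) = 0 := by
    refine eq_zero_of_natDegree_lt_card_of_eval_eq_zero _ Function.injective_id (fun t => ?_) ?_
    · simpa [eval_finsetSum, iter_frob hφ] using h t
    · refine (natDegree_sum_le_of_forall_le _ _ fun i hi => ?_).trans_lt
        (hK ▸ Nat.pow_lt_pow_right hq (Nat.lt_succ_self d))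
      rw [natDegree_X_pow]
      exact Nat.pow_le_pow_right (by omega) (Nat.lt_succ_iff.1 (mem_range.1 hi))
  have h2 := congrArg (fun p => Polynomial.coeff p 1) h1
  simp only [Polynomial.finsetSum_coeff, Polynomial.coeff_X_pow] at h2
  rw [sum_range_succ', sum_eq_zero fun i _ => if_neg (Nat.one_lt_pow i.succ_ne_zero hq).ne] at h2
  simp at h2

theorem exists_nm (hK : Fintype.card K = q ^ (d + 2)) : ∃ c : K, ∏ i ∈ range (d + 2), φ^[i] c = 1 ∧ c ^ 2 ≠ 1 := by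
  obtain ⟨u, hu, h⟩ := exists_pow_ne_one_of_lt K
  refine ⟨u ^ (q - 1), ?_, ?_⟩
  · simp only [iter_frob hφ, prod_pow_eq_pow_sum]
    rw [← pow_mul, mul_comm, Nat.geomSum_eq hq, Nat.div_mul_cancel (by simpa using Nat.sub_dvd_pow_sub_pow q 1 _),
      ← hK, FiniteField.pow_card_sub_one_eq_one u hu]
  · rw [← pow_mul]
    refine h _ (by omega) ?_
    have : q ^ 2 ≤ q ^ (d + 2) := Nat.pow_le_pow_right (by omega) (by omega)
    rw [Nat.card_eq_fintype_card, hK]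
    obtain ⟨p, rfl⟩ := Nat.exists_eq_add_of_le' (show 1 ≤ q by omega)
    rw [Nat.add_sub_cancel]
    nlinarith

end field

end Cfsg.Agent.H23.MD
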