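import Mathlib
import Cfsg.Agent.H23.MDTw2
import Cfsg.Agent.H80.TwE6Mult

/-!
The minimal degree of the twisted groups of type `E₆`.
-/

set_option autoImplicit false

namespace Cfsg.Agent.H23.MD

open Module Finset H34 H80 H40 H37 Cfsg.Lie

/-- The positive long roots of type `F₄`. -/
def lpF4 : List (Fin 4 → ℤ) := [![0, 1, 0, 0], ![0, 1, 2, 0], ![0, 1, 2, 2], ![1, 0, 0, 0], ![1, 1, 0, 0], ![1, 1, 2, 0], ![1, 1, 2, 2], ![1,
  2, 2, 0], ![1, 2, 2, 2], ![1, 2, 4, 2], ![1, 3, 4, 2], ![2, 3, 4, 2]]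

/-- The positive short roots of type `F₄`. -/
def spF4 : List (Fin 4 → ℤ) := [![0, 0, 0, 1], ![0, 0, 1, 0], ![0, 0, 1, 1], ![0, 1, 1, 0], ![0, 1, 1, 1], ![0, 1, 2, 1], ![1, 1, 1, 0], ![1,
  1, 1, 1], ![1, 1, 2, 1], ![1, 2, 2, 1], ![1, 2, 3, 1], ![1, 2, 3, 2]]

/-- The long roots of type `F₄`. -/
def lgF4 : List (Fin 4 → ℤ) := lpF4 ++ lpF4.map (-·)

/-- The roots of type `F₄`. -/
def rsF4 : List (Fin 4 → ℤ) := lgF4 ++ (spF4 ++ spF4.map (-·))

/-- The root system of type `F₄`. -/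
def rtF4 : RT (Fin 4) := .ofL rsF4 lgF4 ![![2, -1, 0, 0], ![-1, 2, -1, 0], ![0, -2, 2, -1], ![0, 0, -1, 2]]
  ![1, 1, 2, 2] (by refine ⟨?_, ?_, ?_⟩ <;> decide +kernel) (by decide +kernel)

instance (γ : Fin 4 → ℤ) : Decidable (γ ∈ rtF4.Φ) := inferInstanceAs (Decidable (γ ∈ rsF4))
instance (γ : Fin 4 → ℤ) : Decidable (γ ∈ rtF4.Lg) := inferInstanceAs (Decidable (γ ∈ lgF4))
instance (p : (Fin 4 → ℤ) → Prop) [DecidablePred p] : Decidable (∀ γ ∈ rtF4.Φ, p γ) :=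
  inferInstanceAs (Decidable (∀ γ ∈ rsF4, p γ))
instance (p : (Fin 4 → ℤ) → Prop) [DecidablePred p] : Decidable (∃ γ ∈ rtF4.Φ, p γ) :=
  inferInstanceAs (Decidable (∃ γ ∈ rsF4, p γ))
instance (p : (Fin 4 → ℤ) → Prop) [DecidablePred p] : Decidable (∀ γ ∈ rtF4.Lg, p γ) :=
  inferInstanceAs (Decidable (∀ γ ∈ lgF4, p γ))
instance (x y : Fin 4 → ℤ) : Decidable (x ≤ y) := inferInstanceAs (Decidable (∀ i, x i ≤ y i))

/-- The folding map. -/
def foldE6 : (Fin 6 → ℤ) →ₗ[ℤ] Fin 4 → ℤ where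
  toFun x := ![x 1, x 3, x 2 + x 4, x 0 + x 5]
  map_add' x y := by funext i; fin_cases i <;> simp <;> ring
  map_smul' c x := by funext i; fin_cases i <;> simp <;> ring

/-- The folded roots. -/
def vE6 (r : ℕ) : Fin 4 → ℤ := ![co chevE6 r 1, co chevE6 r 3, co chevE6 r 2 + co chevE6 r 4,
  co chevE6 r 0 + co chevE6 r 5]

variable {K : Type*} [Field K] [Fintype K] {φ : K →+* K} (h2 : ∀ t, φ (φ t) = t) {q : ℕ}
  (hφ : ∀ t, φ t = t ^ q) (hq : 2 ≤ q) (hK : Fintype.card K = q ^ 2)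

include hφ hq hK in
theorem tdE6 : TD (tE6 φ h2) (TE6.rep h2) rtF4 φ 2 foldE6 :=
  TD.of_graph graphDataE6 twDataE6 φ (laced_of_mem (by simp) _) (isOrbWords_E6 (isCartan_E6 cE6) _ (E6_π φ h2))
    vE6 (fun _ _ => rfl) (by decide +kernel) (by decide +kernel)
    (show ∀ a : Fin 4, vE6 (chevE6.simple ((![1, 3, 2, 0] : Fin 4 → Fin 6) a)) = e a ∧ ∀ r < 72, vE6
      ((orbwE6.getD ((![1, 3, 2, 0] : Fin 4 → Fin 6) a) []).foldr chevE6.reflectRoot r) = rtF4.s a (vE6 r) by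
      decide +kernel) (by decide +kernel)
    (fun x hx i => by
      fin_cases i
      exacts [hx _, hx _, add_nonneg (hx _) (hx _), add_nonneg (hx _) (hx _)])
    h2 (exists_tr hφ hq hK) fun _ h hf => by
      obtain ⟨p, rfl⟩ := E6_exists_par φ h2 h hf
      exact E6_par_mem φ h2 p

theorem min_2E6 (hq : IsPrimePow q) (hK : Fintype.card K = q ^ 2) {k : ℕ}
    (ρ : Representation ℂ (twistedE6 K q) (Fin k → ℂ)) (hρ : ρ.IsIrreducible) (hk : 2 ≤ k) :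
    q * (q ^ 6 - q ^ 3 + 1) * (q ^ 4 + 1) ≤ k := not_lt.1 fun hc => by
  classical
  obtain ⟨φ, hφ, h2, h3⟩ := exists_frob2 hq hK
  have := ((twE6 φ h2 hφ).simple (0 : Fin 6) (E6_irreducible φ h2 hφ)
    ((twE6 φ h2 hφ).perfect (E6_perfect φ h2 h3)) ((twE6 φ h2 hφ).core (E6_core φ h2))).1
  replace hq := hq.two_le
  obtain ⟨E, _, _, _, σ, h4, rfl, h5⟩ := exists_uni' (TwGrp.nonempty_equiv (twE6 φ h2 hφ)).some ρ hρ hk
  have := Fintype.ofFinite (Fix φ)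
  have hF := card_Fix hφ hq hK
  obtain ⟨c, c1, c2⟩ := exists_nm hφ hq hK
  have h := tdE6 h2 hφ hq hK
  have hX : ∀ γ ∈ rtF4.Φ, Nat.card (h.gd.X γ) = q ^ if γ ∈ rtF4.Lg then 1 else 2 := fun γ hγ => by
    obtain ⟨i, h6, h7⟩ := h.card_X hγ
    rw [h7, E6_card_UJ φ h2 hφ (by omega) hK, if_congr h6 rfl rfl]
    exact congrArg _ (((sE6 φ).len_wJ twDataE6 (TE6.orb_rep i)).trans (by clear h6 h7; revert i; decide +kernel))
  have hG : ∀ i, e i ∈ rtF4.Lg → h.gd.Gd σ i := fun i => GD.gd_of h4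
    (fun i hi => GD.cond_of hi (fun δ => h.tor_short c1 c2 hi) fun δ hδ => .inr (by revert δ i; decide +kernel))
    (fun i hi => by
      obtain ⟨j, h6, h7⟩ : ∃ j, rtF4.p (e i) (rtF4.s j (e i)) = 1 ∧ ∑ γ ∈ rsF4.toFinset with
          0 ≤ γ ∧ rtF4.p (e i) γ = 1, (if γ ∈ rtF4.Lg then 1 else 2) = 10 := by revert i; decide +kernel
      refine GD.line_of h4 h5 hi (RT.s_lg j hi) h6 (fun _ => GD.n_conj' j (rtF4.e_mem i))
        (rsF4.toFinset.filter fun γ => 0 ≤ γ ∧ rtF4.p (e i) γ = 1)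
        (fun γ hγ => ⟨List.mem_toFinset.1 (mem_filter.1 hγ).1, (mem_filter.1 hγ).2⟩) ?_
      rw [prod_congr rfl fun γ hγ => hX γ (List.mem_toFinset.1 (mem_filter.1 hγ).1), prod_pow_eq_pow_sum, h7, hF]
      refine big_of hq hc ?_
      have h8 : q ^ 6 - q ^ 3 + 1 ≤ q ^ 6 := by
        have := Nat.pow_le_pow_right (n := q) (by omega) (show 3 ≤ 6 by omega)
        have := Nat.one_le_pow 3 q (by omega)
        omega
      have h9 : 2 * (q ^ 4 + 1) ≤ 3 * q ^ 4 := by have := Nat.pow_le_pow_left hq 4; omega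
      convert Nat.mul_le_mul_left q (Nat.mul_le_mul h8 h9) using 1 <;> ring)
    fun i j hi hj h6 => Or.imp .inr .inr (by revert i j; decide +kernel)
  have h6 := GD.count' h4 hG (fun β => q ^ (ht β - 1).toNat) (fun β hβ h0 => by
    have : (∃ i, β = e i ∧ (ht β - 1).toNat = 0) ∨ ∃ i, 0 < rtF4.c i β ∧ rtF4.p β (e i) = 1 ∧ 0 ≤ rtF4.s i β ∧
        (∀ γ ∈ rtF4.Φ, γ ≠ e i → rtF4.c i γ ≤ rtF4.c i β) ∧ β - e i ∈ rtF4.Φ ∧ (ht β - 1).toNat =
        (if β - e i ∈ rtF4.Lg then 1 else 2) + (ht (rtF4.s i β) - 1).toNat := by revert β; decide +kernel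
    exact this.imp (fun ⟨i, a, b⟩ => ⟨i, a, by simp only [b, pow_zero, le_refl]⟩)
      fun ⟨i, a1, a2, a3, a4, a5, a6⟩ => ⟨i, a1, a2, a3, a4, by
        simp only [a6, pow_add]; exact Nat.mul_le_mul_right _ (hX _ a5).ge⟩)
    lpF4.toFinset fun β hβ => by
      rw [List.mem_toFinset] at hβ
      revert β; decide +kernel
  have h7 := GD.two_le h4 (hG 0 (by decide +kernel)) (hG 1 (by decide +kernel)) (by decide +kernel) (by decide +kernel)
  rw [List.sum_toFinset _ (by decide +kernel), hF, show (fun β : Fin 4 → ℤ => q ^ (ht β - 1).toNat) =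
    (q ^ ·) ∘ fun β => (ht β - 1).toNat from rfl, ← List.map_map, show lpF4.map (fun β => (ht β - 1).toNat) =
    [0, 2, 4, 0, 1, 3, 5, 4, 6, 8, 9, 10] by decide +kernel] at h6
  refine (hc.trans_le (le_of_eq ?_)).not_ge ((Nat.add_le_add_left h7 _).trans h6)
  have := Nat.pow_le_pow_right (n := q) (by omega) (show 3 ≤ 6 by omega)
  simp only [List.map_cons, List.map_nil, List.sum_cons, List.sum_nil]
  zify [this, show 1 ≤ q by omega]
  ring

end Cfsg.Agent.H23.MD
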