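import Mathlib
import Cfsg.Agent.H23.MDTw2
import Cfsg.Agent.H80.TwD4Mult
import Cfsg.Agent.S0135
import Cfsg.Agent.S1067

/-!
The minimal degree of the triality groups.
-/

set_option autoImplicit false

namespace Cfsg.Agent.H23.MD

open Module Finset H34 H80 H40 H37 Cfsg.Lie
open scoped InnerProductSpace commutatorElement

/-- The long roots of type `G₂`. -/
def lgG2 : List (Fin 2 → ℤ) := [![0, 1], ![3, 1], ![3, 2], ![0, -1], ![-3, -1], ![-3, -2]]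

/-- The roots of type `G₂`. -/
def rsG2 : List (Fin 2 → ℤ) := lgG2 ++ [![1, 0], ![1, 1], ![2, 1], ![-1, 0], ![-1, -1], ![-2, -1]]

/-- The root system of type `G₂`. -/
def rtG2 : RT (Fin 2) := .ofL rsG2 lgG2 ![![2, -3], ![-1, 2]] ![3, 1]
  (by refine ⟨?_, ?_, ?_⟩ <;> decide +kernel) (by decide +kernel)

instance decG2b (γ : Fin 2 → ℤ) : Decidable (γ ∈ rtG2.Φ) := inferInstanceAs (Decidable (γ ∈ rsG2))
instance decG2c (γ : Fin 2 → ℤ) : Decidable (γ ∈ rtG2.Lg) := inferInstanceAs (Decidable (γ ∈ lgG2))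
instance decG2d (p : (Fin 2 → ℤ) → Prop) [DecidablePred p] : Decidable (∀ γ ∈ rtG2.Φ, p γ) :=
  inferInstanceAs (Decidable (∀ γ ∈ rsG2, p γ))
instance decG2e (p : (Fin 2 → ℤ) → Prop) [DecidablePred p] : Decidable (∃ γ ∈ rtG2.Φ, p γ) :=
  inferInstanceAs (Decidable (∃ γ ∈ rsG2, p γ))
instance decG2f (p : (Fin 2 → ℤ) → Prop) [DecidablePred p] : Decidable (∀ γ ∈ rtG2.Lg, p γ) :=
  inferInstanceAs (Decidable (∀ γ ∈ lgG2, p γ))
instance decG2g (x y : Fin 2 → ℤ) : Decidable (x ≤ y) := inferInstanceAs (Decidable (∀ i, x i ≤ y i))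
instance decG2h (i : Fin 2) (γ : Fin 2 → ℤ) : Decidable (γ ∈ rtG2.Λ i) := inferInstanceAs (Decidable (_ ∧ _ ∧ _))

/-- The determinant of two vectors. -/
def dt (x y : Fin 2 → ℤ) : ℤ := x 0 * y 1 - x 1 * y 0

theorem cb_of {R : RT (Fin 2)} {γ δ : Fin 2 → ℤ} {p : (Fin 2 → ℤ) → Prop} (h : dt γ δ ≠ 0 ∧ ∀ β ∈ R.Φ,
    dt γ δ ∣ dt β δ → dt γ δ ∣ dt γ β → 0 < dt β δ * dt γ δ → 0 < dt γ β * dt γ δ → p β) :
    ∀ β ∈ R.cb γ δ, p β := by
  rintro _ ⟨hβ, a, b, ha, hb, rfl⟩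
  have e1 : dt (a • γ + b • δ) δ = dt γ δ * a := by simp [dt]; ring
  have e2 : dt γ (a • γ + b • δ) = dt γ δ * b := by simp [dt]; ring
  have := mul_self_pos.2 h.1
  exact h.2 _ hβ ⟨a, e1⟩ ⟨b, e2⟩ (by rw [e1]; nlinarith) (by rw [e2]; nlinarith)

theorem GD.commute_G2 {F : Type*} [Field F] [Fintype F] {G : Type*} [Group G] [Finite G] (D : GD rtG2 F G)
    {γ δ : Fin 2 → ℤ} (f : Fin 2 → ℤ) (h : γ ∈ rtG2.Φ ∧ δ ∈ rtG2.Φ ∧ 0 < lf f γ ∧ 0 < lf f δ ∧ dt γ δ ≠ 0 ∧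
      ∀ β ∈ rtG2.Φ, dt γ δ ∣ dt β δ → dt γ δ ∣ dt γ β → 0 < dt β δ * dt γ δ → 0 < dt γ β * dt γ δ → False)
    {y z : G} (hy : y ∈ D.X γ) (hz : z ∈ D.X δ) : Commute y z :=
  GD.commute_of h.1 h.2.1 _ h.2.2.1 h.2.2.2.1 (cb_of h.2.2.2.2) hy hz

theorem GD.two_3D4 {F : Type*} [Field F] [Fintype F] {G : Type*} [Group G] [Finite G] (D : GD rtG2 F G)
    {V : Type*} [NormedAddCommGroup V] [InnerProductSpace ℂ V] [FiniteDimensional ℂ V] {ρ : Representation ℂ G V}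
    (hρ : Uni ρ) (hF : Fintype.card F = 2) (hL : D.Line ρ 1) (hT : D.Tor (e 1) ![2, 1])
    (h8 : Nat.card (D.X (e 0)) = 8 ∧ Nat.card (D.X ![2, 1]) = 8) : 25 ≤ finrank ℂ V := by
  classical
  obtain ⟨ψ, hψ⟩ := GD.exists_char (F := F)
  have lb : e 1 ∈ rtG2.Lg := by decide +kernel
  have lc : ![3, 1] ∈ rtG2.Lg := by decide +kernel
  have lt : ![3, 2] ∈ rtG2.Lg := by decide +kernel
  have sc : rtG2.s 0 (e 1) = ![3, 1] := by decide +kernel
  have sb : rtG2.s 0 ![3, 1] = e 1 := by decide +kernel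
  have st : rtG2.s 1 ![3, 1] = ![3, 2] := by decide +kernel
  have sc' : rtG2.s 1 ![3, 2] = ![3, 1] := by decide +kernel
  have one : ∀ t : F, t ≠ 0 → t = 1 := fun t ht => by
    obtain ⟨u, -, hu⟩ := (Nat.card_eq_two_iff' (0 : F)).1 (Nat.card_eq_fintype_card.trans hF)
    rw [hu t ht, hu 1 one_ne_zero]
  have two : (1 : F) + 1 = 0 := by_contra fun h => one_ne_zero (add_eq_left.1 (one _ h))
  have memX : ∀ α ∈ rtG2.Lg, ∀ y ∈ D.X α, y ≠ 1 → y = D.x α 1 := fun α hα y hy h1 => by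
    obtain ⟨t, rfl⟩ := (D.mem_X α hα y).1 hy
    rw [one t fun e0 => h1 (e0 ▸ GD.x_zero hα)]
  obtain ⟨⟨v, hv⟩, v0⟩ := Module.finrank_pos_iff_exists_ne_zero.1 ((hL ψ hψ).symm ▸ one_pos)
  replace v0 : v ≠ 0 := fun e0 => v0 (Subtype.ext e0)
  have fΛ := (GD.mem_Wt.1 hv).2
  have f1 : v ∈ fix ρ (D.X ![1, 1]) := fΛ _ (by decide +kernel)
  have f2 : v ∈ fix ρ (D.X ![2, 1]) := fun y hy => mem_fxs.1 (GD.kill_tor (fun _ h => h.1) (hL ψ hψ).le
    (by decide +kernel) hT (GD.st0 lb (by decide +kernel) (by decide +kernel) (by decide +kernel)) hy) v hv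
  have f3 : v ∈ fix ρ (D.X ![3, 2]) := fΛ _ (by decide +kernel)
  obtain ⟨ν, hν, k1⟩ := GD.trans_A (D := D) (ρ := ρ) lb lc (sc ▸ D.n_conj 0 _ (rtG2.e_mem 1))
    (fun y hy => sb ▸ GD.n_conj' 0 (by decide +kernel) hy) hψ
  obtain ⟨μ, hμ, k2⟩ := GD.trans_A (D := D) (ρ := ρ) lc lt (st ▸ D.n_conj 1 _ (by decide +kernel))
    (fun y hy => sc' ▸ GD.n_conj' 1 (by decide +kernel) hy) hν
  have pos : ∀ {E : Submodule ℂ V} {u : V}, u ∈ E → u ≠ 0 → 0 < finrank ℂ E := fun hu h0 =>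
    Module.finrank_pos_iff_exists_ne_zero.2 ⟨⟨_, hu⟩, fun e0 => h0 (congrArg Subtype.val e0)⟩
  have d1 : 16 ≤ finrank ℂ (D.eig ρ ![3, 2] μ) := by
    have := pos (k2 _ (k1 v hv.1)) (app_ne_zero _ (app_ne_zero _ v0))
    rw [GD.finrank_eig lt hμ {![3, 1], ![2, 1]} (by decide +kernel) (by decide +kernel),
      prod_pair (by decide +kernel), GD.card_X lc, hF, h8.2] at this ⊢
    omega
  have d2 : 8 ≤ finrank ℂ (D.Wt ρ {![3, 2]} ![3, 1] ν) := by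
    have hS : ∀ γ ∈ ({![3, 2]} : Set (Fin 2 → ℤ)), γ ∈ rtG2.Φ ∧ rtG2.p ![3, 1] γ = 1 := by
      rintro _ rfl; decide +kernel
    have := pos (E := D.Wt ρ {![3, 2]} ![3, 1] ν) (GD.mem_Wt.2 ⟨k1 v hv.1, by
      rintro _ rfl
      exact (show rtG2.s 0 ![3, 2] = ![3, 2] by decide +kernel) ▸ GD.n_fix 0 (by decide +kernel) f3⟩)
      (app_ne_zero _ v0)
    rw [GD.finrank_heis lc (rtG2.e_mem 0) (by decide +kernel) hν (E := D.Wt ρ {![3, 2]} ![3, 1] ν) inf_le_left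
      (GD.stab_Wt_p lc hS (by decide +kernel) (by decide +kernel) (by simp only [Set.mem_singleton_iff]; decide +kernel))
      (GD.stab_Wt_p lc hS (by decide +kernel) (by decide +kernel) (by simp only [Set.mem_singleton_iff]; decide +kernel)),
      h8.1] at this ⊢
    omega
  have d3 : 0 < finrank ℂ ↥(fix ρ (D.X ![3, 2]) ⊓ fix ρ (D.X ![3, 1])) := by
    have stc : D.X ![3, 1] ≤ stab ρ (D.Wt ρ (rtG2.Λ 1) (e 1) ψ) := GD.stab_Wt lb (fun _ h => h.1)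
      (by decide +kernel) ht (by decide +kernel) (fun _ h => RT.ht_pos h.1 h.2.1) (by decide +kernel)
      fun γ hγ β hβ => GD.le_fxs_Wt (cb_of (p := (· ∈ rtG2.Λ 1)) (by
        have : γ ∈ rtG2.Φ := hγ.elim (· ▸ rtG2.e_mem 1) (·.1)
        clear hβ; revert hγ; revert γ; decide +kernel) β hβ)
    obtain ⟨s, hs⟩ := exists_smul_of_finrank (hL ψ hψ).le hv v0 (stc (GD.x_mem lc 1) v hv)
    have key : ∀ {u : V}, u ≠ 0 → u ∈ fix ρ (D.X ![3, 2]) → ρ (D.x ![3, 1] 1) u = u →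
        0 < finrank ℂ ↥(fix ρ (D.X ![3, 2]) ⊓ fix ρ (D.X ![3, 1])) := fun h0 h1 h2 =>
      pos ⟨h1, fun y hy => (em (y = 1)).elim (fun e0 => by simp [e0]) fun e0 => memX _ lc y hy e0 ▸ h2⟩ h0
    by_cases s1 : s = 1
    · exact key v0 f3 (by rw [hs, s1, one_smul])
    have sq : ∀ α ∈ rtG2.Lg, ∀ s : ℂ, s ≠ 1 → ρ (D.x α 1) v = s • v → s = -1 := fun α hα s s1 hs => by
      have : (s * s) • v = (1 : ℂ) • v := by
        rw [mul_smul, ← hs, ← map_smul, ← hs, ← mul_app, ← D.x_add α hα, two, GD.x_zero hα]; simp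
      exact (mul_self_eq_one_iff.1 (smul_left_injective ℂ v0 this)).resolve_left s1
    obtain ⟨t, ht⟩ := GD.exists_ne_one hψ
    obtain rfl := one t fun e0 => ht (by simp [e0])
    have hb := hv.1 1
    rw [sq _ lb _ ht hb] at hb
    rw [sq _ lc _ s1 hs] at hs
    obtain ⟨x, hx, x1⟩ := D.X_ne _ (rtG2.neg_mem _ (rtG2.e_mem 0))
    have hz := GD.x_mem (D := D) lc 1
    generalize D.x ![3, 1] 1 = z at hz hs key
    let N := fxr ρ v ⊓ Subgroup.centralizer {z} ⊓ Subgroup.centralizer (D.X (e 1))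
    have hN : ∀ β ∈ ({![1, 1], ![2, 1], ![3, 2]} : Finset (Fin 2 → ℤ)), D.X β ≤ N := fun β hβ y hy => by
      simp only [mem_insert, mem_singleton] at hβ
      rcases hβ with rfl | rfl | rfl
      exacts [⟨⟨f1 y hy, by rintro _ rfl; exact D.commute_G2 ![1, 1] (by decide +kernel) hz hy⟩,
          fun _ h => D.commute_G2 ![1, 1] (by decide +kernel) h hy⟩,
        ⟨⟨f2 y hy, by rintro _ rfl; exact D.commute_G2 ![1, 1] (by decide +kernel) hz hy⟩,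
          fun _ h => D.commute_G2 ![1, 1] (by decide +kernel) h hy⟩,
        ⟨⟨f3 y hy, by rintro _ rfl; exact D.commute_G2 ![1, 1] (by decide +kernel) hz hy⟩,
          fun _ h => D.commute_G2 ![1, 1] (by decide +kernel) h hy⟩]
    obtain ⟨y, hy, m, hm, e1⟩ : ∃ y ∈ D.X (e 1), ∃ m ∈ N, ⁅x, z⁆ = y * m := by
      refine Subgroup.iSup_induction (C := fun g => ∃ y ∈ D.X (e 1), ∃ m ∈ N, g = y * m) _
        (D.comm _ (rtG2.neg_mem _ (rtG2.e_mem 0)) _ (by decide +kernel) (lf ![-1, 4]) (by decide +kernel)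
          (by decide +kernel) x hx z hz) (fun β g hg => ?_) ⟨1, one_mem _, 1, one_mem _, by simp⟩ ?_
      · by_cases hβ : β ∈ rtG2.cb (-e 0) ![3, 1]
        · rw [iSup_pos hβ] at hg
          rcases cb_of (p := fun β => β = e 1 ∨ β ∈ ({![1, 1], ![2, 1], ![3, 2]} : Finset (Fin 2 → ℤ)))
            (by decide +kernel) β hβ with rfl | h
          exacts [⟨g, hg, 1, one_mem _, by simp⟩, ⟨1, one_mem _, g, hN β h hg, by simp⟩]
        · rw [iSup_neg hβ, Subgroup.mem_bot] at hg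
          exact ⟨1, one_mem _, 1, one_mem _, by simp [hg]⟩
      · rintro _ _ ⟨y, hy, m, hm, rfl⟩ ⟨y', hy', m', hm', rfl⟩
        exact ⟨_, mul_mem hy hy', _, mul_mem hm hm', by
          rw [mul_assoc, ← mul_assoc m, ← hm.2 y' hy']; simp only [mul_assoc]⟩
    have y1 : y ≠ 1 := by
      rintro rfl
      obtain ⟨u, hu, h, hh, u', hu', rfl⟩ := D.sl2 0 x hx x1
      have c1 := D.commute_G2 ![1, 1] (by decide +kernel) hu hz
      have c2 := D.commute_G2 ![1, 1] (by decide +kernel) hu' hz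
      have h3 := D.T_conj h hh _ (rtG2.e_mem 1) _ (sb ▸ D.n_conj 0 _ (by decide +kernel) z hz)
      have z1 : z ≠ 1 := fun e0 => v0 (by
        rw [e0, map_one, Module.End.one_apply, neg_one_smul, eq_neg_iff_add_eq_zero, ← two_smul ℂ] at hs
        simpa using hs)
      have h4 : h * (D.n 0 * z * (D.n 0)⁻¹) * h⁻¹ = u⁻¹ * (m * z) * u := by
        rw [← one_mul m, ← e1, commutatorElement_def, inv_mul_cancel_right, mul_assoc _ u', c2.eq]; group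
      obtain ⟨w, hw, h5⟩ := D.heis _ lt _ (rtG2.e_mem 1) (by decide +kernel) _ h3 (by simpa using z1) 1
      rw [memX _ lc w ((show ![3, 2] - e 1 = ![3, 1] by decide +kernel) ▸ hw) (fun e0 => ?_), ← memX _ lc z hz z1,
        h4, Commute.commutator_eq ((c1.inv_left.mul_left
          ((Commute.mul_left (hm.1.2 z rfl).symm (Commute.refl z)))).mul_left c1)] at h5
      · exact one_ne_zero (D.x_inj _ lt 1 h5.symm)
      · exact one_ne_zero (D.x_inj _ lt 1 (by rw [← h5, e0, commutatorElement_one_right]))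
    refine key (app_ne_zero x⁻¹ v0) (fix_of_commute (fun w hw => (D.commute_G2 ![-1, 4] (by decide +kernel)
      hw hx).inv_right) v f3) ?_
    rw [← inv_app (ρ := ρ) x (ρ z _), ← mul_app x, ← mul_app (x * z), ← inv_mul_cancel_right (x * z * x⁻¹) z,
      ← commutatorElement_def, e1, mul_app, mul_app, hs, map_smul, hm.1.1, map_smul, memX _ lb y hy y1, hb]
    simp
  have := sum_finrank_le (D := ⊤) ![D.eig ρ ![3, 2] μ, D.Wt ρ {![3, 2]} ![3, 1] ν,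
    fix ρ (D.X ![3, 2]) ⊓ fix ρ (D.X ![3, 1])] (fun _ => le_top) (by
      have o1 : ∀ u ∈ fix ρ (D.X ![3, 2]), ∀ v ∈ D.eig ρ ![3, 2] μ, ⟪u, v⟫_ℂ = 0 :=
        fun u hu v hv => GD.orth_fix hρ lt hμ hu hv
      have o2 : ∀ u ∈ fix ρ (D.X ![3, 1]), ∀ v ∈ D.eig ρ ![3, 1] ν, ⟪u, v⟫_ℂ = 0 :=
        fun u hu v hv => GD.orth_fix hρ lc hν hu hv
      intro i j hij u hu v hv
      fin_cases i <;> fin_cases j
      exacts [absurd rfl hij, inner_eq_zero_symm.1 (o1 v ((GD.mem_Wt.1 hv).2 _ rfl) u hu),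
        inner_eq_zero_symm.1 (o1 v hv.1 u hu), o1 u ((GD.mem_Wt.1 hu).2 _ rfl) v hv, absurd rfl hij,
        inner_eq_zero_symm.1 (o2 v hv.2 u hu.1), o1 u hu.1 v hv, o2 u hu.2 v hv.1, absurd rfl hij])
  rw [Fin.sum_univ_three, finrank_top] at this
  exact le_trans (Nat.add_le_add (Nat.add_le_add d1 d2) d3) this

theorem TD.tor_long {κ : Type} [Fintype κ] [DecidableEq κ] {D : ChevalleyDatum} {C : Cert D} {K : Type*} [Field K]
    [Finite K] {τ : (C.split K).Twist} {R : Reps τ.T κ} {R' : RT κ} {φ : K →+* K} {d : ℕ}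
    {L : (Fin D.rank → ℤ) →ₗ[ℤ] κ → ℤ} (h : TD τ R R' φ d L) {c : K} (hc : c ≠ 0)
    (h1 : ∏ i ∈ range d, φ^[i] c ≠ 1) {α δ γ : κ → ℤ}
    (h2 : α ∈ R'.Lg ∧ δ ∈ R'.Lg ∧ γ ∈ R'.Φ ∧ R'.p α γ = 0 ∧ R'.p δ γ = 1) : h.gd.Tor α δ := by
  obtain ⟨k, rfl⟩ := (h.mem _).1 (R'.lg_sub _ h2.1)
  obtain ⟨r, rfl⟩ := (h.mem _).1 (R'.lg_sub _ h2.2.1)
  obtain ⟨a, rfl⟩ := (h.mem _).1 h2.2.2.1
  obtain ⟨g, hg, hf, h4⟩ := h.exists_nm_hg a hc
  exact h.tor_of h2.1 hg hf (by rw [h4, h.ch_long h2.1, h2.2.2.2.1, zpow_zero])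
    (by rwa [h4, h.ch_long h2.2.1, h2.2.2.2.2, zpow_one])

/-- The folding map. -/
def foldD4 : (Fin 4 → ℤ) →ₗ[ℤ] Fin 2 → ℤ where
  toFun x := ![x 0 + x 2 + x 3, x 1]
  map_add' x y := by funext i; fin_cases i <;> simp; ring
  map_smul' c x := by funext i; fin_cases i <;> simp; ring

/-- The folded roots. -/
def vD4 (r : ℕ) : Fin 2 → ℤ := ![co chevD4 r 0 + co chevD4 r 2 + co chevD4 r 3, co chevD4 r 1]

variable {K : Type*} [Field K] [Fintype K] {φ : K →+* K} (h3 : ∀ t, φ (φ (φ t)) = t) {q : ℕ}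
  (hφ : ∀ t, φ t = t ^ q) (hq : 2 ≤ q) (hK : Fintype.card K = q ^ 3)

include hφ hq hK in
theorem tdD4 : TD (tD4 φ h3) (TD4.rep h3) rtG2 φ 3 foldD4 :=
  TD.of_graph graphDataD4a twDataD4 φ (laced_of_mem (by simp) _) (isOrbWords_D4 (isCartan_D4 cD4) _ (D4_π φ h3))
    vD4 (fun _ _ => rfl) (by decide +kernel) (by decide +kernel)
    (show ∀ a : Fin 2, vD4 (chevD4.simple ((![0, 1] : Fin 2 → Fin 4) a)) = e a ∧ ∀ r < 24, vD4
      ((orbwD4.getD ((![0, 1] : Fin 2 → Fin 4) a) []).foldr chevD4.reflectRoot r) = rtG2.s a (vD4 r) by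
      decide +kernel) (by decide +kernel)
    (fun x hx i => by
      fin_cases i
      exacts [add_nonneg (add_nonneg (hx _) (hx _)) (hx _), hx _])
    h3 (exists_tr hφ hq hK) fun _ h hf => by
      obtain ⟨p, rfl⟩ := D4_exists_par φ h3 h hf
      exact D4_par_mem φ h3 p

theorem not_dvd_3D4 {q : ℕ} (hq : 2 ≤ q) :
    ¬ (q - 1) * (q ^ 4 + q ^ 3 + 1) ∣ q ^ 12 * (q ^ 2 - 1) * (q ^ 6 - 1) * (q ^ 8 + q ^ 4 + 1) := fun h => by
  have h1 := Nat.one_le_pow 2 q (by omega)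
  have h2 := Nat.one_le_pow 6 q (by omega)
  zify [h1, h2, show 1 ≤ q by omega] at h
  obtain ⟨c, hc⟩ := h
  replace hc : (q ^ 12 * (q + 1) * (q ^ 6 - 1) * (q ^ 8 + q ^ 4 + 1) : ℤ) = (q ^ 4 + q ^ 3 + 1) * c :=
    mul_left_cancel₀ (show (q - 1 : ℤ) ≠ 0 by omega) (by linear_combination hc)
  have h4 : (q ^ 4 + q ^ 3 + 1 : ℤ) ∣ 27 := ⟨(-83 - 152 * q - 104 * q ^ 2 - 22 * q ^ 3) * c -
    (-27 + 27 * q ^ 3 + 27 * q ^ 4 - 27 * q ^ 6 - 54 * q ^ 7 - 27 * q ^ 8 + 27 * q ^ 9 + 81 * q ^ 10 + 81 * q ^ 11 +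
    83 * q ^ 12 + 127 * q ^ 13 + 94 * q ^ 14 - 38 * q ^ 15 - 105 * q ^ 16 + 14 * q ^ 17 + 117 * q ^ 18 +
    34 * q ^ 19 - 60 * q ^ 20 - 22 * q ^ 21 - 83 * q ^ 23 - 152 * q ^ 24 - 104 * q ^ 25 - 22 * q ^ 26), by
    linear_combination (-83 - 152 * q - 104 * q ^ 2 - 22 * q ^ 3 : ℤ) * hc⟩
  have h5 : q ^ 4 + q ^ 3 + 1 ∣ 27 := by exact_mod_cast h4
  rcases hq.eq_or_lt with rfl | h6
  · norm_num at h5
  · have := Nat.le_of_dvd (by norm_num) h5
    have := Nat.pow_le_pow_left (show 3 ≤ q from h6) 4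
    omega

theorem min_3D4 (hq : IsPrimePow q) (hK : Fintype.card K = q ^ 3) {k : ℕ}
    (ρ : Representation ℂ (twistedD4 K q) (Fin k → ℂ)) (hρ : ρ.IsIrreducible) (hk : 2 ≤ k) :
    q * (q ^ 4 - q ^ 2 + 1) ≤ k := not_lt.1 fun hc => by
  classical
  obtain ⟨φ, hφ, h2, h3⟩ := exists_frob3 hq hK
  have := ((twD4 φ h2 hφ).simple (0 : Fin 4) (D4_irreducible φ h2 hφ)
    ((twD4 φ h2 hφ).perfect (D4_perfect φ h2 h3)) ((twD4 φ h2 hφ).core (D4_core φ h2))).1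
  have hd := S0135.result ρ
  rw [S1067.result hq hK, Module.finrank_fin_fun] at hd
  replace hq := hq.two_le
  obtain ⟨E, _, _, _, σ, h4, rfl, h5⟩ := exists_uni' (TwGrp.nonempty_equiv (twD4 φ h2 hφ)).some ρ hρ hk
  have := Fintype.ofFinite (Fix φ)
  have hF := card_Fix hφ hq hK
  obtain ⟨c, c1, c2⟩ := exists_nm hφ hq hK
  have h := tdD4 h2 hφ hq hK
  have hX : ∀ γ ∈ rtG2.Φ, Nat.card (h.gd.X γ) = q ^ if γ ∈ rtG2.Lg then 1 else 3 := fun γ hγ => by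
    obtain ⟨i, h6, h7⟩ := h.card_X hγ
    rw [h7, D4_card_UJ φ h2 hφ (by omega) hK, if_congr h6 rfl rfl]
    fin_cases i
    exacts [congrArg _ (((sD4 φ).len_wJ twDataD4 orbD4_3).trans (by decide +kernel)),
      congrArg _ (((sD4 φ).len_wJ twDataD4 orbD4_1).trans (by decide +kernel))]
  have h24 := Nat.pow_le_pow_right (n := q) (by omega) (show 2 ≤ 4 by omega)
  have lb : e 1 ∈ rtG2.Lg := by decide +kernel
  have hL : h.gd.Line σ 1 := GD.line_of h4 h5 lb (RT.s_lg 1 (RT.s_lg 0 lb)) (by decide +kernel)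
    (g := h.gd.n 0 * h.gd.n 1) (fun y hy => by
      simpa [mul_assoc] using GD.n_conj' 1 (RT.s_mem 0 (rtG2.e_mem 1)) (GD.n_conj' 0 (rtG2.e_mem 1) hy))
    {![1, 1], ![3, 2]} (by decide +kernel) (by
      rw [prod_pair (by decide +kernel), hX _ (by decide +kernel), hX _ (by decide +kernel), if_neg (by decide +kernel),
        if_pos (by decide +kernel), ← pow_add, hF]
      refine big_of hq hc ?_
      have h8 : q ^ 4 - q ^ 2 + 1 ≤ q ^ 4 := by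
        have := Nat.one_le_pow 2 q (by omega)
        omega
      have := Nat.mul_le_mul_left q h8
      rw [show q ^ (3 + 1 + 1) = q * q ^ 4 by ring]
      omega)
  refine not_dvd_3D4 hq ((le_antisymm ?_ (Nat.le_of_lt_succ (hc.trans_le (le_of_eq ?_)))).dvd.trans hd)
  swap
  · zify [h24, show 1 ≤ q by omega]
    ring
  rcases hq.eq_or_lt with rfl | h6
  · exact h.gd.two_3D4 h4 hF hL (h.tor_short c1 c2 lb (by decide +kernel) (by decide +kernel))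
      ⟨(hX _ (by decide +kernel)).trans (by decide +kernel), (hX _ (by decide +kernel)).trans (by decide +kernel)⟩
  obtain ⟨u, hu, h7⟩ := exists_pow_ne_one_of_lt K
  have hG : ∀ i, e i ∈ rtG2.Lg → h.gd.Gd σ i := fun i => GD.gd_of h4
    (fun i hi => GD.cond_of hi (fun δ => h.tor_short c1 c2 hi) fun δ hδ => (em (δ = ![3, 1])).imp
      (fun e0 => h.tor_long hu (γ := ![2, 1]) (by
        simp only [iter_frob hφ, prod_pow_eq_pow_sum, sum_range_succ, range_zero, sum_empty]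
        exact h7 _ (by positivity) (by rw [Nat.card_eq_fintype_card, hK]; nlinarith))
        (by subst e0; clear hδ; revert i; decide +kernel)) (by revert δ i; decide +kernel))
    (fun i hi => (show i = 1 by revert i; decide +kernel) ▸ hL)
    fun i j hi hj h6 => absurd h6 (by clear h6; revert i j; decide +kernel)
  have h6 := GD.count' h4 hG (fun β => q ^ (ht β - 1).toNat) (fun β hβ h0 => by
    have : (∃ i, β = e i ∧ (ht β - 1).toNat = 0) ∨ ∃ i, 0 < rtG2.c i β ∧ rtG2.p β (e i) = 1 ∧ 0 ≤ rtG2.s i β ∧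
        (∀ γ ∈ rtG2.Φ, γ ≠ e i → rtG2.c i γ ≤ rtG2.c i β) ∧ β - e i ∈ rtG2.Φ ∧ (ht β - 1).toNat =
        (if β - e i ∈ rtG2.Lg then 1 else 3) + (ht (rtG2.s i β) - 1).toNat := by revert β; decide +kernel
    exact this.imp (fun ⟨i, a, b⟩ => ⟨i, a, by simp only [b, pow_zero, le_refl]⟩)
      fun ⟨i, a1, a2, a3, a4, a5, a6⟩ => ⟨i, a1, a2, a3, a4, by
        simp only [a6, pow_add]; exact Nat.mul_le_mul_right _ (hX _ a5).ge⟩)
    {![3, 2], ![3, 1], ![0, 1]} (by decide +kernel)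
  rw [sum_insert (by decide +kernel), sum_pair (by decide +kernel), hF, ← add_assoc] at h6
  exact le_trans (Nat.le_add_right _ _) h6

end Cfsg.Agent.H23.MD
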