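import Mathlib
import Cfsg.Agent.H23.MD3D4

/-!
Small representations of groups of type `G₂` with a cube root of unity.
-/

set_option autoImplicit false
set_option linter.unusedSectionVars false

namespace Cfsg.Agent.H23.MD

open Module Finset
open scoped InnerProductSpace commutatorElement

namespace GD

section

variable {κ : Type} [Fintype κ] [DecidableEq κ] {R : RT κ} {F : Type*} [Field F] [Fintype F] {G : Type*} [Group G]
  [Finite G] {D : GD R F G} {V : Type*} [NormedAddCommGroup V] [InnerProductSpace ℂ V] [FiniteDimensional ℂ V]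
  {ρ : Representation ℂ G V}

theorem count2 (hρ : Uni ρ) (dd : (κ → ℤ) → ℕ) (B : Finset (κ → ℤ)) (hB : ∀ β ∈ B, β ∈ R.Lg ∧ 0 ≤ β)
    (h : ∀ β ∈ B, ∀ ψ : AddChar F ℂ, ψ ≠ 1 → dd β ≤ finrank ℂ (D.Wt ρ (R.K β) β ψ)) :
    (Fintype.card F - 1) * ∑ β ∈ B, dd β + finrank ℂ (D.Fx ρ B) ≤ finrank ℂ V := by
  classical
  let W : Option (B × {ψ : AddChar F ℂ // ψ ≠ 1}) → Submodule ℂ V := fun o =>
    o.elim (D.Fx ρ B) fun b => D.Wt ρ (R.K b.1) b.1 b.2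
  have o1 : ∀ (b : B × {ψ : AddChar F ℂ // ψ ≠ 1}), ∀ u ∈ W none, ∀ v ∈ W (some b), ⟪u, v⟫_ℂ = 0 :=
    fun b u hu v hv => orth_fix hρ (hB _ b.1.2).1 b.2.2 (mem_Fx.1 hu _ b.1.2) (mem_Wt.1 hv).1
  have o2 : ∀ b b' : B × {ψ : AddChar F ℂ // ψ ≠ 1}, ¬ (b'.1 : κ → ℤ) ≤ b.1 → ∀ u ∈ W (some b),
      ∀ v ∈ W (some b'), ⟪u, v⟫_ℂ = 0 := fun b b' hb u hu v hv => orth_fix hρ (hB _ b'.1.2).1 b'.2.2
      ((mem_Wt.1 hu).2 _ ⟨R.lg_sub _ (hB _ b'.1.2).1, (hB _ b'.1.2).2, hb⟩) (mem_Wt.1 hv).1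
  have := sum_finrank_le (D := ⊤) W (fun _ => le_top) (by
    rintro (_ | b) (_ | b') hne u hu v hv
    · exact absurd rfl hne
    · exact o1 b' u hu v hv
    · rw [← inner_conj_symm, o1 b v hv u hu, map_zero]
    · by_cases h1 : (b'.1 : κ → ℤ) ≤ b.1
      · by_cases h2 : (b.1 : κ → ℤ) ≤ b'.1
        · have e1 : b.1 = b'.1 := Subtype.ext (le_antisymm h2 h1)
          have hv' : v ∈ D.eig ρ b.1 b'.2 := e1 ▸ (mem_Wt.1 hv).1
          refine orth_eig hρ (fun e2 => hne ?_) (mem_Wt.1 hu).1 hv'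
          rw [Prod.ext e1 (Subtype.ext e2)]
        · rw [← inner_conj_symm, o2 b' b h2 v hv u hu, map_zero]
      · exact o2 b b' h1 u hu v hv)
  rw [Fintype.sum_option, finrank_top, add_comm] at this
  refine le_trans (Nat.add_le_add_right ?_ _) this
  rw [Fintype.sum_prod_type, Finset.mul_sum, ← Finset.sum_coe_sort B]
  refine Finset.sum_le_sum fun b _ => ?_
  have cardψ : Fintype.card {ν : AddChar F ℂ // ν ≠ 1} = Fintype.card F - 1 := by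
    simp [Fintype.card_subtype_compl]
  rw [← cardψ, ← card_univ, ← smul_eq_mul]
  exact Finset.card_nsmul_le_sum _ _ _ fun ν _ => h b b.2 ν ν.2

theorem kill_tor' {E : Submodule ℂ V} (hL : finrank ℂ E ≤ 1) {δ : κ → ℤ} (hδ : δ ∈ R.Φ) {h : G} (hh : h ∈ D.T)
    (hs : h ∈ stab ρ E) (hf : ∀ y ∈ D.X δ, h * y * h⁻¹ = y → y = 1) (st : D.X δ ≤ stab ρ E) : D.X δ ≤ fxs ρ E := by
  let φ : D.X δ → D.X δ := fun z => ⟨h * z * h⁻¹ * (z : G)⁻¹,
    mul_mem (D.T_conj h hh δ hδ z z.2) (inv_mem z.2)⟩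
  have inj : Function.Injective φ := fun z w e0 => by
    have e1 : h * z * h⁻¹ * (z : G)⁻¹ = h * w * h⁻¹ * (w : G)⁻¹ := congrArg Subtype.val e0
    have := hf ((w : G)⁻¹ * z) (mul_mem (inv_mem w.2) z.2) (by
      calc h * ((w : G)⁻¹ * z) * h⁻¹ = (h * w * h⁻¹)⁻¹ * (h * z * h⁻¹ * (z : G)⁻¹) * z := by group
        _ = _ := by rw [e1]; group)
    exact Subtype.ext (inv_mul_eq_one.1 this).symm
  intro y hy
  obtain ⟨z, hz⟩ := Finite.surjective_of_injective inj ⟨y, hy⟩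
  rw [← show ⁅h, (z : G)⁆ = y from congrArg Subtype.val hz]
  exact comm_mem_fxs hL hs (st z.2)

theorem inner_conj (hρ : Uni ρ) (g y : G) (u : V) : ⟪u, ρ y u⟫_ℂ = ⟪ρ g u, ρ (g * y * g⁻¹) (ρ g u)⟫_ℂ := by
  rw [mul_app, mul_app, inv_app, hρ]

end

variable {F : Type*} [Field F] [Fintype F] {G : Type*} [Group G] [Finite G] {D : GD rtG2 F G}
  {V : Type*} [NormedAddCommGroup V] [InnerProductSpace ℂ V] [FiniteDimensional ℂ V] {ρ : Representation ℂ G V}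
  (hρ : Uni ρ) (hY : finrank ℂ (D.Fx ρ ({![3, 2], ![3, 1], e 1} : Finset (Fin 2 → ℤ))) ≤ 1)
include hρ hY

omit hρ hY in
theorem memY {u : V} (h1 : u ∈ fix ρ (D.X ![3, 2])) (h2 : u ∈ fix ρ (D.X ![3, 1])) (h3 : u ∈ fix ρ (D.X (e 1))) :
    u ∈ D.Fx ρ ({![3, 2], ![3, 1], e 1} : Finset (Fin 2 → ℤ)) := mem_Fx.2 (by simp [h1, h2, h3])

omit hρ hY in
theorem memY' {u : V} (h : u ∈ D.Fx ρ rtG2.P) : u ∈ D.Fx ρ ({![3, 2], ![3, 1], e 1} : Finset (Fin 2 → ℤ)) :=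
  memY (mem_Fx.1 h _ ⟨by decide +kernel, by decide +kernel⟩) (mem_Fx.1 h _ ⟨by decide +kernel, by decide +kernel⟩)
    (P_fix h 1)

theorem est {u : V} (hu : u ∈ D.Fx ρ (rtG2.K (e 1))) {y : G} (hy : y ∈ D.X ![-3, -1]) (y1 : y ≠ 1) :
    ‖⟪u, ρ y u⟫_ℂ‖ = ‖⟪av ρ (D.X (e 1)) u, ρ (D.n 1) (av ρ (D.X (e 1)) u)⟫_ℂ‖ := by
  have sc : rtG2.s 0 (e 1) = ![3, 1] := by decide +kernel
  have sb : rtG2.s 0 ![3, 1] = e 1 := by decide +kernel
  have st : rtG2.s 0 ![3, 2] = ![3, 2] := by decide +kernel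
  have sc' : rtG2.s 1 ![3, 2] = ![3, 1] := by decide +kernel
  have mc : ![3, 1] ∈ rtG2.Φ := by decide +kernel
  have mt : ![3, 2] ∈ rtG2.Φ := by decide +kernel
  obtain ⟨x, hx, h, hh, x', hx', e0⟩ := D.sl2 1 _ ((show rtG2.s 0 ![-3, -1] = -e 1 by decide +kernel) ▸
    D.n_conj 0 _ (by decide +kernel) y hy) (by simpa using y1)
  have f1 := sb ▸ n_fix 0 mc (mem_Fx.1 hu ![3, 1] ⟨mc, by decide +kernel, by decide +kernel⟩)
  have f2 := st ▸ n_fix 0 mt (mem_Fx.1 hu ![3, 2] ⟨mt, by decide +kernel, by decide +kernel⟩)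
  have e1 := sc ▸ n_av (D := D) (ρ := ρ) 0 (rtG2.e_mem 1) u
  have h1 := av_P hu
  generalize av ρ (D.X (e 1)) u = w at e1 h1
  have h2 := mem_Fx.1 (memY' h1)
  have f3 := st ▸ n_fix 0 mt (h2 _ (by simp))
  rw [inner_conj hρ (D.n 0), e0, mul_app, f1 x' hx',
    mul_app, mul_app, hρ.adj', f1 _ (inv_mem hx), ← hρ.inner_av_left (T_fix hh mc (sc' ▸ n_fix 1 mt f2)), ← e1,
    hρ.adj', hρ.adj', ← hρ.inner_av_right (sc' ▸ n_fix' 1 mt (T_fix (inv_mem hh) mt f3)), ← e1, ← hρ.adj']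
  by_cases w0 : w = 0
  · simp [w0]
  obtain ⟨a, ha⟩ := exists_smul_of_finrank hY (memY' h1) w0
    (memY f3 (sc ▸ n_fix 0 (rtG2.e_mem 1) (h2 _ (by simp))) (sb ▸ n_fix 0 mc (h2 _ (by simp))))
  obtain ⟨b, hb⟩ := exists_smul_of_finrank hY (memY' h1) w0 (memY' (T_Fx (fun _ h => h.1) (inv_mem hh) h1))
  simp [ha, hb, hρ.norm_eig w0 ha, hρ.norm_eig w0 hb]

theorem exists_small (hG : D.Gd ρ 1) : ∃ ψ ≠ 1, ∃ v ∈ D.Wt ρ (rtG2.K (e 1)) (e 1) ψ, ‖v‖ = 1 ∧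
    (Fintype.card F : ℝ) * ((Fintype.card F - 1 : ℝ) * ‖⟪D.t ρ 1 v, ρ (D.n 1) (D.t ρ 1 v)⟫_ℂ‖) < 1 := by
  classical
  by_contra! H
  have nrm : ∀ {E : Submodule ℂ V} {v : V}, v ∈ E → v ≠ 0 → ∃ w ∈ E, ‖w‖ = 1 := fun hv h0 =>
    ⟨_, Submodule.smul_mem _ _ hv, norm_smul_inv_norm (𝕜 := ℂ) h0⟩
  obtain ⟨ψ, hψ⟩ := exists_char (F := F)
  obtain ⟨v, hv, v0⟩ := hG.exists_ne hψ
  obtain ⟨v, hv, v1⟩ := nrm hv v0
  obtain ⟨u, hu, u1⟩ := nrm (t_L hρ hG.lg hψ hv) fun e0 => by simpa [e0] using (H ψ hψ v hv v1).trans_lt' one_pos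
  have u0 : u ≠ 0 := by rintro rfl; simp at u1
  have hP := (mem_U.1 hu).1
  have sm : ∀ w ∈ D.Fx ρ rtG2.P, w = ⟪u, w⟫_ℂ • u := fun w hw => by
    obtain ⟨c, rfl⟩ := exists_smul_of_finrank hY (memY' hP) u0 (memY' hw)
    simp [inner_self_eq_norm_sq_to_K, u1]
  have it : ∀ w, ⟪u, D.t ρ 1 w⟫_ℂ = ⟪u, ρ (D.n 1) w⟫_ℂ := fun w => hρ.inner_av_right (P_fix hP 1) _
  obtain ⟨-, -, -, hk⟩ := kappa hρ hG.lg hu u0 (θ := fun h => ⟪u, ρ h u⟫_ℂ)
    (fun h hh => sm _ (T_Fx (fun _ h => h.1) hh hP)) (sm _ (t_P (P_M hP 1)))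
  rw [it] at hk
  choose w hw w1 using fun ψ : AddChar F ℂ => show ∃ w ∈ D.Wt ρ (rtG2.K (e 1)) (e 1) ψ, ‖w‖ = 1 ∧ (ψ = 1 → w = u) by
    by_cases h : ψ = 1
    · exact ⟨u, ⟨h ▸ (eig_one hG.lg).2 (P_fix hP 1), P_M hP 1⟩, u1, fun _ => rfl⟩
    · obtain ⟨v, hv, v0⟩ := hG.exists_ne h
      obtain ⟨v, hv, v1⟩ := nrm hv v0
      exact ⟨v, hv, v1, fun e0 => absurd e0 h⟩
  have hb := Orthonormal.sum_inner_products_le (𝕜 := ℂ) (v := w) (s := univ) (ρ (D.n 1)⁻¹ u)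
    ⟨fun ψ => (w1 ψ).1, fun _ _ h => orth_eig hρ h (hw _).1 (hw _).1⟩
  simp only [norm_inner_symm (w _), ← hρ.adj', hρ.norm_app, u1] at hb
  rw [← add_sum_erase _ _ (mem_univ 1), (w1 1).2 rfl] at hb
  have hq : (1 : ℝ) < Fintype.card F := by exact_mod_cast Fintype.one_lt_card
  have h1 := card_nsmul_le_sum (univ.erase (1 : AddChar F ℂ)) (fun ψ => (Fintype.card F - 1 : ℝ) *
    ‖⟪u, ρ (D.n 1) (w ψ)⟫_ℂ‖ ^ 2) 1 fun ψ hψ => by
      have := H ψ (ne_of_mem_erase hψ) _ (hw ψ) (w1 ψ).1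
      rw [sm _ (t_P (hw ψ).2), it, map_smul, inner_smul_left, inner_smul_right, norm_mul, norm_mul,
        RCLike.norm_conj] at this
      refine this.trans_eq ?_
      linear_combination (Fintype.card F - 1 : ℝ) * ‖⟪u, ρ (D.n 1) (w ψ)⟫_ℂ‖ ^ 2 * hk
  rw [card_erase_of_mem (mem_univ _), card_univ, AddChar.card_eq, ← mul_sum, nsmul_one, Nat.cast_pred (by positivity),
    le_mul_iff_one_le_right (by linarith)] at h1
  have h2 : ‖⟪u, ρ (D.n 1) u⟫_ℂ‖ = 0 := by nlinarith [norm_nonneg ⟪u, ρ (D.n 1) u⟫_ℂ]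
  simp [h2] at hk

theorem one_G2 (hG : D.Gd ρ 1) (hX : Nat.card (D.X (-e 0)) = Fintype.card F) {z : G} (hz : z ∈ D.T)
    (h1 : ∀ α ∈ rtG2.Lg, ∀ t, Commute (D.x α t) z) (h2 : ∀ y ∈ D.X (-e 0), z * y * z⁻¹ = y → y = 1) : False := by
  classical
  obtain ⟨ψ, hψ, v, hv, v1, hs⟩ := exists_small hρ hY hG
  have lb := hG.lg
  have lc : ![-3, -1] ∈ rtG2.Lg := by decide +kernel
  have lt : ![-3, -2] ∈ rtG2.Lg := by decide +kernel
  have ma : -e 0 ∈ rtG2.Φ := by decide +kernel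
  have hS : ∀ γ ∈ ({![-3, -1]} : Set (Fin 2 → ℤ)), γ ∈ rtG2.Φ ∧ rtG2.p (e 1) γ = 1 := by
    rintro _ rfl; decide +kernel
  set E := D.Wt ρ {![-3, -1]} (e 1) ψ
  have sa : D.X (-e 0) ≤ stab ρ E :=
    stab_Wt_p lb hS ma (by decide +kernel) (by simp only [Set.mem_singleton_iff]; decide +kernel)
  have st : D.X ![-3, -2] ≤ stab ρ E := stab_Wt lb (fun γ h => (hS γ h).1) (by decide +kernel) (lf ![-1, 1])
    (by decide +kernel) (by rintro _ rfl; decide +kernel) (by decide +kernel) (by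
      rintro _ (rfl | rfl) β hβ <;> exact le_fxs_Wt (cb_of (p := (· = ![-3, -1])) (by decide +kernel) β hβ))
  have d1 : finrank ℂ ↥(E ⊓ fix ρ (D.X (-e 0))) ≤ 1 := le_trans (Submodule.finrank_mono fun u hu => mem_Wt.2
      ⟨hu.1.1, by simpa using ⟨(mem_Wt.1 hu.1).2 _ rfl, hu.2⟩⟩) (finrank_le_one_of hρ lb hψ (RT.lag_Λ lb)
    (Λ' := {γ | γ ∈ [![-3, -1], -e 0]}) ⟨by simp only [Set.mem_ofPred_eq]; decide +kernel,
      by simp only [Set.mem_ofPred_eq]; decide +kernel⟩ (hG.eqK ψ hψ ▸ hG.one ψ hψ).le)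
  have d2 := finrank_heis lb ma (by decide +kernel) hψ (E := E) inf_le_left sa
    (stab_Wt_p lb hS (by decide +kernel) (by decide +kernel) (by simp only [Set.mem_singleton_iff]; decide +kernel))
  have hq : (1 : ℝ) < Fintype.card F := by exact_mod_cast Fintype.one_lt_card
  have d3 : ∀ ν : AddChar F ℂ, 1 ≤ finrank ℂ ↥(E ⊓ D.eig ρ ![-3, -2] ν) := fun ν => by
    have hu : av ρ (D.X ![-3, -1]) v ∈ E := mem_Wt.2 ⟨av_mem_of_le (stab_eig lb (by decide +kernel)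
      (by decide +kernel)) hv.1, by rintro _ rfl; exact av_mem _ _⟩
    have k0 := hρ.inner_av_zero (H := D.X ![-3, -1]) (u := v) (v := v) fun y hy y1 => by
      simpa [av_eig hρ lb hψ hv.1] using est hρ hY hv.2 hy y1
    have k1 : ∀ y ∈ D.X ![-3, -2], y ≠ 1 → ‖⟪v, ρ y (av ρ (D.X ![-3, -1]) v)⟫_ℂ‖ =
        ‖⟪D.t ρ 1 v, ρ (D.n 1) (D.t ρ 1 v)⟫_ℂ‖ := fun y hy y1 => by
      have := hρ.inner_av_const (H := D.X ![-3, -1]) (u := ρ y⁻¹ v) (v := v) (ω := ⟪ρ y⁻¹ v, v⟫_ℂ) fun w hw _ => by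
        obtain ⟨t, rfl⟩ := (D.mem_X _ lc w).1 hw
        obtain ⟨x, hx, e0⟩ := D.heis _ lc _ (by decide +kernel) (by decide +kernel) _ (inv_mem hy) (by simpa using y1) t
        obtain ⟨c, hc⟩ := eig_smul lb hv.1 (inv_mem ((show ![-3, -1] - ![-3, -2] = e 1 by decide +kernel) ▸ hx))
        have c1 := hρ.norm_eig (by rintro rfl; simp at v1) hc
        rw [← e0, commutatorElement_def, inv_inv, mul_app, mul_app, mul_app, hρ, hρ.adj', hc, map_smul,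
          inner_smul_left, inner_smul_right, ← mul_assoc, Complex.conj_mul', c1, hρ.adj']
        simp
      rw [← one_add_mul, add_sub_cancel, mul_right_inj' (card_ne _)] at this
      rw [hρ.adj', this, ← hρ.adj', inner_conj hρ (D.n 1)]
      exact est hρ hY (n_M hv.2) ((show rtG2.s 1 ![-3, -2] = ![-3, -1] by decide +kernel) ▸
        D.n_conj 1 _ (by decide +kernel) y hy) (by simpa using y1)
    generalize av ρ (D.X ![-3, -1]) v = u at hu k0 k1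
    refine Module.finrank_pos_iff_exists_ne_zero.2 ⟨⟨∑ s, ν (-s) • ρ (D.x ![-3, -2] s) u,
      Submodule.sum_mem _ fun s _ => Submodule.smul_mem _ _ (st (x_mem lt s) u hu), fun t => ?_⟩, fun e0 => ?_⟩
    · rw [map_sum, smul_sum]
      refine Fintype.sum_equiv (Equiv.addLeft t) _ _ fun s => ?_
      rw [map_smul, ← mul_app, ← D.x_add _ lt, smul_smul, ← AddChar.map_add_eq_mul]
      simp
    · have e1 := congrArg (⟪v, ·⟫_ℂ) (congrArg Subtype.val e0)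
      simp only [inner_sum, inner_smul_right, Submodule.coe_zero, inner_zero_right] at e1
      rw [← add_sum_erase _ _ (mem_univ 0), x_zero lt, add_eq_zero_iff_eq_neg] at e1
      have e2 := (congrArg norm e1).trans_le ((norm_neg _).trans_le ((norm_sum_le _ _).trans_eq
        (sum_congr rfl fun s hs => (by rw [norm_mul, AddChar.norm_apply, one_mul, k1 _ (x_mem lt s) fun e0 =>
          ne_of_mem_erase hs (D.x_inj _ lt s e0)] : _ = ‖⟪D.t ρ 1 v, ρ (D.n 1) (D.t ρ 1 v)⟫_ℂ‖))))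
      have e3 := congrArg norm k0
      rw [card_X lc, inner_self_eq_norm_sq_to_K, v1] at e3
      rw [sum_const, card_erase_of_mem (mem_univ _), card_univ, nsmul_eq_mul, Nat.cast_pred (by positivity)] at e2
      simp at e2 e3
      nlinarith
  have orth : ∀ μ ν : AddChar F ℂ, μ ≠ ν → ∀ u ∈ E ⊓ D.eig ρ ![-3, -2] μ, ∀ w ∈ E ⊓ D.eig ρ ![-3, -2] ν,
      ⟪u, w⟫_ℂ = 0 := fun _ _ h u hu w hw => orth_eig hρ h hu.2 hw.2
  have d4 := sum_finrank_le (D := E) _ (fun _ => inf_le_left) orth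
  have d5 : ∀ ν : AddChar F ℂ, finrank ℂ ↥(E ⊓ D.eig ρ ![-3, -2] ν) ≤ 1 := fun ν => by
    have := card_nsmul_le_sum (univ.erase ν) _ 1 fun μ _ => d3 μ
    rw [← add_sum_erase _ _ (mem_univ ν), d2, hX] at d4
    rw [card_erase_of_mem (mem_univ _), card_univ, AddChar.card_eq] at this
    have := Nat.mul_le_mul_left (Fintype.card F) d1
    simp only [smul_eq_mul] at *
    omega
  have d6 := (card_nsmul_le_sum univ _ 1 fun μ _ => d3 μ).trans ((sum_finrank_le (fun ν => E ⊓ D.eig ρ ![-3, -2] ν) (fun ν u hu => And.intro hu.1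
    fun y hy => mem_fxs.1 (kill_tor' (d5 ν) ma hz (stab_inf (T_stab_Wt (fun γ h => (hS γ h).1) hz (h1 _ lb))
      (eig_of_commute (h1 _ lt))) h2 (fun y hy => stab_inf (sa hy) (eig_of_commute fun t =>
        D.commute_G2 ![-1, -1] (by decide +kernel) (x_mem lt t) hy)) hy) u hu) orth).trans d1)
  rw [card_univ, AddChar.card_eq, smul_eq_mul, mul_one] at d6
  exact Fintype.one_lt_card.not_ge d6

end GD

end Cfsg.Agent.H23.MD
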