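import Mathlib
import Cfsg.Agent.H23.MDHecke

/-!
Groups of type `G₂` in characteristic three acting on a Hilbert space: weight spaces.
-/

set_option autoImplicit false
set_option linter.unusedSectionVars false

namespace Cfsg.Agent.H23.MD

open Module Finset
open scoped InnerProductSpace commutatorElement

/-- The roots in the commutator formula. -/
def mid (i j : ZMod 12) : List (ZMod 12) :=
  if j = i + 4 then [i + 2] else if i = j + 4 then [j + 2] else if j = i + 5 then [i + 1, i + 2, i + 3, i + 4]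
  else if i = j + 5 then [j + 1, j + 2, j + 3, j + 4] else []

/-- The nondegenerate components of the commutator formula. -/
def ndm (i j : ZMod 12) : List (ZMod 12) :=
  if j = i + 5 then [i + 1, i + 4] else if i = j + 5 then [j + 1, j + 4] else mid i j

variable {F : Type*} [Field F] {G : Type*} [Group G]

/-- The subgroup generated by root elements. -/
def Sp (x : ZMod 12 → F → G) (l : List (ZMod 12)) : Subgroup G := Subgroup.closure {g | ∃ k ∈ l, ∃ t, x k t = g}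

/-- Monomial elements. -/
def Mon (x : ZMod 12 → F → G) (g : G) (π : ZMod 12 → ZMod 12) (χ : ZMod 12 → F) : Prop :=
  ∀ k, χ k ≠ 0 ∧ ∀ t, g * x k t * g⁻¹ = x (π k) (χ k * t)

theorem Mon.mul {x : ZMod 12 → F → G} {g g' : G} {π π' : ZMod 12 → ZMod 12} {χ χ' : ZMod 12 → F}
    (h : Mon x g π χ) (h' : Mon x g' π' χ') : Mon x (g * g') (fun k => π (π' k)) fun k => χ (π' k) * χ' k :=
  fun k => ⟨mul_ne_zero (h _).1 (h' k).1, fun t => by rw [mul_assoc (χ _), ← (h _).2, ← (h' k).2]; group⟩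

variable (F G) in
/-- A group of type `G₂` in characteristic three. -/
structure G3 where
  x : ZMod 12 → F → G
  add : ∀ k s t, x k (s + t) = x k s * x k t
  inj : ∀ k t, x k t = 1 → t = 0
  comm : ∀ i j, j ≠ i + 6 → ∀ t u, ⁅x i t, x j u⁆ ∈ Sp x (mid i j)
  nd : ∀ i j, ∀ m ∈ ndm i j, ∀ t ≠ 0, ∀ s, ∃ u, ∃ g ∈ Sp x ((mid i j).erase m), ⁅x i t, x j u⁆ = x m s * g
  tor : ∀ i, ∀ s ≠ 0, ∃ h χ, Mon x h id χ ∧ χ i = s ^ 2 ∧ χ (i + 2) = s ∧ χ (i + 10) = s ∧ χ (i + 3) = 1 ∧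
    χ (i + 9) = 1 ∧ χ (i + 4) = s⁻¹
  refl : ∀ j, ∃ n χ, Mon x n (fun k => 2 * j - k) χ

namespace G3

variable [Fintype F] [Finite G] (D : G3 F G) {V : Type*} [NormedAddCommGroup V] [InnerProductSpace ℂ V]
  [FiniteDimensional ℂ V] (ρ : Representation ℂ G V)

/-- Weight spaces. -/
def W (A : List (ZMod 12 × AddChar F ℂ)) (Z : List (ZMod 12)) : Submodule ℂ V where
  carrier := {v | (∀ p ∈ A, ∀ t, ρ (D.x p.1 t) v = p.2 t • v) ∧ ∀ k ∈ Z, ∀ t, ρ (D.x k t) v = v}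
  add_mem' ha hb := ⟨fun p hp t => by rw [map_add, ha.1 p hp, hb.1 p hp, smul_add],
    fun k hk t => by rw [map_add, ha.2 k hk, hb.2 k hk]⟩
  zero_mem' := ⟨fun _ _ _ => by simp, fun _ _ _ => by simp⟩
  smul_mem' c v hv := ⟨fun p hp t => by rw [map_smul, hv.1 p hp, smul_comm],
    fun k hk t => by rw [map_smul, hv.2 k hk]⟩

/-- Their dimensions. -/
noncomputable def d (A : List (ZMod 12 × AddChar F ℂ)) (Z : List (ZMod 12)) : ℕ := finrank ℂ (D.W ρ A Z)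

/-- Weyl group elements. -/
def Wl (π : ZMod 12 → ZMod 12) : Prop := ∃ n χ, Mon D.x n π χ

variable {D ρ} {A A' : List (ZMod 12 × AddChar F ℂ)} {Z Z' l : List (ZMod 12)} {i j k m : ZMod 12}
  {ψ ν ψ' ν' : AddChar F ℂ} {v : V} {g : G} {π : ZMod 12 → ZMod 12} {χ : ZMod 12 → F}

theorem zero (k : ZMod 12) : D.x k 0 = 1 := by simpa using D.add k 0 0

theorem inv (k : ZMod 12) (t : F) : (D.x k t)⁻¹ = D.x k (-t) :=
  inv_eq_of_mul_eq_one_right (by rw [← D.add, add_neg_cancel, zero])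

theorem rot (j : ZMod 12) : D.Wl fun k => k + 2 * j := by
  obtain ⟨n, χ, h⟩ := D.refl j
  obtain ⟨n', χ', h'⟩ := D.refl 0
  exact ⟨_, _, by simpa [add_comm] using h.mul h'⟩

theorem cons_A : v ∈ D.W ρ ((k, ψ) :: A) Z ↔ (∀ t, ρ (D.x k t) v = ψ t • v) ∧ v ∈ D.W ρ A Z :=
  (and_congr_left' List.forall_mem_cons).trans and_assoc

theorem cons_Z : v ∈ D.W ρ A (k :: Z) ↔ (∀ t, ρ (D.x k t) v = v) ∧ v ∈ D.W ρ A Z :=
  (and_congr_right' List.forall_mem_cons).trans and_left_comm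

theorem mono (hA : A' ⊆ A) (h : Z' ⊆ Z) : D.W ρ A Z ≤ D.W ρ A' Z' :=
  fun _ hv => ⟨fun p hp => hv.1 p (hA hp), fun k hk => hv.2 k (h hk)⟩

theorem d_mono (hA : A' ⊆ A) (h : Z' ⊆ Z) : D.d ρ A Z ≤ D.d ρ A' Z' := Submodule.finrank_mono (mono hA h)

theorem pos (hv : v ∈ D.W ρ A Z) (h0 : v ≠ 0) : 0 < D.d ρ A Z :=
  Module.finrank_pos_iff_exists_ne_zero.2 ⟨⟨_, hv⟩, fun e0 => h0 (congrArg Subtype.val e0)⟩

theorem exists_ne (h : 0 < D.d ρ A Z) : ∃ v ∈ D.W ρ A Z, v ≠ 0 := by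
  obtain ⟨v, hv⟩ := Module.finrank_pos_iff_exists_ne_zero.1 h
  exact ⟨v, v.2, fun e0 => hv (Subtype.ext e0)⟩

theorem Sp_fix (h : l ⊆ Z) (hg : g ∈ Sp D.x l) (hv : v ∈ D.W ρ A Z) : ρ g v = v :=
  (Subgroup.closure_le (fxr ρ v)).2 (by rintro _ ⟨k, hk, t, rfl⟩; exact hv.2 k (h hk) t) hg

theorem Sp_smul (h : l ⊆ A.map Prod.fst ++ Z) (hg : g ∈ Sp D.x l) :
    ∃ c : ℂ, ∀ v ∈ D.W ρ A Z, ρ g v = c • v := by
  induction hg using Subgroup.closure_induction'' with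
  | mem _ hx =>
    obtain ⟨k, hk, t, rfl⟩ := hx
    rcases List.mem_append.1 (h hk) with h | h
    · obtain ⟨p, hp, rfl⟩ := List.mem_map.1 h
      exact ⟨_, fun v hv => hv.1 p hp t⟩
    · exact ⟨1, fun v hv => by rw [hv.2 k h, one_smul]⟩
  | inv_mem _ hx =>
    obtain ⟨k, hk, t, rfl⟩ := hx
    rw [inv]
    rcases List.mem_append.1 (h hk) with h | h
    · obtain ⟨p, hp, rfl⟩ := List.mem_map.1 h
      exact ⟨_, fun v hv => hv.1 p hp _⟩
    · exact ⟨1, fun v hv => by rw [hv.2 k h, one_smul]⟩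
  | one => exact ⟨1, by simp⟩
  | mul a b _ _ ha hb =>
    obtain ⟨c, hc⟩ := ha
    obtain ⟨c', hc'⟩ := hb
    exact ⟨c' * c, fun v hv => by rw [mul_app, hc' v hv, map_smul, hc v hv, smul_smul]⟩

theorem app_comm (a b : G) (v : V) : ρ a (ρ b v) = ρ ⁅a, b⁆ (ρ b (ρ a v)) := by
  simp only [← mul_app, commutatorElement_def]; congr 2; group

theorem app_comm' (a b : G) (v : V) : ρ a (ρ b v) = ρ b (ρ a (ρ ⁅a⁻¹, b⁻¹⁆ v)) := by
  simp only [← mul_app, commutatorElement_def]; congr 2; group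

theorem stab_W (j : ZMod 12) (h : ∀ k ∈ A.map Prod.fst ++ Z, j ≠ k + 6 ∧ mid k j ⊆ Z) (u : F) :
    D.x j u ∈ stab ρ (D.W ρ A Z) := fun v hv => by
  have key : ∀ k ∈ A.map Prod.fst ++ Z, ∀ t, ρ (D.x k t) (ρ (D.x j u) v) = ρ (D.x j u) (ρ (D.x k t) v) :=
    fun k hk t => by rw [app_comm', inv, inv, Sp_fix (h k hk).2 (D.comm k j (h k hk).1 _ _) hv]
  exact ⟨fun p hp t => by rw [key _ (List.mem_append_left _ (List.mem_map_of_mem hp)), hv.1 p hp, map_smul],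
    fun k hk t => by rw [key k (List.mem_append_right _ hk), hv.2 k hk]⟩

theorem heis (i j : ZMod 12) (hm : (m, ψ) ∈ A) (hψ : ψ ≠ 1) (h : (m ∈ ndm i j ∧ (mid i j).erase m ⊆ Z) ∧
    (∀ k ∈ A.map Prod.fst ++ Z, i ≠ k + 6 ∧ mid k i ⊆ Z) ∧ ∀ k ∈ A.map Prod.fst ++ Z, j ≠ k + 6 ∧ mid k j ⊆ Z) :
    D.d ρ A Z = Fintype.card F * D.d ρ A (i :: Z) := by
  let f : Multiplicative F →* G := MonoidHom.mk' (fun t => D.x i t.toAdd) fun s t => D.add i _ _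
  have e1 : D.W ρ A (i :: Z) = D.W ρ A Z ⊓ fix ρ f.range := by
    ext v
    rw [cons_Z, and_comm]
    exact and_congr_right' ⟨by rintro h _ ⟨t, rfl⟩; exact h _, fun h t => h _ ⟨.ofAdd t, rfl⟩⟩
  rw [d, d, e1, ← Nat.card_eq_fintype_card, ← Nat.card_congr Multiplicative.toAdd, Nat.card_congr
    (MonoidHom.ofInjective (f := f) ((injective_iff_map_eq_one _).2 fun t => D.inj i _)).toEquiv]
  refine finrank_eq_card_mul (by rintro _ ⟨t, rfl⟩; exact stab_W i h.2.1 _) ?_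
  rintro _ ⟨t, rfl⟩ h1
  obtain ⟨s, hs⟩ := GD.exists_ne_one hψ
  obtain ⟨u, g, hg, e0⟩ := D.nd i j m h.1.1 t.toAdd (fun e0 => h1 (by simp [f, e0, zero])) s
  refine ⟨_, stab_W j h.2.2 u, ψ s, hs, fun v hv => ?_⟩
  have h2 := stab_W j h.2.2 u _ (stab_W i h.2.1 t.toAdd v hv)
  exact (app_comm (D.x i t.toAdd) _ v).trans (by rw [e0, mul_app, Sp_fix h.1.2 hg h2, h2.1 _ hm]; rfl)

theorem trans (h : Mon D.x g π χ) (h1 : ∀ p ∈ A', ∃ k, π k = p.1 ∧ (k, p.2.mulShift (χ k)) ∈ A)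
    (h2 : ∀ k' ∈ Z', ∃ k ∈ Z, π k = k') (hv : v ∈ D.W ρ A Z) : ρ g v ∈ D.W ρ A' Z' := by
  have key : ∀ k t, ρ (D.x (π k) t) (ρ g v) = ρ g (ρ (D.x k ((χ k)⁻¹ * t)) v) := fun k t => by
    rw [← mul_inv_cancel_left₀ (h k).1 t, ← (h k).2, mul_app, mul_app, inv_app, mul_inv_cancel_left₀ (h k).1]
  refine ⟨fun p hp t => ?_, fun k' hk t => ?_⟩
  · obtain ⟨k, e0, hk⟩ := h1 p hp
    rw [← e0, key, hv.1 _ hk, map_smul, AddChar.mulShift_apply, mul_inv_cancel_left₀ (h k).1]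
  · obtain ⟨k, hk', rfl⟩ := h2 k' hk
    rw [key, hv.2 k hk']

omit [Finite G] in
theorem exists_shift (hψ : ψ ≠ 1) (hν : ν ≠ 1) : ∃ c ≠ 0, ψ.mulShift c = ν := by
  classical
  obtain ⟨c, rfl⟩ : ∃ c, ψ.mulShift c = ν := ((Fintype.bijective_iff_injective_and_card _).2
    ⟨AddChar.to_mulShift_inj_of_isPrimitive (AddChar.IsPrimitive.of_ne_one hψ), by simp⟩).2 ν
  exact ⟨c, fun e0 => hν (by rw [e0, AddChar.mulShift_zero]), rfl⟩

theorem tr2 (hπ : D.Wl π) (hψ : ψ ≠ 1) (hψ' : ψ' ≠ 1) (hν : ν ≠ 1) (hν' : ν' ≠ 1) (h0 : j = i + 1)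
    (h1 : ∀ p ∈ A', p = (π i, ψ') ∨ p = (π j, ν')) (h2 : (i, ψ) ∈ A ∧ ((π j, ν') ∈ A' → (j, ν) ∈ A))
    (h3 : ∀ k' ∈ Z', ∃ k ∈ Z, π k = k') : D.d ρ A Z ≤ D.d ρ A' Z' := by
  obtain ⟨n, χ, h⟩ := hπ
  obtain ⟨c, c0, hc⟩ := exists_shift hψ' hψ
  obtain ⟨c', c0', hc'⟩ := exists_shift hν' hν
  obtain ⟨g, χ1, k1, -, k2, -, k3, -⟩ := D.tor (i + 10) _ (div_ne_zero c0 (h i).1)
  obtain ⟨g', χ2, k4, -, -, k5, -, k6, -⟩ := D.tor (i + 3) _ (div_ne_zero c0' (h j).1)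
  rw [show i + 10 + 2 = i by rw [add_assoc]; exact add_zero i] at k2
  rw [show i + 10 + 3 = j by rw [add_assoc, h0]; rfl] at k3
  rw [show i + 3 + 10 = j by rw [add_assoc, h0]; rfl] at k5
  rw [show i + 3 + 9 = i by rw [add_assoc]; exact add_zero i] at k6
  refine finrank_le_of_app _ fun v => trans ((h.mul k1).mul k4) (fun p hp => ?_) h3
  rcases h1 p hp with rfl | rfl
  · exact ⟨i, rfl, by simpa [k2, k6, mul_div_cancel₀ _ (h i).1, hc] using h2.1⟩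
  · exact ⟨j, rfl, by simpa [k3, k5, mul_div_cancel₀ _ (h j).1, hc'] using h2.2 hp⟩

theorem tr1 (hπ : D.Wl π) (hψ : ψ ≠ 1) (hψ' : ψ' ≠ 1) (h : π i = j ∧ π (i + 1) ≠ j ∧
    ∀ k' ∈ Z', ∃ k ∈ Z, π k = k') : D.d ρ [(i, ψ)] Z ≤ D.d ρ [(j, ψ')] Z' :=
  tr2 (i := i) hπ hψ hψ' hψ hψ rfl (by simp [h.1]) ⟨by simp, by simp [h.2.1]⟩ h.2.2

theorem exists_char (h0 : v ≠ 0) (h : ∀ t, ∃ c : ℂ, ρ (D.x k t) v = c • v) :
    ∃ ν : AddChar F ℂ, ∀ t, ρ (D.x k t) v = ν t • v := by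
  choose c hc using h
  exact ⟨⟨c, smul_left_injective ℂ h0 (by simp [← hc, zero]), fun s t => smul_left_injective ℂ h0 (by
    beta_reduce; rw [← hc, D.add, mul_app, hc t, map_smul, hc s, mul_comm (c s), mul_smul])⟩, hc⟩

theorem fix_of (k : ZMod 12) (hs : ∀ j ∈ A.map Prod.fst ++ Z, k ≠ j + 6 ∧ mid j k ⊆ Z)
    (h : ∀ ψ ≠ 1, D.d ρ ((k, ψ) :: A) Z = 0) (hv : v ∈ D.W ρ A Z) (t : F) : ρ (D.x k t) v = v := by
  classical
  obtain ⟨P, h1, h2, h3⟩ := exists_spectral (ρ := ρ) (D.x k) (zero k) (D.add k)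
  have := h1 v
  rw [sum_eq_single 1 (fun ψ _ hψ => by_contra fun h0 => (pos (cons_A.2 ⟨fun t => h2 ψ t v,
    h3 _ (stab_W k hs) ψ v hv⟩) h0).ne' (h ψ hψ)) (by simp)] at this
  rw [← this, h2]; simp

theorem split (hρ : Uni ρ) (k : ZMod 12) (S : Finset (AddChar F ℂ)) {n : ℕ}
    (h : ∀ ψ ∈ S, ψ ≠ 1 ∧ n ≤ D.d ρ ((k, ψ) :: A) Z) : S.card * n + D.d ρ A (k :: Z) ≤ D.d ρ A Z := by
  classical
  have := sum_finrank_le (D := D.W ρ A Z) (fun ψ => D.W ρ ((k, ψ) :: A) Z) (fun ψ v hv => (cons_A.1 hv).2)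
    fun ψ ν hne u hu v hv => by
      obtain ⟨t, ht⟩ := DFunLike.ne_iff.1 hne
      exact hρ.orth ((cons_A.1 hu).1 t) ((cons_A.1 hv).1 t) ht
  have e1 : D.W ρ ((k, 1) :: A) Z = D.W ρ A (k :: Z) := by ext v; simp [cons_A, cons_Z]
  refine le_trans ?_ ((sum_le_sum_of_subset (subset_univ (insert 1 S))).trans this)
  rw [sum_insert fun h1 => (h 1 h1).1 rfl, e1, add_comm]
  exact Nat.add_le_add_left (card_nsmul_le_sum S _ n fun ψ hψ => (h ψ hψ).2) _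

theorem split' (hρ : Uni ρ) (k : ZMod 12) {n : ℕ} (h : ∀ ψ ≠ 1, n ≤ D.d ρ ((k, ψ) :: A) Z) :
    (Fintype.card F - 1) * n + D.d ρ A (k :: Z) ≤ D.d ρ A Z := by
  classical
  simpa using split hρ k (univ.erase 1) fun ψ hψ => ⟨ne_of_mem_erase hψ, h ψ (ne_of_mem_erase hψ)⟩

theorem eqD (i j : ZMod 12) (hψ : ψ ≠ 1) (hν : ν ≠ 1) (hψ' : ψ' ≠ 1) (hν' : ν' ≠ 1) :
    D.d ρ [(i, ψ), (i + 1, ν)] [] ≤ D.d ρ [(j, ψ'), (j + 1, ν')] [] := by
  obtain ⟨r, h | h⟩ : ∃ r, (i + 2 * r = j ∧ i + 1 + 2 * r = j + 1) ∨ (2 * r - i = j + 1 ∧ 2 * r - (i + 1) = j) := by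
    revert i j; decide +kernel
  · exact tr2 (i := i) (rot r) hψ hψ' hν hν' rfl (by simp [h]) (by simp) (by simp)
  · exact tr2 (i := i) (D.refl r) hψ hν' hν hψ' rfl (by simp [h]) (by simp) (by simp)

theorem shift (i j : ZMod 12) (h : (j ≠ i + 6 ∧ mid i j ⊆ A.map Prod.fst ++ Z) ∧
    (∀ k ∈ A.map Prod.fst ++ Z, i ≠ k + 6 ∧ mid k i ⊆ Z) ∧ ∀ k ∈ A.map Prod.fst ++ Z, j ≠ k + 6 ∧ mid k j ⊆ Z)
    (hv : v ∈ D.W ρ A Z) (h0 : v ≠ 0) (t : F) : ∃ c : AddChar F ℂ,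
      (∀ u, ∀ w ∈ D.W ρ A Z, ρ (D.x j u) (ρ (D.x i t) w) = c u • ρ (D.x i t) (ρ (D.x j u) w)) ∧
      ∀ m ψ, (m, ψ) ∈ A → ψ ≠ 1 → m ∈ ndm i j ∧ (mid i j).erase m ⊆ Z → t ≠ 0 → c ≠ 1 := by
  have s1 := stab_W (D := D) (ρ := ρ) i h.2.1 t
  have s2 := stab_W (D := D) (ρ := ρ) j h.2.2
  choose c hc using fun u => Sp_smul (ρ := ρ) h.1.2 (inv_mem (D.comm i j h.1.1 t u))
  have key : ∀ u, ∀ w ∈ D.W ρ A Z, ρ (D.x j u) (ρ (D.x i t) w) = c u • ρ (D.x i t) (ρ (D.x j u) w) :=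
    fun u w hw => by rw [app_comm, ← commutatorElement_inv, hc u _ (s1 _ (s2 u w hw))]
  have add : ∀ a b, c (a + b) = c a * c b := fun a b =>
    smul_left_injective ℂ (app_ne_zero (D.x i t) (app_ne_zero (D.x j (a + b)) h0)) (by
      beta_reduce
      rw [← key _ v hv, D.add, mul_app, key b v hv, map_smul, key a _ (s2 b v hv), mul_app, smul_smul, mul_comm])
  refine ⟨⟨c, smul_left_injective ℂ (app_ne_zero (D.x i t) h0) (by simpa [zero] using (key 0 v hv).symm), add⟩,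
    key, fun m ψ hm hψ h1 t0 e0 => ?_⟩
  obtain ⟨s, hs⟩ := GD.exists_ne_one hψ
  obtain ⟨u, g, hg, e1⟩ := D.nd i j m h1.1 t t0 s
  have h2 := app_comm (ρ := ρ) (D.x i t) (D.x j u) v
  have h3 := s1 _ (s2 u v hv)
  rw [key u v hv, show c u = 1 from DFunLike.congr_fun e0 u, one_smul, e1, mul_app, Sp_fix h1.2 hg h3,
    h3.1 _ hm] at h2
  exact hs (smul_left_injective ℂ (app_ne_zero _ (app_ne_zero _ h0)) (h2.symm.trans (one_smul _ _).symm))

theorem gen (hf : ∀ g, (∀ v, ρ g v = v) → g = 1) (hq : 4 < Fintype.card F) (hψ : ψ ≠ 1) (hν : ν ≠ 1) :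
    0 < D.d ρ [(2, ψ), (3, ν)] [] := Nat.pos_of_ne_zero fun h0 => by
  classical
  have z : ∀ i, ∀ ψ' ≠ 1, ∀ ν' ≠ 1, D.d ρ [(i, ψ'), (i + 1, ν')] [] = 0 :=
    fun i ψ' h1 ν' h2 => Nat.le_zero.1 (h0 ▸ eqD i 2 h1 h2 hψ hν)
  obtain ⟨a, ha, h1⟩ : ∃ a ≠ 1, D.d ρ [(3, a)] [] ≠ 0 := by
    by_contra! h
    exact one_ne_zero (D.inj 3 1 (hf _ fun v => fix_of (A := []) (Z := []) 3 (by simp) h ⟨by simp, by simp⟩ 1))
  have hE : ∀ v ∈ D.W ρ [(3, a)] [], v ∈ D.W ρ [(3, a)] [2, 4] := fun v hv =>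
    cons_Z.2 ⟨fix_of 2 (by simp only [List.map]; decide +kernel) (fun ψ h => z 2 ψ h a ha) hv,
      cons_Z.2 ⟨fix_of 4 (by simp only [List.map]; decide +kernel) (fun ψ h => Nat.le_zero.1
        (z 3 a ha ψ h ▸ d_mono (by simp; norm_num) (by simp))) hv, hv⟩⟩
  rw [heis 1 5 List.mem_cons_self ha (by simp only [List.map]; decide +kernel)] at h1
  obtain ⟨v, hv, v0⟩ := exists_ne (Nat.pos_of_mul_pos_left (Nat.pos_of_ne_zero h1))
  obtain ⟨v1, hv⟩ := cons_Z.1 hv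
  have hs := fun s => stab_W 5 (by simp only [List.map]; decide +kernel) s v hv
  have h2 : ∀ s ≠ 0, ∀ t, ρ (D.x 0 t) (ρ (D.x 5 s) v) = ρ (D.x 5 s) v := fun s s0 => by
    obtain ⟨c, c1, c2⟩ := shift 5 1 (by simp only [List.map]; decide +kernel) hv v0 s
    exact fix_of (A := [(1, c)]) (Z := []) 0 (by simp only [List.map]; decide +kernel)
      (fun ψ h => z 0 ψ h c (c2 3 a List.mem_cons_self ha (by decide +kernel) s0))
      (cons_A.2 ⟨fun t => by rw [c1 t v hv, v1], by simp, by simp⟩)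
  obtain ⟨u, g, hg, e0⟩ := D.nd 0 5 1 (by decide +kernel) 1 one_ne_zero 1
  obtain ⟨κ, hκ⟩ := Sp_smul (ρ := ρ) (A := [(3, a)]) (Z := [2, 4]) (by simp only [List.map]; decide +kernel) hg
  have h3 : ∀ s ≠ 0, s ≠ u → κ • ρ (D.x 1 1) (ρ (D.x 5 s) v) = ρ (D.x 5 s) v := fun s s0 su => by
    have := app_comm (ρ := ρ) (D.x 0 1) (D.x 5 u) (ρ (D.x 5 (s - u)) v)
    rw [h2 _ (sub_ne_zero.2 su), ← mul_app (D.x 5 u), ← D.add, add_sub_cancel, h2 s s0, e0, mul_app,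
      hκ _ (hE _ (hs s)), map_smul] at this
    exact this.symm
  obtain ⟨t, ht⟩ := GD.exists_ne_one ha
  obtain ⟨r, g', hg', e1⟩ := D.nd 1 5 3 (by decide +kernel) 1 one_ne_zero t
  obtain ⟨s, -, hs'⟩ := exists_mem_notMem_of_card_lt_card (s := {0, u, -r, u - r}) (t := univ)
    (card_le_four.trans_lt hq)
  simp only [mem_insert, mem_singleton, not_or] at hs'
  have h4 := h3 (r + s) (fun e => hs'.2.2.1 (eq_neg_of_add_eq_zero_right e)) fun e => hs'.2.2.2 (eq_sub_of_add_eq' e)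
  rw [D.add, mul_app, app_comm (D.x 1 1), ← map_smul, ← map_smul, h3 s hs'.1 hs'.2.1, ← mul_app (D.x 5 r), ← D.add, e1,
    mul_app, Sp_fix (by decide +kernel) hg' (hs _), (hs _).1 _ List.mem_cons_self] at h4
  exact ht (smul_left_injective ℂ (app_ne_zero _ v0) (h4.trans (one_smul _ _).symm))

omit [Finite G] in
theorem sq_of_shift (hν : ν ≠ 1) {c : F} (h : ν.mulShift c = ν) : c = 1 :=
  AddChar.to_mulShift_inj_of_isPrimitive (AddChar.IsPrimitive.of_ne_one hν) (h.trans (AddChar.mulShift_one ν).symm)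

theorem char_eq (h0 : v ≠ 0) (h1 : ∀ t, ρ (D.x k t) v = ψ t • v) (h2 : ∀ t, ρ (D.x k t) v = ν t • v) : ψ = ν :=
  AddChar.ext _ _ fun t => smul_left_injective ℂ h0 ((h1 t).symm.trans (h2 t))

theorem side_one (hq : 2 < Fintype.card F) (i : ZMod 12) (hψ : ψ ≠ 1)
    (hm : ∀ a ≠ 1, D.d ρ [(i + 5, a), (i + 4, ψ)] [i + 3, i + 2] ≤ 1)
    (hv : v ∈ D.W ρ [(i + 4, ψ)] [i + 1, i + 3, i + 2]) (v0 : v ≠ 0) :
    Fintype.card F ≤ D.d ρ [(i + 4, ψ)] [i + 1, i + 3, i + 2] ∧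
      1 ≤ D.d ρ [(i + 4, ψ)] [i + 11, i, i + 1, i + 3, i + 2] := by
  classical
  have h1 := pos hv v0
  have h2 := heis (D := D) (ρ := ρ) (A := [(i + 4, ψ)]) (Z := [i + 1, i + 3, i + 2]) i (i + 5) List.mem_cons_self hψ
    (by simp only [List.map]; clear * - i; revert i; decide +kernel)
  have h3 := heis (D := D) (ρ := ρ) (A := [(i + 4, ψ)]) (Z := [i + 1, i + 3, i + 2]) (i + 5) i List.mem_cons_self hψ
    (by simp only [List.map]; clear * - i; revert i; decide +kernel)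
  obtain ⟨c, c1, c2⟩ := shift i (i + 5) (by simp only [List.map]; clear * - i; revert i; decide +kernel) hv v0 1
  have h4 := (finrank_le_of_app (ρ := ρ) (D := D.W ρ [(i + 4, ψ)] [i + 5, i + 1, i + 3, i + 2]) (D.x i 1) fun w hw =>
    cons_A.2 ⟨fun t => by rw [c1 t w (cons_Z.1 hw).2, (cons_Z.1 hw).1], stab_W i
      (by simp only [List.map]; clear * - i; revert i; decide +kernel) 1 w (mono (by simp) (by simp) hw)⟩).trans
    (hm c (c2 _ ψ List.mem_cons_self hψ (by clear * - i; revert i; decide +kernel) one_ne_zero))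
  have h5 : 0 < D.d ρ [(i + 4, ψ)] [i, i + 1, i + 3, i + 2] := Nat.pos_of_mul_pos_left (h2 ▸ h1)
  have h6 : D.d ρ [(i + 4, ψ)] [i, i + 1, i + 3, i + 2] ≤ 1 :=
    Nat.le_of_mul_le_mul_left ((h2.symm.trans h3).trans_le (Nat.mul_le_mul_left _ h4)) (by omega)
  refine ⟨h2 ▸ Nat.le_mul_of_pos_right _ h5, ?_⟩
  obtain ⟨w, hw, w0⟩ := exists_ne h5
  obtain ⟨s, -, hs⟩ := exists_mem_notMem_of_card_lt_card (s := {0, 1}) (t := univ (α := F)) (card_le_two.trans_lt hq)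
  simp only [mem_insert, mem_singleton, not_or] at hs
  obtain ⟨g, χ, k1, -, -, k2, k3, -⟩ := D.tor (i + 1) s hs.1
  rw [show i + 1 + 10 = i + 11 by rw [add_assoc]; rfl] at k2
  rw [show i + 1 + 3 = i + 4 by rw [add_assoc]; rfl] at k3
  refine pos (cons_Z.2 ⟨fun t => ?_, hw⟩) w0
  have := mem_fxs.1 (comm_mem_fxs h6 (g := g) (fun v => trans k1 (by simp [k3]) (by simp)) (stab_W (i + 11)
    (by simp only [List.map]; clear * - i; revert i; decide +kernel) (t / (s - 1)))) w hw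
  rwa [commutatorElement_def, (k1 _).2, inv, id, ← D.add, k2, ← sub_eq_add_neg, ← sub_one_mul,
    mul_div_cancel₀ _ (sub_ne_zero.2 hs.2)] at this

theorem side_two [CharP F 3] (hρ : Uni ρ) (hq : 9 ≤ Fintype.card F) (i : ZMod 12) (hψ : ψ ≠ 1) (hν : ν ≠ 1)
    (hm : D.d ρ [(i + 5, ψ), (i + 4, ψ)] [i + 3, i + 2] ≤ 1)
    (hv : v ∈ D.W ρ [(i + 1, ν), (i + 5, ψ), (i + 4, ψ)] [i + 3, i + 2]) (v0 : v ≠ 0) :
    4 ≤ D.d ρ [(i + 4, ψ)] [i + 5, i + 3, i + 2] := by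
  classical
  have tor : ∀ s ≠ 0, ∃ g χ, Mon D.x g id χ ∧ χ (i + 1) = s ^ 2 ∧ χ (i + 4) = 1 ∧ χ (i + 5) = s⁻¹ := fun s hs => by
    obtain ⟨g, χ, k1, k2, -, -, k3, -, k4⟩ := D.tor (i + 1) s hs
    rw [add_assoc] at k3 k4
    exact ⟨g, χ, k1, k2, k3, k4⟩
  have uniq : ∀ a ≠ 1, ∀ w ≠ 0, w ∈ D.W ρ [(i + 5, a), (i + 1, ν), (i + 4, ψ)] [i + 3, i + 2] → a = ψ ∨ a = ψ⁻¹ :=
    fun a ha w w0 hw => by
      obtain ⟨c, c0, rfl⟩ := exists_shift hψ ha
      obtain ⟨g, χ, k1, k2, k3, k4⟩ := tor _ (inv_ne_zero c0)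
      have h1 := trans (A' := [(i + 1, ν.mulShift (c ^ 2)), (i + 5, ψ), (i + 4, ψ)]) (Z' := [i + 3, i + 2]) k1
        (by simp [k2, k3, k4, c0, AddChar.mulShift_mulShift]) (by simp) hw
      obtain ⟨b, hb⟩ := exists_smul_of_finrank hm (cons_A.1 h1).2 (app_ne_zero g w0) (cons_A.1 hv).2
      have h2 := sq_of_shift hν (char_eq v0 (hb ▸ (cons_A.1 (Submodule.smul_mem _ b h1)).1) (cons_A.1 hv).1)
      rcases sq_eq_one_iff.1 h2 with rfl | rfl
      exacts [.inl (AddChar.mulShift_one ψ), .inr (by ext; simp [AddChar.inv_apply])]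
  have hE : v ∈ D.W ρ [(i + 1, ν), (i + 4, ψ)] [i + 3, i + 2] := mono (by simp) (by simp) hv
  have st := stab_W (D := D) (ρ := ρ) (A := [(i + 1, ν), (i + 4, ψ)]) (Z := [i + 3, i + 2]) i
    (by simp only [List.map]; clear * - i; revert i; decide +kernel)
  have st' := stab_W (D := D) (ρ := ρ) (A := [(i + 1, ν), (i + 4, ψ)]) (Z := [i + 3, i + 2]) (i + 5)
    (by simp only [List.map]; clear * - i; revert i; decide +kernel)
  choose c c1 using fun t => (shift i (i + 5) (by simp only [List.map]; clear * - i; revert i; decide +kernel)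
    hE v0 t).imp fun _ => And.left
  obtain ⟨t, ht⟩ : ∃ t, c t ≠ 1 := by
    by_contra! h
    have h1 : ∀ t u, ρ ⁅D.x i t, D.x (i + 5) u⁆ v = v := fun t u => by
      have := c1 t u _ (inv_mem (st t) _ (inv_mem (st' u) v hE))
      rw [h, AddChar.one_apply, one_smul, app_inv, app_inv] at this
      rw [commutatorElement_def, mul_app, mul_app, mul_app, ← this]
    obtain ⟨s, -, hs⟩ := exists_mem_notMem_of_card_lt_card (s := {0, 1, -1}) (t := univ (α := F))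
      (card_le_three.trans_lt (by rw [card_univ]; omega))
    simp only [mem_insert, mem_singleton, not_or] at hs
    obtain ⟨g, χ, k1, k2, k3, -⟩ := tor _ (inv_ne_zero hs.1)
    have h2 := trans (A' := [(i + 1, ν.mulShift (s ^ 2)), (i + 4, ψ)]) (Z' := [i + 3, i + 2]) k1
      (by simp [k2, k3, hs.1, AddChar.mulShift_mulShift]) (by simp) hE
    refine not_or.2 hs.2 (sq_eq_one_iff.1 (sq_of_shift hν (AddChar.ext _ _ fun r => ?_)))
    obtain ⟨u, y, hy, e0⟩ := D.nd i (i + 5) (i + 1) (by clear * - i; revert i; decide +kernel) 1 one_ne_zero r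
    obtain ⟨κ, hκ⟩ := Sp_smul (ρ := ρ) (A := [(i + 4, ψ)]) (Z := [i + 3, i + 2])
      (by simp only [List.map]; clear * - i; revert i; decide +kernel) hy
    have h3 := h1 1 u
    have h4 := congrArg (ρ g) (h1 (χ i)⁻¹ ((χ (i + 5))⁻¹ * u))
    rw [← inv_app (ρ := ρ) g v, ← mul_app, ← mul_app, conjugate_commutatorElement, (k1 _).2, (k1 _).2,
      mul_inv_cancel₀ (k1 _).1, mul_inv_cancel_left₀ (k1 _).1, app_inv, id, id, e0, mul_app,
      hκ _ (cons_A.1 h2).2, map_smul, (cons_A.1 h2).1, smul_smul] at h4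
    rw [e0, mul_app, hκ _ (cons_A.1 hE).2, map_smul, (cons_A.1 hE).1, smul_smul] at h3
    have h5 := smul_left_injective ℂ v0 (h3.trans (one_smul _ _).symm)
    have h6 := smul_left_injective ℂ (app_ne_zero g v0) (h4.trans (one_smul _ _).symm)
    exact mul_left_cancel₀ (left_ne_zero_of_mul_eq_one h5) (h6.trans h5.symm)
  have v5 := (cons_A.1 (cons_A.1 hv).2).1
  obtain ⟨w, hw, w0⟩ : ∃ w ∈ D.W ρ [(i + 5, 1), (i + 1, ν), (i + 4, ψ)] [i + 3, i + 2], w ≠ 0 := by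
    by_contra! h
    have h1 : ρ (D.x i t) v ∈ D.W ρ [(i + 5, c t * ψ), (i + 1, ν), (i + 4, ψ)] [i + 3, i + 2] :=
      cons_A.2 ⟨fun u => by rw [c1 t u v hE, v5, map_smul, smul_smul]; rfl, st t v hE⟩
    have h2 : ρ (D.x i t)⁻¹ v ∈ D.W ρ [(i + 5, (c t)⁻¹ * ψ), (i + 1, ν), (i + 4, ψ)] [i + 3, i + 2] :=
      cons_A.2 ⟨fun u => by
        have := congrArg (ρ (D.x i t)⁻¹) (c1 t u _ (inv_mem (st t) v hE))
        rw [app_inv, v5, map_smul, map_smul, inv_app] at this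
        rw [AddChar.mul_apply, mul_smul, this, smul_smul, ← AddChar.mul_apply, inv_mul_cancel, AddChar.one_apply,
          one_smul], inv_mem (st t) v hE⟩
    have h3 := (uniq _ (fun e0 => app_ne_zero _ v0 (h _ (e0 ▸ h1))) _ (app_ne_zero _ v0) h1).resolve_left
      (by simpa using ht)
    have h4 := (uniq _ (fun e0 => app_ne_zero _ v0 (h _ (e0 ▸ h2))) _ (app_ne_zero _ v0) h2).resolve_left
      (by simpa using ht)
    have h5 : c t ^ 3 = 1 := by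
      ext u
      rw [AddChar.pow_apply, ← AddChar.map_nsmul_eq_pow, nsmul_eq_mul, CharP.cast_eq_zero F 3]; simp
    rw [pow_succ, sq, eq_inv_iff_mul_eq_one.1 (mul_right_cancel (h3.trans h4.symm)), one_mul] at h5
    exact ht h5
  have h1 := split (D := D) (A := [(i + 4, ψ)]) (Z := [i + 5, i + 3, i + 2]) hρ (i + 1) (n := 1)
    ((univ.erase (0 : F)).image fun s => ν.mulShift (s ^ 2)) (by
      simp only [mem_image, mem_erase, mem_univ, and_true]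
      rintro _ ⟨s, hs, rfl⟩
      obtain ⟨g, χ, k1, k2, k3, -⟩ := tor _ (inv_ne_zero hs)
      exact ⟨AddChar.IsPrimitive.of_ne_one hν (pow_ne_zero 2 hs), pos (trans k1 (by simp [k2, k3, hs, AddChar.mulShift_mulShift]) (by simp)
        (cons_Z.2 ⟨(by simpa using (cons_A.1 hw).1 : ∀ t, ρ (D.x (i + 5) t) w = w), (cons_A.1 hw).2⟩))
        (app_ne_zero g w0)⟩)
  have h2 := card_le_mul_card_image (f := fun s : F => ν.mulShift (s ^ 2)) (univ.erase 0) 2 (by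
    simp only [mem_image]
    rintro _ ⟨s, -, rfl⟩
    exact (card_le_card fun r hr => by simpa using sq_eq_sq_iff_eq_or_eq_neg.1 (AddChar.to_mulShift_inj_of_isPrimitive
      (AddChar.IsPrimitive.of_ne_one hν) (mem_filter.1 hr).2)).trans (card_le_two (a := s) (b := -s)))
  rw [card_erase_of_mem (mem_univ _), card_univ] at h2
  omega

theorem side [CharP F 3] (hρ : Uni ρ) (hq : 9 ≤ Fintype.card F) (i : ZMod 12) (hψ : ψ ≠ 1)
    (hm : ∀ a ≠ 1, D.d ρ [(i + 5, a), (i + 4, ψ)] [i + 3, i + 2] = 1) :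
    Fintype.card F - 1 ≤ D.d ρ [(i + 4, ψ)] [i + 3, i + 2] ∧ (Fintype.card F + 3 ≤ D.d ρ [(i + 4, ψ)] [i + 3, i + 2] ∨
      Fintype.card F ≤ D.d ρ [(i + 4, ψ)] [i + 1, i + 3, i + 2] ∧
        1 ≤ D.d ρ [(i + 4, ψ)] [i + 11, i, i + 1, i + 3, i + 2]) := by
  have h1 := split' hρ (i + 5) fun a ha => (hm a ha).ge
  obtain ⟨v, hv, v0⟩ := exists_ne ((hm ψ hψ).symm ▸ one_pos)
  obtain ⟨ν, hν⟩ := exists_char (D := D) (ρ := ρ) (k := i + 1) v0 fun t => exists_smul_of_finrank (hm ψ hψ).le hv v0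
    (stab_W _ (by simp only [List.map]; clear * - i; revert i; decide +kernel) t v hv)
  refine ⟨by omega, (ne_or_eq ν 1).imp (fun h => ?_) fun h => side_one (by omega) i hψ (fun a ha => (hm a ha).le)
    (cons_Z.2 ⟨by simpa [h] using hν, (cons_A.1 hv).2⟩) v0⟩
  have := side_two hρ hq i hψ h (hm ψ hψ).le (cons_A.2 ⟨hν, hv⟩) v0
  omega

variable (D) in
include D in
theorem bound [CharP F 3] (hρ : Uni ρ) (hf : ∀ g, (∀ v, ρ g v = v) → g = 1) (hq : 9 ≤ Fintype.card F) :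
    Fintype.card F ^ 4 + Fintype.card F ^ 2 ≤ finrank ℂ V + 2 := not_lt.1 fun hc => by
  obtain ⟨ψ, hψ⟩ := GD.exists_char (F := F)
  have h0 : D.d ρ [] [] ≤ finrank ℂ V := Submodule.finrank_le _
  have key : ∀ i, ∀ a ≠ 1, D.d ρ [(i + 4, ψ), (i + 4 + 1, a)] [] = Fintype.card F * (Fintype.card F *
      D.d ρ [(i + 5, a), (i + 4, ψ)] [i + 3, i + 2]) := fun i a ha => by
    rw [add_assoc, (d_mono (A' := [(i + 5, a), (i + 4, ψ)]) (by simp; norm_num) fun _ h => h).antisymm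
      (d_mono (by simp; norm_num) fun _ h => h), heis (i + 3) (i + 7) List.mem_cons_self ha
      (by simp only [List.map]; clear * - i; revert i; decide +kernel), heis (i + 2) (i + 6)
      (List.mem_cons_of_mem _ List.mem_cons_self) hψ (by simp only [List.map]; clear * - i; revert i; decide +kernel),
      (d_mono (Z' := [i + 3, i + 2]) (fun _ h => h) (by simp)).antisymm (d_mono (fun _ h => h) (by simp))]
  have c1 : ∀ n a b, (∀ a ≠ 1, ∀ b ≠ 1, n ≤ D.d ρ [(2, a), (3, b)] []) → a ≤ D.d ρ [(4, ψ)] [3, 2] →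
      b ≤ D.d ρ [(5, ψ)] [4, 3] → (Fintype.card F - 1) * ((Fintype.card F - 1) * n + Fintype.card F * b +
        Fintype.card F * a) + D.d ρ [] [2, 3] ≤ finrank ℂ V := fun n a b h1 h2 h3 => by
    have k1 := split' (D := D) (A := []) (Z := []) hρ 3 fun c hc => le_trans (Nat.add_le_add_left
      (((Nat.mul_le_mul_left _ (h3.trans (tr1 (rot 5) hψ hc (by decide +kernel)))).trans_eq
        (heis 1 5 List.mem_cons_self hc (by simp only [List.map]; decide +kernel)).symm)) _)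
      (split' hρ 2 fun a ha => h1 a ha c hc)
    have k2 := split' (D := D) (A := []) (Z := [3]) hρ 2 fun c hc =>
      (Nat.mul_le_mul_left _ (h2.trans (tr1 (D.refl 3) hψ hc (by decide +kernel)))).trans_eq
        (heis 4 0 List.mem_cons_self hc (by simp only [List.map]; decide +kernel)).symm
    rw [mul_add]
    omega
  have hm : ∀ i, ∀ a ≠ 1, D.d ρ [(i + 5, a), (i + 4, ψ)] [i + 3, i + 2] = 1 := fun i a ha => by
    have h1 := (gen hf (by omega) hψ ha).trans_le ((eqD 2 (i + 4) hψ ha hψ ha).trans_eq (key i a ha))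
    have h2 := c1 _ 0 0 (fun b hb c hc => (key i a ha).ge.trans (eqD (i + 4) 2 hψ ha hb hc)) zero_le zero_le
    generalize D.d ρ [(i + 5, a), (i + 4, ψ)] [i + 3, i + 2] = m at h1 h2
    obtain ⟨r, hr⟩ := Nat.exists_eq_add_of_le' hq
    rw [hr] at hc h1 h2
    rcases m with _ | _ | m
    · simp at h1
    · rfl
    · rw [show r + 9 - 1 = r + 8 from rfl] at h2
      nlinarith [Nat.zero_le (r ^ 4 * m), Nat.zero_le (r ^ 3 * m), Nat.zero_le (r ^ 2 * m), Nat.zero_le (r * m),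
        Nat.zero_le (r ^ 4), Nat.zero_le (r ^ 3), Nat.zero_le (r ^ 2)]
  have c2 := fun a b => c1 (Fintype.card F * (Fintype.card F * 1)) a b fun b hb c hc =>
    (hm 0 ψ hψ ▸ key 0 ψ hψ).ge.trans (eqD (0 + 4) 2 hψ hψ hb hc)
  obtain ⟨s1, s2⟩ := side hρ hq 0 hψ (hm 0)
  obtain ⟨s3, s4⟩ := side hρ hq 1 hψ (hm 1)
  have t1 : ∀ {n Z}, (∀ k ∈ Z, k ∈ [1, 2, 3]) → n ≤ D.d ρ [(0 + 4, ψ)] Z → (∀ k ∈ [2, 3], k ∈ Z) →
      (Fintype.card F - 1) * n + D.d ρ [] [4, 2, 3] ≤ D.d ρ [] [2, 3] := fun h1 h2 h3 =>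
    split' hρ 4 fun c hc => (h2.trans (d_mono (fun _ h => h) h3)).trans (tr1 (rot 0) hψ hc (by decide +kernel))
  obtain ⟨r, hr⟩ := Nat.exists_eq_add_of_le' hq
  rcases s2 with s2 | s2
  · have := (Nat.add_le_add_left ((Nat.le_add_right _ _).trans (t1 (by decide +kernel) s2 (by decide +kernel))) _).trans
      (c2 _ _ s2 s3)
    rw [hr, show r + 9 - 1 = r + 8 from rfl] at this
    rw [hr] at hc
    nlinarith [Nat.zero_le (r ^ 2)]
  rcases s4 with s4 | s4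
  · have := (Nat.add_le_add_left ((Nat.le_add_right _ _).trans (split' (D := D) (A := []) (Z := [2, 3]) hρ 1
      fun c hc => s4.trans (tr1 (D.refl 3) hψ hc (by decide +kernel)))) _).trans (c2 _ _ s1 s4)
    rw [hr, show r + 9 - 1 = r + 8 from rfl] at this
    rw [hr] at hc
    nlinarith [Nat.zero_le (r ^ 2)]
  have k1 := c2 _ _ (s2.1.trans (d_mono (fun _ h => h) (by decide +kernel)))
    (s4.1.trans (d_mono (fun _ h => h) (by decide +kernel)))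
  have k2 := t1 (by decide +kernel) s2.1 (by decide +kernel)
  have k3 := split' (D := D) (A := []) (Z := [4, 2, 3]) hρ 1 fun c hc =>
    s4.1.trans (tr1 (D.refl 3) hψ hc (by decide +kernel))
  have k4 := split' (D := D) (A := []) (Z := [1, 4, 2, 3]) hρ 0 fun c hc =>
    s2.2.trans (tr1 (D.refl 2) hψ hc (by decide +kernel))
  have k5 := split' (D := D) (A := []) (Z := [0, 1, 4, 2, 3]) hρ 5 fun c hc =>
    s4.2.trans (tr1 (rot 0) hψ hc (by decide +kernel))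
  rw [hr, show r + 9 - 1 = r + 8 from rfl] at k1 k2 k3 k4 k5
  rw [hr] at hc
  nlinarith

end G3

end Cfsg.Agent.H23.MD
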