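import Mathlib
import Cfsg.Agent.H23.MDG2a
import Cfsg.Agent.H23.MDG3
import Cfsg.Agent.S1059
import Cfsg.Agent.S1055

/-!
The minimal degree of the Chevalley groups of type `G₂`.
-/

set_option autoImplicit false
set_option linter.unusedSectionVars false

namespace Cfsg.Agent.H23.MD

open Module Finset H34 H80 H40 H37 Cfsg.Lie
open scoped InnerProductSpace commutatorElement

/-- The certificate of type `G₂`. -/
noncomputable def ctG2 : Cert chevG2 := cert (by simp)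

variable {K : Type*} [Field K] [Fintype K]

/-- The roots in cyclic order. -/
def rG (k : ZMod 12) : Fin chevG2.nroots := ⟨[7, 10, 9, 11, 8, 6, 4, 1, 2, 0, 3, 5].getD k.val 0, by
  revert k; decide +kernel⟩

theorem commG {i j : ZMod 12} (h1 : i ≠ j) (h2 : j ≠ i + 6) (t u : K) : ⁅ctG2.xg K (rG i) t, ctG2.xg K (rG j) u⁆ =
    ((chevG2.commTerms (rG j) (rG i)).map fun c => ctG2.xg K c.1 (c.2.1 * u ^ c.2.2.1 * (-t) ^ c.2.2.2)).prod := by
  have := wd_eq (C := ctG2) (r := rG j) (s := rG i) (by revert i j; decide +kernel)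
    ((H35.ne_neg_iff ctG2).2 (by revert i j; decide +kernel)) (-u) (-t)
  rw [Cert.xg_neg, Cert.xg_neg, inv_inv, inv_inv] at this
  rw [← this, H35.wd, ChevalleyDatum.commWord, List.map_map]
  simp only [neg_neg]; rfl

theorem σG2 (i : Fin chevG2.rank) (r : Fin chevG2.nroots) : (ctG2.R.σ i r : ℕ) = chevG2.reflectRoot i r := by
  simpa using Cert.word_val (C := ctG2) [i] r

theorem monG (a : Fin chevG2.rank) {π : ZMod 12 → ZMod 12} (h : ∀ k, chevG2.reflectRoot a (rG k) = rG (π k)) :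
    ∃ n χ, Mon (fun k => ctG2.xg K (rG k)) n π χ := by
  obtain ⟨c, -, hc⟩ := Cert.conj_xg (Cert.ng_mem_N (C := ctG2) (F := K) (ctG2.V.basic.simple_lt a a.2) one_ne_zero)
  refine ⟨_, fun k => c (rG k), fun k => ⟨(c _).ne_zero, fun t => (hc _ t).trans ?_⟩⟩
  rw [Cert.ν_ng (C := ctG2) a one_ne_zero]
  exact congrArg (ctG2.xg K · _) ((σG2 a _).trans (h k))

theorem commG_mem [CharP K 3] (i j : ZMod 12) (h : j ≠ i + 6) (t u : K) :
    ⁅ctG2.xg K (rG i) t, ctG2.xg K (rG j) u⁆ ∈ Sp (fun k => ctG2.xg K (rG k)) (mid i j) := by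
  by_cases h1 : i = j
  · rw [h1, commutatorElement_eq_one_iff_mul_comm.2 (by rw [← Cert.xg_add, ← Cert.xg_add, add_comm])]
    exact one_mem _
  rw [commG h1 h]
  refine list_prod_mem (List.forall_mem_map.2 fun c hc => ?_)
  rcases show 3 ∣ c.2.1 ∨ ∃ k ∈ mid i j, (rG k : ℕ) = c.1 by revert c; revert i j; decide +kernel with h3 | ⟨k, hk, e0⟩
  · rw [(CharP.intCast_eq_zero_iff K 3 _).2 h3, zero_mul, zero_mul, Cert.xg_zero]; exact one_mem _
  · exact Subgroup.subset_closure ⟨k, hk, _, congrArg (ctG2.xg K · _) e0⟩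

/-- The group `G₂` in characteristic three. -/
noncomputable def g3 [CharP K 3] : G3 K (chevG2.group K) where
  x k := ctG2.xg K (rG k)
  add k := Cert.xg_add _
  inj k _ := (Cert.xg_eq_one_iff (rG k).2).1
  comm := commG_mem
  nd i j m hm t t0 s := by
    obtain ⟨h1, h2, c, hc, h3, h4, h5, h6⟩ : i ≠ j ∧ j ≠ i + 6 ∧ ∃ c ∈ chevG2.commTerms (rG j) (rG i),
        (rG m : ℕ) = c.1 ∧ ¬ 3 ∣ c.2.1 ∧ (c.2.2.1 = 1 ∨ c.2.2.1 = 3) ∧ ∀ c' ∈ (chevG2.commTerms (rG j) (rG i)).erase c,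
        3 ∣ c'.2.1 ∨ ∃ k ∈ (mid i j).erase m, (rG k : ℕ) = c'.1 ∧ k ≠ m + 6 ∧ mid m k = [] := by
      revert i j m; decide +kernel
    have := Fact.mk Nat.prime_three
    obtain ⟨u, hu⟩ : ∃ u : K, u ^ c.2.2.1 = s / (c.2.1 * (-t) ^ c.2.2.2) := by
      rcases h5 with h | h <;> rw [h]
      exacts [⟨_, pow_one _⟩, surjective_frobenius K 3 _]
    obtain ⟨l₁, l₂, -, e1, e2⟩ := List.exists_erase_eq hc
    have key : ∀ c' ∈ l₁ ++ l₂, ∀ a, ctG2.xg K c'.1 (c'.2.1 * a) ∈ Sp (fun k => ctG2.xg K (rG k)) ((mid i j).erase m) ∧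
        Commute (ctG2.xg K (rG m) s) (ctG2.xg K c'.1 (c'.2.1 * a)) := fun c' hc' a => by
      rcases h6 c' (e2 ▸ hc') with h3 | ⟨k, hk, e0, k1, k2⟩
      · rw [(CharP.intCast_eq_zero_iff K 3 _).2 h3, zero_mul, Cert.xg_zero]; exact ⟨one_mem _, Commute.one_right _⟩
      · refine ⟨Subgroup.subset_closure ⟨k, hk, _, congrArg (ctG2.xg K · _) e0⟩, commutatorElement_eq_one_iff_commute.1 ?_⟩
        simpa [k2, Sp, e0] using commG_mem m k k1 s (c'.2.1 * a)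
    refine ⟨u, _, list_prod_mem (l := (l₁ ++ l₂).map fun c => ctG2.xg K c.1 (c.2.1 * (u ^ c.2.2.1 * (-t) ^ c.2.2.2)))
      (List.forall_mem_map.2 fun c hc => (key c hc _).1), ?_⟩
    have h7 : (c.2.1 : K) ≠ 0 := mt (CharP.intCast_eq_zero_iff K 3 _).1 h4
    rw [commG h1 h2, e1, List.map_append, List.map_append, List.prod_append, List.prod_append, ← mul_assoc,
      (Commute.list_prod_right _ _ (List.forall_mem_map.2 fun c hc => (key c (List.mem_append_left _ hc) _).2)).eq,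
      List.map_cons, List.prod_cons, hu, ← h3, show c.2.1 * (s / (c.2.1 * (-t) ^ c.2.2.2)) * (-t) ^ c.2.2.2 = s by
        have := neg_ne_zero.2 t0; field_simp]
    simp only [mul_assoc]
  tor i s hs := by
    obtain ⟨h1, h2, h3, h4, h5, h6⟩ : chevG2.pairing (rG i) (rG i) = 2 ∧ chevG2.pairing (rG i) (rG (i + 2)) = 1 ∧
        chevG2.pairing (rG i) (rG (i + 10)) = 1 ∧ chevG2.pairing (rG i) (rG (i + 3)) = 0 ∧
        chevG2.pairing (rG i) (rG (i + 9)) = 0 ∧ chevG2.pairing (rG i) (rG (i + 4)) = -1 := by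
      revert i; decide +kernel
    exact ⟨_, fun k => s ^ chevG2.pairing (rG i) (rG k), fun k => ⟨zpow_ne_zero _ hs,
      Cert.hg_conj (rG i).2 (rG k).2 hs⟩, by simp [h1, h2, h3, h4, h5, h6, zpow_ofNat]⟩
  refl j := by
    obtain ⟨a, χ, ha⟩ := monG (K := K) (0 : Fin 2) (π := fun k => 6 - k) (by decide +kernel)
    obtain ⟨b, χ', hb⟩ := monG (K := K) (1 : Fin 2) (π := fun k => 4 - k) (by decide +kernel)
    rw [← sub_add_cancel j 2, ← ZMod.natCast_zmod_val (j - 2)]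
    induction (j - 2).val with
    | zero => exact ⟨b, χ', by convert hb using 3; norm_num⟩
    | succ n ih =>
      obtain ⟨g, χ'', hg⟩ := ih
      exact ⟨_, _, by convert (ha.mul hb).mul hg using 2; push_cast; ring⟩

/-- The coordinates of the roots. -/
def vG2 (r : ℕ) : Fin 2 → ℤ := [![-3, -2], ![-3, -1], ![-2, -1], ![-1, -1], ![-1, 0], ![0, -1], ![0, 1], ![1, 0],
  ![1, 1], ![2, 1], ![3, 1], ![3, 2]].getD r 0

theorem rcG2 (r : Fin chevG2.nroots) : ctG2.R.rc r = vG2 r := by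
  refine ctG2.R.root_induction (P := fun r => ctG2.R.rc r = vG2 r) (fun i => ?_) (fun r i ih => ?_) r
  · rw [ctG2.R.rc_simple, ctG2.simple_val]
    exact (by decide +kernel : ∀ i : Fin 2, e i = vG2 (chevG2.simple i)) i
  · rw [σG2, RS.σ_apply, ctG2.R.rc_refl', ih, ctG2.wt_eq]
    exact (by decide +kernel : ∀ r < 12, ∀ i : Fin 2,
      vG2 r - chevG2.cartan i r • e i = vG2 (chevG2.reflectRoot i r)) r r.2 i

/-- The link with the explicit root system. -/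
noncomputable def lkG2 : Lk (κ := Fin 2) ctG2.S rtG2 where
  v := ctG2.R.rc
  inj := ctG2.R.rc_inj
  mem a := by
    simp only [rcG2]
    exact ⟨by revert a; decide +kernel, by rintro ⟨r, rfl⟩; revert r; decide +kernel⟩
  α := ctG2.R.rc_simple
  neg := ctG2.R.rc_neg
  s i r := by
    rw [rcG2, rcG2]
    exact (congrArg vG2 (σG2 i r)).trans (by revert i r; decide +kernel)
  univ := Phi_univ ctG2.R

/-- The group `G₂` in characteristic not three. -/
noncomputable def gdG2 (h3 : (3 : K) ≠ 0) : GD rtG2 K (chevG2.group K) :=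
  lkG2.gd (rdC ctG2 K) (fun r => ctG2.xg K r)
    (fun _ _ hr hs _ hy _ hz => rootU_mono (fun k hk => And.intro (lkG2.v_mem k) hk)
      (comm_cone (hr.ne_neg hs) hy hz))
    (fun r _ => Cert.xg_add r) (fun r _ _ => (Cert.xg_eq_one_iff r.2).1) (fun _ _ _ => mem_XC)
    (fun k r s hk hp e0 => by
      simp only [lkG2, rcG2] at hk hp e0
      obtain ⟨h1, h2, N, h4, h5, h6⟩ : s ≠ r ∧ (s : ℕ) ≠ chevG2.neg r ∧ ∃ N ∈ [(1 : ℤ), -1, 3, -3],
          chevG2.commTerms r s = [((k : ℕ), N, 1, 1)] ∧ ((k : ℕ) ≠ chevG2.neg r ∧ chevG2.commTerms r k = []) ∧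
          (k : ℕ) ≠ chevG2.neg s ∧ chevG2.commTerms s k = [] := by revert k r s; decide +kernel
      exact (tri_of_single h1 ((H35.ne_neg_iff ctG2).2 h2) h5 (by
        simp only [List.mem_cons, List.not_mem_nil, or_false] at h4
        rcases h4 with rfl | rfl | rfl | rfl <;> simp [h3]) (commute_of_nil h6.1.1 h6.1.2)
        (commute_of_nil h6.2.1 h6.2.2)).surj')
    (fun h hh h' hh' => HC_commute h hh h' hh')
    (fun r hr c hc => by
      obtain ⟨a, ha⟩ : ∃ a : Fin chevG2.nroots, chevG2.pairing a r = 1 := by clear hr; revert r; decide +kernel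
      exact ⟨_, hg_mem a hc, fun t => by rw [Cert.hg_conj a.2 r.2 hc, ha, zpow_one]⟩)

theorem torG2 (h3 : (3 : K) ≠ 0) (a : Fin chevG2.nroots) {c : K} (hc : c ≠ 0) :
    ctG2.hg K a c ∈ (gdG2 h3).T ∧ (∀ r : Fin chevG2.nroots, c ^ chevG2.pairing a r = 1 →
      ∀ t, Commute ((gdG2 h3).x (vG2 r) t) (ctG2.hg K a c)) ∧ ∀ r : Fin chevG2.nroots, c ^ chevG2.pairing a r ≠ 1 →
      ∀ y ∈ (gdG2 h3).X (vG2 r), ctG2.hg K a c * y * (ctG2.hg K a c)⁻¹ = y → y = 1 := by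
  refine ⟨hg_mem a hc, fun r h t => ?_, fun r h y hy e0 => ?_⟩
  · have := Cert.hg_conj (C := ctG2) a.2 r.2 hc t
    rw [h, one_mul, mul_inv_eq_iff_eq_mul] at this
    rw [← rcG2]
    exact (show (gdG2 h3).x (ctG2.R.rc r) t = _ from lkG2.gd_x _ r t).symm ▸ this.symm
  · rw [← rcG2] at hy
    obtain ⟨t, rfl⟩ := mem_XC.1 ((show (gdG2 h3).X (ctG2.R.rc r) = _ from lkG2.gd_X _ r) ▸ hy)
    rw [Cert.hg_conj a.2 r.2 hc, (Cert.xg_injective r.2).eq_iff, mul_left_eq_self₀] at e0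
    rw [e0.resolve_left h, Cert.xg_zero]

theorem exists_vG2 : ∀ γ ∈ rtG2.Φ, ∃ r : Fin chevG2.nroots, vG2 r = γ := by decide +kernel

theorem min_G2_ne {E : Type*} [NormedAddCommGroup E] [InnerProductSpace ℂ E] [FiniteDimensional ℂ E]
    {σ : Representation ℂ (chevG2.group K) E} (h4 : Uni σ) (h5 : ∀ g, (∀ v, σ g v = v) → g = 1) (h3 : (3 : K) ≠ 0)
    (hq : 4 < Fintype.card K) (hc : finrank ℂ E ≤ Fintype.card K ^ 3) :
    Fintype.card K ^ 3 - 1 ≤ finrank ℂ E ∧ Fintype.card K % 3 ≠ 1 := by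
  classical
  have hX : ∀ γ ∈ rtG2.Φ, Nat.card ((gdG2 h3).X γ) = Fintype.card K := fun γ hγ => by
    obtain ⟨r, rfl⟩ := exists_vG2 γ hγ
    rw [← rcG2, ← Nat.card_eq_fintype_card, ← Cert.card_X (C := ctG2) (F := K) r]
    exact congrArg (fun H : Subgroup _ => Nat.card H) (lkG2.gd_X _ r)
  have lb : e 1 ∈ rtG2.Lg := by decide +kernel
  obtain ⟨u, hu, h7⟩ := exists_pow_ne_one_of_lt K
  rw [Nat.card_eq_fintype_card] at h7
  have hT : ∀ δ ∈ rtG2.Φ, δ ≠ e 1 → δ ≠ -e 1 → (gdG2 h3).Tor (e 1) δ := fun δ hδ h1 h2 => by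
    obtain ⟨r, rfl⟩ := exists_vG2 δ hδ
    obtain ⟨k1, k2, k3⟩ := torG2 h3 ⟨9, by decide +kernel⟩ hu
    refine ⟨_, k1, (show vG2 6 = e 1 by decide +kernel) ▸ k2 ⟨6, by decide +kernel⟩ (by
      rw [show chevG2.pairing 9 6 = 0 by decide +kernel, zpow_zero]), k3 r fun e0 => ?_⟩
    obtain ⟨h8, h9⟩ : 0 < (chevG2.pairing 9 r).natAbs ∧ (chevG2.pairing 9 r).natAbs ≤ 3 := by
      clear e0 hδ; revert r; decide +kernel
    exact h7 _ h8 (by omega) (by rw [← zpow_natCast, Int.natCast_natAbs, abs_eq_max_neg, max_def]; split_ifs <;> simp [e0])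
  have hG : ∀ i, e i ∈ rtG2.Lg → (gdG2 h3).Gd σ i := fun i => GD.gd_of h4
    (fun i hi => by
      obtain rfl : i = 1 := by revert i; decide +kernel
      exact GD.cond_of hi (fun δ hδ h => hT δ hδ (fun e0 => h (e0 ▸ lb)) fun e0 => h (e0 ▸ rtG2.neg_lg _ lb))
        fun δ hδ => (em (δ = e 1 ∨ δ = -e 1)).symm.imp (fun h => hT δ (rtG2.lg_sub _ hδ) (not_or.1 h).1 (not_or.1 h).2)
          (by revert δ; decide +kernel))
    (fun i hi => (show i = 1 by revert i; decide +kernel) ▸ GD.line_of h4 h5 lb (RT.s_lg 1 (RT.s_lg 0 lb))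
      (by decide +kernel) (g := (gdG2 h3).n 0 * (gdG2 h3).n 1) (fun y hy => by
        simpa [mul_assoc] using GD.n_conj' 1 (RT.s_mem 0 (rtG2.e_mem 1)) (GD.n_conj' 0 (rtG2.e_mem 1) hy))
      {![1, 1], ![3, 2]} (by decide +kernel) (by
        rw [prod_pair (by decide +kernel), hX _ (by decide +kernel), hX _ (by decide +kernel), ← sq]
        exact big_of (by omega) (Nat.lt_succ_of_le hc) (by have := Nat.pow_le_pow_left hq.le 3; norm_num; omega)))
    fun i j hi hj h6 => absurd h6 (by clear h6; revert i j; decide +kernel)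
  have hB : ∀ β ∈ ({![3, 2], ![3, 1], e 1} : Finset (Fin 2 → ℤ)), β ∈ rtG2.Lg ∧ 0 ≤ β := by decide +kernel
  have h6 := GD.count2 (D := gdG2 h3) h4 _ _ hB fun β hβ => GD.raise
    (fun β => Fintype.card K ^ (β 1 - 1 + β 0 / 3).toNat)
    (fun i hi ψ hψ => ((hG i hi).one ψ hψ).ge) (fun β hβ h0 => by
      have : (∃ i, β = e i ∧ (β 1 - 1 + β 0 / 3).toNat = 0) ∨ ∃ i, 0 < rtG2.c i β ∧ rtG2.p β (e i) = 1 ∧
          0 ≤ rtG2.s i β ∧ (∀ γ ∈ rtG2.Φ, γ ≠ e i → rtG2.c i γ ≤ rtG2.c i β) ∧ β - e i ∈ rtG2.Φ ∧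
          (β 1 - 1 + β 0 / 3).toNat = 1 + (rtG2.s i β 1 - 1 + rtG2.s i β 0 / 3).toNat := by revert β; decide +kernel
      exact this.imp (fun ⟨i, a, b⟩ => ⟨i, a, by simp only [b, pow_zero, le_refl]⟩)
        fun ⟨i, a1, a2, a3, a4, a5, a6⟩ => ⟨i, a1, a2, a3, a4, by
          rw [a6, pow_add, pow_one, hX _ a5]⟩) β (hB β hβ).2 (hB β hβ).1
  rw [sum_insert (by decide +kernel), sum_pair (by decide +kernel), show (Fintype.card K - 1) * _ =
    Fintype.card K ^ 3 - 1 from by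
      change _ * (Fintype.card K ^ 2 + (Fintype.card K ^ 1 + Fintype.card K ^ 0)) = _
      zify [show 1 ≤ Fintype.card K by omega, Nat.one_le_pow 3 (Fintype.card K) (by omega)]; ring] at h6
  refine ⟨by omega, fun h1 => ?_⟩
  have := Fact.mk Nat.prime_three
  obtain ⟨ω, hω⟩ := exists_prime_orderOf_dvd_card' (G := Kˣ) 3 (by
    rw [Nat.card_units, Nat.card_eq_fintype_card]; omega)
  obtain ⟨k1, k2, k3⟩ := torG2 h3 ⟨7, by decide +kernel⟩ ω.ne_zero
  have k4 : ∀ n : ℤ, (ω : K) ^ n = 1 ↔ 3 ∣ n := fun n => by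
    rw [← Units.val_zpow_eq_zpow_val, Units.val_eq_one, ← orderOf_dvd_iff_zpow_eq_one, hω]; rfl
  refine GD.one_G2 h4 (by omega) (hG 1 lb) (hX _ (by decide +kernel)) k1 (fun α hα => ?_)
    ((show vG2 4 = -e 0 by decide +kernel) ▸ k3 ⟨4, by decide +kernel⟩ (mt (k4 _).1 (by decide +kernel)))
  obtain ⟨r, rfl⟩ := exists_vG2 α (rtG2.lg_sub _ hα)
  exact k2 r ((k4 _).2 (by revert r; decide +kernel))

theorem not_dvd_G2 {q k : ℕ} (hq : 9 ≤ q) (h3 : q % 3 = 0) (hp : ∀ n : ℕ, n.Coprime 3 → n.Coprime q)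
    (h1 : q ^ 4 + q ^ 2 ≤ k + 2) (h : k ∣ q ^ 6 * (q ^ 2 - 1) * (q ^ 6 - 1)) : q ^ 4 + q ^ 2 + 1 ≤ k := by
  by_contra! hc
  obtain ⟨x, hx⟩ : ∃ x, q ^ 2 = x + 1 := ⟨q ^ 2 - 1, (Nat.sub_add_cancel (Nat.one_le_pow _ _ (by omega))).symm⟩
  have h4 : q ^ 4 = x ^ 2 + 2 * x + 1 := by rw [show q ^ 4 = (q ^ 2) ^ 2 by ring, hx]; ring
  have h6 : q ^ 6 - 1 = x * (x ^ 2 + 3 * x + 3) := by
    rw [show q ^ 6 = (q ^ 2) ^ 3 by ring, hx]; exact Nat.sub_eq_of_eq_add (by ring)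
  have h80 : 80 ≤ x := by nlinarith
  have hx3 : (x + 1) % 3 = 0 := by rw [← hx, sq, Nat.mul_mod, h3]
  rw [h6, hx, Nat.add_sub_cancel, mul_assoc] at h
  have key : ∀ n, n % 3 ≠ 0 → n ∣ k → (n : ℤ) ∣ x * (x * (x ^ 2 + 3 * x + 3)) := fun n hn hk => by
    exact_mod_cast ((hp n ((Nat.Prime.coprime_iff_not_dvd Nat.prime_three).2
      fun h => hn (Nat.mod_eq_zero_of_dvd h)).symm).pow_right 6).dvd_of_dvd_mul_left (hk.trans h)
  rcases show k = x * (x + 3) ∨ k = x ^ 2 + 3 * x + 1 ∨ k = (x + 1) * (x + 2) by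
    have : x * (x + 3) = x ^ 2 + 3 * x := by ring
    have : (x + 1) * (x + 2) = x ^ 2 + 3 * x + 2 := by ring
    omega with rfl | rfl | rfl
  · obtain ⟨c, hc⟩ := key (x + 3) (by omega) (dvd_mul_left _ _)
    have : (x + 3 : ℤ) ∣ 27 := ⟨c - (x ^ 3 + 3 * x - 9), by push_cast at hc; linear_combination hc⟩
    have := Int.le_of_dvd (by norm_num) this
    omega
  · obtain ⟨c, hc⟩ := key _ (by rw [sq, Nat.add_mod, Nat.add_mod (x * x), Nat.mul_mod, show x % 3 = 2 by omega]; simp)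
      dvd_rfl
    have : (x ^ 2 + 3 * x + 1 : ℤ) ∣ 6 * x + 2 := ⟨x ^ 2 + 2 - c, by push_cast at hc; linear_combination -hc⟩
    have := Int.le_of_dvd (by positivity) this
    nlinarith
  · obtain ⟨c, hc⟩ := key (x + 2) (by omega) (dvd_mul_left _ _)
    have : (x + 2 : ℤ) ∣ 4 := ⟨c - (x ^ 3 + x ^ 2 + x - 2), by push_cast at hc; linear_combination hc⟩
    have := Int.le_of_dvd (by norm_num) this
    omega

theorem min_G2 (k : ℕ) (ρ : Representation ℂ (chevG2.group K) (Fin k → ℂ)) (hρ : ρ.IsIrreducible) (hk : 2 ≤ k) :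
    (Fintype.card K % 3 = 1 → 4 < Fintype.card K → Fintype.card K ^ 3 + 1 ≤ k) ∧
    (Fintype.card K % 3 = 2 → 2 < Fintype.card K → Fintype.card K ^ 3 - 1 ≤ k) ∧
    (Fintype.card K % 3 = 0 → 3 < Fintype.card K → Fintype.card K ^ 4 + Fintype.card K ^ 2 + 1 ≤ k) := by
  classical
  by_cases hq : Fintype.card K ≤ 2
  · omega
  have := (S1055.result (F := K) (by
    obtain ⟨s, -, hs⟩ := exists_mem_notMem_of_card_lt_card (s := {0, 1}) (t := univ (α := K))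
      (card_le_two.trans_lt (not_le.1 hq))
    exact ⟨s, by simpa using hs⟩)).1
  have hd := S0135.result ρ
  rw [S1059.result rfl, Module.finrank_fin_fun] at hd
  obtain ⟨E, _, _, _, σ, h4, rfl, h5⟩ := exists_uni ρ hρ hk
  obtain ⟨p, hp⟩ := CharP.exists K
  obtain ⟨n, pp, hn⟩ := FiniteField.card K p
  have h3 : Fintype.card K % 3 ≠ 0 → (3 : K) ≠ 0 := fun h e0 => h (by
    rw [hn, ← (Nat.prime_dvd_prime_iff_eq pp Nat.prime_three).1 ((CharP.cast_eq_zero_iff K p 3).1 e0)]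
    exact Nat.mod_eq_zero_of_dvd (dvd_pow_self _ n.ne_zero))
  refine ⟨fun h1 h2 => not_lt.1 fun hc => (min_G2_ne h4 h5 (h3 (by omega)) h2 (by omega)).2 h1,
    fun h1 h2 => not_lt.1 fun hc => hc.not_ge (min_G2_ne h4 h5 (h3 (by omega)) (by omega) (by omega)).1,
    fun h1 h2 => ?_⟩
  obtain rfl : 3 = p := (Nat.prime_dvd_prime_iff_eq Nat.prime_three pp).1
    (Nat.prime_three.dvd_of_dvd_pow (hn ▸ Nat.dvd_of_mod_eq_zero h1))
  have h9 : 9 ≤ Fintype.card K := by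
    rw [hn] at h2 ⊢
    exact Nat.pow_le_pow_right (n := 3) (i := 2) (by norm_num)
      ((Nat.pow_lt_pow_iff_right (by norm_num)).1 ((pow_one 3).trans_lt h2))
  exact not_dvd_G2 h9 h1 (fun m hm => hn ▸ hm.pow_right _) (g3.bound h4 h5 h9) hd

end Cfsg.Agent.H23.MD
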