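import Cfsg.Agent.H42.N7Defs
import Cfsg.Agent.H42.LTEU

/-! Project N7, piece CE: type E on both sides when `T = ⟨t⟩ × D₈`. -/

set_option autoImplicit false
set_option linter.unusedSectionVars false

namespace Cfsg.Agent.H23.N7E

open Subgroup Cfsg.Agent.H85 Cfsg.Agent.H42.N7
open Cfsg.Agent.H3.LTB (cn_comm cn_mul cn_mul' cn_mem mem_N mem_N_closure N_sup cn_inj cn_one)
open Cfsg.Agent.H42.LT (mem_sup_inv card_sup_inv ea_closure ea_sup ea_p four_cases)
open scoped commutatorElement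

universe u

variable {G : Type u} [Group G]

theorem cls_step {Γ : Set G} {Z : Subgroup G} (hZ : ∀ z ∈ Z, ∀ u ∈ closure Γ, Commute z u) {q : G}
    (h : ∀ p ∈ Γ, p⁻¹ * q⁻¹ * p * q ∈ Z) : ∀ p ∈ closure Γ, p⁻¹ * q⁻¹ * p * q ∈ Z := by
  intro p hp
  induction hp using closure_induction with
  | mem x hx => exact h x hx
  | one => simp
  | mul x y _ hy a b =>
    have e := (hZ _ a y hy).eq
    have : (x * y)⁻¹ * q⁻¹ * (x * y) * q = (x⁻¹ * q⁻¹ * x * q) * (y⁻¹ * q⁻¹ * y * q) := by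
      calc _ = y⁻¹ * ((x⁻¹ * q⁻¹ * x * q) * y) * (y⁻¹ * q⁻¹ * y * q) := by group
        _ = _ := by rw [e]; group
    exact this ▸ mul_mem a b
  | inv x hx a =>
    have e := (hZ _ (inv_mem a) x hx).eq
    have : x⁻¹⁻¹ * q⁻¹ * x⁻¹ * q = (x⁻¹ * q⁻¹ * x * q)⁻¹ := by
      calc _ = (x * (x⁻¹ * q⁻¹ * x * q)⁻¹) * x⁻¹ := by group
        _ = _ := by rw [← e]; group
    exact this ▸ inv_mem a

theorem cls_two {Γ : Set G} {Z : Subgroup G} (hZ : ∀ z ∈ Z, ∀ u ∈ closure Γ, Commute z u)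
    (h : ∀ q ∈ Γ, ∀ p ∈ Γ, p⁻¹ * q⁻¹ * p * q ∈ Z) :
    ∀ p ∈ closure Γ, ∀ q ∈ closure Γ, p⁻¹ * q⁻¹ * p * q ∈ Z := by
  intro p hp q hq
  have := inv_mem (cls_step hZ (q := p) (fun q hq => by
    simpa [mul_assoc] using inv_mem (cls_step hZ (h q hq) p hp)) q hq)
  simpa [mul_assoc] using this

theorem comm_one {p q : G} (h : Commute p q) (Z : Subgroup G) : p⁻¹ * q⁻¹ * p * q ∈ Z := by
  rw [mul_assoc, h.eq]; simp

theorem comm_symm {p q : G} {Z : Subgroup G} (h : p⁻¹ * q⁻¹ * p * q ∈ Z) :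
    q⁻¹ * p⁻¹ * q * p ∈ Z := by
  simpa [mul_assoc] using inv_mem h

theorem comm_cn {p q c : G} {Z : Subgroup G} (h : cn p q = p * c) (hc : c ∈ Z) :
    p⁻¹ * q⁻¹ * p * q ∈ Z := by
  rwa [mul_assoc, mul_assoc, ← mul_assoc q⁻¹, show q⁻¹ * p * q = p * c from h, inv_mul_cancel_left]

theorem iv {p : G} (h : p * p = 1) : p⁻¹ = p := inv_eq_of_mul_eq_one_right h

/-- `p ^ q = p c` gives `q ^ p = q c` -/
theorem cn_swap {p q c : G} (pp : p * p = 1) (qq : q * q = 1) (h : cn p q = p * c)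
    (hc : Commute c p) : cn q p = q * c := by
  rw [cn, iv qq] at h
  have e : p * q = q * (p * c) := by rw [← h, mul_assoc q, ← mul_assoc q q, qq, one_mul]
  rw [cn, iv pp, e, mul_assoc, mul_assoc, hc.eq, ← mul_assoc p, pp, one_mul]

def ZU (z x : G) : Subgroup G := closure {z, x}
def KK (z x a m : G) : Subgroup G := ZU z x ⊔ zpowers a ⊔ zpowers m
def UU (z x a m b n : G) : Subgroup G := closure {z, x, a, m, b, n}

theorem UU_eq (z x a m b n : G) : UU z x a m b n = KK z x a m ⊔ zpowers b ⊔ zpowers n := by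
  simp only [UU, KK, ZU, zpowers_eq_closure, ← Subgroup.closure_union]
  congr 1; ext; simp only [Set.mem_union, Set.mem_insert_iff, Set.mem_singleton_iff]; tauto

theorem UU_eq' (z x a m b n : G) : UU z x a m b n = KK z x a m ⊔ KK z x b n := by
  simp only [UU, KK, ZU, zpowers_eq_closure, ← Subgroup.closure_union]
  congr 1; ext; simp only [Set.mem_union, Set.mem_insert_iff, Set.mem_singleton_iff]; tauto

theorem ZU_eq (z x : G) : ZU z x = zpowers z ⊔ zpowers x := by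
  simp only [ZU, zpowers_eq_closure, ← Subgroup.closure_union]; rfl

variable {t z x a b m n : G}

theorem zZ : z ∈ ZU z x := subset_closure (by simp)
theorem xZ : x ∈ ZU z x := subset_closure (by simp)
theorem ZK : ZU z x ≤ KK z x a m := le_sup_left.trans le_sup_left
theorem aK : a ∈ KK z x a m := mem_sup_left (mem_sup_right (mem_zpowers a))
theorem mK : m ∈ KK z x a m := mem_sup_right (mem_zpowers m)
theorem K1U : KK z x a m ≤ UU z x a m b n := UU_eq' z x a m b n ▸ le_sup_left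
theorem K2U : KK z x b n ≤ UU z x a m b n := UU_eq' z x a m b n ▸ le_sup_right

/-- The relations. -/
structure Rel (t z x a b m n : G) : Prop where
  tt : t * t = 1
  zz : z * z = 1
  xx : x * x = 1
  aa : a * a = 1
  bb : b * b = 1
  mm : m * m = 1
  nn : n * n = 1
  z1 : z ≠ 1
  tz : Commute t z
  ta : Commute t a
  tb : Commute t b
  tx : cn t x = t * z
  xz : Commute x z
  xa : Commute x a
  xb : Commute x b
  xm : Commute x m
  xn : Commute x n
  za : Commute z a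
  zb : Commute z b
  zm : Commute z m
  zn : Commute z n
  ab : cn a b = a * z
  am : Commute a m
  bn : Commute b n
  tm : cn t m = t * a
  bm : cn b m = b * x
  tn : cn t n = t * b
  an : cn a n = a * x
  mn : m * n * m * n ∈ ZU z x

namespace Rel

variable (R : Rel t z x a b m n)
include R

theorem ba : cn b a = b * z := cn_swap R.aa R.bb R.ab R.za

theorem mir : Rel t z x b a n m :=
  { R with
    aa := R.bb, bb := R.aa, mm := R.nn, nn := R.mm, ta := R.tb, tb := R.ta, xa := R.xb, xb := R.xa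
    xm := R.xn, xn := R.xm, za := R.zb, zb := R.za, zm := R.zn, zn := R.zm, ab := R.ba
    am := R.bn, bn := R.am, tm := R.tn, bm := R.an, tn := R.tm, an := R.bm
    mn := by simpa [iv R.mm, iv R.nn, mul_assoc] using inv_mem R.mn }

theorem xt : cn x t = x * z := cn_swap R.tt R.xx R.tx R.tz.symm

theorem memZ {c : G} (hc : c ∈ ZU z x) : c = 1 ∨ c = z ∨ c = x ∨ c = z * x := by
  obtain ⟨d, hd, e⟩ := four_cases (Z := ⊥) (p := z) (q := x) (x := c) (by simp) (by simp) R.zz R.xx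
    R.xz.symm (by rwa [bot_sup_eq, ← ZU_eq])
  simpa [mem_bot.1 hd] using e

theorem nxt : ¬ Commute x t := fun c => R.z1 (by simpa [cn_comm c] using R.xt)

theorem nzxt : ¬ Commute (z * x) t := fun c =>
  R.nxt (by simpa using R.tz.symm.inv_left.mul_left c)

theorem cZa {c : G} (hc : c ∈ ZU z x) : Commute c a := by
  rcases R.memZ hc with rfl | rfl | rfl | rfl
  exacts [Commute.one_left _, R.za, R.xa, R.za.mul_left R.xa]

theorem cZm {c : G} (hc : c ∈ ZU z x) : Commute c m := by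
  rcases R.memZ hc with rfl | rfl | rfl | rfl
  exacts [Commute.one_left _, R.zm, R.xm, R.zm.mul_left R.xm]

theorem eaZ : EA (ZU z x) := ea_closure (by rintro v (rfl | rfl); exacts [R.zz, R.xx]) (by
  rintro v (rfl | rfl) w (rfl | rfl)
  exacts [Commute.refl _, R.xz.symm, R.xz, Commute.refl _])

theorem memK {k : G} (hk : k ∈ KK z x a m) :
    ∃ c ∈ ZU z x, k = c ∨ k = c * a ∨ k = c * m ∨ k = c * a * m :=
  four_cases (fun _ => R.cZa) (fun _ => R.cZm) R.aa R.mm R.am hk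

theorem eaK : EA (KK z x a m) := ea_sup (ea_sup R.eaZ R.aa fun _ => R.cZa) R.mm fun v hv => by
  rcases mem_sup_inv (centralizer_le_normalizer _ fun c hc => R.cZa hc) R.aa hv with e | e
  · exact R.cZm e
  · simpa [mul_assoc, R.aa] using (R.cZm e).mul_left R.am

theorem c1 {u v : G} (hu : u ∈ KK z x a m) (hv : v ∈ KK z x a m) : Commute u v :=
  H3.LTB.EA.comm R.eaK hu hv

theorem cZ {c u : G} (hc : c ∈ ZU z x) (hu : u ∈ UU z x a m b n) : Commute c u :=
  (mem_centralizer_singleton_iff.1 ((UU_eq' z x a m b n ▸ sup_le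
    (fun _ hv => mem_centralizer_singleton_iff.2 (R.c1 hv (ZK hc)))
    (fun _ hv => mem_centralizer_singleton_iff.2 (R.mir.c1 hv (ZK hc))) :
      UU z x a m b n ≤ centralizer {c}) hu)).symm

/-- the action of `K₁` on `b` -/
theorem act {k : G} (hk : k ∈ KK z x a m) : ∃ δ ∈ ZU z x, cn b k = b * δ ∧
    (Commute δ t → ∃ c ∈ ZU z x, k = c ∧ δ = 1 ∨ k = c * a ∧ δ = z) := by
  obtain ⟨c, hc, e⟩ := R.memK hk
  have e1 : cn b c = b := cn_comm (R.mir.cZa hc).symm
  rcases e with rfl | rfl | rfl | rfl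
  · exact ⟨1, one_mem _, by rw [e1, mul_one], fun _ => ⟨_, hc, Or.inl ⟨rfl, rfl⟩⟩⟩
  · exact ⟨_, zZ, by rw [cn_mul, e1, R.ba], fun _ => ⟨_, hc, Or.inr ⟨rfl, rfl⟩⟩⟩
  · exact ⟨_, xZ, by rw [cn_mul, e1, R.bm], fun k => absurd k R.nxt⟩
  · exact ⟨_, mul_mem zZ xZ, by
      rw [cn_mul, cn_mul, e1, R.ba, cn_mul', R.bm, cn_comm R.zm, mul_assoc, R.xz.eq],
      fun k => absurd k R.nzxt⟩

theorem Z_of {k : G} (hk : k ∈ KK z x a m) (c : Commute b k) : k ∈ ZU z x := by
  obtain ⟨δ, -, e, l⟩ := R.act hk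
  have : δ = 1 := by simpa [cn_comm c] using e
  obtain ⟨c, hc, ⟨rfl, -⟩ | ⟨-, e2⟩⟩ := l (this ▸ Commute.one_left t)
  exacts [hc, absurd (e2.symm.trans this) R.z1]

theorem nab : ¬ Commute a b := fun c => R.z1 (by simpa [cn_comm c] using R.ab)

theorem tU : t ∉ UU z x a m b n := fun e => R.nxt (R.cZ xZ e)

theorem mb : cn m b = m * x := cn_swap R.bb R.mm R.bm R.xb

theorem mn' : cn m n = m * (m * n * m * n) := by
  rw [cn, iv R.nn, mul_assoc m n, mul_assoc m, ← mul_assoc m m, R.mm, one_mul]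

theorem mt : cn m t = m * a := cn_swap R.tt R.mm R.tm R.ta.symm

theorem cls : ∀ p ∈ UU z x a m b n, ∀ q ∈ UU z x a m b n, p⁻¹ * q⁻¹ * p * q ∈ ZU z x := by
  have z1 := comm_cn R.ab (zZ (x := x))
  have z2 := comm_cn R.bm (xZ (z := z))
  have z3 := comm_cn R.an (xZ (z := z))
  have z4 := comm_cn R.mn' R.mn
  refine cls_two (fun _ hc _ => R.cZ hc) fun q hq p hp => ?_
  have hq' : q ∈ UU z x a m b n := subset_closure hq
  have hp' : p ∈ UU z x a m b n := subset_closure hp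
  simp only [Set.mem_insert_iff, Set.mem_singleton_iff] at hp hq
  rcases hp with k | k | k | k | k | k
  · exact comm_one (R.cZ (k ▸ zZ) hq') _
  · exact comm_one (R.cZ (k ▸ xZ) hq') _
  all_goals
    rcases hq with l | l | l | l | l | l
    · exact comm_one (R.cZ (l ▸ zZ) hp').symm _
    · exact comm_one (R.cZ (l ▸ xZ) hp').symm _
    all_goals rw [k, l]
  exacts [comm_one (Commute.refl _) _, comm_one R.am _, z1, z3, comm_one R.am.symm _,
    comm_one (Commute.refl _) _, comm_symm z2, z4, comm_symm z1, z2, comm_one (Commute.refl _) _,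
    comm_one R.bn _, comm_symm z3, comm_symm z4, comm_one R.bn.symm _, comm_one (Commute.refl _) _]

variable [Finite G]

theorem UN : UU z x a m b n ≤ normalizer (KK z x a m : Set G) := fun u hu => mem_N fun k hk => by
  have := mul_mem hk (ZK (R.cls k (K1U hk) u hu))
  simpa [mul_assoc] using this

theorem memU {u : G} (hu : u ∈ UU z x a m b n) :
    ∃ k ∈ KK z x a m, ∃ l ∈ KK z x b n, k * l = u :=
  (mem_sup_of_le_normalizer (K2U.trans R.UN)).1 (UU_eq' z x a m b n ▸ hu)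

theorem tN : t ∈ normalizer (UU z x a m b n : Set G) := mem_N_closure (by
  have aU : a ∈ UU z x a m b n := K1U aK
  have bU : b ∈ UU z x a m b n := K2U aK
  rintro v (rfl | rfl | rfl | rfl | rfl | rfl)
  exacts [(cn_comm R.tz.symm).symm ▸ K1U (ZK zZ), R.xt ▸ K1U (ZK (mul_mem xZ zZ)),
    (cn_comm R.ta.symm).symm ▸ aU, R.mt ▸ mul_mem (K1U mK) aU, (cn_comm R.tb.symm).symm ▸ bU,
    R.mir.mt ▸ mul_mem (K2U mK) bU])

theorem cardZ : Nat.card (ZU z x) = 4 := by
  have o : orderOf z = 2 := orderOf_eq_prime (by rw [pow_two, R.zz]) R.z1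
  rw [ZU_eq, card_sup_inv (centralizer_le_normalizer _ (by
    rintro _ ⟨n, rfl⟩; exact (R.xz.symm.zpow_left n).eq)) R.xx fun k => by
      obtain ⟨j, k⟩ := mem_zpowers_iff.1 k
      exact R.nxt (k ▸ R.tz.symm.zpow_left j), Nat.card_zpowers, o]

theorem cardK : Nat.card (KK z x a m) = 16 := by
  have na : a ∈ normalizer (ZU z x : Set G) := centralizer_le_normalizer _ fun _ k => R.cZa k
  have le : ZU z x ⊔ zpowers a ≤ KK z x a m := le_sup_left
  suffices k : m ∉ ZU z x ⊔ zpowers a by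
    rw [KK, card_sup_inv (centralizer_le_normalizer _ fun _ k => R.c1 (le k) mK) R.mm k,
      card_sup_inv na R.aa fun k => R.nab (R.mir.cZa k), R.cardZ]
  intro k
  rcases mem_sup_inv na R.aa k with k | k <;> have := cn_comm (R.mir.cZa k).symm
  · rw [R.bm, mul_eq_left] at this
    exact R.nxt (this ▸ Commute.one_left t)
  · rw [cn_mul, R.bm, cn_mul', R.ba, cn_comm R.xa, mul_assoc, mul_eq_left] at this
    exact R.nzxt (this ▸ Commute.one_left t)

theorem cardU : Nat.card (UU z x a m b n) = 64 := by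
  have bN := R.UN (K2U aK)
  have nN := R.UN (K2U mK)
  suffices k : n ∉ KK z x a m ⊔ zpowers b by
    rw [UU_eq, card_sup_inv (N_sup (fun v hv => mem_sup_left (cn_mem nN hv))
      ((cn_comm R.bn).symm ▸ mem_sup_right (mem_zpowers _))) R.nn k,
      card_sup_inv bN R.bb fun k => R.nab (R.c1 aK k), R.cardK]
  intro k
  rcases mem_sup_inv bN R.bb k with k | k <;> have := cn_comm (R.c1 aK k)
  · rw [R.an, mul_eq_left] at this
    exact R.nxt (this ▸ Commute.one_left t)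
  · rw [cn_mul, R.an, cn_mul', R.ab, cn_comm R.xb, mul_assoc, mul_eq_left] at this
    exact R.nzxt (this ▸ Commute.one_left t)

/-- an involution of `U` lies in an elementary subgroup of order `16` -/
theorem inv_U {u : G} (hu : u ∈ UU z x a m b n) (uu : u * u = 1) :
    ∃ A : Subgroup G, EA A ∧ u ∈ A ∧ Nat.card A = 16 := by
  obtain ⟨k, hk, l, hl, rfl⟩ := R.memU hu
  by_cases k1 : k ∈ ZU z x
  · exact ⟨_, R.mir.eaK, mul_mem (ZK k1) hl, R.mir.cardK⟩
  by_cases l1 : l ∈ ZU z x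
  · exact ⟨_, R.eaK, mul_mem hk (ZK l1), R.cardK⟩
  have kk := R.eaK k hk
  have ll := R.mir.eaK l hl
  have c : Commute k l := by
    have := eq_inv_of_mul_eq_one_left uu
    rwa [mul_inv_rev, iv kk, iv ll] at this
  have le : ZU z x ⊔ zpowers k ≤ KK z x a m := sup_le ZK (zpowers_le_of_mem hk)
  have cl : ∀ y ∈ ZU z x ⊔ zpowers k, Commute y l := fun y hy => mem_centralizer_singleton_iff.1
    ((sup_le (fun v hv => mem_centralizer_singleton_iff.2 (R.cZ hv (K2U hl)))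
      (zpowers_le_of_mem (mem_centralizer_singleton_iff.2 c)) : _ ≤ centralizer {l}) hy)
  refine ⟨ZU z x ⊔ zpowers k ⊔ zpowers l, ea_sup (fun x hx => R.eaK x (le hx)) ll cl,
    mul_mem (mem_sup_left (mem_sup_right (mem_zpowers _))) (mem_sup_right (mem_zpowers _)), ?_⟩
  rw [card_sup_inv (centralizer_le_normalizer _ fun x hx => cl x hx) ll fun e =>
    l1 (R.mir.Z_of hl (R.c1 aK (le e))), card_sup_inv
    (centralizer_le_normalizer _ fun x hx => R.cZ hx (K1U hk)) kk k1, R.cardZ]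

theorem tcos0 {c : G} (hc : c ∈ ZU z x) (e : (t * c) * (t * c) = 1) :
    ∃ v ∈ ZU z x, cn t v = t * c := by
  have c0 : Commute t c := by
    have := eq_inv_of_mul_eq_one_left e
    rwa [mul_inv_rev, iv R.tt, iv (R.eaZ c hc)] at this
  rcases R.memZ hc with rfl | rfl | rfl | rfl
  · exact ⟨1, one_mem _, by simp⟩
  · exact ⟨_, xZ, R.tx⟩
  · exact (R.nxt c0.symm).elim
  · exact (R.nzxt c0.symm).elim

/-- the involutions of `t U` -/
theorem tcos {u : G} (hu : u ∈ UU z x a m b n) (e : (t * u) * (t * u) = 1) :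
    ∃ v ∈ UU z x a m b n, cn t v = t * u := by
  have fix : ∀ {s δ : G}, Commute t s → δ ∈ ZU z x → cn s u = s * δ → Commute δ t :=
    fun {s δ} c hδ k => by
      have k1 : cn s (t * u) = s * δ := by rw [cn_mul, cn_comm c.symm, k]
      have k2 : cn (cn s (t * u)) (t * u) = s := by rw [← cn_mul, e]; simp
      rw [k1, cn_mul', k1, mul_assoc, mul_eq_left, cn_mul] at k2
      have k3 := (eq_inv_of_mul_eq_one_right k2).trans (iv (R.eaZ δ hδ))
      exact H3.LTB.comm_of_cn (cn_inj (k3.trans (cn_comm (R.cZ hδ hu)).symm))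
  have key : ∀ v ∈ UU z x a m b n, ∀ c ∈ ZU z x, t * u = cn t v * c →
      ∃ v ∈ UU z x a m b n, cn t v = t * u := fun v hv c hc k => by
    have k1 : cn (t * c) v = t * u := by rw [cn_mul', cn_comm (R.cZ hc hv), k]
    obtain ⟨v', hv', l⟩ := R.tcos0 hc (cn_one (g := v) (by rw [cn_mul', k1, e]))
    exact ⟨_, mul_mem (K1U (ZK hv')) hv, by rw [cn_mul, l, k1]⟩
  obtain ⟨k, hk, l, hl, rfl⟩ := R.memU hu
  obtain ⟨δ, hδ, e1, l1⟩ := R.act hk
  obtain ⟨ε, hε, e2, l2⟩ := R.mir.act hl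
  obtain ⟨c, hc, m1⟩ := l1 (fix R.tb hδ (by
    rw [cn_mul, e1, cn_comm (R.mir.c1 (mul_mem aK (ZK hδ)) hl)]))
  obtain ⟨d, hd, m2⟩ := l2 (fix R.ta hε (by rw [cn_mul, cn_comm (R.c1 aK hk), e2]))
  rcases m1 with ⟨rfl, -⟩ | ⟨rfl, -⟩ <;> rcases m2 with ⟨rfl, -⟩ | ⟨rfl, -⟩
  · exact key 1 (one_mem _) _ (mul_mem hc hd) (by simp)
  · refine key _ (K2U mK) _ (mul_mem hc hd) ?_
    rw [R.tn, ← mul_assoc k, (R.mir.cZa (mul_mem hc hd)).eq, mul_assoc t]
  · refine key _ (K1U mK) _ (mul_mem hc hd) ?_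
    rw [R.tm, (R.cZa hc).eq, mul_assoc t, mul_assoc a]
  · refine key _ (mul_mem (K1U mK) (K2U mK)) _
      (mul_mem (inv_mem xZ) (mul_mem zZ (mul_mem hc hd))) ?_
    have ab : a * b = b * (a * z) := by rw [← R.ab]; simp [mul_assoc]
    rw [cn_mul, R.tm, cn_mul', R.tn, R.an, (R.cZa hc).eq, mul_assoc a, ← mul_assoc c,
      (R.mir.cZa (mul_mem hc hd)).eq, ← mul_assoc a, ab]
    simp only [mul_assoc, mul_inv_cancel_left]

end Rel

/-- The end of the argument. -/
theorem fin [Finite G] (c2 : Cl2Stmt.{u}) (h : C1 G) (K : Kit1 h) {x m n : G}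
    (R : Rel h.t h.z x h.a h.b m n) (xX : x ∈ h.X) (mX : m ∈ h.X) (nX : n ∈ h.X) : False := by
  set U := UU h.z x h.a m h.b n with hU
  have nD : ∀ u ∈ U, ¬ IsConj h.t u := fun u hu e => by
    have uu : u * u = 1 := by
      obtain ⟨c, rfl⟩ := isConj_iff.1 e
      rw [conj_mul, h.tt, mul_one, mul_inv_cancel]
    obtain ⟨A, h1, h2, h3⟩ := R.inv_U hu uu
    obtain ⟨g, -, e2⟩ := K.into u A e (ea_p h1)
      fun y hy => mem_centralizer_singleton_iff.2 (H3.LTB.EA.comm h1 hy h2)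
    have := K.rk (cj g⁻¹ A) (fun y hy => by simpa [mul_assoc] using e2 _ (mem_cj.1 hy))
      fun y hy => cn_one (g := g⁻¹) (by rw [cn_mul']; exact h1 _ (mem_cj.1 hy))
    rw [card_cj] at this
    omega
  have cS : Nat.card (U ⊔ zpowers h.t : Subgroup G) = 2 * 64 := by
    rw [card_sup_inv R.tN h.tt R.tU, R.cardU]
  have tT : h.t ∈ U ⊔ zpowers h.t := mem_sup_right (mem_zpowers _)
  have TS : h.T ≤ U ⊔ zpowers h.t := by
    rw [h.hT, closure_le]
    rintro _ (rfl | rfl | rfl)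
    exacts [tT, mem_sup_left (K1U aK), mem_sup_left (K2U aK)]
  have dec : ∀ y ∈ U ⊔ zpowers h.t, y ∈ U ∨ h.t * y ∈ U := fun y hy =>
    (mem_sup_inv R.tN h.tt hy).imp id fun e => by
      have := cn_mem R.tN e
      rwa [cn, iv h.tt, mul_assoc, mul_assoc, h.tt, mul_one] at this
  have cj_conj : ∀ g : G, IsConj h.t (cn h.t g) := fun g => isConj_iff.2 ⟨g⁻¹, by simp [cn]⟩
  have syl : IsSyl 2 (U ⊔ zpowers h.t) ⊤ := by
    refine ⟨le_top, IsPGroup.of_card (n := 7) cS, fun S hS hle _ => ?_⟩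
    by_contra c
    obtain ⟨g, -, -, gn, -, hne⟩ := K.climb _ S hS tT (lt_of_le_of_ne hle (Ne.symm c))
      ((h.syl.eq_of_le (hS.to_le inf_le_left) (le_inf (TS.trans hle) h.syl.le)
        inf_le_right).le.trans TS)
    rcases dec _ (cn_mem gn tT) with k | k
    · exact nD _ k (cj_conj g)
    have e : h.t * (h.t * cn h.t g) = cn h.t g := by rw [← mul_assoc, h.tt, one_mul]
    obtain ⟨v, hv, k1⟩ := R.tcos k (by rw [e, ← cn_mul', h.tt]; simp [cn])
    exact hne v (mem_sup_left hv) (e.symm.trans k1.symm)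
  have idx : U.relIndex (U ⊔ zpowers h.t) = 2 := by
    refine (index_eq_two_iff').2 ⟨⟨h.t, tT⟩, fun y => ?_⟩
    simp only [mem_subgroupOf, coe_mul]
    by_cases c : (y : G) ∈ U
    · refine Or.inr ⟨c, fun k => R.tU ?_⟩
      simpa using mul_mem k (inv_mem c)
    · exact Or.inl ⟨(dec _ y.2).resolve_left c, c⟩
  have tX := K.trT _ U syl le_sup_left idx fun g c => nD _ c (cj_conj g)
  have UX : U ≤ h.X := by
    refine (closure_le _).2 ?_
    rintro _ (rfl | rfl | rfl | rfl | rfl | rfl)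
    exacts [K.aX.2.2, xX, K.aX.1, mX, K.aX.2.1, nX]
  have SU : (U ⊔ zpowers h.t) ⊓ h.X = U := by
    refine le_antisymm (fun y hy => (dec y hy.1).resolve_right fun c => tX ?_)
      (le_inf le_sup_left UX)
    simpa using mul_mem (UX c) (inv_mem hy.2)
  have sX := K.sylX _ syl
  rw [SU] at sX
  exact c2 G h.toBase sX.toSylow (by
      rw [IsSyl.coe_toSylow, Nat.card_congr (subgroupOfEquivOfLe UX).toEquiv, R.cardU])
    (fun c => R.nab (congrArg (fun x => ((x : h.X) : G)) (congrArg Subtype.val (c.is_comm.comm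
      ⟨⟨h.a, K.aX.1⟩, K1U aK⟩ ⟨⟨h.b, K.aX.2.1⟩, K2U aK⟩))))
    (commutator_le.2 fun a _ b _ => mem_center_iff.2 fun c => Subtype.ext (Subtype.ext (by
      have := R.cZ (R.cls _ (inv_mem a.2) _ (inv_mem b.2)) c.2
      simpa [commutatorElement_def] using this.symm.eq)))

open H36.LTS (B1 SN cm_of) in
theorem side {r l : G} (B : B1 t z 1 a b) (N : SN t z 1 a b r x m l) (e : m * l = x) :
    m * m = 1 ∧ Commute x m ∧ Commute z m ∧ Commute a m ∧ cn t m = t * a ∧ cn b m = b * x := by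
  have mm := N.mm
  have A := N.Am B
  have e1 : l = m * x := by rw [← e, ← mul_assoc, mm, one_mul]
  have xm : Commute x m := by
    have := iv N.ll
    rwa [e1, mul_inv_rev, iv N.xx, iv mm] at this
  exact ⟨mm, xm, cm_of A.hz, cm_of A.ha, A.ht, cn_swap mm B.bb (N.mb.trans e1) xm⟩

/-- **CE** -/
theorem ce (k1 : Kit1Stmt.{u}) (c2 : Cl2Stmt.{u}) : CEStmt.{u} := by
  intro G _ _ h e1 e2
  have K := k1 G h.toC1
  have ba : cn h.b h.a = h.b * h.z := cn_swap h.aa h.bb h.ab h.za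
  obtain ⟨mm, xm, zm, am, tm, bm⟩ := side ⟨h.tt, h.zz, one_mul 1, h.aa, h.bb, K.tz.symm,
    Commute.one_left _, h.ta.symm, h.tb, Commute.one_left _, h.za.symm, h.zb, Commute.one_right _,
    Commute.one_left _, h.ab.trans h.za.eq.symm⟩ h.N1 e1
  obtain ⟨nn, xn, zn, bn, tn, an⟩ := side ⟨h.tt, h.zz, one_mul 1, h.bb, h.aa, K.tz.symm,
    Commute.one_left _, h.tb.symm, h.ta, Commute.one_left _, h.zb.symm, h.za, Commute.one_right _,
    Commute.one_left _, ba.trans h.zb.eq.symm⟩ h.N2 e2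
  have xz : Commute h.x h.z := (H36.LTS.cm_of h.N1.A.hz).symm
  have xX : h.x ∈ h.X := by
    have := K.cmX h.b h.m
    rwa [mul_assoc, mul_assoc, ← mul_assoc h.m⁻¹, show h.m⁻¹ * h.b * h.m = h.b * h.x from bm,
      inv_mul_cancel_left] at this
  have mX : h.m ∈ h.X := h.N1.xr ▸ h.Xn.conj_mem' _ xX _
  have nX : h.n ∈ h.X := h.N2.xr ▸ h.Xn.conj_mem' _ xX _
  obtain ⟨g, hg⟩ : ∃ g, g = h.m * h.n := ⟨_, rfl⟩
  have xg : Commute h.x g := hg ▸ xm.mul_right xn
  have zg : Commute h.z g := hg ▸ zm.mul_right zn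
  have ag : cn h.a g = h.a * h.x := by rw [hg, cn_mul, cn_comm am, an]
  have bg : cn h.b g = h.b * h.x := by rw [hg, cn_mul, bm, cn_mul', cn_comm bn, cn_comm xn]
  have tg : cn h.t g = h.t * h.b * (h.a * h.x) := by rw [hg, cn_mul, tm, cn_mul', tn, an]
  obtain ⟨c, hc⟩ : ∃ c, c = g * g * h.x := ⟨_, rfl⟩
  have xc : Commute h.x c := hc ▸ (xg.mul_right xg).mul_right (Commute.refl _)
  have zc : Commute h.z c := hc ▸ (zg.mul_right zg).mul_right xz.symm
  have gc : Commute g c := hc ▸ ((Commute.refl g).mul_right (Commute.refl g)).mul_right xg.symm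
  have ac : Commute h.a c := H3.LTB.comm_of_cn (by
    rw [hc, cn_mul, cn_mul, ag, cn_mul' _ _ g, ag, cn_comm xg, mul_assoc, h.xx, mul_one,
      cn_comm h.xa.symm])
  have bc : Commute h.b c := H3.LTB.comm_of_cn (by
    rw [hc, cn_mul, cn_mul, bg, cn_mul' _ _ g, bg, cn_comm xg, mul_assoc, h.xx, mul_one,
      cn_comm h.xb.symm])
  have tc : Commute h.t c := H3.LTB.comm_of_cn (by
    have e : h.t * h.b * (h.a * h.x) * (h.b * h.x) * (h.a * h.x * h.x) = h.t * h.z := by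
      have e3 : h.b * h.a * h.b = h.a * h.z := by rw [← h.ab, cn, iv h.bb]
      rw [mul_assoc h.a h.x, h.xx, mul_one, mul_assoc _ (h.a * h.x), mul_assoc h.a, ← h.xb.eq,
        ← mul_assoc h.x, h.xx, one_mul, mul_assoc h.t, ← mul_assoc h.b, e3, mul_assoc h.t,
        ← h.za.eq, mul_assoc, h.aa, mul_one]
    rw [hc, cn_mul, cn_mul, tg, cn_mul' _ _ g, cn_mul' _ _ g, cn_mul' _ _ g, tg, bg, ag,
      cn_comm xg, e, cn_mul',
      h.tx, cn_comm xz.symm, mul_assoc, h.zz, mul_one])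
  have nc : h.n * c * h.n = c⁻¹ := by
    rw [hc, hg, mul_assoc, mul_assoc, xn.eq]
    simp only [mul_inv_rev, iv mm, iv nn, iv h.xx, mul_assoc]
    rw [← mul_assoc h.n h.n, nn, one_mul, ← xm.eq, ← mul_assoc h.n h.x, ← xn.eq, mul_assoc h.x,
      ← mul_assoc h.m h.x, ← xm.eq, mul_assoc h.x, ← mul_assoc h.n h.x, ← xn.eq, mul_assoc h.x]
  obtain ⟨k, q, ⟨j, rfl⟩, hq⟩ := Nat.exists_eq_two_pow_mul_odd (orderOf_pos g).ne'
  have c2p : (c ^ (2 * j + 1)) ^ 2 ^ (k + 1) = 1 := by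
    rw [← pow_mul, hc, (xg.mul_right xg).symm.mul_pow, ← pow_two, ← pow_mul,
      show 2 * ((2 * j + 1) * 2 ^ (k + 1)) = orderOf g * 4 by rw [hq]; ring, pow_mul,
      pow_orderOf_eq_one, one_pow, one_mul, show (2 * j + 1) * 2 ^ (k + 1) = 2 * ((2 * j + 1) * 2 ^ k)
        by ring, pow_mul, pow_two, h.xx, one_pow]
  have nxt : ¬ Commute h.t h.x := fun e => h.z1 (by simpa [cn_comm e] using h.tx)
  have cq : c ^ (2 * j + 1) ∈ ZU h.z h.x := by
    have := xc.pow_right (2 * j + 1)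
    rcases K.cenT _ _ c2p (tc.symm.pow_left _) (ac.symm.pow_left _) (bc.symm.pow_left _) with
      e | e | e | e <;> rw [e] at this ⊢
    exacts [one_mem _, zZ, (nxt this.symm).elim,
      (nxt (by simpa using (this.mul_right xz.inv_right).symm)).elim]
  refine fin c2 h.toC1 K (n := h.n * c ^ j) ⟨h.tt, h.zz, h.xx, h.aa, h.bb, mm, ?_, h.z1, K.tz, h.ta,
    h.tb, h.tx, xz, h.xa, h.xb, xm, xn.mul_right (xc.pow_right j), h.za, h.zb, zm,
    zn.mul_right (zc.pow_right j), h.ab, am, bn.mul_right (bc.pow_right j), tm, bm, ?_, ?_, ?_⟩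
    xX mX (mul_mem nX (pow_mem (hc ▸ hg ▸ mul_mem (mul_mem (mul_mem mX nX) (mul_mem mX nX)) xX) j))
  · have : h.n * c ^ j * h.n⁻¹ = (c ^ j)⁻¹ := by rw [← conj_pow, iv nn, nc, inv_pow]
    rw [iv nn] at this
    rw [← mul_assoc, this, inv_mul_cancel]
  · rw [cn_mul, tn, cn_comm ((tc.mul_left bc).pow_right j)]
  · rw [cn_mul, an, cn_comm ((ac.mul_left xc).pow_right j)]
  · have : h.m * (h.n * c ^ j) * h.m * (h.n * c ^ j) = c ^ (2 * j + 1) * h.x := by
      rw [mul_assoc, ← mul_assoc h.m, ← hg, (gc.pow_right j).symm.mul_mul_mul_comm, ← pow_add,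
        ← two_mul, pow_succ, ((gc.mul_left gc).pow_right _).eq, mul_assoc (c ^ (2 * j)),
        mul_right_inj, hc, mul_assoc _ h.x, h.xx, mul_one]
    exact this ▸ mul_mem cq xZ

end Cfsg.Agent.H23.N7E
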