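import Cfsg.Agent.H54.O84Defs

/-!
# The reflections of a `D₄`-frame on the torus `5⁴` give twelve roots
-/

set_option autoImplicit false

namespace Cfsg.Agent.H23.O84Cg1

open Cfsg.Agent.H54.O84 Equiv Multiplicative
open scoped Matrix

theorem eq_of_dot {y z : V} (h : ∀ x : V, x ⬝ᵥ y = x ⬝ᵥ z) : y = z := funext fun i => by
  simpa using h (Pi.single i 1)

theorem lam_self : ∀ k, lam k ⬝ᵥ lam k = 2 := by decide

theorem cg1 (hR : RhoStmt) (hW : WfStmt) : Cg1Stmt := by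
  intro Γ _ G b hb hr hn
  obtain ⟨-, hτ, -, -, -, -, hm, hsp, -, -⟩ := hR
  have h1 : ∀ y : V, ∃ x : V, b (ofAdd x) = G.a (ofAdd y) := fun y => by
    have : G.a (ofAdd y) ∈ b.range := hr ▸ ⟨_, rfl⟩
    exact this
  have h2 : ∀ x : V, ∃ y : V, G.a (ofAdd y) = b (ofAdd x) := fun x => by
    have : b (ofAdd x) ∈ G.a.range := hr ▸ ⟨_, rfl⟩
    exact this
  choose ψ0 hψ using h1
  choose e he using h2
  have hadd : ∀ x y, ψ0 (x + y) = ψ0 x + ψ0 y := fun x y => ofAdd.injective (hb (by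
    rw [ofAdd_add, map_mul, hψ, hψ, hψ, ofAdd_add, map_mul]))
  let ψ : V →ₗ[ZMod 5] V := (AddMonoidHom.mk' ψ0 hadd).toZModLinearMap 5
  have hψ' : ∀ y, b (ofAdd (ψ y)) = G.a (ofAdd y) := hψ
  have hψe : ∀ x, ψ (e x) = x := fun x => ofAdd.injective (hb ((hψ' _).trans (he x)))
  let l : Fin 12 → V := fun k i => ψ (Pi.single i 1) ⬝ᵥ lam k
  have hl : ∀ k y, y ⬝ᵥ l k = ψ y ⬝ᵥ lam k := fun k y => by
    conv_rhs => rw [pi_eq_sum_univ' y, map_sum, sum_dotProduct]
    simp only [map_smul, smul_dotProduct, smul_eq_mul]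
    rfl
  have h20 : (2 : ZMod 5) ≠ 0 := by decide
  have hel : ∀ k, e (lam k) ⬝ᵥ l k = 2 := fun k => by rw [hl, hψe, lam_self]
  have hl0 : ∀ k, l k ≠ 0 := fun k h => h20 (by rw [← hel k, h, dotProduct_zero])
  have key : ∀ k, ∃ r : Rt, m r = l k ∧ ∀ s,
      ((C8.R.pair r s + 2 * C8.R.pair (w r) s : ℤ) : ZMod 5) = e (lam k) ⬝ᵥ m s := fun k => by
    obtain ⟨n, hn⟩ := hn k
    have h3 : ∀ x : V, n * G.a (ofAdd x) * n⁻¹ = G.a (ofAdd (x - (x ⬝ᵥ l k) • e (lam k))) :=
      fun x => by rw [← hψ', ← hψ', hn, ψ.map_sub, ψ.map_smul, hψe, hl]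
    haveI : Finite (G.a.range : Set Γ) := (Set.finite_range G.a).to_subtype
    have hN : n ∈ Nz G.a := Subgroup.mem_normalizer_fintype (by
      rintro _ ⟨x, rfl⟩
      exact ⟨_, (h3 x.toAdd).symm⟩)
    have h4 : ∀ s, m (G.ν n s) = m s + (e (lam k) ⬝ᵥ m (G.ν n s)) • l k := fun s =>
      eq_of_dot fun x => by
        have := G.act n hN x _ (h3 x) s
        rw [sub_dotProduct, smul_dotProduct, smul_eq_mul] at this
        rw [dotProduct_add, dotProduct_smul, smul_eq_mul]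
        linear_combination this
    have h5 : ∀ c d : ZMod 5, c • l k = d • l k → c = d := fun c d h => by
      have := congrArg (e (lam k) ⬝ᵥ ·) h
      simp only [dotProduct_smul, hel, smul_eq_mul] at this
      linear_combination 3 * this - (c - d) * (by decide : (5 : ZMod 5) = 0)
    have hu := G.ν_mem n hN
    rcases hW _ (mem_CW.1 hu).1 (l k) (hl0 k) (fun s => ⟨_, h4 s⟩) with h | ⟨r, hr, h | h | h⟩
    · exfalso
      have h6 : e (lam k) = 0 := hsp _ fun s => h5 _ _ (by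
        have := h4 s
        rw [h, Perm.one_apply, left_eq_add] at this
        rw [this, zero_smul])
      exact h20 (by rw [← hel k, h6, zero_dotProduct])
    · exact absurd (h ▸ hu) (hτ _)
    · exact absurd (h ▸ hu) (hτ _)
    · refine ⟨r, hr, fun s => ?_⟩
      have h6 := h4 s
      rw [h, hm, hr, sub_eq_add_neg, add_right_inj, ← neg_smul] at h6
      have h7 := h5 _ _ h6
      rw [dotProduct_add, dotProduct_smul, hel, smul_eq_mul] at h7
      linear_combination h7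
  choose r hr1 hr2 using key
  refine ⟨r, fun k k' => by rw [hr2, hr1, hl, hψe], fun k g hg x hx => ?_⟩
  rw [hr1, hl] at hx
  exact Subgroup.mem_centralizer_iff.1 hg _ ⟨ψ x, hx, (hψ' x).symm⟩

end Cfsg.Agent.H23.O84Cg1
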