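import Mathlib
import Cfsg.Agent.H71.P3Defs

/-!
Rank three actions of symplectic groups: subgroups of index prime to the characteristic, and the
index of a point stabiliser.
-/

set_option autoImplicit false

namespace Cfsg.Agent.H23.P3Syl

open Cfsg Module Cfsg.Agent.H27 Cfsg.Agent.H71.P3
open scoped Pointwise

variable {F V : Type} [Field F] [AddCommGroup V] [Module F V]

theorem t_conj_mem (S : Sp F V) {K : Subgroup (V ≃ₗ[F] V)} (hK : K ≤ S.G) {g : V ≃ₗ[F] V}
    (hg : g ∈ K) {y : V} (hy : ∀ c, S.t y c ∈ K) (c : F) : S.t (g y) c ∈ K := by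
  rw [Sp.t, ← altTv_conj S.alt (hK hg)]
  exact mul_mem (mul_mem hg (hy c)) (inv_mem hg)

theorem t_smul_mem (S : Sp F V) {K : Subgroup (V ≃ₗ[F] V)} {y : V} (hy : ∀ c, S.t y c ∈ K)
    (a c : F) : S.t (a • y) c ∈ K := by
  rw [Sp.t, altTv_smul]
  exact hy _

theorem exists_ne (S : Sp F V) {x : V} (hx : x ≠ 0) : ∃ y, S.B x y ≠ 0 := by
  by_contra h
  push Not at h
  exact hx (S.nd.1 x h)

theorem exists_ne' (S : Sp F V) {x : V} (hx : x ≠ 0) : ∃ y, S.B y x ≠ 0 := by
  by_contra h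
  push Not at h
  exact hx (S.nd.2 x h)

/-- A subgroup of index prime to `p` contains the unipotent radical of a point stabiliser. -/
theorem exists_Q [Finite F] [Finite V] (qf : QfStmt) (S : Sp F V) {K : Subgroup (V ≃ₗ[F] V)}
    (hp : ¬ ringChar F ∣ K.relIndex S.G) : ∃ x : V, x ≠ 0 ∧ S.Q x ≤ K := by
  classical
  have : Module.Finite F V := Module.Finite.of_finite
  have hnt : Nontrivial V := by
    refine Module.nontrivial_of_finrank_pos (R := F) ?_
    rw [S.dim]
    have := S.hk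
    omega
  obtain ⟨r, hr⟩ := _root_.exists_ne (0 : V)
  obtain ⟨-, -, -, -, hc, hcj⟩ := qf S r hr
  have := Fintype.ofFinite F
  obtain ⟨n, hpr, hn⟩ := FiniteField.card F (ringChar F)
  haveI : Fact (ringChar F).Prime := ⟨hpr⟩
  have hQG : S.Q r ≤ S.G := fun g hg => hg.1
  have hP : IsPGroup (ringChar F) ((S.Q r).subgroupOf S.G) := by
    refine IsPGroup.of_card (n := n * (2 * S.k - 1)) ?_
    rw [Nat.card_congr (Subgroup.subgroupOfEquivOfLe hQG).toEquiv, hc, Nat.card_eq_fintype_card,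
      hn, ← pow_mul]
  obtain ⟨a, ha⟩ := hP.nonempty_fixed_point_of_prime_not_dvd_card
    (S.G ⧸ K.subgroupOf S.G) hp
  obtain ⟨g, rfl⟩ := QuotientGroup.mk_surjective a
  refine ⟨(g : V ≃ₗ[F] V)⁻¹ r, fun h => hr ((map_eq_zero_iff _ (LinearEquiv.injective _)).1 h),
    fun h hh => ?_⟩
  have e : (g : V ≃ₗ[F] V) ((g : V ≃ₗ[F] V)⁻¹ r) = r := (g : V ≃ₗ[F] V).apply_symm_apply r
  have hr' : (g : V ≃ₗ[F] V)⁻¹ r ≠ 0 :=
    fun h => hr ((map_eq_zero_iff _ (LinearEquiv.injective _)).1 h)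
  have h1 := ((qf S _ hr').2.2.2.2.2 g g.2 h).1 hh
  rw [e] at h1
  have h2 := ha ⟨⟨_, hQG h1⟩, h1⟩
  have h3 : ((⟨_, hQG h1⟩ * g : S.G) : S.G ⧸ K.subgroupOf S.G) = (g : S.G ⧸ K.subgroupOf S.G) := h2
  have h4 := QuotientGroup.eq.1 h3.symm
  rw [Subgroup.mem_subgroupOf] at h4
  simpa [mul_assoc] using h4

theorem Q_conj [Finite F] [Finite V] (qf : QfStmt) (S : Sp F V) {K : Subgroup (V ≃ₗ[F] V)}
    (hK : K ≤ S.G) {x : V} (hx : x ≠ 0) (hQ : S.Q x ≤ K) {g : V ≃ₗ[F] V} (hg : g ∈ K) (c : F) :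
    S.t (g x) c ∈ K :=
  t_conj_mem S hK hg (fun c => hQ ((qf S x hx).2.2.1 c)) c

theorem all_t [Finite F] [Finite V] (qf : QfStmt) (S : Sp F V) {K : Subgroup (V ≃ₗ[F] V)}
    (hK : K ≤ S.G) {x : V} (hx : x ≠ 0) (hQ : S.Q x ≤ K) {y : V} (hy : ∀ c, S.t y c ∈ K)
    (hyx : S.B y x ≠ 0) : S.G ≤ K := by
  have : Module.Finite F V := Module.Finite.of_finite
  have h1 : ∀ z, S.B z x ≠ 0 → ∀ c, S.t z c ∈ K := by
    intro z hz c
    have e : S.B ((S.B z x / S.B y x) • y) x = S.B z x := by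
      rw [map_smul, LinearMap.smul_apply, smul_eq_mul, div_mul_cancel₀ _ hyx]
    obtain ⟨h, ⟨hh, hz'⟩, -⟩ := (qf S x hx).2.2.2.1 ((S.B z x / S.B y x) • y) z
      (by rw [e]; exact hz) e.symm
    rw [← hz']
    exact t_conj_mem S hK (hQ hh) (t_smul_mem S hy _) c
  refine isomGroup_le_of_altTv_mem S.nd S.alt K fun z c => ?_
  by_cases hz : S.B z x = 0
  · by_cases hz0 : z = 0
    · have : altTv S.alt z c = 1 := by
        ext v
        simp [altTv_apply, hz0]
      rw [this]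
      exact one_mem _
    obtain ⟨w, -, hw1, hw2⟩ := exists_mem_both_ne_zero (⊤ : Submodule F V) (S.B.flip x) (S.B z)
      ((exists_ne' S hx).imp fun a ha => ⟨trivial, ha⟩)
      ((exists_ne S hz0).imp fun a ha => ⟨trivial, ha⟩)
    rw [LinearMap.BilinForm.flip_apply] at hw1
    have hw := h1 w hw1
    have h2 : S.B (S.t w 1 z) x ≠ 0 := by
      rw [Sp.t, altTv_apply, map_add, map_smul, LinearMap.add_apply, LinearMap.smul_apply, hz,
        zero_add, one_mul, smul_eq_mul]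
      exact mul_ne_zero hw2 hw1
    have h3 := t_conj_mem S hK (inv_mem (hw 1)) (h1 _ h2) c
    have e : (S.t w 1)⁻¹ (S.t w 1 z) = z := (S.t w 1).symm_apply_apply z
    rwa [e] at h3
  · exact h1 z hz c

/-- **SYL** -/
theorem syl (qf : QfStmt) : SylStmt := by
  intro F V _ _ _ _ _ S K hK hp hne
  obtain ⟨x, hx, hQ⟩ := exists_Q qf S hp
  refine ⟨Submodule.span F {y | ∃ g ∈ K, g x = y}, fun h => hx ?_, ?_, fun g hg => ?_⟩
  · have : x ∈ Submodule.span F {y | ∃ g ∈ K, g x = y} :=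
      Submodule.subset_span ⟨1, one_mem _, rfl⟩
    rwa [h] at this
  · have key : ∀ g ∈ K, ∀ h ∈ K, S.B (g x) (h x) = 0 := by
      intro g hg h hh
      by_contra hb
      refine hne (all_t qf S hK hx hQ (y := (h⁻¹ * g) x)
        (Q_conj qf S hK hx hQ (mul_mem (inv_mem hh) hg)) ?_)
      rw [← hK hh, LinearEquiv.mul_apply,
        show h (h⁻¹ (g x)) = g x from h.apply_symm_apply _]
      exact hb
    intro u hu v hv
    induction hu using Submodule.span_induction with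
    | zero => simp
    | add a b _ _ ha hb => simp [ha, hb]
    | smul c a _ ha => simp [ha]
    | mem a ha =>
      obtain ⟨g, hg, rfl⟩ := ha
      induction hv using Submodule.span_induction with
      | zero => simp
      | add a b _ _ ha hb => simp [ha, hb]
      | smul c a _ ha => simp [ha]
      | mem b hb =>
        obtain ⟨h, hh, rfl⟩ := hb
        exact key g hg h hh
  · rw [smul_def, Submodule.map_span]
    congr 1
    ext y
    constructor
    · rintro ⟨_, ⟨h, hh, rfl⟩, rfl⟩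
      exact ⟨g * h, mul_mem hg hh, rfl⟩
    · rintro ⟨h, hh, rfl⟩
      exact ⟨(g⁻¹ * h) x, ⟨_, mul_mem (inv_mem hg) hh, rfl⟩, g.apply_symm_apply _⟩

theorem exists_span {W : Submodule F V} (hW : dm W = 1) : ∃ w : V, w ≠ 0 ∧ W = F ∙ w := by
  obtain ⟨v, hv0, hv⟩ := finrank_eq_one_iff'.1 hW
  refine ⟨v, fun h => hv0 (Subtype.ext h), le_antisymm (fun y hy => ?_)
    ((Submodule.span_singleton_le_iff_mem _ _).2 v.2)⟩
  obtain ⟨c, hc⟩ := hv ⟨y, hy⟩
  exact Submodule.mem_span_singleton.2 ⟨c, congrArg Subtype.val hc⟩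

/-- The symplectic group is transitive on points. -/
theorem pt_trans [Finite V] (S : Sp F V) : MulAction.IsPretransitive S.G S.Pt := by
  have : Module.Finite F V := Module.Finite.of_finite
  refine ⟨fun a b => ?_⟩
  obtain ⟨u, hu, ha⟩ := exists_span a.2
  obtain ⟨v, hv, hb⟩ := exists_span b.2
  obtain ⟨g, -, hg, e, -⟩ := exists_mem_step S.nd S.alt ⊤ ⊥ (fun _ _ _ => trivial)
    (x := u) (y := v) (by simpa using hu) (by simpa using hv) (by simp)
  refine ⟨⟨g, hg⟩, Subtype.ext ?_⟩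
  rw [Sp.Pt_smul, ha, hb, smul_span]
  exact congrArg (fun z => F ∙ z) e

/-- The number of points. -/
theorem card_pt [Finite F] [Finite V] (S : Sp F V) :
    Nat.card S.Pt * (Nat.card F - 1) = Nat.card F ^ (2 * S.k) - 1 := by
  have : Module.Finite F V := Module.Finite.of_finite
  have e : Nat.card S.Pt = Nat.card (Projectivization F V) :=
    (Nat.card_congr (Projectivization.equivSubmodule F V)).symm
  rw [e, ← Projectivization.card, Module.natCard_eq_pow_finrank (K := F), S.dim]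

/-- **IDX** -/
theorem idx : IdxStmt := by
  intro F V _ _ _ _ _ S K hK co W hW hKW
  have := pt_trans S
  obtain ⟨a, ha⟩ : ∃ a : S.Pt, a.1 = W := ⟨⟨W, hW⟩, rfl⟩
  have hle : K.subgroupOf S.G ≤ MulAction.stabilizer S.G a := fun g hg =>
    Subtype.ext (by rw [Sp.Pt_smul, ha]; exact hKW _ hg)
  have hne : MulAction.stabilizer S.G a ≠ ⊤ := by
    intro h
    obtain ⟨w, hw, rfl⟩ := exists_span hW
    obtain ⟨y, hy⟩ := exists_ne S hw
    have h1 : (⟨S.t y 1, altTv_mem_isomGroup S.alt y 1⟩ : S.G) ∈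
        MulAction.stabilizer S.G a := h ▸ Subgroup.mem_top _
    have h2 : S.t y 1 • (F ∙ w) = F ∙ w := by
      have := congrArg Subtype.val h1
      rwa [Sp.Pt_smul, ha] at this
    rw [smul_span] at h2
    have h3 : S.t y 1 w ∈ F ∙ w := h2 ▸ Submodule.mem_span_singleton_self _
    obtain ⟨c, hc⟩ := Submodule.mem_span_singleton.1 h3
    have h4 := congrArg (S.B w) hc
    rw [Sp.t, altTv_apply] at h4
    simp [S.alt w, hy] at h4
  have heq : K.subgroupOf S.G = MulAction.stabilizer S.G a :=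
    (co.le_iff_eq hne).1 hle |>.symm
  rw [Subgroup.relIndex, heq, MulAction.index_stabilizer_of_transitive, card_pt]

end Cfsg.Agent.H23.P3Syl
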