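import Cfsg.Agent.H63.PSDefs
import Cfsg.Agent.H11.Inner
import Cfsg.Agent.S0942
import Cfsg.Agent.S0943

/-! Project PS, piece PD: positive definite functions on `A`. -/

set_option autoImplicit false

namespace Cfsg.Agent.H23.PsPD

open Cfsg Cfsg.Agent.H63.PS Cfsg.Agent.H11 Finset
open scoped ComplexConjugate

universe u

variable {G : Type u} [Group G]

theorem deg {χ : G → ℂ} (hχ : IsIrrCharacter G χ) : ∃ d : ℝ, 0 < d ∧ χ 1 = d := by
  obtain ⟨n, h, e⟩ := exists_pos_degree hχ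
  exact ⟨n, Nat.cast_pos.2 h, by rw [e]; simp⟩

/-- irreducible characters are positive definite -/
theorem pos_def [Fintype G] {χ : G → ℂ} (hχ : IsIrrCharacter G χ) {ι : Type*} [Fintype ι]
    (γ : ι → G) (x : ι → ℝ) : 0 ≤ ∑ i, ∑ j, x i * x j * (χ ((γ i)⁻¹ * γ j)).re := by
  obtain ⟨d, hd, e⟩ := deg hχ
  have k : ∀ i j, (Nat.card G : ℝ) / d * (χ ((γ i)⁻¹ * γ j)).re =
      ∑ y, (conj (χ (y * γ i)) * χ (y * γ j)).re := fun i j => by
    have := sum_irr_mul_irr_mul hχ hχ ((γ i)⁻¹ * γ j)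
    rw [classInner_irr_self hχ, mul_one, e, ← Equiv.sum_comp (Equiv.mulRight (γ i))] at this
    simp only [Equiv.coe_mulRight, mul_assoc, mul_inv_cancel_left,
      ← conj_apply (isCharacter_of_irr hχ)] at this
    rw [← Complex.re_sum, this, ← Complex.re_ofReal_mul]
    push_cast
    rfl
  have hp : 0 < (Nat.card G : ℝ) / d := div_pos (Nat.cast_pos.2 Nat.card_pos) hd
  refine nonneg_of_mul_nonneg_right ?_ hp |>.trans_eq rfl
  have : (Nat.card G : ℝ) / d * ∑ i, ∑ j, x i * x j * (χ ((γ i)⁻¹ * γ j)).re =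
      ∑ y, Complex.normSq (∑ j, (x j : ℂ) * χ (y * γ j)) := by
    simp only [mul_sum, mul_left_comm ((Nat.card G : ℝ) / d), k]
    rw [sum_congr rfl fun i _ => sum_comm, sum_comm]
    refine sum_congr rfl fun y _ => ?_
    rw [← Complex.ofReal_re (Complex.normSq _), Complex.normSq_eq_conj_mul_self, map_sum, sum_mul,
      Complex.re_sum]
    refine sum_congr rfl fun i _ => ?_
    rw [mul_sum, Complex.re_sum]
    refine sum_congr rfl fun j _ => ?_
    rw [map_mul, Complex.conj_ofReal, mul_mul_mul_comm, ← Complex.ofReal_mul,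
      Complex.re_ofReal_mul]
  rw [this]
  exact sum_nonneg fun y _ => Complex.normSq_nonneg _

/-- removing the mean value -/
theorem mean {A : Type*} [Group A] [Fintype A] (Ψ : A → ℝ)
    (h : ∀ y : A → ℝ, 0 ≤ ∑ u, ∑ v, y u * y v * Ψ (u⁻¹ * v)) (e : A → ℝ) :
    (∑ u, e u) ^ 2 * ∑ u, Ψ u ≤ Fintype.card A * ∑ u, ∑ v, e u * e v * Ψ (u⁻¹ * v) := by
  have h1 : ∀ u, ∑ v, Ψ (u⁻¹ * v) = ∑ v, Ψ v := fun u => Equiv.sum_comp (Equiv.mulLeft u⁻¹) Ψ
  have h2 : ∀ v, ∑ u, Ψ (u⁻¹ * v) = ∑ u, Ψ u := fun v =>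
    Equiv.sum_comp ((Equiv.inv A).trans (Equiv.mulRight v)) Ψ
  have := h fun u => Fintype.card A * e u - ∑ u, e u
  generalize hs : ∑ u, e u = s at this ⊢
  generalize hn : (Fintype.card A : ℝ) = n at this ⊢
  have n0 : 0 < n := hn ▸ Nat.cast_pos.2 Fintype.card_pos
  have e1 : ∑ u, ∑ v, e u * Ψ (u⁻¹ * v) = s * ∑ u, Ψ u := by
    simp only [← mul_sum, h1, ← sum_mul, hs]
  have e2 : ∑ u, ∑ v, e v * Ψ (u⁻¹ * v) = s * ∑ u, Ψ u := by
    rw [sum_comm]
    simp only [← mul_sum, h2, ← sum_mul, hs]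
  have e3 : ∑ u, ∑ v, Ψ (u⁻¹ * v) = n * ∑ u, Ψ u := by
    simp only [h1, sum_const, card_univ, nsmul_eq_mul, hn]
  have e4 : ∑ u, ∑ v, (n * e u - s) * (n * e v - s) * Ψ (u⁻¹ * v) =
      n * n * (∑ u, ∑ v, e u * e v * Ψ (u⁻¹ * v)) - n * s * (∑ u, ∑ v, e u * Ψ (u⁻¹ * v)) -
        n * s * (∑ u, ∑ v, e v * Ψ (u⁻¹ * v)) + s * s * ∑ u, ∑ v, Ψ (u⁻¹ * v) := by
    simp only [mul_sum, ← sum_sub_distrib, ← sum_add_distrib]
    exact sum_congr rfl fun u _ => sum_congr rfl fun v _ => by ring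
  rw [e4, e1, e2, e3] at this
  refine le_of_mul_le_mul_left ?_ n0
  linarith

/-- the two inequalities for one conjugate of `A` -/
theorem one [Fintype G] {χ : G → ℂ} (hχ : IsIrrCharacter G χ) {A : Subgroup G} [Fintype A]
    (hA : ∀ a ∈ A, ∀ b ∈ A, a * b = b * a) {z : G} (hz : z ∈ A) (z1 : z ≠ 1) {κ : G}
    (hκ : ∀ a ∈ A, ∀ b ∈ A, a * b ≠ 1 → χ (a * (κ * b * κ⁻¹)) = χ (a * b)) {T S n : ℝ}
    (hT : T = ∑ a : A, ∑ b : A, (χ (a * (κ * b * κ⁻¹))).re) (hS : S = ∑ a : A, (χ a).re)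
    (hn : n = Fintype.card A) :
    T ≤ n * (T - n * (S - (χ 1).re)) ∧ 2 * T ≤ n * (T - n * (S - (χ 1).re) + n * (χ z).re) := by
  classical
  obtain ⟨Ψ, hΨ⟩ : ∃ Ψ : A → ℝ, ∀ c : A, Ψ c = ∑ b : A, (χ (c * b * (κ * (b : G)⁻¹ * κ⁻¹))).re :=
    ⟨_, fun _ => rfl⟩
  have n0 : 0 < n := hn ▸ Nat.cast_pos.2 Fintype.card_pos
  have p1 : ∀ c : A, c ≠ 1 → Ψ c = n * (χ c).re := fun c hc => by
    rw [hΨ, sum_congr rfl fun b _ => by
      rw [hκ _ (mul_mem c.2 b.2) _ (inv_mem b.2) (by simpa using hc), mul_inv_cancel_right],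
      sum_const, card_univ, nsmul_eq_mul, hn]
  have p2 : ∑ c, Ψ c = T := by
    simp only [hΨ, hT]
    rw [sum_comm, ← Equiv.sum_comp (Equiv.inv A), sum_comm (s := univ) (t := univ)
      (f := fun a b : A => (χ (a * (κ * b * κ⁻¹))).re)]
    refine sum_congr rfl fun b _ => ?_
    rw [← Equiv.sum_comp (Equiv.mulRight b)]
    simp
  have p3 : Ψ 1 = T - n * (S - (χ 1).re) := by
    rw [← p2, hS, ← add_sum_erase _ _ (mem_univ (1 : A)), ← add_sum_erase _ _ (mem_univ (1 : A)),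
      sum_congr rfl fun c hc => p1 c (ne_of_mem_erase hc), ← mul_sum]
    simp
  have p4 : ∀ y : A → ℝ, 0 ≤ ∑ u, ∑ v, y u * y v * Ψ (u⁻¹ * v) := fun y => by
    have := pos_def hχ (fun i : A × A => (i.1 : G) * i.2 * (κ * (i.2 : G)⁻¹ * κ⁻¹)) fun i => y i.1
    simp only [Fintype.sum_prod_type] at this
    refine nonneg_of_mul_nonneg_right (this.trans_eq ?_) n0
    rw [mul_sum]
    refine sum_congr rfl fun u _ => ?_
    rw [hn, ← nsmul_eq_mul, ← card_univ, ← sum_const]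
    refine sum_congr rfl fun b _ => sum_congr rfl fun v _ => ?_
    rw [← mul_sum, hΨ, ← Equiv.sum_comp (Equiv.mulLeft b)]
    congr 1
    refine sum_congr rfl fun c _ => ?_
    have e : ((u : G) * b * (κ * (b : G)⁻¹ * κ⁻¹))⁻¹ *
        ((v : G) * (b * c : A) * (κ * ((b * c : A) : G)⁻¹ * κ⁻¹)) =
        (κ * b * κ⁻¹) * (((b : G)⁻¹ * ((u⁻¹ * v : A) * b)) * c * (κ * ((c : G)⁻¹ * (b : G)⁻¹) * κ⁻¹)) := by
      push_cast; group
    rw [Equiv.coe_mulLeft, e, hA _ (u⁻¹ * v).2 _ b.2, inv_mul_cancel_left,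
      classFun_mul_comm (isClassFunction_of_irr hχ)]
    congr 2
    group
  have z1' : (⟨z, hz⟩ : A) ≠ 1 := fun e => z1 (congrArg Subtype.val e)
  have q1 := mean Ψ p4 (Pi.single 1 1)
  have q2 := mean Ψ p4 (Pi.single 1 1 + Pi.single ⟨z, hz⟩ 1)
  have r1 := p1 _ z1'
  have r2 := p1 _ (inv_ne_one.2 z1')
  rw [Subgroup.coe_inv, ← conj_apply (isCharacter_of_irr hχ), Complex.conj_re] at r2
  simp only [Pi.add_apply, add_mul, mul_add, sum_add_distrib, Pi.single_apply, ite_mul, mul_ite,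
    one_mul, zero_mul, mul_one, mul_zero, sum_ite_eq', mem_univ, if_true, inv_one,
    inv_mul_cancel, p2, ← hn, p3, r1, r2] at q1 q2
  constructor <;> nlinarith

/-- **PD** -/
theorem pd : PDStmt.{u} := by
  intro p _ G _ _ M hM A z h χ hχ
  have := Fintype.ofFinite G
  have := Fintype.ofFinite A
  obtain ⟨d, hd, e⟩ := deg χ.2
  have z1 : z ≠ 1 := fun e => (Fact.out : p.Prime).ne_one (by rw [← h.ord, e, orderOf_one])
  obtain ⟨S, hS⟩ : ∃ S, S = ∑ a : A, (χ.1 a).re := ⟨_, rfl⟩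
  obtain ⟨n, hn⟩ : ∃ n : ℝ, n = Fintype.card A := ⟨_, rfl⟩
  have n0 : 0 < n := hn ▸ Nat.cast_pos.2 Fintype.card_pos
  have g0 : (0 : ℝ) < Fintype.card G := Nat.cast_pos.2 Fintype.card_pos
  have key : ∀ g : G, ∀ T, T = ∑ a : A, ∑ b : A, (χ.1 (g * b * g⁻¹ * a)).re →
      T ≤ n * (T - n * (S - d)) ∧ 2 * T ≤ n * (T - n * (S - d) + n * (χ.1 z).re) := by
    intro g T hT
    obtain ⟨κ, k1, -, k2⟩ := h.kap g
    have := one χ.2 h.comm h.mem z1 (κ := κ) (T := T) (fun a ha b hb ab => by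
      obtain ⟨s, hs, c⟩ := k2 a ha b hb ab
      obtain ⟨k, hk⟩ := IsPGroup.iff_orderOf.1 h.pg ⟨a * b, mul_mem ha hb⟩
      rw [← classFun_of_isConj (isClassFunction_of_irr χ.2) c,
        S0942.result p M hM _ ⟨k, (Subgroup.orderOf_coe _).trans hk⟩ s hs χ hχ]) (by
      rw [hT]
      refine sum_congr rfl fun a _ => ?_
      refine Fintype.sum_equiv (A.normalizerMonoidHom ⟨_, k1⟩).toEquiv _ _ fun b => ?_
      rw [classFun_mul_comm (isClassFunction_of_irr χ.2)]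
      change _ = (χ.1 (a * (κ * (κ⁻¹ * g * b * (κ⁻¹ * g)⁻¹) * κ⁻¹))).re
      congr 2
      group) hS hn
    rwa [e, Complex.ofReal_re] at this
  have real : ∑ a : A, χ.1 a = S := by
    refine Complex.ext (by rw [Complex.re_sum, hS, Complex.ofReal_re]) ?_
    rw [Complex.ofReal_im, ← Complex.conj_eq_iff_im, map_sum, ← Equiv.sum_comp (Equiv.inv A)]
    simp [conj_apply (isCharacter_of_irr χ.2)]
  have avg : d * ∑ g : G, ∑ a : A, ∑ b : A, (χ.1 (g * b * g⁻¹ * a)).re =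
      Fintype.card G * S ^ 2 := by
    have : (d : ℂ) * ∑ g : G, ∑ a : A, ∑ b : A, χ.1 (g * b * g⁻¹ * a) =
        Fintype.card G * (S : ℂ) ^ 2 := by
      rw [← real, pow_two, sum_mul_sum, sum_comm, ← e, mul_sum, mul_sum]
      refine sum_congr rfl fun a _ => ?_
      rw [sum_comm, mul_sum, mul_sum]
      exact sum_congr rfl fun b _ => by rw [S0943.sum_conj_mul, mul_comm (χ.1 a)]
    have := congrArg Complex.re this
    rw [Complex.re_ofReal_mul] at this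
    simp only [Complex.re_sum] at this
    rw [this]
    norm_cast
  have s1 := sum_le_sum fun g (_ : g ∈ univ) => (key g _ rfl).1
  have s2 := sum_le_sum fun g (_ : g ∈ univ) => (key g _ rfl).2
  simp only [← mul_sum, sum_add_distrib, sum_sub_distrib, sum_const, card_univ,
    nsmul_eq_mul] at s1 s2
  have hw : S = n * d * ww A χ.1 := by
    rw [ww, finsum_eq_sum_of_fintype, ← hS, e, Nat.card_eq_fintype_card, ← hn, Complex.ofReal_re,
      mul_div_cancel₀ _ (mul_pos n0 hd).ne']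
  rw [Nat.card_eq_fintype_card, ← hn, e, Complex.ofReal_re, le_div_iff₀ hd]
  generalize ww A χ.1 = w at hw ⊢
  generalize (∑ g : G, ∑ a : A, ∑ b : A, (χ.1 (g * b * g⁻¹ * a)).re) = τ at avg s1 s2
  generalize (Fintype.card G : ℝ) = N at avg s1 s2 g0
  have hτ : τ = N * (n * n * d * w ^ 2) := mul_left_cancel₀ hd.ne' (by rw [avg, hw]; ring)
  subst hτ hw
  constructor
  · refine nonneg_of_mul_nonneg_right ?_ (show 0 < N * (n * n * d) by positivity)
    linarith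
  · refine le_of_mul_le_mul_left ?_ (show 0 < N * (n * n) by positivity)
    linarith

end Cfsg.Agent.H23.PsPD
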