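import Mathlib
import Cfsg.Agent.H23.Real

/-!
# Real characters of degree prime to `p` and the Sylow normalizer
-/

namespace Cfsg.Agent.H23

open Cfsg Subgroup

variable {G : Type*} [Group G] [Finite G] {p : ℕ}

theorem relIndex_normalizer_sylow [Fact p.Prime] (P : Sylow p G) {T : Subgroup G}
    (h : (P : Subgroup G) ≤ T) :
    ((normalizer ((P : Subgroup G) : Set G)).relIndex T : ZMod p) = 1 := by
  have h1 := (P.subtype h).card_eq_index_normalizer
  have h2 := card_sylow_modEq_one p T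
  rw [h1, ← ZMod.natCast_eq_natCast_iff, Nat.cast_one] at h2
  rw [relIndex, subgroupOf_normalizer_eq h]
  exact h2

theorem index_modEq_relIndex [Fact p.Prime] (P : Sylow p G) {T : Subgroup G}
    (h : (P : Subgroup G) ≤ T) :
    (T.relIndex (normalizer ((P : Subgroup G) : Set G)) : ZMod p) = T.index := by
  set N := normalizer ((P : Subgroup G) : Set G)
  have h1 := relIndex_mul_index (inf_le_left : T ⊓ N ≤ T)
  have h2 := relIndex_mul_index (inf_le_right : T ⊓ N ≤ N)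
  rw [inf_relIndex_left] at h1
  rw [inf_relIndex_right] at h2
  have h3 := congrArg (Nat.cast : ℕ → ZMod p) (h2.trans h1.symm)
  have h4 := relIndex_normalizer_sylow P (le_top (a := (P : Subgroup G)))
  rw [relIndex_top_right] at h4
  rwa [Nat.cast_mul, Nat.cast_mul, relIndex_normalizer_sylow P h, h4, one_mul, mul_one] at h3

theorem IsCorr.deg_eq [Fact p.Prime] {P C K : Subgroup G} {h : C ≤ K} (H : IsCorr p P h)
    (hP : IsPGroup p P) (hK : P ≤ normalizer (K : Set G)) (hC : P ≤ normalizer (C : Set G))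
    {θ : IrrCharacter K} {ξ : IrrCharacter C} (hθ : InvBy K P θ.1) (hξ : InvBy C P ξ.1)
    (a : ¬ p ∣ mult h θ ξ) :
    (charDegree θ.1 : ZMod p) = mult h θ ξ * charDegree ξ.1 := by
  haveI := Fintype.ofFinite (IrrCharacter C)
  rw [deg_eq_sum_mult h, Nat.cast_sum, ← Nat.cast_mul]
  refine sum_zmod_eq_single hC hP (fun ξ => ((mult h θ ξ * charDegree ξ.1 : ℕ) : ZMod p))
    (fun x ξ => ?_) hξ fun ξ' h1 h2 => ?_
  · rw [mult_cj_right h (hK x.2) _ (hθ x x.2), deg_cj]
  · rw [ZMod.natCast_eq_zero_iff]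
    by_contra h3
    exact h2 (H.uniqR _ _ _ hθ h1 hξ (fun h4 => h3 (h4.mul_right _)) a)

omit [Finite G] in
theorem odd_relIndex_inf {K : Subgroup G} [K.Normal] (hK : Odd K.index) (N : Subgroup G) :
    Odd ((K ⊓ N).relIndex N) := by
  rw [inf_relIndex_right]
  exact hK.of_dvd_nat (Subgroup.relIndex_dvd_index_of_normal K N)

/-- The natural bijection between real characters of `G` and real characters of `p'`-degree of
the Sylow normalizer. -/
theorem exists_real_bij [hp : Fact p.Prime] (P : Sylow p G) {K Q : Subgroup G} [K.Normal]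
    [Q.Normal] (hK : Odd K.index) (hQK : Q ≤ K) (hQP : Q ≤ P) (hcop : ¬ p ∣ Q.relIndex K)
    (hreal : ∀ χ : IrrCharacter G, IsReal χ.1 → ¬ p ∣ charDegree χ.1) :
    ∃ f : {χ : IrrCharacter G // IsReal χ.1} →
      {ψ : IrrCharacter (normalizer ((P : Subgroup G) : Set G)) //
        IsReal ψ.1 ∧ ¬ p ∣ charDegree ψ.1}, Function.Bijective f ∧
      ∀ χ, (charDegree (f χ).1.1 : ZMod p) = charDegree χ.1.1 ∨
        (charDegree (f χ).1.1 : ZMod p) = -charDegree χ.1.1 := by
  set N := normalizer ((P : Subgroup G) : Set G) with hN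
  have hPN : (P : Subgroup G) ≤ N := le_normalizer
  have hNC : N ≤ normalizer ((K ⊓ N : Subgroup G) : Set G) :=
    H4.le_normalizer_inf le_normalizer' le_normalizer
  have hCodd := odd_relIndex_inf hK N
  have hKodd : Odd (K.relIndex ⊤) := by rwa [relIndex_top_right]
  have H : IsCorr p (P : Subgroup G) (inf_le_left : K ⊓ N ≤ K) :=
    isCorr_rel hp.out hQP (pmod_mono (pmod_bot P.2) bot_le le_rfl) le_normalizer' le_normalizer'
      hQK le_normalizer' hcop rfl _
  let R : IrrCharacter G → IrrCharacter N → Prop := fun χ ψ =>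
    ∃ (θ : IrrCharacter K) (ξ : IrrCharacter ↥(K ⊓ N)), InvBy K P θ.1 ∧ InvBy (K ⊓ N) P ξ.1 ∧
      mult le_top (topIrr χ) θ ≠ 0 ∧ ¬ p ∣ mult inf_le_left θ ξ ∧ mult inf_le_right ψ ξ ≠ 0
  have hdeg : ∀ χ ψ, IsReal χ.1 → IsReal ψ.1 → R χ ψ →
      (charDegree ψ.1 : ZMod p) = charDegree χ.1 ∨ (charDegree ψ.1 : ZMod p) = -charDegree χ.1 := by
    rintro χ ψ hχ hψ ⟨θ, ξ, a, b, c, d, e⟩
    have hχ' : IsReal (topIrr χ).1 := fun g => hχ _
    have h1 := deg_eq_clifford le_top le_normalizer' c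
    have h2 := deg_eq_clifford inf_le_right hNC e
    rw [mult_eq_one_of_real _ le_normalizer' hKodd (real_of_under _ le_normalizer' hKodd hχ' c)
      hχ' c, one_mul, relIndex_top_right, deg_topIrr] at h1
    rw [mult_eq_one_of_real _ hNC hCodd (real_of_under _ hNC hCodd hψ e) hψ e, one_mul, relIndex,
      ← invStab_subgroupOf_eq le_normalizer' hNC fun x hx => H.invEl_iff le_normalizer'
        (hPN.trans hNC) a b d (le_normalizer' (mem_top x)) (hNC hx) hx] at h2
    have h3 := index_modEq_relIndex P ((le_invStab_iff le_normalizer').2 a)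
    rw [h1, h2, Nat.cast_mul, Nat.cast_mul, ← h3, H.deg_eq P.2 le_normalizer' (hPN.trans hNC) a b d]
    rcases H.modEq _ _ a b d with h4 | h4 <;> rw [h4]
    · left; rw [one_mul]; rfl
    · right; rw [neg_one_mul, mul_neg, neg_neg]; rfl
  have hexR : ∀ χ : {χ : IrrCharacter G // IsReal χ.1},
      ∃ ψ : {ψ : IrrCharacter N // IsReal ψ.1 ∧ ¬ p ∣ charDegree ψ.1}, R χ.1 ψ.1 := fun χ => by
    obtain ⟨θ, a, c⟩ := exists_inv_under_of_not_dvd hp.out (L := ⊥) (K := K)
      (P := (P : Subgroup G)) bot_le le_top bot_le le_top le_normalizer' le_normalizer'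
      (pmod_bot P.2) (χ := topIrr χ.1) (hreal χ.1 χ.2)
    obtain ⟨ξ, b, d⟩ := H.exR θ a
    obtain ⟨ψ, ⟨e, hψ⟩, -⟩ := existsUnique_real_over' inf_le_right hNC hCodd
      ((H.real_iff a b d).1 (real_of_under _ le_normalizer' hKodd (fun g => χ.2 _) c))
    have hR : R χ.1 ψ := ⟨θ, ξ, a, b, c, d, e⟩
    refine ⟨⟨ψ, hψ, fun h => hreal χ.1 χ.2 ?_⟩, hR⟩
    rw [← ZMod.natCast_eq_zero_iff] at h ⊢
    rcases hdeg _ _ χ.2 hψ hR with h1 | h1
    · rw [← h1, h]
    · rw [← neg_eq_zero, ← h1, h]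
  choose f hf using hexR
  refine ⟨f, ⟨fun χ χ' e => ?_, fun ψ => ?_⟩, fun χ => hdeg _ _ χ.2 (f χ).2.1 (hf χ)⟩
  · obtain ⟨θ, ξ, a, b, c, d, e₁⟩ := hf χ
    obtain ⟨θ', ξ', a', b', c', d', e'⟩ := hf χ'
    rw [← e] at e'
    obtain ⟨x, rfl⟩ := exists_cj_eq_of_mult_ne_zero inf_le_right hNC e₁ e'
    obtain rfl : θ' = cj K ⟨x, le_normalizer' (mem_top _)⟩ θ :=
      H.uniqL _ _ _ a' (invBy_cj _ x.2 le_normalizer' a) b' d' (by rwa [mult_cj])
    rw [mult_cj_of_mem le_top (mem_top _)] at c'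
    exact Subtype.ext (topIrr.injective ((existsUnique_real_over' le_top le_normalizer' hKodd
      (real_of_under _ le_normalizer' hKodd (fun g => χ.2 _) c)).unique ⟨c, fun g => χ.2 _⟩
      ⟨c', fun g => χ'.2 _⟩))
  · obtain ⟨ξ, b, e⟩ := exists_inv_under_of_not_dvd hp.out (L := ⊥) (K := K ⊓ N)
      (P := (P : Subgroup G)) bot_le inf_le_right bot_le hPN le_normalizer' hNC
      (pmod_bot P.2) ψ.2.2
    obtain ⟨θ, a, d⟩ := H.exL ξ b
    have hξ := real_of_under _ hNC hCodd ψ.2.1 e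
    obtain ⟨χ, ⟨c, hχ⟩, -⟩ := existsUnique_real_over' le_top le_normalizer' hKodd
      ((H.real_iff a b d).2 hξ)
    refine ⟨⟨topIrr.symm χ, fun g => hχ _⟩, ?_⟩
    obtain ⟨θ', ξ', a', b', c', d', e'⟩ := hf ⟨topIrr.symm χ, fun g => hχ _⟩
    obtain ⟨x, hx0, hx, rfl⟩ := exists_cj_eq_of_inv hp.out (L := ⊥) le_top bot_le le_top
      le_normalizer' le_normalizer' (pmod_bot P.2) (by rw [relIndex_top_right]; exact P.not_dvd_index)
      a a' c c'
    obtain rfl : ξ' = cj (K ⊓ N) ⟨x, hNC hx⟩ ξ :=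
      H.uniqR _ _ _ a' b' (invBy_cj _ hx (hPN.trans hNC) b) d' (by rwa [mult_cj])
    rw [mult_cj_of_mem inf_le_right hx] at e'
    exact Subtype.ext ((existsUnique_real_over' inf_le_right hNC hCodd hξ).unique
      ⟨e', (f _).2.1⟩ ⟨e, ψ.2.1⟩)

theorem exists_normal_sylow_pGen [hp : Fact p.Prime] (hs : Group.IsSolvable (pGen p G))
    (hreal : ∀ χ : IrrCharacter G, IsReal χ.1 → ¬ p ∣ charDegree χ.1) (P : Sylow p G) :
    ∃ Q : Subgroup G, Q.Normal ∧ Q ≤ pGen 2 G ∧ Q ≤ P ∧ ¬ p ∣ Q.relIndex (pGen 2 G) := by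
  obtain ⟨Q⟩ : Nonempty (Sylow p (pGen 2 G)) := inferInstance
  haveI := Q.characteristic_of_normal (normal_sylow_of_real' p hs hreal (pGen 2 G) le_rfl
    (fun g hg => ⟨0, by simpa using hg⟩) Q)
  haveI : ((Q : Subgroup (pGen 2 G)).map (pGen 2 G).subtype).Normal := inferInstance
  refine ⟨_, this, map_subtype_le _, (Q.2.map _).le_sylow_of_normal P, ?_⟩
  rw [relIndex, subgroupOf, comap_map_eq_self_of_injective (subtype_injective _)]
  exact Q.not_dvd_index

theorem mem_of_isConj_inv {K : Subgroup G} [K.Normal] (hK : Odd K.index) {x : G}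
    (hx : IsConj x x⁻¹) : x ∈ K :=
  (QuotientGroup.eq_one_iff x).1 (H11.eq_one_of_isConj_inv_of_odd (G := G ⧸ K) hK
    (by simpa using (QuotientGroup.mk' K).map_isConj hx))

theorem real_meets_normalizer [hp : Fact p.Prime] (P : Sylow p G) {K : Subgroup G} [hKn : K.Normal]
    (hK : Odd K.index) (hcop : ¬ p ∣ Nat.card K)
    (hreal : ∀ χ : IrrCharacter G, IsReal χ.1 → ¬ p ∣ charDegree χ.1) {x : G}
    (hx : IsConj x x⁻¹) : ∃ y ∈ normalizer ((P : Subgroup G) : Set G), IsConj x y := by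
  set N := normalizer ((P : Subgroup G) : Set G) with hN
  obtain ⟨f, hf, -⟩ := exists_real_bij P (Q := ⊥) hK bot_le bot_le (by rwa [relIndex_bot_left]) hreal
  have hPN : (P : Subgroup G) ≤ N := le_normalizer
  have hNC : N ≤ normalizer ((K ⊓ N : Subgroup G) : Set G) :=
    H4.le_normalizer_inf le_normalizer' le_normalizer
  have hCodd := odd_relIndex_inf hK N
  have hcent : ∀ c ∈ K ⊓ N, ∀ y ∈ (P : Subgroup G), y * c * y⁻¹ = c := fun c hc y hy =>
    mul_inv_eq_one.1 (mem_bot.1 (((mem_inf_normalizer_iff hp.out bot_le (pmod_bot P.2)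
      le_normalizer' le_normalizer' (by rwa [relIndex_bot_left])).1 hc).2 y hy))
  have h1 : ∀ ψ : IrrCharacter N, IsReal ψ.1 ∧ ¬ p ∣ charDegree ψ.1 ↔ IsReal ψ.1 := fun ψ =>
    and_iff_left_of_imp fun hψ => by
      obtain ⟨ξ, e⟩ := exists_under (inf_le_right : K ⊓ N ≤ N) ψ
      rw [deg_eq_clifford inf_le_right hNC e,
        mult_eq_one_of_real _ hNC hCodd (real_of_under _ hNC hCodd hψ e) hψ e, one_mul,
        hp.out.dvd_mul, not_or]
      refine ⟨fun h => P.not_dvd_index ((h.trans (Subgroup.relIndex_dvd_of_le_left N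
        ((le_invStab_iff (hPN.trans hNC)).2 fun y hy => invEl_of_centralizes _ fun c hc =>
          hcent c hc y hy))).trans (relIndex_dvd_index_of_le hPN)),
        fun h => hcop ((h.trans (H24.deg_dvd_card ξ.2)).trans (card_dvd_of_le inf_le_left))⟩
  have h2 := (Nat.card_congr (Equiv.subtypeEquivRight h1)).symm.trans
    (Nat.card_eq_of_bijective f hf).symm
  have h3 := (H11.card_real_irr.symm.trans h2).trans H11.card_real_irr
  let g : {C : ConjClasses N // ∀ g, ConjClasses.mk g = C → IsConj g g⁻¹} →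
      {C : ConjClasses G // ∀ g, ConjClasses.mk g = C → IsConj g g⁻¹} := fun C =>
    ⟨ConjClasses.map N.subtype C.1, fun y hy => by
      obtain ⟨n, hn⟩ := ConjClasses.mk_surjective C.1
      rw [← hn] at hy
      have h4 : IsConj y (n : G) := ConjClasses.mk_eq_mk_iff_isConj.1 hy
      exact (h4.trans (N.subtype.map_isConj (C.2 n hn))).trans
        ((H11.isConj_inv_inv_iff _ _).2 h4.symm)⟩
  have hg : Function.Injective g := fun C D e => by
    obtain ⟨n, hn⟩ := ConjClasses.mk_surjective C.1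
    obtain ⟨m, hm⟩ := ConjClasses.mk_surjective D.1
    have h4 : ConjClasses.map N.subtype C.1 = ConjClasses.map N.subtype D.1 :=
      congrArg Subtype.val e
    rw [← hn, ← hm] at h4
    obtain ⟨z, hz⟩ := isConj_iff.1 (ConjClasses.mk_eq_mk_iff_isConj.1 h4 : IsConj (n : G) (m : G))
    have hnc := hcent n ⟨mem_of_isConj_inv hK (N.subtype.map_isConj (C.2 n hn)), n.2⟩
    have hmc := hcent m ⟨mem_of_isConj_inv hK (N.subtype.map_isConj (D.2 m hm)), m.2⟩
    have hPm : (P : Subgroup G) ≤ centralizer {(m : G)} := fun y hy =>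
      mem_centralizer_singleton_iff.2 (mul_inv_eq_iff_eq_mul.1 (hmc y hy))
    obtain ⟨t, ht, htz⟩ := exists_mul_mem_normalizer hp.out (L := ⊥) (P := (P : Subgroup G))
      (T := centralizer {(m : G)}) bot_le le_normalizer' (pmod_bot P.2)
      (fun h => P.not_dvd_index (h.trans (relIndex_dvd_index_of_le hPm))) (g := z)
      (le_normalizer' (mem_top z)) fun y hy => mem_centralizer_singleton_iff.2 (by
        rw [← hz]
        calc z * y * z⁻¹ * (z * n * z⁻¹) = z * (y * n * y⁻¹) * y * z⁻¹ := by group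
          _ = _ := by rw [hnc y hy]; group)
    refine Subtype.ext ?_
    rw [← hn, ← hm, ConjClasses.mk_eq_mk_iff_isConj, isConj_iff]
    refine ⟨⟨t * z, htz⟩, Subtype.ext ?_⟩
    change t * z * n * (t * z)⁻¹ = m
    calc t * z * n * (t * z)⁻¹ = t * (z * n * z⁻¹) * t⁻¹ := by group
      _ = m := by rw [hz, mem_centralizer_singleton_iff.1 ht, mul_inv_cancel_right]
  haveI : Finite (ConjClasses G) := Quotient.finite _
  obtain ⟨C, hC⟩ := ((Nat.bijective_iff_injective_and_card g).2 ⟨hg, h3⟩).2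
    ⟨ConjClasses.mk x, fun y hy => by
      have h4 := ConjClasses.mk_eq_mk_iff_isConj.1 hy
      exact (h4.trans hx).trans ((H11.isConj_inv_inv_iff _ _).2 h4.symm)⟩
  obtain ⟨n, hn⟩ := ConjClasses.mk_surjective C.1
  have h4 : ConjClasses.map N.subtype C.1 = ConjClasses.mk x := congrArg Subtype.val hC
  rw [← hn] at h4
  exact ⟨n, n.2, (ConjClasses.mk_eq_mk_iff_isConj.1 h4 : IsConj (n : G) x).symm⟩

theorem exists_conj_fixed {A K : Subgroup G} (hAK : A ≤ normalizer (K : Set G))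
    (hcop : (Nat.card A).Coprime (Nat.card K)) (hs : Group.IsSolvable A ∨ Group.IsSolvable K)
    {x : G} (hx : ∀ a ∈ A, ∃ k ∈ K, a * x * a⁻¹ = k * x * k⁻¹) :
    ∃ k ∈ K, ∀ a ∈ A, a * (k * x * k⁻¹) * a⁻¹ = k * x * k⁻¹ :=
  @H4.exists_fixed_in_orbit G _ _ G (MulAction.compHom G (MulAut.conj : G →* MulAut G)) A K hAK
    hcop hs x hx

theorem exists_centralizer_conj_eq' {A K : Subgroup G} (hAK : A ≤ normalizer (K : Set G))
    (hcop : (Nat.card A).Coprime (Nat.card K)) (hs : Group.IsSolvable A ∨ Group.IsSolvable K)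
    {x k : G} (hk : k ∈ K) (hx : ∀ a ∈ A, a * x * a⁻¹ = x)
    (hy : ∀ a ∈ A, a * (k * x * k⁻¹) * a⁻¹ = k * x * k⁻¹) :
    ∃ c ∈ K ⊓ centralizer (A : Set G), c * x * c⁻¹ = k * x * k⁻¹ :=
  @H4.exists_centralizer_smul_eq G _ _ G (MulAction.compHom G (MulAut.conj : G →* MulAut G)) A K
    hAK hcop hs x k hk hx hy

end Cfsg.Agent.H23
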