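import Cfsg.Agent.H54.RfKitP

/-! Commutators of the doubled root elements on the rays 2, 3, 7, 8. -/

set_option autoImplicit false
set_option linter.unusedSimpArgs false
set_option linter.unnecessarySeqFocus false

namespace Cfsg.Agent.H23.RfGam

open Cfsg Cfsg.Agent.H15.O8 Cfsg.Agent.H39 Cfsg.Agent.H36.O8T Subgroup Cfsg.Agent.H54.RF
open scoped commutatorElement

universe u v

section Grp

variable {G : Type*} [Group G]

theorem comm_left {g g' z : G} (h : Commute z g') : ⁅g * z, g'⁆ = ⁅g, g'⁆ := by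
  calc ⁅g * z, g'⁆ = g * (z * g') * z⁻¹ * g⁻¹ * g'⁻¹ := by
        simp only [commutatorElement_def]; group
    _ = _ := by rw [h.eq]; simp only [commutatorElement_def]; group

theorem comm_right {g g' z : G} (h : Commute z g) : ⁅g, g' * z⁆ = ⁅g, g'⁆ := by
  rw [← commutatorElement_inv, comm_left h, commutatorElement_inv]

theorem comm_mul_left (a b c : G) : ⁅a * b, c⁆ = a * ⁅b, c⁆ * a⁻¹ * ⁅a, c⁆ := by
  simp only [commutatorElement_def]; group

theorem comm_mul_right (a b c : G) : ⁅a, b * c⁆ = ⁅a, b⁆ * (b * ⁅a, c⁆ * b⁻¹) := by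
  simp only [commutatorElement_def]; group

theorem comm_expand {g g' x y z1 z2 z3 : G} (h1 : x * g' * x⁻¹ = g' * z1)
    (h2 : y * g * y⁻¹ = g * z2) (h3 : ⁅x, y⁆ = z3) (c1 : Commute (z1 * z3 * z2⁻¹) g)
    (c2 : Commute (z1 * z3 * z2⁻¹) g') : ⁅g * x, g' * y⁆ = ⁅g, g'⁆ * (z1 * z3 * z2⁻¹) := by
  calc ⁅g * x, g' * y⁆ = g * (x * g' * x⁻¹) * ⁅x, y⁆ * (y * g * y⁻¹)⁻¹ * g'⁻¹ := by
        simp only [commutatorElement_def]; group
    _ = g * g' * ((z1 * z3 * z2⁻¹) * (g⁻¹ * g'⁻¹)) := by rw [h1, h2, h3]; group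
    _ = _ := by
        rw [(c1.inv_right.mul_right c2.inv_right).eq]; simp only [commutatorElement_def]; group

end Grp

variable {K : Type*} [Field K] {T : Tits K} {G : Type*} [Group G] {M : FF T G} {t : G}
  {p r : K → G}

/-- central elements -/
structure Cn (M : FF T G) (p r : K → G) (z : G) : Prop where
  c2 : ∀ a, Commute z (P2 M p a)
  c3 : ∀ a, Commute z (P3 M r a)
  c7 : ∀ a, Commute z (P7 M r a)
  c8 : ∀ a, Commute z (P8 M p a)
  cO : ∀ u ∈ O T, Commute z (M.φ u)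
  c4 : ∀ a, Commute z (p a)
  c5 : ∀ a, Commute z (r a)
  c6 : ∀ a, Commute z (P6 M p a)

theorem Cn.mul {z z' : G} (h : Cn M p r z) (h' : Cn M p r z') : Cn M p r (z * z') :=
  ⟨fun a => (h.c2 a).mul_left (h'.c2 a), fun a => (h.c3 a).mul_left (h'.c3 a),
    fun a => (h.c7 a).mul_left (h'.c7 a), fun a => (h.c8 a).mul_left (h'.c8 a),
    fun u hu => (h.cO u hu).mul_left (h'.cO u hu), fun a => (h.c4 a).mul_left (h'.c4 a),
    fun a => (h.c5 a).mul_left (h'.c5 a), fun a => (h.c6 a).mul_left (h'.c6 a)⟩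

theorem Cn.x4 {z : G} (h : Cn M p r z) (a : K) : Commute z (M.φ (x4 T a)) := h.cO _ (by o8s)
theorem Cn.x5 {z : G} (h : Cn M p r z) (a : K) : Commute z (M.φ (x5 T a)) := h.cO _ (by o8s)
theorem Cn.x6 {z : G} (h : Cn M p r z) (a : K) : Commute z (M.φ (x6 T a)) := h.cO _ (by o8s)

theorem R_comm {u v : U T} (hu : u ∈ R T) (hv : v ∈ O T) : u * v = v * u := by
  obtain ⟨h0, h1, h2, h3, h4, h5, h6, h7, h8⟩ := hu
  obtain ⟨k0, k1, k2⟩ := hv
  ext <;> o8s <;> simp only [*] <;> o8ring T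

/-- elements of the doubled group `R` -/
def Hh (M : FF T G) (p r : K → G) (a a' b b' d d' : K) : G :=
  p a * M.φ (x4 T a') * r b * M.φ (x5 T b') * P6 M p d * M.φ (x6 T d')

section Main

variable (c : Ctx M t) (h : HR M t p r)
include h

theorem cn4 (a : K) : Cn M p r (p a) :=
  ⟨fun b => (h.c24 b a).symm, fun b => (h.c34 b a).symm, h.c47 a, h.c48 a,
    fun u _ => h.pφ a u, h.f4.comm a, h.c45 a, h.c46 a⟩

theorem cn5 (a : K) : Cn M p r (r a) :=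
  ⟨fun b => (h.c25 b a).symm, fun b => (h.c35 b a).symm, h.c57 a, h.c58 a,
    fun u hu => h.rcen a u (O_le_Tc hu), fun b => (h.c45 b a).symm, h.f5.comm a, h.c56 a⟩

theorem cnR {u : U T} (hu : u ∈ R T) : Cn M p r (M.φ u) := by
  have hO : u ∈ O T := ⟨hu.1, hu.2.1, hu.2.2.2.2.2.2.2.1⟩
  obtain ⟨h0, h1, h2, h3, h4, h5, h6, h7, h8⟩ := id hu
  exact ⟨fun a => (h.cen2 a ⟨h7, h8⟩ h6).symm, fun a => (h.cen3 a ⟨h7, h8⟩ h5).symm,
    fun a => (h.cen7 a ⟨h0, h1, h2, h4⟩).symm, fun a => (h.cen8 a ⟨h0, h1, h2, h3⟩).symm,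
    fun v hv => (φ_comm M).2 (R_comm hu hv), fun a => (h.pφ a u).symm,
    fun a => (h.rcen a u (O_le_Tc hO)).symm, fun a => (h.cen6 a h0).symm⟩

theorem cnx4 (a : K) : Cn M p r (M.φ (x4 T a)) := cnR h (by o8s)
theorem cnx5 (a : K) : Cn M p r (M.φ (x5 T a)) := cnR h (by o8s)
theorem cnx6 (a : K) : Cn M p r (M.φ (x6 T a)) := cnR h (by o8s)

include c

theorem cn6 (a : K) : Cn M p r (P6 M p a) :=
  ⟨fun b => (h.c26 b a).symm, fun b => (h.c36 b a).symm, h.c67 a, h.c68 a,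
    fun _ hu => h.cen6 a (O_le_E hu), fun b => (h.c46 b a).symm, fun b => (h.c56 b a).symm,
    (h.f6 c).comm a⟩

theorem cnH (a a' b b' d d' : K) : Cn M p r (Hh M p r a a' b b' d d') :=
  (((((cn4 h a).mul (cnx4 h a')).mul (cn5 h b)).mul (cnx5 h b')).mul (cn6 c h d)).mul (cnx6 h d')

theorem Hh_mul (a a' b b' d d' e e' f f' g g' : K) :
    Hh M p r a a' b b' d d' * Hh M p r e e' f f' g g' =
      Hh M p r (a + e) (a' + e') (b + f) (b' + f') (d + g) (d' + g') := by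
  unfold Hh
  rw [h.add, h.radd, (h.f6 c).add, x4_add, x5_add, x6_add, map_mul, map_mul, map_mul]
  have q6 := cnx6 h d'
  have q5 := cn6 c h d
  have q4 := cnx5 h b'
  have q3 := cn5 h b
  have q2 := cnx4 h a'
  rw [(((((q6.c4 e).mul_right (q6.x4 e')).mul_right (q6.c5 f)).mul_right (q6.x5 f')).mul_right
      (q6.c6 g)).mul_mul_mul_comm,
    ((((q5.c4 e).mul_right (q5.x4 e')).mul_right (q5.c5 f)).mul_right (q5.x5 f')).mul_mul_mul_comm,
    (((q4.c4 e).mul_right (q4.x4 e')).mul_right (q4.c5 f)).mul_mul_mul_comm,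
    ((q3.c4 e).mul_right (q3.x4 e')).mul_mul_mul_comm, (q2.c4 e).mul_mul_mul_comm]

theorem H_p (a : K) : p a = Hh M p r a 0 0 0 0 0 := by
  simp only [Hh, h.f5.zero, (h.f6 c).zero, x4_zero, x5_zero, x6_zero, map_one, mul_one]
theorem H_r (a : K) : r a = Hh M p r 0 0 a 0 0 0 := by
  simp only [Hh, h.f4.zero, (h.f6 c).zero, x4_zero, x5_zero, x6_zero, map_one, mul_one, one_mul]
theorem H_6 (a : K) : P6 M p a = Hh M p r 0 0 0 0 a 0 := by
  simp only [Hh, h.f4.zero, h.f5.zero, x4_zero, x5_zero, x6_zero, map_one, mul_one, one_mul]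
theorem H_x4 (a : K) : M.φ (x4 T a) = Hh M p r 0 a 0 0 0 0 := by
  simp only [Hh, h.f4.zero, h.f5.zero, (h.f6 c).zero, x5_zero, x6_zero, map_one, mul_one, one_mul]
theorem H_x5 (a : K) : M.φ (x5 T a) = Hh M p r 0 0 0 a 0 0 := by
  simp only [Hh, h.f4.zero, h.f5.zero, (h.f6 c).zero, x4_zero, x6_zero, map_one, mul_one, one_mul]
theorem H_x6 (a : K) : M.φ (x6 T a) = Hh M p r 0 0 0 0 0 a := by
  simp only [Hh, h.f4.zero, h.f5.zero, (h.f6 c).zero, x4_zero, x5_zero, map_one, mul_one, one_mul]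

theorem H_zero : Hh M p r 0 0 0 0 0 0 = 1 := by rw [← H_p c h, h.f4.zero]

theorem H_inv (a a' b b' d d' : K) : (Hh M p r a a' b b' d d')⁻¹ = Hh M p r a a' b b' d d' :=
  inv_eq_of_mul_eq_one_right (by rw [Hh_mul c h]; simp only [add_self (T := T), H_zero c h])

theorem H_inj {a a' a'' b b' b'' d d' d'' : K}
    (e : Hh M p r a a' b b' d d' = Hh M p r a a'' b b'' d d'') :
    a' = a'' ∧ b' = b'' ∧ d' = d'' := by
  have e1 := Hh_mul c h a a' b b' d d' a a'' b b'' d d''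
  rw [e, Hh_mul c h] at e1
  simp only [add_self (T := T), Hh, h.f4.zero, h.f5.zero, (h.f6 c).zero, x4_zero, x5_zero, x6_zero,
    map_one, mul_one, one_mul, ← map_mul] at e1
  have e2 := φ_eq_one M e1.symm
  have := T.charP
  have e4 := congrArg U.a4 e2
  have e5 := congrArg U.a5 e2
  have e6 := congrArg U.a6 e2
  o8s at e4 e5 e6
  exact ⟨CharTwo.add_eq_zero.1 e4, CharTwo.add_eq_zero.1 e5, CharTwo.add_eq_zero.1 e6⟩

theorem H_t (a a' b b' d d' : K) : t * Hh M p r a a' b b' d d' * t =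
    Hh M p r a (a + a') b (b + b') d (d + d') := by
  conv_lhs => unfold Hh
  simp only [conj_mul' c.tt, h.f4.tconj c, h.f5.tconj c, (h.f6 c).tconj c,
    conj_fix' c.tt (c.tφ _)]
  rw [H_p c h a, H_r c h b, H_6 c h d]
  simp only [H_x4 c h, H_x5 c h, H_x6 c h, Hh_mul c h, add_zero, zero_add]

theorem H_n1 (a a' b b' d d' : K) : M.n1 * Hh M p r a a' b b' d d' * M.n1 =
    Hh M p r d d' b b' a a' := by
  conv_lhs => unfold Hh
  simp only [conj_mul' M.n1n1, n1_P6, h.n1_r, n1_x4, n1_x5, n1_x6]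
  rw [n1_p, H_p c h d, H_r c h b, H_6 c h a]
  simp only [H_x4 c h, H_x5 c h, H_x6 c h, Hh_mul c h, add_zero, zero_add]

omit c in
theorem H_h (s : Kˣ × Kˣ) (a a' b b' d d' : K) : M.h s * Hh M p r a a' b b' d d' * (M.h s)⁻¹ =
    Hh M p r (Nu T s.1 * a) (Nu T s.1 * a') ((s.1 * s.2 : Kˣ) * b) ((s.1 * s.2 : Kˣ) * b')
      (Nu T s.2 * d) (Nu T s.2 * d') := by
  unfold Hh
  simp only [← conj_mul, h.tor, h.rtor, h.tor6, M.hφ, tor_x4, tor_x5, tor_x6, Nu_val,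
    Units.val_mul]

theorem H_y2 (w a a' b b' d d' : K) : M.φ (y2 T w) * Hh M p r a a' b b' d d' * (M.φ (y2 T w))⁻¹ =
    Hh M p r a a' b b' d d' * (p (w * b) * M.φ (x4 T (w * b'))) := by
  have e4 : M.φ (y2 T w) * M.φ (x4 T a') * (M.φ (y2 T w))⁻¹ = M.φ (x4 T a') := by
    rw [← map_inv, ← map_mul, ← map_mul]; congr 1; ext <;> o8s <;> o8ring T
  have e5 : M.φ (y2 T w) * M.φ (x5 T b') * (M.φ (y2 T w))⁻¹ =
      M.φ (x5 T b') * M.φ (x4 T (w * b')) := by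
    rw [← map_inv, ← map_mul, ← map_mul, ← map_mul]; congr 1; ext <;> o8s <;> o8ring T
  have e6 : M.φ (y2 T w) * M.φ (x6 T d') * (M.φ (y2 T w))⁻¹ = M.φ (x6 T d') := by
    rw [← map_inv, ← map_mul, ← map_mul]; congr 1; ext <;> o8s <;> o8ring T
  conv_lhs => unfold Hh
  rw [← conj_mul, ← conj_mul, ← conj_mul, ← conj_mul, ← conj_mul, e4, e5, e6, h.ry2,
    conj_eq_iff.2 (h.pφ a _).symm, conj_eq_iff.2 (h.cen6 d (u := y2 T w) rfl).symm,
    H_p c h a, H_r c h b, H_6 c h d, H_p c h (w * b)]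
  simp only [H_x4 c h, H_x5 c h, H_x6 c h, Hh_mul c h, add_zero, zero_add]

variable {e : K} (a1 : A1 M p r e)
include a1

theorem x8P2' (u a : K) : M.φ (x8 T u) * P2 M p a * (M.φ (x8 T u))⁻¹ =
    P2 M p a * Hh M p r (T.θ a * u) (e * T.θ a * u) (a * u) 0 (a * T.θ u) 0 := by
  rw [a1.x8P2, H_p c h, H_r c h, H_6 c h, H_x4 c h]
  simp only [mul_assoc (P2 M p a), Hh_mul c h, add_zero, zero_add]

theorem x2P8' (u a : K) : M.φ (x2 T u) * P8 M p a * (M.φ (x2 T u))⁻¹ =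
    P8 M p a * Hh M p r (a * T.θ u) 0 (a * u) 0 (T.θ a * u) (e * T.θ a * u) := by
  rw [h.x2P8 a1, H_p c h (a * T.θ u), H_r c h, H_6 c h, H_x6 c h]
  simp only [mul_assoc (P8 M p a), Hh_mul c h, add_zero, zero_add]

theorem kap_t (a b : K) : t * ⁅P2 M p a, P8 M p b⁆ * t = ⁅P2 M p a, P8 M p b⁆ *
    Hh M p r 0 ((1 + e) * T.θ a * b) 0 (a * b) 0 ((1 + e) * a * T.θ b) := by
  have h3 : ⁅M.φ (x2 T a), M.φ (x8 T b)⁆ = Hh M p r 0 (T.θ a * b) 0 (a * b) 0 (a * T.θ b) := by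
    have : ⁅x2 T a, x8 T b⁆ = x4 T (T.θ a * b) * x5 T (a * b) * x6 T (a * T.θ b) := by
      ext <;> o8s <;> o8ring T
    rw [← map_commutatorElement, this, map_mul, map_mul]
    simp only [H_x4 c h, H_x5 c h, H_x6 c h, Hh_mul c h, add_zero, zero_add]
  have e1 : Hh M p r (b * T.θ a) 0 (b * a) 0 (T.θ b * a) (e * T.θ b * a) *
      Hh M p r 0 (T.θ a * b) 0 (a * b) 0 (a * T.θ b) *
      (Hh M p r (T.θ a * b) (e * T.θ a * b) (a * b) 0 (a * T.θ b) 0)⁻¹ =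
      Hh M p r 0 ((1 + e) * T.θ a * b) 0 (a * b) 0 ((1 + e) * a * T.θ b) := by
    rw [H_inv c h, Hh_mul c h, Hh_mul c h]
    congr 1 <;> o8ring T
  rw [conj_comm' c.tt, (h.f2 c).tconj c, (h.f8 c).tconj c,
    comm_expand (x2P8' c h a1 a b) (x8P2' c h a1 b a) h3 (e1 ▸ (cnH c h ..).c2 a)
      (e1 ▸ (cnH c h ..).c8 b), e1]

theorem kap_O (a b : K) {u : U T} (hu : u ∈ O T) : Commute ⁅P2 M p a, P8 M p b⁆ (M.φ u) := by
  have k : ∀ v : U T, v ∈ Q T → v.a7 = 0 → v ∈ Te T → Commute ⁅P2 M p a, P8 M p b⁆ (M.φ v) :=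
    fun v h1 h2 h3 => by
      refine (conj_eq_iff.1 ?_).symm
      rw [conjugate_commutatorElement, conj_eq_iff.2 (h.cen2 a h1 h2).symm,
        conj_eq_iff.2 (h.cen8 b h3).symm]
  have k2 : ∀ w, Commute ⁅P2 M p a, P8 M p b⁆ (M.φ (x2 T w)) := fun w => by
    refine (conj_eq_iff.1 ?_).symm
    rw [conjugate_commutatorElement, conj_eq_iff.2 (h.cen2 a (u := x2 T w) ⟨rfl, rfl⟩ rfl).symm,
      x2P8' c h a1, comm_right ((cnH c h ..).c2 a)]
  have k3 : ∀ w, Commute ⁅P2 M p a, P8 M p b⁆ (M.φ (x3 T w)) := fun w => by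
    refine (conj_eq_iff.1 ?_).symm
    rw [conjugate_commutatorElement, conj_eq_iff.2 (h.cen2 a (u := x3 T w) ⟨rfl, rfl⟩ rfl).symm,
      h.x3P8, comm_right ((cn6 c h _).c2 a)]
  have k7 : ∀ w, Commute ⁅P2 M p a, P8 M p b⁆ (M.φ (x7 T w)) := fun w => by
    refine (conj_eq_iff.1 ?_).symm
    rw [conjugate_commutatorElement,
      conj_eq_iff.2 (h.cen8 b (u := x7 T w) ⟨rfl, rfl, rfl, rfl⟩).symm, h.x7P2,
      comm_left ((cn4 h _).c8 b)]
  have k8 : ∀ w, Commute ⁅P2 M p a, P8 M p b⁆ (M.φ (x8 T w)) := fun w => by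
    refine (conj_eq_iff.1 ?_).symm
    rw [conjugate_commutatorElement,
      conj_eq_iff.2 (h.cen8 b (u := x8 T w) ⟨rfl, rfl, rfl, rfl⟩).symm, x8P2' c h a1,
      comm_left ((cnH c h ..).c8 b)]
  rw [eq_O hu]
  simp only [map_mul]
  refine ((((((((k2 _).mul_right (k3 _)).mul_right ?_).mul_right ?_).mul_right ?_).mul_right
    ?_).mul_right ?_).mul_right (k7 _)).mul_right (k8 _) <;>
  exact k _ ⟨rfl, rfl⟩ rfl ⟨rfl, rfl, rfl, rfl⟩

end Main

section Fin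

variable [Finite K] [Finite G] (c : Ctx2 M t) (h : HR M t p r) {e : K} (a1 : A1 M p r e)
include c h a1

theorem kap_eq {a : K} (ha : a ≠ 0) (b : K) : ∃ k4 k5 k6, ⁅P2 M p a, P8 M p b⁆ =
    Hh M p r ((1 + e) * T.θ a * b) k4 (a * b) k5 ((1 + e) * a * T.θ b) k6 := by
  have c0 := c.toCtx
  set w := Hh M p r ((1 + e) * T.θ a * b) 0 (a * b) 0 ((1 + e) * a * T.θ b) 0 with hw
  have cw : Cn M p r w := cnH c0 h ..
  have wi : w⁻¹ = w := H_inv c0 h ..
  have ht : Commute (⁅P2 M p a, P8 M p b⁆ * w) t := c0.comm_of_tconj (by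
    rw [conj_mul' c0.tt, kap_t c0 h a1, hw, H_t c0 h, mul_assoc, Hh_mul c0 h]
    simp only [add_zero, zero_add, add_self (T := T)])
  have hO : ∀ u ∈ O T, Commute (⁅P2 M p a, P8 M p b⁆ * w) (M.φ u) := fun u hu =>
    (kap_O c0 h a1 a b hu).mul_left (cw.cO u hu)
  obtain ⟨f, -, o, ho, -, hd⟩ := c.cw ht fun u hu =>
    hO u ⟨hu.1, hu.2.1, hu.2.2.2.2.2.2.2.2.1⟩
  have hf : f ∈ R T := cO f fun u hu => c.dec_φ hd ho (hO u hu)
  have f2 : f * f = 1 := (cenO f fun u hu => c.dec_φ hd ho (hO u hu)).2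
  have i2 := (h.f2 c0).inv a
  have i8 := (h.f8 c0).inv b
  have key := c.di hd ho ((h.f2 c0).odd a o ho) ((cnR h hf).c2 a).symm f2 ((h.f2 c0).mov a)
    (fun e => ha (congrArg U.a2 e)) (by
      have q : Commute w ⁅P2 M p a, P8 M p b⁆ :=
        (((cw.c2 a).mul_right (cw.c8 b)).mul_right (cw.c2 a).inv_right).mul_right
          (cw.c8 b).inv_right
      rw [← conj_mul, conj_eq_iff.2 (cw.c2 a).symm, mul_inv_rev, wi, ← q.inv_right.eq.symm]
      congr 1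
      calc P2 M p a * ⁅P2 M p a, P8 M p b⁆ * (P2 M p a)⁻¹ = (P2 M p a * P2 M p a) * P8 M p b *
            (P2 M p a)⁻¹ * (P8 M p b)⁻¹ * (P2 M p a)⁻¹ := by
            simp only [commutatorElement_def, mul_assoc]
        _ = _ := by
            rw [(h.f2 c0).sq, commutatorElement_inv, commutatorElement_def, one_mul, i2])
  refine ⟨f.a4, f.a5, f.a6, ?_⟩
  rw [eq_mul_inv_of_mul_eq key, wi, eq_R hf, map_mul, map_mul, hw, ← eq_R hf]
  simp only [H_x4 c0 h, H_x5 c0 h, H_x6 c0 h, Hh_mul c0 h, add_zero, zero_add]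

theorem g28 : ∃ c' ε, ∀ a b, ⁅P2 M p a, P8 M p b⁆ = Hh M p r ((1 + e) * T.θ a * b)
    (ε * T.θ a * b) (a * b) (c' * a * b) ((1 + e) * a * T.θ b) (ε * a * T.θ b) := by
  have c0 := c.toCtx
  obtain ⟨k4, k5, k6, hk⟩ := kap_eq c h a1 one_ne_zero 1
  have sym : k6 = k4 := by
    have e1 := congrArg (fun g => M.n1 * g * M.n1) hk
    simp only [conj_comm' M.n1n1, n1_P2, n1_P8, H_n1 c0 h] at e1
    rw [← commutatorElement_inv, hk, H_inv c0 h] at e1
    simp only [map_one, mul_one] at e1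
    exact (H_inj c0 h e1).1.symm
  subst sym
  refine ⟨k5, k6, fun a b => ?_⟩
  by_cases ha : a = 0
  · subst ha
    simp only [(h.f2 c0).zero, commutatorElement_one_left, map_zero, mul_zero, zero_mul,
      H_zero c0 h]
  by_cases hb : b = 0
  · subst hb
    simp only [(h.f8 c0).zero, commutatorElement_one_right, map_zero, mul_zero, zero_mul,
      H_zero c0 h]
  obtain ⟨d, h2, h8⟩ := w28 (T := T) (Units.mk0 a ha) (Units.mk0 b hb)
  have q1 : (Nu T d.1 : K) = T.θ a * b := by rw [i28a d, h2, h8]; rfl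
  have q2 : ((d.1 * d.2 : Kˣ) : K) = a * b := by rw [i28b (T := T) d, h2, h8]; rfl
  have q3 : (Nu T d.2 : K) = a * T.θ b := by rw [i28c d, h2, h8]; rfl
  have e1 := congrArg (fun g => M.h d * g * (M.h d)⁻¹) hk
  simp only [conjugate_commutatorElement, h.tor2, h.tor8, H_h h, q1, q2, q3, h2, h8,
    mul_one, Units.val_mk0, map_one] at e1
  rw [e1]
  congr 1 <;> ring

theorem gm : ∃ c' ε, Gm M p r e c' ε := by
  have c0 := c.toCtx
  obtain ⟨c', ε, h28⟩ := g28 c h a1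
  have h27 : ∀ a b, ⁅P2 M p a, P7 M r b⁆ = p (a * b) * M.φ (x4 T (c' * a * b)) := fun a b => by
    have e1 := congrArg (fun g => M.φ (y2 T b) * g * (M.φ (y2 T b))⁻¹) (h28 a 1)
    simp only [conjugate_commutatorElement] at e1
    rw [conj_eq_iff.2 (h.cen2 a (u := y2 T b) ⟨rfl, rfl⟩ rfl).symm, h.y2P8 a1,
      comm_right ((cn4 h _).c2 a), comm_right ((cn5 h _).c2 a), comm_mul_right, H_y2 c0 h,
      h28 a 1, one_mul b] at e1
    have e2 := mul_left_cancel e1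
    have q := ((cn4 h (b * (a * 1))).mul (cnx4 h (b * (c' * a * 1)))).c8 1
    rw [mul_inv_eq_iff_eq_mul, q.eq] at e2
    rw [mul_left_cancel e2]
    congr 2
    · ring
    · congr 1; ring
  refine ⟨c', ε, h28, h27, fun a b => ?_⟩
  have e1 := congrArg (fun g => M.φ (y8 T a) * g * (M.φ (y8 T a))⁻¹) (h27 1 b)
  have e4 : ∀ s, M.φ (y8 T a) * M.φ (x4 T s) * (M.φ (y8 T a))⁻¹ = M.φ (x4 T s) := fun s => by
    rw [← map_inv, ← map_mul, ← map_mul]; congr 1; ext <;> o8s <;> o8ring T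
  simp only [conjugate_commutatorElement] at e1
  rw [conj_eq_iff.2 (h.cen7 b (u := y8 T a) ⟨rfl, rfl, rfl, rfl⟩).symm, a1.y8P2,
    comm_left ((cn6 c0 h _).c7 b), comm_left ((cn5 h _).c7 b), comm_mul_left, ← conj_mul, e4,
    conj_eq_iff.2 (h.pφ _ _).symm, ← h27 1 b, one_mul a, mul_eq_right, mul_inv_eq_one,
    mul_eq_left] at e1
  exact commutatorElement_eq_one_iff_commute.1 e1

end Fin

theorem gam : GamStmt.{u, v} := fun _ _ c _ _ _ h a1 => gm c h a1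

end Cfsg.Agent.H23.RfGam
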