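import Mathlib
import Cfsg.Agent.H74.RuDefs

/-!
Rank three actions of unitary groups: triangular elements, the torus and unipotent elements.
-/

set_option autoImplicit false

namespace Cfsg.Agent.H23.RuKb

open Cfsg Module Cfsg.Agent.H31 Cfsg.Agent.H74.Ru

variable {F V : Type} [Field F] [Fintype F] [AddCommGroup V] [Module F V] [FiniteDimensional F V]
  {S : Un F V} {v : Fin S.n → V} {g : V ≃ₗ[F] V} {t : Fin S.n → Fˣ}

/-- The entries of a triangular element on and below the diagonal. -/
theorem ent (ka : KaStmt) (hv : S.Fr v) (h : Tri v g t) {i j : Fin S.n} (hij : i ≤ j) :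
    S.B (v j.rev) (g (v i)) = if i = j then (t i : F) else 0 := by
  have h1 := ((ka S v hv).2.1 i.val _).1 (h i) j hij
  rw [map_sub, map_smul, hv, Fin.rev_rev, sub_eq_zero] at h1
  rw [h1]
  split_ifs <;> simp

theorem exists_basis (ka : KaStmt) (hv : S.Fr v) : ∃ b : Basis (Fin S.n) F V, (∀ i, b i = v i) ∧
    ∀ x j, b.repr x j = S.B (v j.rev) x := by
  have : Nonempty (Fin S.n) := ⟨S.i0⟩
  let b := basisOfLinearIndependentOfCardEqFinrank (ka S v hv).2.2.1
    (by rw [Fintype.card_fin, S.dim])
  have hb : ∀ i, b i = v i := fun i => by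
    simp only [b, coe_basisOfLinearIndependentOfCardEqFinrank]
  refine ⟨b, hb, fun x j => ?_⟩
  have h1 := (ka S v hv).1 x
  simp only [← hb] at h1 ⊢
  conv_lhs => rw [h1]
  rw [Basis.repr_sum_self]

theorem det_eq (ka : KaStmt) (hv : S.Fr v) (h : Tri v g t) :
    LinearMap.det (g : V →ₗ[F] V) = ∏ i, (t i : F) := by
  obtain ⟨b, hb, hr⟩ := exists_basis ka hv
  rw [← LinearMap.det_toMatrix b, Matrix.det_of_isUpperTriangular]
  · refine Finset.prod_congr rfl fun i _ => ?_
    rw [LinearMap.toMatrix_apply, hr, hb, LinearEquiv.coe_coe, ent ka hv h le_rfl, if_pos rfl]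
  · intro i j hij
    have hij' : j < i := hij
    rw [LinearMap.toMatrix_apply, hr, hb, LinearEquiv.coe_coe, ent ka hv h hij'.le,
      if_neg hij'.ne]

theorem norm_eq (ka : KaStmt) (hv : S.Fr v) (hg : g ∈ isom S.B) (h : Tri v g t) (i : Fin S.n) :
    S.σ (t i) * t i.rev = 1 := by
  have h1 : ∀ x ∈ Fl F v i.val, S.B x (g (v i.rev)) = 0 := by
    intro x hx
    induction hx using Submodule.span_induction with
    | zero => simp
    | add a b _ _ ha hb => simp [ha, hb]
    | smul c a _ ha => simp [ha]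
    | mem a ha =>
      obtain ⟨j, hj, rfl⟩ := ha
      have hlt : i.rev < j.rev := Fin.rev_lt_rev.2 hj
      have := ent ka hv h hlt.le
      rwa [Fin.rev_rev, if_neg hlt.ne] at this
  have h2 := h1 _ (h i)
  have h3 := ent ka hv h (le_refl i.rev)
  rw [Fin.rev_rev, if_pos rfl] at h3
  rw [map_sub, LinearMap.sub_apply, hg, hv, if_pos rfl, LinearMap.map_smulₛₗ,
    LinearMap.smul_apply, h3, smul_eq_mul, sub_eq_zero] at h2
  exact h2.symm

theorem tri_pow (ka : KaStmt) (hv : S.Fr v) (h : Tri v g t) (N : ℕ) : Tri v (g ^ N) (t ^ N) := by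
  induction N with
  | zero => intro i; simp
  | succ N ih =>
    rw [pow_succ, pow_succ]
    exact (ka S v hv).2.2.2.2.1 _ _ _ _ ih h

/-- **KB** -/
theorem kb (ka : KaStmt) : KbStmt := by
  intro F V _ _ _ _ _ S v hv
  obtain ⟨-, -, hp, -⟩ := exists_pow_char S.hF
  haveI : Fact (ringChar F).Prime := ⟨hp⟩
  refine ⟨fun g hg t h => ⟨norm_eq ka hv hg.1 h, Units.ext ?_⟩, fun t ht => ?_, fun g h => ?_,
    fun g t m h e => ?_⟩
  · rw [Units.coe_prod, ← det_eq ka hv h, (mem_sisom'.1 hg).2, Units.val_one]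
  · obtain ⟨b, hb, -⟩ := exists_basis ka hv
    have hg : ∀ i, b.equiv (b.unitsSMul t) (Equiv.refl _) (v i) = (t i : F) • v i := fun i => by
      rw [← hb, Basis.equiv_apply, Equiv.refl_apply, Basis.unitsSMul_apply, Units.smul_def]
    generalize b.equiv (b.unitsSMul t) (Equiv.refl _) = g at hg
    refine ⟨g, mem_sisom'.2 ⟨fun x y => ?_, ?_⟩, hg⟩
    · have h1 : ∀ i, (S.B (g (v i))).comp (g : V →ₗ[F] V) = S.B (v i) := fun i =>
        b.ext fun j => by
          rw [LinearMap.comp_apply, LinearEquiv.coe_coe, hb, hg, hg, map_smul,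
            LinearMap.map_smulₛₗ S.B, LinearMap.smul_apply, hv]
          split_ifs with hj
          · rw [hj, smul_eq_mul, smul_eq_mul, mul_one, mul_comm, ht.1 i]
          · simp
      have h2 : (S.B.flip (g y)).comp (g : V →ₗ[F] V) = S.B.flip y := b.ext fun i => by
        rw [hb]
        exact DFunLike.congr_fun (h1 i) y
      exact DFunLike.congr_fun h2 x
    · rw [det_eq ka hv (t := t) fun i => by rw [hg, sub_self]; exact zero_mem _, ← Units.coe_prod,
        ht.2, Units.val_one]
  · have : Nontrivial V := Module.nontrivial_of_finrank_pos (R := F) (by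
      rw [S.dim]; have := S.hn; omega)
    haveI : CharP (Module.End F V) (ringChar F) :=
      charP_of_injective_algebraMap (algebraMap F (Module.End F V)).injective _
    have h1 : ∀ k : ℕ, ∀ x ∈ Fl F v (k + 1), ((g : Module.End F V) - 1) x ∈ Fl F v k := by
      intro k x hx
      induction hx using Submodule.span_induction with
      | zero => simp
      | add a b _ _ ha hb => rw [map_add]; exact add_mem ha hb
      | smul c a _ ha => rw [map_smul]; exact Submodule.smul_mem _ _ ha
      | mem a ha =>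
        obtain ⟨j, hj, rfl⟩ := ha
        have h2 : Fl F v j.val ≤ Fl F v k := Submodule.span_mono (Set.image_mono fun l hl =>
          lt_of_lt_of_le (b := j.val) hl (Nat.lt_succ_iff.1 hj))
        simpa using h2 (h j)
    have h2 : ∀ k : ℕ, ∀ x ∈ Fl F v k, (((g : Module.End F V) - 1) ^ k) x = 0 := by
      intro k
      induction k with
      | zero => intro x hx; simpa [Fl] using hx
      | succ k ih =>
        intro x hx
        rw [pow_succ, Module.End.mul_apply]
        exact ih _ (h1 k x hx)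
    have h3 : ((g : Module.End F V) - 1) ^ S.n = 0 := LinearMap.ext fun x =>
      h2 _ x (((ka S v hv).2.1 _ x).2 fun j hj => absurd j.2 (not_lt.2 hj))
    have h4 := pow_eq_zero_of_le (Nat.lt_pow_self hp.one_lt).le h3
    rw [sub_pow_char_pow_of_commute _ _ (Commute.one_right _), one_pow, sub_eq_zero] at h4
    refine ⟨S.n, LinearEquiv.toLinearMap_injective ?_⟩
    exact (map_pow (LinearEquiv.automorphismGroup.toLinearMapMonoidHom) g _).trans h4
  · have h1 := tri_pow ka hv h (ringChar F ^ m)
    rw [e] at h1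
    have h2 := (ka S v hv).2.2.2.2.2.2.1 1 _ 1 h1 fun i => by simp
    funext i
    have h3 : (t i : F) ^ ringChar F ^ m = 1 := by
      rw [← Units.val_pow_eq_pow_val, ← Pi.pow_apply, h2]; rfl
    have h4 : ((t i : F) - 1) ^ ringChar F ^ m = 0 := by
      rw [sub_pow_char_pow, h3, one_pow, sub_self]
    exact Units.ext (sub_eq_zero.1 (pow_eq_zero_iff (pow_pos hp.pos m).ne' |>.1 h4))

end Cfsg.Agent.H23.RuKb
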