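import Cfsg.Agent.H56.SpDefs
import Cfsg.Agent.H1.Card

/-! Project CY, chapter SP: piece C1. -/

set_option autoImplicit false

namespace Cfsg.Agent.H23.SpC1

open Subgroup MulAction Cfsg.Agent.H11.Cy Cfsg.Agent.H56.Sp

theorem c1 : C1Stmt := by
  intro G _ _ Ω _ _ p A h hy uq bb x y x' y' z u pr j hj
  haveI : Fact (Nat.Prime 2) := ⟨Nat.prime_two⟩
  have l := hy.lf x y pr.ne
  have l' := hy.lf x' y' pr.ne'
  have g := hy.pg x y pr.ne
  have g' := hy.pg x' y' pr.ne'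
  obtain ⟨hi, fp⟩ := hy.cz.hi x' y' pr.ne' u pr.hu z ⟨x, y, pr.ne, pr.hz⟩ pr.zu.symm pr.cm.symm
  have zK : ∀ t ∈ Kl A x y, t * t = 1 → t = 1 ∨ t = z := fun t ht tt =>
    (uq x y pr.ne t ht tt).imp_right fun k => l.uq _ _ k pr.hz
  have triv : ∀ m, ∀ k ∈ Kl A x y, k ∈ Kl A x' y' → k ^ 2 ^ m = 1 → k = 1 := by
    intro m
    induction m with
    | zero => intro k _ _ e; simpa using e
    | succ m ih =>
      intro k h1 h2 e
      have kk := ih (k * k) (mul_mem h1 h1) (mul_mem h2 h2) (by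
        rw [← pow_two, ← pow_mul, ← pow_succ', e])
      rcases zK k h1 kk with e | rfl
      · exact e
      · exact (uq x' y' pr.ne' k h2 kk).resolve_right fun k => pr.zu (l'.uq _ _ pr.hu k)
  have d1 : 2 ^ j ∣ p + 1 := by
    obtain ⟨P, hP⟩ := Sylow.exists_subgroup_card_pow_prime 2 hj
    have pw : ∀ k : P, ((k : (Kl A x y ⊓ centralizer ({u} : Set G) : Subgroup G)) : G) ^ 2 ^ j = 1 :=
      fun k => by
        have := pow_card_eq_one' (x := k)
        rw [hP] at this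
        exact congrArg (fun k : P => ((k : (Kl A x y ⊓ centralizer ({u} : Set G) : Subgroup G)) : G))
          this
    have mem : ∀ k : P, ((k : (Kl A x y ⊓ centralizer ({u} : Set G) : Subgroup G)) : G) ∈
        Cl A x' y' z := fun k => by
      have p2 := pw k
      obtain ⟨⟨k, k1, k2⟩, hk⟩ := k
      have k3 : k ∈ Nl A x' y' := hy.cz.cz x' y' pr.ne' u pr.hu ▸ k2
      replace p2 : k ^ 2 ^ j = 1 := p2
      show k ∈ _
      rcases g'.dic z hi fp k k3 (by
        rw [← k1 z pr.hz.1, mul_inv_cancel_right, mul_inv_cancel]; exact one_mem _) with e | ⟨-, e⟩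
      · exact e
      rcases zK k k1 (triv j _ (mul_mem k1 k1) e (by
        rw [← pow_two, ← pow_mul, mul_comm, pow_mul, p2, one_pow])) with rfl | rfl
      · exact one_mem _
      · exact ⟨k3, fun t ht => mem_centralizer_singleton_iff.1 ht.2⟩
    obtain ⟨-, χ, hχ⟩ := g'.cyc z hi fp
    let φ : P →* Cl A x' y' z := (((Kl A x y ⊓ centralizer ({u} : Set G)).subtype).comp
      P.subtype).codRestrict _ mem
    have := card_dvd_of_injective (χ.comp φ) ((injective_iff_map_eq_one _).2 fun k e =>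
      Subtype.ext (Subtype.ext (triv j _ k.1.2.1 ((hχ _).1 e) (pw k))))
    rwa [hP, Nat.card_congr Multiplicative.toAdd, Nat.card_zmod] at this
  obtain ⟨-, b2, t, t1, t2⟩ := bb x y x' y' z u pr
  have cT := (g'.tor z hi fp).2
  have kN : K0 A x y x' y' z ≤ Nl A x y := inf_le_left.trans (centralizer_le_normalizer _)
  have e1 := H1.card_sup_mul_card_inf_of_le_normalizer b2
  have e2 := H1.card_sup_mul_card_inf_of_le_normalizer kN
  have o : Odd (Nat.card (Tl A x' y' z ⊓ Fl A x y : Subgroup G)) := by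
    rw [← Nat.not_even_iff_odd, even_iff_two_dvd]
    intro d
    obtain ⟨⟨s, s1, s2⟩, hs⟩ := exists_prime_orderOf_dvd_card' 2 d
    rw [← orderOf_coe] at hs
    have ss : s * s = 1 := by rw [← pow_two, ← hs]; exact pow_orderOf_eq_one s
    have n : s ≠ 1 := by rintro rfl; simp at hs
    exact pr.zu ((l'.uq _ _ pr.hu ⟨s1.1, n, ss⟩).trans (l.uq _ _ ⟨s2, n, ss⟩ pr.hz))
  have zT : z ∈ K0 A x y x' y' z ⊓ Fl A x y :=
    ⟨⟨l.cen z pr.hz, mem_sup_left pr.hz.1⟩, pr.hz.1⟩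
  obtain ⟨c, hc⟩ : 2 ∣ Nat.card (K0 A x y x' y' z ⊓ Fl A x y : Subgroup G) := by
    have := orderOf_dvd_natCard (⟨z, zT⟩ : (K0 A x y x' y' z ⊓ Fl A x y : Subgroup G))
    rwa [← orderOf_coe, orderOf_eq_prime ((pow_two z).trans pr.hz.2.2) pr.hz.2.1] at this
  have le : K0 A x y x' y' z ⊔ Fl A x y ≤ Tl A x' y' z ⊔ Fl A x y :=
    sup_le (inf_le_right.trans (sup_comm _ _).le) le_sup_right
  have nN : Tl A x' y' z ⊔ Fl A x y ≤ Nl A x y := sup_le b2 le_normalizer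
  have fk : ∀ b ∈ Tl A x' y' z ⊔ Fl A x y, FK A x y b → b ∈ K0 A x y x' y' z ⊔ Fl A x y := by
    rintro _ hb ⟨f, hf, k, hk, rfl⟩
    refine mul_mem (mem_sup_right hf) (mem_sup_left ⟨hk, ?_⟩)
    rw [sup_comm]
    exact (mul_mem_cancel_left (mem_sup_right hf)).1 hb
  have key : ∀ b ∈ Tl A x' y' z ⊔ Fl A x y, b * t ∈ K0 A x y x' y' z ⊔ Fl A x y ∨
      b ∈ K0 A x y x' y' z ⊔ Fl A x y := fun b hb => by
    by_cases k : FK A x y b
    · exact .inr (fk b hb k)
    · exact .inl (fk _ (mul_mem hb (mem_sup_left t1)) (g.idx b (nN hb) t (b2 t1) k t2))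
  obtain ⟨r, hr⟩ : (K0 A x y x' y' z ⊔ Fl A x y).relIndex (Tl A x' y' z ⊔ Fl A x y) ∣ 2 := by
    by_cases k : t ∈ K0 A x y x' y' z ⊔ Fl A x y
    · rw [relIndex_eq_one.2 fun b hb => (key b hb).elim (mul_mem_cancel_right k).1 id]
      exact one_dvd _
    · rw [relIndex_eq_two_iff_exists_notMem_and.2 ⟨t, mem_sup_left t1, k, key⟩]
  have e3 := ((K0 A x y x' y' z ⊔ Fl A x y).subgroupOf (Tl A x' y' z ⊔ Fl A x y)).card_mul_index
  rw [Nat.card_congr (subgroupOfEquivOfLe le).toEquiv] at e3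
  rw [relIndex] at hr
  have pF : 0 < Nat.card (Fl A x y) := Nat.card_pos
  have pi : 0 < ((K0 A x y x' y' z ⊔ Fl A x y).subgroupOf (Tl A x' y' z ⊔ Fl A x y)).index :=
    Nat.pos_of_ne_zero fun e => by rw [e] at hr; omega
  rw [cT] at e1
  rw [hc, hr] at e2
  refine (Nat.Coprime.pow_left j (Nat.coprime_two_left.2 o)).dvd_of_dvd_mul_right
    (d1.trans ⟨r * c, Nat.eq_of_mul_eq_mul_right pF ?_⟩)
  rw [mul_right_comm, ← e2, mul_right_comm (p + 1), ← e1, ← e3]
  ring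

end Cfsg.Agent.H23.SpC1
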