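import Cfsg.Agent.H97.U4Defs

/-!
Project U4F, pieces V2 and V3: opposite conjugates of `XV`.
-/

set_option autoImplicit false
set_option linter.unusedSectionVars false

namespace Cfsg.Agent.H23.U4V

open Cfsg.Agent.H97 Cfsg.Agent.H97.U4
open Cfsg.Agent.H97.U5 (Hm)

universe u

variable {K : Type u} [Field K] [Finite K] {T : Hm K} {p : ℕ} [Fact p.Prime] [CharP K p]
  {Γ : Subgroup (Equiv.Perm (VV T))}

theorem ap_inv {α : Type u} (g : Equiv.Perm α) (x : α) : g (g⁻¹ x) = x := g.apply_symm_apply x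

theorem inv_ap {α : Type u} (g : Equiv.Perm α) (x : α) : g⁻¹ (g x) = x := g.symm_apply_apply x

/-- A member of `Γ` as an additive map. -/
def ah (h : VG T p Γ) {k : Equiv.Perm (VV T)} (hk : k ∈ Γ) : VV T →+ VV T :=
  AddMonoidHom.mk' k (h.add k hk)

/-- The last coordinate of `k v`. -/
def ph (h : VG T p Γ) {k : Equiv.Perm (VV T)} (hk : k ∈ Γ) : VV T →+ sk T :=
  AddMonoidHom.mk' (fun v => ⟨vd (k v), vd_sk _⟩) fun x y =>
    Subtype.ext (by change vd (k (x + y)) = vd (k x) + vd (k y); rw [h.add k hk, vd_add])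

theorem ph_eq (h : VG T p Γ) {k : Equiv.Perm (VV T)} (hk : k ∈ Γ) {v w : VV T} :
    ph h hk v = ph h hk w ↔ vd (k v) = vd (k w) := Subtype.ext_iff

theorem ph_zero (h : VG T p Γ) {k : Equiv.Perm (VV T)} (hk : k ∈ Γ) {v : VV T} :
    ph h hk v = 0 ↔ vd (k v) = 0 := Subtype.ext_iff

theorem k_sub (h : VG T p Γ) {k : Equiv.Perm (VV T)} (hk : k ∈ Γ) (x y : VV T) :
    k (x - y) = k x - k y := map_sub (ah h hk) x y

variable (T) in
/-- The subgroup `Z₂`. -/
def z2 : AddSubgroup (VV T) where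
  carrier := {v | vd v = 0}
  zero_mem' := rfl
  add_mem' := fun {a b} (h : _ = _) (e : _ = _) => by change _ = _; rw [vd_add, h, e, add_zero]
  neg_mem' := fun {a} (h : _ = _) => by change _ = _; rw [vd_neg, h, neg_zero]

theorem p_sk (x : sk T) : p • x = 0 := Subtype.ext (by simp)

theorem p_K (x : K) : p • x = 0 := by simp

/-- The linear part of `vX t v - v`. -/
def linV (v : VV T) : K →+ z2 T := AddMonoidHom.mk'
  (fun t => ⟨mkV (T.σ t * vm v - t * T.σ (vm v)) (t * vd v) 0 (by simp) (by simp), rfl⟩)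
  fun s t => Subtype.ext (by apply vext <;> simp <;> ring)

/-- The quadratic part of `vX t v - v`. -/
noncomputable def quV (v : VV T) : K →+ K →+ z2 T := AddMonoidHom.mk'
  (fun t => AddMonoidHom.mk'
    (fun s => ⟨mkV (pr T (t * T.σ s * vd v)) 0 0 (pr_sk T _) (by simp), rfl⟩)
    fun s s' => Subtype.ext (by apply vext <;> simp [mul_add, add_mul, pr_add]))
  fun t t' => AddMonoidHom.ext fun s =>
    Subtype.ext (by apply vext <;> simp [add_mul, pr_add])

theorem nd_sk (t : K) (v : VV T) : t * T.σ t * vd v + T.σ (t * T.σ t * vd v) = 0 := by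
  simp only [map_mul, T.inv, σ_vd]; ring

theorem vX_sub (t : K) (v : VV T) :
    ((linV v t + quV v t t : z2 T) : VV T) = vX T t v - v := by
  apply vext
  · change T.σ t * vm v - t * T.σ (vm v) + pr T (t * T.σ t * vd v) = _
    rw [pr_eq T (nd_sk t v), va_sub, va_vX]; ring
  · change t * vd v + 0 = _
    rw [vm_sub, vm_vX]; ring
  · change (0 : K) + 0 = _
    rw [vd_sub, vd_vX]; ring

theorem stepA (cw : CWStmt.{u} p) (h : VG T p Γ) (b : VB T Γ) {g : Equiv.Perm (VV T)}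
    (hg : g ∈ Γ) (hn : g ∉ NV T) (v : VV T) : ∃ y y', vd y = 0 ∧ vd y' = 0 ∧ v = y + g y' := by
  have hk := inv_mem hg
  let f : z2 T →+ sk T := (ph h hk).comp (z2 T).subtype
  by_cases hB : f.range = ⊤
  · obtain ⟨y, hy⟩ := AddMonoidHom.range_eq_top.1 hB (ph h hk v)
    have hy' : vd (g⁻¹ y.1) = vd (g⁻¹ v) := (ph_eq h hk).1 hy
    refine ⟨y, g⁻¹ (v - y), y.2, by rw [k_sub h hk, vd_sub, hy', sub_self], ?_⟩
    rw [ap_inv, add_sub_cancel]
  exfalso
  obtain ⟨z, hz, hd⟩ : ∃ z, zV z ∧ vd (g z) ≠ 0 := by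
    by_contra! H
    exact hn (b.s1 g hg fun z hz => b.t1 g hg z hz (H z hz))
  have hlt : Nat.card f.range < Nat.card (sk T) := by
    refine lt_of_le_of_ne (AddSubgroup.card_le_card_addGroup _) fun e => hB ?_
    exact AddSubgroup.eq_top_of_card_eq _ e
  obtain ⟨t, ht, e⟩ := cw K f.range p_K (fun x => Subtype.ext (p_sk (p := p) x.1))
    (f.rangeRestrict.comp (linV (g z))) ((quV (g z)).compr₂ f.rangeRestrict)
    (by rw [← card_sk T]; exact Nat.pow_lt_pow_left hlt two_ne_zero)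
  have e1 : f (linV (g z) t + quV (g z) t t) = 0 := by
    rw [map_add]; exact congrArg Subtype.val e
  have e2 : vd (g⁻¹ (vX T t (g z) - g z)) = 0 := by
    rw [← vX_sub]; exact (ph_zero h hk).1 e1
  have hm : g⁻¹ * vX T t * g ∈ Γ := mul_mem (mul_mem hk (h.le (vX_mem T t))) hg
  rw [k_sub h hk, inv_ap, vd_sub, hz.2, sub_zero] at e2
  have z1 : zV (g⁻¹ (vX T t (g z))) := b.t1 _ hm z hz e2
  have z2' : zV (g⁻¹ (vX T t (g z)) - z) :=
    ⟨by rw [vm_sub, z1.1, hz.1, sub_zero], by rw [vd_sub, z1.2, hz.2, sub_zero]⟩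
  have e3 : g (g⁻¹ (vX T t (g z)) - z) = vX T t (g z) - g z := by
    rw [k_sub h hg, ap_inv]
  have z3 := (b.t1 g hg _ z2' (by rw [e3, vd_sub, vd_vX, sub_self])).1
  rw [e3, vm_sub, vm_vX, add_sub_cancel_left] at z3
  exact mul_ne_zero ht hd z3

theorem stepB (cw : CWStmt.{u} p) (h : VG T p Γ) (b : VB T Γ) {g : Equiv.Perm (VV T)}
    (hg : g ∈ Γ) (hn : g ∉ NV T) (v : VV T) : ∃ z y, zV z ∧ vd y = 0 ∧ v = z + g y := by
  obtain ⟨y, y', h1, h2, rfl⟩ := stepA cw h b hg hn v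
  obtain ⟨z, y'', h3, h4, rfl⟩ := b.t2 g hg y h1
  exact ⟨z, y'' + y', h3, by rw [vd_add, h4, h2, add_zero], by rw [h.add g hg, add_assoc]⟩

theorem v2 (cw : CWStmt.{u} p) : V2Stmt T p := by
  intro Γ h b g hg hn
  refine ⟨fun z hz hd => ?_, stepB cw h b hg hn⟩
  let f : sk T → sk T := fun a => ph h hg (mkV a.1 0 0 a.2 (by simp))
  have hz' : ∀ z : VV T, zV z → z = mkV (va z) 0 0 (va_sk z) (by simp) :=
    fun z hz => vext rfl hz.1 hz.2
  have hs : Function.Surjective f := fun d => by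
    obtain ⟨z', y, h1, h2, e⟩ := stepB cw h b (inv_mem hg) (fun h' => hn (inv_mem_iff.1 h'))
      (g⁻¹ (mkV 0 0 d.1 (by simp) d.2))
    refine ⟨⟨va z', va_sk z'⟩, Subtype.ext ?_⟩
    change vd (g (mkV (va z') 0 0 _ _)) = d.1
    have e' := congrArg (fun v => vd (g v)) e
    simp only [h.add g hg, ap_inv, vd_add, h2, add_zero] at e'
    rw [← hz' z' h1]
    exact e'.symm
  have hi := Finite.injective_iff_surjective.2 hs
  have : (⟨va z, va_sk z⟩ : sk T) = 0 := hi (by
    change ph h hg (mkV (va z) 0 0 _ _) = ph h hg 0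
    rw [← hz' z hz, map_zero, ph_zero]; exact hd)
  exact vext (congrArg Subtype.val this) hz.1 hz.2

/-- The prime field inside `K`. -/
noncomputable def ca (K : Type u) [Field K] (p : ℕ) [CharP K p] (x : ULift.{u} (ZMod p) × K) : K :=
  ZMod.castHom (dvd_refl p) K x.1.down

theorem ca_add (x y : ULift.{u} (ZMod p) × K) : ca K p (x + y) = ca K p x + ca K p y :=
  map_add (ZMod.castHom (dvd_refl p) K) _ _

theorem ca_nat (x : ULift.{u} (ZMod p) × K) : ∃ n : ℕ, ca K p x = n := by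
  obtain ⟨n, hn⟩ := ZMod.natCast_zmod_surjective x.1.down
  exact ⟨n, by rw [ca, ← hn, map_natCast]⟩

theorem σ_ca (x : ULift.{u} (ZMod p) × K) : T.σ (ca K p x) = ca K p x := by
  obtain ⟨n, hn⟩ := ca_nat x
  rw [hn, map_natCast]

/-- The homogeneous form of `vX t v`. -/
noncomputable def hoV (v : VV T) (x y : ULift.{u} (ZMod p) × K) : VV T :=
  mkV (ca K p x * ca K p y * va v + ca K p x * (T.σ y.2 * vm v - y.2 * T.σ (vm v)) +
      pr T (x.2 * T.σ y.2 * vd v)) (ca K p x * ca K p y * vm v + ca K p x * (y.2 * vd v))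
    (ca K p x * ca K p y * vd v)
    (by
      simp only [map_add, map_mul, map_sub, σ_ca, σ_va, T.inv]
      linear_combination pr_sk T (x.2 * T.σ y.2 * vd v))
    (by simp only [map_mul, σ_ca, σ_vd]; ring)

theorem v3 (cw : CWStmt.{u} p) : V3Stmt T p := by
  intro Γ h _ o g hg hn k hk hkn
  have hk' := inv_mem hk
  have hkn' : k⁻¹ ∉ NV T := fun h' => hkn (inv_mem_iff.1 h')
  let z : VV T := mkV T.ep 0 0 (by simp) (by simp)
  have hz : zV z := ⟨rfl, rfl⟩
  have hz0 : z ≠ 0 := fun e => T.ep_ne (congrArg va e)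
  have hd : vd (g z) ≠ 0 := fun e => hz0 ((o g hg hn).1 z hz e)
  let β : ULift.{u} (ZMod p) × K →+ ULift.{u} (ZMod p) × K →+ sk T := AddMonoidHom.mk'
    (fun x => AddMonoidHom.mk' (fun y => ph h hk' (hoV (g z) x y)) fun y y' => by
      rw [← map_add]
      congr 1
      apply vext <;>
        simp only [hoV, va_mk, vm_mk, vd_mk, va_add, vm_add, vd_add, ca_add, Prod.snd_add,
          map_add, mul_add, add_mul, pr_add] <;> ring)
    fun x x' => AddMonoidHom.ext fun y => by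
      change ph h hk' _ = ph h hk' _ + ph h hk' _
      rw [← map_add]
      congr 1
      apply vext <;>
        simp only [hoV, va_mk, vm_mk, vd_mk, va_add, vm_add, vd_add, ca_add, Prod.snd_add,
          mul_add, add_mul, pr_add] <;> ring
  obtain ⟨x, hx, e⟩ := cw (ULift.{u} (ZMod p) × K) (sk T)
    (fun x => Prod.ext (ULift.ext _ _ (by simp)) (p_K x.2)) p_sk 0 β (by
      rw [card_sk T, Nat.card_prod, Nat.card_ulift, Nat.card_zmod]
      exact lt_mul_of_one_lt_left Nat.card_pos (Fact.out : p.Prime).one_lt)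
  rw [AddMonoidHom.zero_apply, zero_add] at e
  have e1 : ph h hk' (hoV (g z) x x) = 0 := e
  by_cases hc : ca K p x = 0
  · exfalso
    have h0 := (o _ hk' hkn').1 (hoV (g z) x x) ⟨by simp [hoV, hc], by simp [hoV, hc]⟩
      ((ph_zero h hk').1 e1)
    have h1 := congrArg va h0
    simp only [hoV, va_mk, hc, zero_mul, zero_add, va_zero, pr_eq T (nd_sk x.2 (g z)),
      mul_eq_zero, T.σ_eq_zero, or_self, hd, or_false] at h1
    refine hx (Prod.ext (ULift.ext _ _ ?_) h1)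
    exact (map_eq_zero_iff _ (ZMod.castHom (dvd_refl p) K).injective).1 hc
  · refine ⟨x.2 / ca K p x, by_contra fun hh => hz0 ((o _
      (mul_mem (mul_mem hk' (h.le (vX_mem T _))) hg) hh).1 z hz ?_)⟩
    obtain ⟨n, hn'⟩ := ca_nat x
    have e2 : hoV (g z) x x = (n * n) • vX T (x.2 / ca K p x) (g z) := by
      apply vext <;>
        simp only [hoV, va_mk, vm_mk, vd_mk, va_nsmul, vm_nsmul, vd_nsmul, va_vX, vm_vX, vd_vX,
          pr_eq T (nd_sk x.2 (g z)), map_div₀, σ_ca, Nat.cast_mul, ← hn'] <;> field_simp <;> ring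
    rw [e2, map_nsmul] at e1
    have e3 : ((n * n : ℕ) : K) * vd (k⁻¹ (vX T (x.2 / ca K p x) (g z))) = 0 := by
      rw [← nsmul_eq_mul]; exact congrArg Subtype.val e1
    rw [Nat.cast_mul, ← hn'] at e3
    exact (mul_eq_zero.1 e3).resolve_left (mul_ne_zero hc hc)

end Cfsg.Agent.H23.U4V
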