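import Cfsg.Agent.H53.UwRep

/-!
Project UW, piece HEIS.
-/

set_option autoImplicit false
set_option linter.style.haveILetI false

namespace Cfsg.Agent.H23.UwH

open Module Cfsg.Agent.H53.Uw Subgroup
open scoped commutatorElement

universe u

theorem tr_proj {V : Type*} [AddCommGroup V] [Module ℂ V] [FiniteDimensional ℂ V]
    (T : Module.End ℂ V) (U : Submodule ℂ V) {c : ℂ} (hc : c ≠ 0) (h1 : ∀ v, T v ∈ U)
    (h2 : ∀ v ∈ U, T v = c • v) : LinearMap.trace ℂ V T = c * finrank ℂ U := by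
  have : LinearMap.IsProj U (c⁻¹ • T) := ⟨fun v => U.smul_mem _ (h1 v), fun v hv => by
    rw [LinearMap.smul_apply, h2 v hv, inv_smul_smul₀ hc]⟩
  rw [← this.trace, map_smul, smul_eq_mul, mul_inv_cancel_left₀ hc]

variable {G : Type u} [Group G] [Finite G]

theorem surj {Q Z : Subgroup G} {r : G} (hr : ∀ y ∈ Q, r * y * r⁻¹ ∈ Q)
    (h1 : ∀ z ∈ Z, ∀ y ∈ Q, z * y = y * z) (h2 : ∀ z ∈ Z, z * r = r * z)
    (h3 : ∀ y ∈ Q, ⁅y, r⁆ ∈ Z → y ∈ Z) {y : G} (hy : y ∈ Q) :
    ∃ y' ∈ Q, ∃ z ∈ Z, y = z * ⁅y', r⁆ := by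
  have hm : ∀ a : Q, ⁅a.1, r⁆ ∈ Q := fun a => by
    rw [commutatorElement_def, mul_assoc, mul_assoc, ← mul_assoc r]
    exact mul_mem a.2 (hr _ (inv_mem a.2))
  let φ : Q ⧸ Z.subgroupOf Q → Q ⧸ Z.subgroupOf Q :=
    Quotient.map' (fun a => ⟨⁅a.1, r⁆, hm a⟩) fun a b hab => by
      rw [QuotientGroup.leftRel_apply, mem_subgroupOf] at hab ⊢
      have e : ⁅b.1, r⁆ = ⁅a.1, r⁆ := by
        have hz := h2 _ hab
        push_cast at hz
        calc ⁅b.1, r⁆ = a * ((a.1⁻¹ * b) * r) * b.1⁻¹ * r⁻¹ := by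
              rw [commutatorElement_def]; group
          _ = _ := by rw [hz, commutatorElement_def]; group
      push_cast
      rw [e, inv_mul_cancel]
      exact one_mem _
  have hi : Function.Injective φ := by
    intro a b
    refine Quotient.inductionOn₂' a b fun a b e => ?_
    have e1 := QuotientGroup.eq.1 e
    rw [mem_subgroupOf] at e1
    push_cast at e1
    refine QuotientGroup.eq.2 (mem_subgroupOf.2 (h3 _ (a⁻¹ * b).2 ?_))
    have c1 := h1 _ e1 _ a.2
    have c2 := h2 _ e1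
    generalize hz : ⁅a.1, r⁆⁻¹ * ⁅b.1, r⁆ = z at e1 c1 c2
    have e2 : ⁅((a⁻¹ * b : Q) : G), r⁆ = r * (a.1⁻¹ * (r⁻¹ * (z * r) * a)) * r⁻¹ := by
      rw [← hz]
      push_cast
      simp only [commutatorElement_def]
      group
    rw [e2, c2, inv_mul_cancel_left, c1, inv_mul_cancel_left, ← c2, mul_inv_cancel_right]
    exact e1
  obtain ⟨a, ha⟩ := Finite.surjective_of_injective hi (QuotientGroup.mk ⟨y, hy⟩)
  obtain ⟨a, rfl⟩ := QuotientGroup.mk_surjective a
  have e1 := QuotientGroup.eq.1 ha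
  rw [mem_subgroupOf] at e1
  push_cast at e1
  exact ⟨a, a.2, _, e1, by rw [h1 _ e1 _ (hm a), mul_inv_cancel_left]⟩

theorem core {M : Type} [AddCommGroup M] [Module ℂ M] [FiniteDimensional ℂ M] [Nontrivial M]
    (ρ : Representation ℂ G M) (Q R Z : Subgroup G) (l : G → ℂ)
    (hr : ∀ r ∈ R, ∀ y ∈ Q, r * y * r⁻¹ ∈ Q) (h1 : ∀ z ∈ Z, ∀ y ∈ Q, z * y = y * z)
    (h2 : ∀ z ∈ Z, ∀ r ∈ R, z * r = r * z) (hq : ∀ y ∈ Q, ∀ y' ∈ Q, ⁅y, y'⁆ ∈ Z)
    (hZ : ∀ z ∈ Z, ∀ v, ρ z v = l z • v) (hl : ∀ y ∈ Q, y ∉ Z → ∃ y' ∈ Q, l ⁅y, y'⁆ ≠ 1)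
    (h3 : ∀ r ∈ R, r ≠ 1 → ∀ y ∈ Q, ⁅y, r⁆ ∈ Z → y ∈ Z) (hR : Fix ρ R = ⊥) :
    Z.relIndex Q ≤ (Nat.card R - 1) ^ 2 := by
  classical
  letI := Fintype.ofFinite Q
  letI := Fintype.ofFinite R
  set τ := ρ.linHom ρ with hτ
  have hf : ∀ g, τ.character g = ((‖ρ.character g‖ ^ 2 : ℝ) : ℂ) := fun g => by
    rw [hτ, Representation.char_linHom, H12.character_inv, Complex.conj_mul']
    push_cast
    rfl
  have tz : ∀ z ∈ Z, τ z = 1 := fun z hz => by
    ext f v
    rw [hτ, Representation.linHom_apply, LinearMap.comp_apply, LinearMap.comp_apply, hZ z hz,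
      ← map_smul, ← hZ z hz, ← Module.End.mul_apply (ρ z), ← map_mul, mul_inv_cancel, map_one]
    rfl
  have f1 : ∀ z ∈ Z, ∀ g, τ.character (z * g) = τ.character g := fun z hz g => by
    rw [Representation.character, map_mul, tz z hz, one_mul, Representation.character]
  have f2 : ∀ y ∈ Q, y ∉ Z → τ.character y = 0 := fun y hy hn => by
    obtain ⟨y', hy', e⟩ := hl y hy hn
    have e1 : ρ.character (y⁻¹ * ⁅y, y'⁆) = l ⁅y, y'⁆ * ρ.character y⁻¹ := by
      rw [Representation.character, map_mul, show ρ ⁅y, y'⁆ = l ⁅y, y'⁆ • 1 from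
        LinearMap.ext (hZ _ (hq y hy y' hy')), mul_smul_comm, mul_one, map_smul, smul_eq_mul,
        Representation.character]
    rw [show y⁻¹ * ⁅y, y'⁆ = y' * y⁻¹ * y'⁻¹ by rw [commutatorElement_def]; group,
      Representation.char_conj] at e1
    rw [hτ, Representation.char_linHom, (mul_left_eq_self₀.1 e1.symm).resolve_left e, zero_mul]
  have f3 : ∀ r ∈ R, r ≠ 1 → ∀ y ∈ Q, τ.character (y * r) = τ.character r := fun r h e y hy => by
    obtain ⟨y', -, z, hz, rfl⟩ := surj (hr r h) h1 (fun z hz => h2 z hz r h) (h3 r h e) hy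
    rw [mul_assoc, f1 z hz, commutatorElement_def, inv_mul_cancel_right, Representation.char_conj]
  have cQ : (Nat.card Q : ℂ) ≠ 0 := Nat.cast_ne_zero.2 Nat.card_pos.ne'
  have cR : (Nat.card R : ℂ) ≠ 0 := Nat.cast_ne_zero.2 Nat.card_pos.ne'
  have sm : ∀ (H : Subgroup G) [Fintype H], (∀ k ∈ H, τ k * ∑ a : H, τ a = ∑ a : H, τ a) ∧
      ∀ v ∈ Fix τ H, (∑ a : H, τ a) v = (Nat.card H : ℂ) • v := fun H _ => ⟨fun k hk => by
    rw [Finset.mul_sum]
    exact Fintype.sum_equiv (Equiv.mulLeft (⟨k, hk⟩ : H)) _ _ fun a => (map_mul τ _ _).symm,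
    fun v hv => by
      rw [LinearMap.sum_apply, Finset.sum_congr rfl fun a _ => mem_Fix.1 hv a.1 a.2,
        Finset.sum_const, Finset.card_univ, Nat.card_eq_fintype_card, Nat.cast_smul_eq_nsmul]⟩
  have cm : ∀ r ∈ R, τ r * ∑ a : Q, τ a = (∑ a : Q, τ a) * τ r := fun r h => by
    rw [Finset.mul_sum, Finset.sum_mul]
    refine Fintype.sum_bijective (fun a : Q => (⟨r * a * r⁻¹, hr r h a a.2⟩ : Q))
      (Finite.injective_iff_bijective.1 fun a b e => Subtype.ext (by simpa using e)) _ _ fun a => ?_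
    rw [← map_mul, ← map_mul, inv_mul_cancel_right]
  have mQ : ∀ v, (∑ a : Q, τ a) v ∈ Fix τ Q := fun v => mem_Fix.2 fun k hk => by
    rw [← Module.End.mul_apply, (sm Q).1 k hk]
  have t1 := tr_proj _ _ cQ mQ (sm Q).2
  have t2 := tr_proj ((∑ a : Q, τ a) * ∑ a : R, τ a) (Fix τ Q ⊓ Fix τ R) (mul_ne_zero cQ cR)
    (fun v => ⟨mQ _, mem_Fix.2 fun k hk => by
      rw [← Module.End.mul_apply, ← mul_assoc, cm k hk, mul_assoc, (sm R).1 k hk]⟩)
    fun v hv => by rw [Module.End.mul_apply, (sm R).2 v hv.2, map_smul, (sm Q).2 v hv.1, smul_smul,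
      mul_comm]
  have le := Submodule.finrank_mono (inf_le_left : Fix τ Q ⊓ Fix τ R ≤ Fix τ Q)
  generalize finrank ℂ ↥(Fix τ Q ⊓ Fix τ R) = e' at t2 le
  generalize finrank ℂ ↥(Fix τ Q) = e at t1 le
  have s1 : ∑ a : Q, τ.character a = Nat.card Q * e := by rw [← t1, map_sum]; rfl
  have s2 : ∑ a : Q, τ.character a = Nat.card (Z.subgroupOf Q) * (finrank ℂ M * finrank ℂ M) := by
    rw [Finset.sum_congr rfl (g := fun a : Q =>
      if a ∈ Z.subgroupOf Q then (finrank ℂ M * finrank ℂ M : ℂ) else 0) fun a _ => ?_,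
      ← Finset.sum_filter, Finset.sum_const, nsmul_eq_mul, Nat.card_eq_fintype_card,
      Fintype.card_subtype]
    split_ifs with h
    · rw [← mul_one a.1, f1 a.1 h, hτ, Representation.char_linHom, inv_one, Representation.char_one]
    · exact f2 _ a.2 h
  have s3 : finrank ℂ M * finrank ℂ M = Z.relIndex Q * e := by
    rw [s2, ← (Z.subgroupOf Q).card_mul_index, Nat.cast_mul, mul_assoc,
      mul_right_inj' (Nat.cast_ne_zero.2 Nat.card_pos.ne')] at s1
    exact_mod_cast s1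
  have s4 : e + ∑ r ∈ Finset.univ.erase (1 : R), ‖ρ.character r‖ ^ 2 = Nat.card R * e' := by
    rw [Finset.mul_sum, map_sum, ← Finset.add_sum_erase _ _ (Finset.mem_univ (1 : R)),
      OneMemClass.coe_one, map_one, mul_one, t1, Finset.sum_congr rfl
        (g := fun r : R => Nat.card Q * τ.character r) fun r h => ?_, ← Finset.mul_sum, ← mul_add,
      mul_assoc, mul_right_inj' cQ] at t2
    · simp only [hf] at t2
      exact_mod_cast t2
    · rw [Finset.sum_mul, map_sum, Finset.sum_congr rfl (g := fun _ => τ.character r) fun a _ => ?_,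
        Finset.sum_const, Finset.card_univ, Nat.card_eq_fintype_card, nsmul_eq_mul]
      rw [← map_mul]
      exact f3 _ r.2 (fun e => (Finset.mem_erase.1 h).1 (Subtype.ext e)) _ a.2
  have s5 : (finrank ℂ M : ℝ) ≤ ∑ r ∈ Finset.univ.erase (1 : R), ‖ρ.character r‖ := by
    have := (r4 G M ρ R).1.1 hR
    rw [finsum_eq_sum_of_fintype, ← Finset.add_sum_erase _ _ (Finset.mem_univ (1 : R)),
      OneMemClass.coe_one, Representation.char_one, add_eq_zero_iff_eq_neg] at this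
    refine le_trans ?_ (norm_sum_le _ _)
    rw [← norm_neg, ← this, Complex.norm_natCast]
  have s6 := (pow_le_pow_left₀ (Nat.cast_nonneg _) s5 2).trans sq_sum_le_card_mul_sum_sq
  rw [Finset.card_erase_of_mem (Finset.mem_univ _), Finset.card_univ, ← Nat.card_eq_fintype_card,
    eq_sub_of_add_eq' s4] at s6
  obtain ⟨n, hn⟩ : ∃ n, Nat.card R = n + 1 := Nat.exists_eq_succ_of_ne_zero Nat.card_pos.ne'
  rw [hn, Nat.add_sub_cancel] at s6 ⊢
  have s7 : finrank ℂ M * finrank ℂ M + n * e ≤ n * ((n + 1) * e') := by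
    have : ((finrank ℂ M * finrank ℂ M + n * e : ℕ) : ℝ) ≤ (n * ((n + 1) * e') : ℕ) := by
      push_cast at s6 ⊢
      linarith
    exact_mod_cast this
  have e0 : 0 < e := Nat.pos_of_ne_zero fun h => by
    rw [h, mul_zero, mul_self_eq_zero] at s3
    exact finrank_pos.ne' s3
  refine Nat.le_of_mul_le_mul_right ?_ e0
  have := Nat.mul_le_mul_left (n * (n + 1)) le
  nlinarith

theorem heis : HeisStmt.{u} := by
  intro G _ _ M _ _ _ ρ Q R Z l _ hr h1 h2 hq hW hl h3 hR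
  let C : Subgroup G := centralizer (Z : Set G)
  have hQ : Q ≤ C := fun y hy z hz => h1 z hz y hy
  have hC : R ≤ C := fun r h z hz => h2 z hz r h
  have inv : ∀ g : C, Wt ρ Z l ≤ (Wt ρ Z l).comap (ρ g) := fun g v hv z hz => by
    rw [← Module.End.mul_apply, ← map_mul, g.2 z hz, map_mul, Module.End.mul_apply, hv z hz,
      map_smul]
  let σ : Representation ℂ C (Wt ρ Z l) :=
    Representation.subrepresentation (ρ.comp C.subtype) _ inv
  haveI := Submodule.nontrivial_iff_ne_bot.2 hW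
  have := core σ (Q.subgroupOf C) (R.subgroupOf C) (Z.subgroupOf C) (fun g => l g)
    (fun r a y b => hr r a y b) (fun z a y b => Subtype.ext (h1 z a y b))
    (fun z a y b => Subtype.ext (h2 z a y b)) (fun y a y' b => hq y a y' b)
    (fun z a v => Subtype.ext (v.2 z a))
    (fun y a b => by
      obtain ⟨y', c, d⟩ := hl y a b
      exact ⟨⟨y', hQ c⟩, c, d⟩)
    (fun r a b y c d => h3 r a (fun e => b (Subtype.ext e)) y c d)
    (eq_bot_iff.2 fun v hv => by
      have : v.1 ∈ Fix ρ R := mem_Fix.2 fun r h =>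
        congrArg Subtype.val (mem_Fix.1 hv ⟨r, hC h⟩ h)
      rw [hR] at this
      exact Subtype.ext this)
  rwa [relIndex_subgroupOf hQ, Nat.card_congr (subgroupOfEquivOfLe hC).toEquiv] at this

end Cfsg.Agent.H23.UwH
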