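import Mathlib
import Cfsg.Agent.H42.VpDefs
import Cfsg.Agent.H92.ClassSize

/-! Insurance pieces for vanishing elements of prime power order. -/

set_option autoImplicit false

namespace Cfsg.Agent.H23.Vp

open Subgroup Cfsg Cfsg.Agent.H42.Vp
open scoped Pointwise

universe u

theorem one_of {G : Type u} [Group G] [Finite G] {p : ℕ} {K : Subgroup G}
    (hK : (Nat.card K).Coprime p) {a : G} (ha : a ∈ K) {m : ℕ} (h : a ^ p ^ m = 1) : a = 1 := by
  have h1 : orderOf a ∣ Nat.card K := K.orderOf_dvd_natCard ha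
  have h2 : orderOf a ∣ p ^ m := orderOf_dvd_of_pow_eq_one h
  exact orderOf_eq_one_iff.1 (Nat.eq_one_of_dvd_coprimes (hK.pow_right m) h1 h2)

theorem one_ofP {G : Type u} [Group G] [Finite G] {p : ℕ} {K : Subgroup G}
    (hK : (Nat.card K).Coprime p) (P : Sylow p G) {a : G} (ha : a ∈ K) (hP : a ∈ (P : Subgroup G)) :
    a = 1 := by
  obtain ⟨m, hm⟩ := P.isPGroup' ⟨a, hP⟩
  exact one_of hK ha (congrArg Subtype.val hm)

theorem split {G : Type u} [Group G] [Finite G] {p : ℕ} [Fact p.Prime] {K : Subgroup G} [K.Normal]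
    (hi : ∃ k : ℕ, K.index = p ^ k) (P : Sylow p G) (g : G) :
    ∃ k ∈ K, ∃ v ∈ (P : Subgroup G), k * v = g := by
  obtain ⟨e, he⟩ := hi
  have h1 : (K ⊔ (P : Subgroup G)).index ∣ p ^ e := he ▸ index_dvd_of_le le_sup_left
  have h2 : (K ⊔ (P : Subgroup G)).index ∣ (P : Subgroup G).index := index_dvd_of_le le_sup_right
  have h3 : (p ^ e).Coprime (P : Subgroup G).index :=
    ((Nat.Prime.coprime_iff_not_dvd Fact.out).2 P.not_dvd_index).pow_left e
  have h4 : K ⊔ (P : Subgroup G) = ⊤ := index_eq_one.1 (Nat.eq_one_of_dvd_coprimes h3 h1 h2)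
  have h5 : g ∈ K ⊔ (P : Subgroup G) := h4 ▸ mem_top g
  exact mem_sup_of_normal_left.1 h5

theorem inSylow {G : Type u} [Group G] [Finite G] {p : ℕ} [Fact p.Prime] {x : G} {m : ℕ}
    (h : x ^ p ^ m = 1) : ∃ P : Sylow p G, x ∈ (P : Subgroup G) := by
  have h1 : IsPGroup p (zpowers x) := by
    rintro ⟨_, j, rfl⟩
    refine ⟨m, Subtype.ext ?_⟩
    change (x ^ j) ^ p ^ m = 1
    rw [← zpow_natCast, ← zpow_mul, mul_comm, zpow_mul, zpow_natCast, h, one_zpow]
  obtain ⟨P, hP⟩ := h1.exists_le_sylow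
  exact ⟨P, hP (mem_zpowers x)⟩

theorem i2 : I2Stmt.{u} := by
  intro G _ _ p hp K _ x hK ⟨m, hm⟩ h
  classical
  haveI : Fact p.Prime := ⟨hp⟩
  let α : MulAut K := MulAut.conjNormal x
  have hα : ∀ a : K, IsConj a (α a) := by
    intro a
    obtain ⟨c, hc, e⟩ := h a a.2
    exact isConj_iff.2 ⟨⟨c, hc⟩, Subtype.ext (by simpa [α] using e.symm)⟩
  have hpow : α ^ p ^ m = 1 := by rw [← map_pow, hm, map_one]
  have top : (centralizer ({x} : Set G)).subgroupOf K = ⊤ := by
    refine H92.eq_top_of_forall_conj_mem fun k => ?_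
    haveI : Fintype {a : K // IsConj k a} := Fintype.ofFinite _
    have hc : ¬ p ∣ Fintype.card {a : K // IsConj k a} := by
      intro hd
      have e1 : Nat.card {a : K // IsConj k a} = Nat.card (MulAction.orbit (ConjAct K) k) :=
        Nat.card_congr (Equiv.subtypeEquivRight fun a => by
          rw [ConjAct.mem_orbit_conjAct, isConj_comm])
      have e2 : Nat.card (MulAction.orbit (ConjAct K) k) ∣ Nat.card K := by
        rw [Nat.card_coe_set_eq, ← MulAction.index_stabilizer]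
        exact index_dvd_card _
      rw [← Nat.card_eq_fintype_card, e1] at hd
      exact (Nat.Prime.coprime_iff_not_dvd hp).1 hK.symm (hd.trans e2)
    have hs : ∀ a : K, IsConj k ((α : Equiv.Perm K) a) ↔ IsConj k a := fun a =>
      ⟨fun h1 => h1.trans (hα a).symm, fun h1 => h1.trans (hα a)⟩
    have hσ : (Equiv.Perm.subtypePerm (α : Equiv.Perm K) hs) ^ p ^ m = 1 := by
      rw [Equiv.Perm.subtypePerm_pow]
      ext a
      have : ((α : Equiv.Perm K) ^ p ^ m) = 1 := by
        have := congrArg (MulAut.toPerm K) hpow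
        rw [map_pow, map_one] at this
        exact this
      simp [this]
    obtain ⟨⟨a, ha⟩, e⟩ := Equiv.Perm.exists_fixed_point_of_prime hc hσ
    obtain ⟨c, hc⟩ := isConj_iff.1 ha
    refine ⟨c, ?_⟩
    rw [hc, mem_subgroupOf, mem_centralizer_singleton_iff]
    have e1 : x * a * x⁻¹ = a := by
      have := congrArg (fun z => ((z.1 : K) : G)) e
      simpa [α] using this
    rw [mul_inv_eq_iff_eq_mul] at e1
    exact e1.symm
  refine mem_centralizer_iff.2 fun k hk => ?_
  have : (⟨k, hk⟩ : K) ∈ (centralizer ({x} : Set G)).subgroupOf K := top ▸ mem_top _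
  exact mem_centralizer_singleton_iff.1 (mem_subgroupOf.1 this)

theorem f2 : F2Stmt.{u} := by
  intro G _ _ p hp K _ hK hi hb hL ⟨x, ⟨m, hm⟩, hx⟩ hZ
  haveI : Fact p.Prime := ⟨hp⟩
  obtain ⟨P, hP⟩ := inSylow hm
  have hZP : center G ≤ P := by
    obtain ⟨Q, hQ⟩ := hZ.exists_le_sylow
    obtain ⟨g, rfl⟩ := MulAction.exists_smul_eq G Q P
    intro z hz
    rw [Sylow.coe_subgroup_smul, mem_pointwise_smul_iff_inv_smul_mem]
    have : (MulAut.conj g)⁻¹ • z = z := by
      have := mem_center_iff.1 hz g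
      simp only [MulAut.smul_def, MulAut.conj_inv_apply]
      rw [mul_assoc, ← this]; group
    rw [this]; exact hQ hz
  have mem : ∀ a : G, (QuotientGroup.mk' (center G)) a ∈
      (P : Subgroup G).map (QuotientGroup.mk' (center G)) ↔ a ∈ (P : Subgroup G) := by
    intro a
    refine ⟨?_, mem_map_of_mem _⟩
    rintro ⟨b, hb, e⟩
    obtain ⟨z, hz, rfl⟩ := (QuotientGroup.mk'_eq_mk' _).1 e
    exact mul_mem hb (hZP hz)
  refine ⟨(P : Subgroup G).map (QuotientGroup.mk' (center G)), ⟨?_, ?_, ?_⟩, P.isPGroup'.map _⟩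
  · intro h0
    have := (mem x).2 hP
    rw [h0, mem_bot] at this
    exact hx ((QuotientGroup.eq_one_iff x).1 this)
  · intro h0
    apply hb
    refine (eq_bot_iff_forall _).2 fun k hk => one_ofP hK P hk ((mem k).1 (h0 ▸ mem_top _))
  · intro gb hg
    obtain ⟨g, rfl⟩ := QuotientGroup.mk'_surjective (center G) gb
    rw [mem] at hg
    obtain ⟨k, hk, v, hv, rfl⟩ := split hi P g
    refine (eq_bot_iff_forall _).2 fun ab hab => ?_
    obtain ⟨a, rfl⟩ := QuotientGroup.mk'_surjective (center G) ab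
    obtain ⟨h1, h2⟩ := mem_inf.1 hab
    rw [mem] at h1
    rw [mem_pointwise_smul_iff_inv_smul_mem] at h2
    have h3 : (k * v)⁻¹ * a * (k * v) ∈ (P : Subgroup G) := by
      rw [← mem]
      simpa [MulAut.smul_def, mul_assoc] using h2
    have h4 : k⁻¹ * a * k * a⁻¹ ∈ (P : Subgroup G) := by
      have := mul_mem (mul_mem (mul_mem hv h3) (inv_mem hv)) (inv_mem h1)
      convert this using 1
      group
    have h5 : k⁻¹ * a * k * a⁻¹ ∈ K := by
      have := mul_mem (inv_mem hk) (Normal.conj_mem inferInstance k hk a)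
      convert this using 1
      group
    have h6 := one_ofP hK P h5 h4
    have h7 : Commute a k := by
      have : a * k = k * (k⁻¹ * a * k * a⁻¹) * a := by group
      rw [Commute, SemiconjBy, this, h6, mul_one]
    have hk1 : k ≠ 1 := fun e => hg (by rw [e, one_mul]; exact hv)
    obtain ⟨j, hj⟩ := P.isPGroup' ⟨a, h1⟩
    exact (QuotientGroup.eq_one_iff a).2 (hL a ⟨j, congrArg Subtype.val hj⟩ k hk hk1 h7)

theorem m (z : ZStmt.{u}) (i1 : I1Stmt.{u}) : MStmt.{u} := by
  intro G _ _ p hp K _ hK hi hv x ⟨e, he⟩ k hk hk1 hc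
  haveI : Fact p.Prime := ⟨hp⟩
  have nv : ¬ Van (x * k) := by
    intro h
    obtain ⟨j, hj⟩ := hv _ h
    have h1 : (x * k) ^ p ^ (e + j) = 1 := by
      rw [pow_add, mul_comm (p ^ e), pow_mul, ← hj, pow_orderOf_eq_one, one_pow]
    rw [hc.mul_pow, pow_add, pow_mul, he, one_pow, one_mul, ← pow_add] at h1
    exact hk1 (one_of hK hk h1)
  have hq : IsPGroup p (G ⧸ K) := by
    obtain ⟨j, hj⟩ := hi
    exact IsPGroup.of_card (n := j) (by rw [← hj]; rfl)
  have cen : (QuotientGroup.mk' K) (x * k) ∈ center (G ⧸ K) := by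
    by_contra h
    exact nv (H22.VanP.Van.comp _ (QuotientGroup.mk'_surjective K) (z _ p hp hq _ h))
  have cm : ∀ g : G, (x * k)⁻¹ * (g * (x * k) * g⁻¹) ∈ K := by
    intro g
    have := mem_center_iff.1 cen ((QuotientGroup.mk' K) g)
    rw [← QuotientGroup.eq_one_iff]
    change (QuotientGroup.mk' K) _ = 1
    rw [map_mul, map_mul, map_mul (QuotientGroup.mk' K) g, this, map_inv, map_inv]
    group
  have hin : ∀ θ : K → ℂ, IsIrrCharacter K θ → x ∈ H14.inertia K θ := by
    intro θ hθ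
    by_contra hx
    refine nv (H22.VanP.van_of_inertia K hθ fun g hg => hx ?_)
    have hle : K ≤ H14.inertia K θ := H14.le_inertia K (H11.isClassFunction_of_irr hθ)
    have := mul_mem (mul_mem hg (inv_mem (hle (cm g)))) (inv_mem (hle hk))
    convert this using 1
    group
  have hcK := i2 G p hp K x hK ⟨e, he⟩ (i1 G K x hin)
  obtain ⟨P, hP⟩ := inSylow he
  refine mem_center_iff.2 fun g => ?_
  obtain ⟨c, hcc, v, hvP, rfl⟩ := split hi P g
  have h1 : x⁻¹ * (v * x * v⁻¹) ∈ K := by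
    have := mul_mem (mul_mem hk (cm v)) (inv_mem (Normal.conj_mem inferInstance k hk v))
    convert this using 1
    group
  have h2 : x⁻¹ * (v * x * v⁻¹) ∈ (P : Subgroup G) :=
    mul_mem (inv_mem hP) (mul_mem (mul_mem hvP hP) (inv_mem hvP))
  have h3 := one_ofP hK P h1 h2
  have h4 : v * x = x * v := by
    have : v * x = x * (x⁻¹ * (v * x * v⁻¹)) * v := by group
    rw [this, h3, mul_one]
  have h5 : c * x = x * c := mem_centralizer_iff.1 hcK c hcc
  rw [mul_assoc, h4, ← mul_assoc, h5, mul_assoc]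

end Cfsg.Agent.H23.Vp
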