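import Mathlib

/-!
# The integral quadratic form argument for blocks with defect group `3^(1+2)`
-/

set_option autoImplicit false

namespace Cfsg.Agent.H23.X27

open Finset

variable {ι κ : Type*} [DecidableEq ι] [DecidableEq κ]

/-- The trace of a principal submatrix of a symmetric multiple of an idempotent. -/
theorem trace_sq_le {B S : Finset ι} (hS : S ⊆ B) {M : ι → ι → ℤ} {c l : ℤ} (hc : c ≠ 0)
    (mm : ∀ a ∈ B, ∀ b ∈ B, ∑ x ∈ B, M a x * M b x = c * M a b) (tr : ∑ a ∈ B, M a a = c * l) :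
    (∑ a ∈ S, M a a) ^ 2 ≤ l * ∑ a ∈ S, ∑ b ∈ S, M a b ^ 2 := by
  have h := sum_mul_sq_le_sq_mul_sq (B ×ˢ B) (fun x => ∑ y ∈ S, M y x.1 * M y x.2)
    (fun x => M x.1 x.2)
  have h1 : ∑ x ∈ B ×ˢ B, (∑ y ∈ S, M y x.1 * M y x.2) * M x.1 x.2 = c * c * ∑ a ∈ S, M a a := by
    simp only [sum_mul]
    rw [sum_comm, mul_sum]
    refine sum_congr rfl fun y hy => ?_
    rw [sum_product, mul_assoc, ← mm y (hS hy) y (hS hy), mul_sum]
    refine sum_congr rfl fun a ha => ?_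
    rw [mul_left_comm, ← mm y (hS hy) a ha, mul_sum]
    exact sum_congr rfl fun b _ => by ring
  have h2 : ∑ x ∈ B ×ˢ B, (∑ y ∈ S, M y x.1 * M y x.2) ^ 2 =
      c * c * ∑ a ∈ S, ∑ b ∈ S, M a b ^ 2 := by
    simp only [sq, sum_mul_sum]
    rw [sum_comm, mul_sum]
    refine sum_congr rfl fun y hy => ?_
    rw [sum_comm, mul_sum]
    refine sum_congr rfl fun w hw => ?_
    rw [show c * c * (M y w * M y w) = (c * M y w) * (c * M y w) by ring,
      ← mm y (hS hy) w (hS hw), sum_mul_sum, sum_product]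
    exact sum_congr rfl fun a _ => sum_congr rfl fun b _ => by ring
  have h3 : ∑ x ∈ B ×ˢ B, M x.1 x.2 ^ 2 = c * c * l := by
    rw [sum_product, mul_assoc, ← tr, mul_sum]
    refine sum_congr rfl fun a ha => ?_
    rw [← mm a ha a ha]
    exact sum_congr rfl fun b _ => sq _
  rw [h1, h2, h3] at h
  have h4 : 0 < (c * c) * (c * c) := mul_pos (mul_self_pos.2 hc) (mul_self_pos.2 hc)
  refine le_of_mul_le_mul_left ?_ h4
  convert h using 1 <;> ring

/-- The data coming from the block. -/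
structure Cmb (B : Finset ι) (H : ι → Prop) (U : Finset κ) (d : κ → ι → ℤ) (A M : ι → ι → ℤ)
    (l : ℕ) (t : ι) (deg : ι → ℤ) : Prop where
  tB : t ∈ B
  tH : H t
  tdeg : deg t = 1
  ne : U.Nonempty
  td : ∀ u ∈ U, d u t = 1
  orth : ∀ u ∈ U, ∀ v ∈ U, ∑ x ∈ B, d u x * d v x = if u = v then 9 else 0
  dH : ∀ u ∈ U, ∀ x ∈ B, H x ↔ ¬ 3 ∣ d u x
  ddeg : ∀ u ∈ U, ∑ x ∈ B, deg x * d u x = 0
  row : ∀ a ∈ B, ∑ x ∈ B, A a x * A a x = 9 - ∑ u ∈ U, d u a * d u a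
  col : ∀ a ∈ B, ∑ x ∈ B, A x a * A x a = 9 - ∑ u ∈ U, d u a * d u a
  meq : ∀ a ∈ B, ∀ b ∈ B, M a b =
    (if a = b then 9 else 0) - ∑ u ∈ U, d u a * d u b + 3 * (A a b + A b a)
  mm : ∀ a ∈ B, ∀ b ∈ B, ∑ x ∈ B, M a x * M b x = 27 * M a b
  tr : ∑ a ∈ B, M a a = 27 * l
  md : ∀ u ∈ U, ∀ a ∈ B, ∑ x ∈ B, M a x * d u x = 0
  mne : ∀ a ∈ B, H a → ∀ b ∈ B, M a b ≠ 0
  m9 : ∀ a ∈ B, ¬ H a → ∀ b ∈ B, ¬ H b → 9 ∣ M a b

theorem pair_le {B : Finset ι} {f : ι → ℤ} {a b : ι} (ha : a ∈ B) (hb : b ∈ B) (h : a ≠ b) :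
    f a * f a + f b * f b ≤ ∑ x ∈ B, f x * f x := by
  rw [← sum_pair (f := fun x => f x * f x) h]
  exact sum_le_sum_of_subset_of_nonneg (insert_subset ha (singleton_subset_iff.2 hb))
    fun _ _ _ => mul_self_nonneg _

theorem odd_sum {S : Finset ι} (h : S.card = 9) {f : ι → ℤ} (hf : ∀ x ∈ S, ¬ 2 ∣ f x) :
    ∑ x ∈ S, f x ≠ 0 := fun e => by
  have h1 : (2 : ℤ) ∣ ∑ x ∈ S, (f x - 1) := dvd_sum fun x hx => by have := hf x hx; omega
  rw [sum_sub_distrib, e, sum_const, h] at h1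
  norm_num at h1

theorem not_two_dvd_mul {a b : ℤ} (ha : ¬ 2 ∣ a) (hb : ¬ 2 ∣ b) : ¬ 2 ∣ a * b := fun h =>
  (Int.prime_two.dvd_or_dvd h).elim ha hb

namespace Cmb

variable {B : Finset ι} {H : ι → Prop} [DecidablePred H] {U : Finset κ} {d : κ → ι → ℤ}
  {A M : ι → ι → ℤ} {l : ℕ} {t : ι} {deg : ι → ℤ} (h : Cmb B H U d A M l t deg)
include h

omit [DecidablePred H] in
theorem nrm {u : κ} (hu : u ∈ U) : ∑ x ∈ B, d u x * d u x = 9 := by simpa using h.orth u hu u hu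

omit [DecidablePred H] in
theorem d0 {u : κ} (hu : u ∈ U) {x : ι} (hx : x ∈ B) (hn : ¬ H x) : d u x = 0 := by
  have h1 := pair_le (f := d u) h.tB hx (fun e => hn (e ▸ h.tH))
  rw [h.nrm hu, h.td u hu] at h1
  obtain ⟨c, hc⟩ := not_not.1 (mt (h.dH u hu x hx).2 hn)
  rw [hc] at h1 ⊢
  have : c = 0 := by nlinarith
  simp [this]

omit [DecidablePred H] in
theorem d14 {u : κ} (hu : u ∈ U) {x : ι} (hx : x ∈ B) (hn : H x) :
    d u x * d u x = 1 ∨ d u x * d u x = 4 := by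
  have h1 : d u x * d u x ≤ 9 := h.nrm hu ▸
    single_le_sum (f := fun x => d u x * d u x) (fun _ _ => mul_self_nonneg _) hx
  have h2 := (h.dH u hu x hx).1 hn
  have h3 : -3 ≤ d u x := by nlinarith
  have h4 : d u x ≤ 3 := by nlinarith
  generalize d u x = a at *
  interval_cases a <;> simp_all

omit [DecidablePred H] in
theorem s0 {a : ι} (ha : a ∈ B) (hn : ¬ H a) (b : ι) : ∑ u ∈ U, d u a * d u b = 0 :=
  sum_eq_zero fun u hu => by rw [h.d0 hu ha hn, zero_mul]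

omit [DecidablePred H] in
theorem sy {a b : ι} (ha : a ∈ B) (hb : b ∈ B) : M a b = M b a := by
  rw [h.meq a ha b hb, h.meq b hb a ha, add_comm (A a b)]
  simp only [eq_comm (a := a), mul_comm (d _ a)]

theorem sum_d {u : κ} (hu : u ∈ U) (f : ι → ℤ) :
    ∑ x ∈ B, f x * d u x = ∑ x ∈ B.filter H, f x * d u x := by
  rw [sum_filter]
  refine sum_congr rfl fun x hx => ?_
  split_ifs with h1
  · rfl
  · rw [h.d0 hu hx h1, mul_zero]

theorem nrm' {u : κ} (hu : u ∈ U) :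
    ∑ x ∈ B.filter H, (d u x * d u x - 1) = 9 - (B.filter H).card := by
  rw [sum_sub_distrib, ← h.sum_d hu, h.nrm hu]; simp

theorem k0 : (B.filter H).card = 6 ∨ (B.filter H).card = 9 := by
  obtain ⟨u, hu⟩ := h.ne
  have h1 := h.nrm' hu
  have h2 : (3 : ℤ) ∣ ∑ x ∈ B.filter H, (d u x * d u x - 1) := dvd_sum fun x hx => by
    rcases h.d14 hu (mem_filter.1 hx).1 (mem_filter.1 hx).2 with e | e <;> rw [e] <;> norm_num
  have h3 : 0 ≤ ∑ x ∈ B.filter H, (d u x * d u x - 1) := sum_nonneg fun x hx => by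
    rcases h.d14 hu (mem_filter.1 hx).1 (mem_filter.1 hx).2 with e | e <;> rw [e] <;> norm_num
  have ht : t ∈ B.filter H := mem_filter.2 ⟨h.tB, h.tH⟩
  have h4 := card_pos.2 ⟨t, ht⟩
  have h5 : (B.filter H).card ≠ 3 := fun e => by
    have h6 : ∑ x ∈ (B.filter H).erase t, (4 - d u x * d u x) = 0 := by
      have h7 := add_sum_erase _ (fun x => d u x * d u x) ht
      rw [← h.sum_d hu, h.nrm hu, h.td u hu] at h7
      rw [sum_sub_distrib, sum_const, card_erase_of_mem ht, e]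
      simp only [nsmul_eq_mul]
      omega
    rw [sum_eq_zero_iff_of_nonneg fun x hx => by
      have := mem_filter.1 (mem_of_mem_erase hx)
      rcases h.d14 hu this.1 this.2 with e | e <;> rw [e] <;> norm_num] at h6
    have h7 := add_sum_erase _ (fun x => deg x * d u x) ht
    rw [← h.sum_d hu, h.ddeg u hu, h.td u hu, h.tdeg] at h7
    have h8 : (2 : ℤ) ∣ ∑ x ∈ (B.filter H).erase t, deg x * d u x := dvd_sum fun x hx => by
      refine Dvd.dvd.mul_left (Int.prime_two.dvd_of_dvd_pow (n := 2) ⟨2, ?_⟩) _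
      have := h6 x hx
      rw [sq]; omega
    omega
  omega

theorem odd_d (h9 : (B.filter H).card = 9) {u : κ} (hu : u ∈ U) {x : ι} (hx : x ∈ B.filter H) :
    ¬ 2 ∣ d u x := by
  have h1 := h.nrm' hu
  rw [h9, show (9 : ℤ) - (9 : ℕ) = 0 from rfl, sum_eq_zero_iff_of_nonneg fun x hx => by
    rcases h.d14 hu (mem_filter.1 hx).1 (mem_filter.1 hx).2 with e | e <;> rw [e] <;> norm_num] at h1
  intro h2
  have h3 := h1 x hx
  have := h2.mul_left (d u x)
  omega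

theorem n1 (h9 : (B.filter H).card = 9) : U.card = 1 := by
  refine le_antisymm (card_le_one.2 fun u hu v hv => ?_) (card_pos.2 h.ne)
  by_contra hne
  have h1 := h.orth u hu v hv
  rw [if_neg hne, h.sum_d hv] at h1
  exact odd_sum h9 (fun x hx => not_two_dvd_mul (h.odd_d h9 hu hx) (h.odd_d h9 hv hx)) h1

omit [DecidablePred H] in
theorem mH {a b : ι} (ha : a ∈ B) (hn : ¬ H a) (hb : b ∈ B) (hb' : H b) :
    M a b = 3 * (A a b + A b a) ∧ M a b ≠ 0 := by
  refine ⟨?_, h.sy ha hb ▸ h.mne b hb hb' a ha⟩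
  rw [h.meq a ha b hb, h.s0 ha hn, if_neg fun e : a = b => hn (e ▸ hb')]
  ring

omit [DecidablePred H] in
theorem diag {a : ι} (ha : a ∈ B) (hn : ¬ H a) : M a a = 9 := by
  have h1 := h.meq a ha a ha
  have h2 := h.m9 a ha hn a ha hn
  have hne : a ≠ t := fun e => hn (e ▸ h.tH)
  have h3 := pair_le (f := fun x => A a x) ha h.tB hne
  have h4 := pair_le (f := fun x => A x a) ha h.tB hne
  rw [h.row a ha] at h3
  rw [h.col a ha] at h4
  rw [h.s0 ha hn, if_pos rfl] at h1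
  rw [h.s0 ha hn] at h3 h4
  obtain ⟨c, hc⟩ : 3 ∣ A a a := by omega
  obtain ⟨h5, h6⟩ := h.mH ha hn h.tB h.tH
  by_cases h0 : c = 0
  · rw [h1, hc, h0]; rfl
  · have h7 : 1 ≤ c * c := by have := mul_self_pos.2 h0; omega
    rw [hc] at h3 h4
    have h8 : A a t = 0 := by nlinarith [mul_self_nonneg (A a t)]
    have h9 : A t a = 0 := by nlinarith [mul_self_nonneg (A t a)]
    exact absurd (by rw [h5, h8, h9]; rfl) h6

theorem row1 {a : ι} (ha : a ∈ B) (hn : ¬ H a) :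
    ∑ x ∈ B.filter (¬ H ·), M a x ^ 2 ≤ 162 ∧
      ((B.filter H).card = 9 → ∑ x ∈ B.filter (¬ H ·), M a x ^ 2 ≤ 81) := by
  have h1 : ∑ x ∈ B.filter H, M a x * M a x + ∑ x ∈ B.filter (¬ H ·), M a x * M a x = 243 := by
    rw [sum_filter_add_sum_filter_not, h.mm a ha a ha, h.diag ha hn]; rfl
  have h2 : (81 : ℤ) ∣ ∑ x ∈ B.filter (¬ H ·), M a x * M a x := dvd_sum fun x hx =>
    mul_dvd_mul (a := 9) (c := 9) (h.m9 a ha hn x (mem_filter.1 hx).1 (mem_filter.1 hx).2)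
      (h.m9 a ha hn x (mem_filter.1 hx).1 (mem_filter.1 hx).2)
  have h3 : ∀ x ∈ B.filter H, 0 ≤ M a x * M a x - 9 := fun x hx => by
    obtain ⟨h4, h5⟩ := h.mH ha hn (mem_filter.1 hx).1 (mem_filter.1 hx).2
    rw [h4] at h5 ⊢
    have := mul_self_pos.2 (right_ne_zero_of_mul h5)
    nlinarith
  have h4 := sum_nonneg h3
  have h5 : ∑ x ∈ B.filter H, (M a x * M a x - 9) =
      ∑ x ∈ B.filter H, M a x * M a x - 9 * (B.filter H).card := by
    rw [sum_sub_distrib, sum_const, nsmul_eq_mul, mul_comm]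
  simp only [sq]
  have h6 := h.k0
  refine ⟨by omega, fun h9 => ?_⟩
  by_contra h7
  have h8 : ∑ x ∈ B.filter H, (M a x * M a x - 9) = 0 := by omega
  rw [sum_eq_zero_iff_of_nonneg h3] at h8
  obtain ⟨u, hu⟩ := h.ne
  refine odd_sum h9 (fun x hx => not_two_dvd_mul (fun h2 => ?_) (h.odd_d h9 hu hx))
    ((h.sum_d hu _).symm.trans (h.md u hu a ha))
  have h3 := h8 x hx
  have := h2.mul_left (M a x)
  omega

theorem tr1 : ∑ a ∈ B.filter (¬ H ·), M a a = 9 * (B.filter (¬ H ·)).card := by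
  rw [sum_congr rfl fun a ha => h.diag (mem_filter.1 ha).1 (mem_filter.1 ha).2, sum_const,
    nsmul_eq_mul, mul_comm]

theorem k1_le {c : ℕ} (hc : ∀ a ∈ B, ¬ H a → ∑ x ∈ B.filter (¬ H ·), M a x ^ 2 ≤ 81 * c) :
    (B.filter (¬ H ·)).card ≤ c * l := by
  have h1 := trace_sq_le (filter_subset (¬ H ·) B) (c := 27) (by norm_num) h.mm h.tr
  have h2 := sum_le_card_nsmul (B.filter (¬ H ·)) _ _
    fun a ha => hc a (mem_filter.1 ha).1 (mem_filter.1 ha).2
  rw [h.tr1] at h1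
  rw [nsmul_eq_mul] at h2
  have h3 := h1.trans (mul_le_mul_of_nonneg_left h2 (Nat.cast_nonneg l))
  generalize (B.filter (¬ H ·)).card = k at h3
  rcases Nat.eq_zero_or_pos k with rfl | hk
  · exact Nat.zero_le _
  · have h4 : (k : ℤ) * k ≤ k * (c * l) := by nlinarith
    exact_mod_cast le_of_mul_le_mul_left h4 (by exact_mod_cast hk)

theorem k1_six (h6 : (B.filter H).card = 6) : (B.filter (¬ H ·)).card + 2 * U.card ≤ 12 := by
  obtain ⟨u, hu⟩ := h.ne
  obtain ⟨a, ha, h1⟩ := exists_ne_zero_of_sum_ne_zero (s := B.filter H)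
    (f := fun x => d u x * d u x - 1) (by rw [h.nrm' hu, h6]; norm_num)
  obtain ⟨ha, hH⟩ := mem_filter.1 ha
  have h2 : d u a * d u a - 1 ≤ ∑ v ∈ U, (d v a * d v a - 1) :=
    single_le_sum (f := fun v => d v a * d v a - 1) (fun v hv => by
      rcases h.d14 hv ha hH with e | e <;> rw [e] <;> norm_num) hu
  rw [sum_sub_distrib, sum_const, nsmul_eq_mul, mul_one] at h2
  have h3 := h.d14 hu ha hH
  have h4 : ∑ x ∈ B.filter (¬ H ·), (1 : ℤ) ≤
      ∑ x ∈ B.filter (¬ H ·), (A a x * A a x + A x a * A x a) := sum_le_sum fun x hx => by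
    obtain ⟨h5, h7⟩ := h.mH (mem_filter.1 hx).1 (mem_filter.1 hx).2 ha hH
    by_contra h8
    have h9 : A a x = 0 := by nlinarith [mul_self_nonneg (A a x), mul_self_nonneg (A x a)]
    have h10 : A x a = 0 := by nlinarith [mul_self_nonneg (A a x), mul_self_nonneg (A x a)]
    exact h7 (by rw [h5, h9, h10]; rfl)
  have h5 := h4.trans (sum_le_sum_of_subset_of_nonneg (filter_subset (¬ H ·) B)
    fun _ _ _ => add_nonneg (mul_self_nonneg _) (mul_self_nonneg _))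
  rw [sum_add_distrib, h.row a ha, h.col a ha, sum_const, nsmul_eq_mul, mul_one] at h5
  omega

/-- The conclusion of the quadratic form argument. -/
theorem main : ((B.filter H).card = 6 ∧ (B.filter (¬ H ·)).card ≤ 2 * l ∧
    (B.filter (¬ H ·)).card + 2 * U.card ≤ 12) ∨
    ((B.filter H).card = 9 ∧ U.card = 1 ∧ (B.filter (¬ H ·)).card ≤ l) := by
  rcases h.k0 with h6 | h9
  · exact Or.inl ⟨h6, h.k1_le fun a ha hn => (h.row1 ha hn).1, h.k1_six h6⟩
  · exact Or.inr ⟨h9, h.n1 h9, by simpa using h.k1_le (c := 1) fun a ha hn => (h.row1 ha hn).2 h9⟩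

end Cmb

end Cfsg.Agent.H23.X27
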