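import Cfsg.Agent.H23.SecT
import Cfsg.Agent.H23.X27Comb
import Cfsg.Agent.H17.TameTools

/-!
# The principal `3`-block when the Sylow subgroup is `3^(1+2)` with a weakly closed centre
-/

set_option autoImplicit false

namespace Cfsg.Agent.H23.X27

open Cfsg Cfsg.Agent.H17 Cfsg.Agent.H11 Cfsg.Agent.H23.SecT
open scoped ComplexConjugate Classical

universe u

local instance factThreeX : Fact (Nat.Prime 3) := ⟨Nat.prime_three⟩

/-- A primitive cube root of unity. -/
noncomputable def om : ℂ := H57.ST.ζ (1 : ZMod 3)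

theorem om_ne : om ≠ 1 := fun h => absurd (H57.ST.ζ_inj (h.trans H57.ST.ζ_zero.symm)) (by decide)
theorem conj_om : conj om = om * om := by
  rw [om, H57.ST.conj_ζ, ← H57.ST.ζ_add]; rfl
theorem om3 : om * om * om = 1 := by rw [← conj_om, mul_comm]; exact H57.ST.ζ_mul_conj _
theorem cube_sum {w : ℂ} (h : w ^ 3 = 1) (h1 : w ≠ 1) : 1 + w + w * w = 0 :=
  mul_left_cancel₀ (sub_ne_zero.2 h1) (by linear_combination h)
theorem om_sum : 1 + om + om * om = 0 := cube_sum (by linear_combination om3) om_ne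
theorem cube_norm {w : ℂ} (h : w ^ 3 = 1) : w * conj w = 1 := by
  rw [H12.conj_eq_pow_of_pow_eq_one (by norm_num) h]; linear_combination h

/-- The faithful character of the Sylow subgroup, as a class function. -/
noncomputable def phi {G : Type u} [Group G] (z : G) : G → ℂ :=
  (3 : ℂ) • ind 1 + (3 * om) • ind z + (3 * (om * om)) • ind z⁻¹

variable {G : Type u} [Group G]

theorem phi_class (z : G) : IsClassFunction G (phi z) :=
  isClassFunction_add (isClassFunction_add (isClassFunction_smul (ind_class _) _)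
    (isClassFunction_smul (ind_class _) _)) (isClassFunction_smul (ind_class _) _)

theorem phi_apply (z x : G) :
    phi z x = 3 * ind 1 x + 3 * om * ind z x + 3 * (om * om) * ind z⁻¹ x := rfl

theorem conj_phi (z x : G) :
    conj (phi z x) = 3 * ind 1 x + 3 * (om * om) * ind z x + 3 * om * ind z⁻¹ x := by
  simp only [phi_apply, map_add, map_mul, conj_ind, conj_om, map_ofNat]
  linear_combination 3 * om * ind z⁻¹ x * om3

/-- The value of a character at a real element of order `3`. -/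
theorem exists_int_val [Finite G] (χ : IrrCharacter G) {u : G} (hu : orderOf u = 3)
    (hr : IsConj u u⁻¹) : ∃ d : ℤ, χ.1 u = d ∧ (3 ∣ d ↔ 3 ∣ charDegree χ.1) := by
  have hχ := H12.isCharacter_of_irr χ.2
  obtain ⟨n, μ, h1, h2, h3⟩ := H12.IsCharacter_exists_eigenvalues hχ u
  have h4 : ∀ i, ∃ m : ℤ, 1 + μ i + μ i ^ 2 = 3 * m := fun i => by
    by_cases h : μ i = 1
    · exact ⟨1, by rw [h]; norm_num⟩
    · exact ⟨0, by rw [sq, cube_sum (hu ▸ h2 i) h]; norm_num⟩
  choose m hm using h4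
  have h5 : u⁻¹ = u ^ 2 := by rw [H12.inv_eq_pow_orderOf_sub_one, hu]
  have h6 : (n : ℂ) + χ.1 u + χ.1 u = 3 * (∑ i, m i : ℤ) := by
    have h7 := h3 1
    have h8 := h3 2
    rw [← h5, ← classFun_of_isConj (H12.isClassFunction_of_isCharacter hχ) hr] at h8
    rw [pow_one] at h7
    conv_lhs => rw [h8]; enter [1, 2]; rw [← h8, h7]
    push_cast
    simp only [Finset.mul_sum, ← hm, Finset.sum_add_distrib, pow_one]
    simp
  have h7 : χ.1 u = algebraMap ℚ ℂ ((3 * (∑ i, m i : ℤ) - n) / 2) := by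
    rw [eq_ratCast]; push_cast at h6 ⊢; linear_combination h6 / 2
  have h8 := H12.IsCharacter_isIntegral hχ u
  rw [h7, isIntegral_algebraMap_iff (algebraMap ℚ ℂ).injective] at h8
  obtain ⟨d, hd⟩ := IsIntegrallyClosed.isIntegral_iff.1 h8
  have h9 : χ.1 u = d := by rw [h7, ← hd]; simp
  refine ⟨d, h9, ?_⟩
  rw [H21.charDegree_eq h1]
  rw [h9] at h6
  have h10 : (n : ℤ) + d + d = 3 * ∑ i, m i := by exact_mod_cast h6
  omega

/-- The fusion data. -/
structure Fu (z : G) (U : Finset G) : Prop where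
  card : (Nat.card G).factorization 3 = 3
  oz : orderOf z = 3
  oU : ∀ u ∈ U, orderOf u = 3
  zz : ¬ IsConj z z⁻¹
  zU : ∀ u ∈ U, ¬ IsConj z u
  zU' : ∀ u ∈ U, ¬ IsConj z⁻¹ u
  UU : ∀ u ∈ U, ∀ v ∈ U, IsConj u v → u = v
  all : ∀ x : G, (∃ k : ℕ, orderOf x = 3 ^ k) →
    x = 1 ∨ IsConj z x ∨ IsConj z⁻¹ x ∨ ∃ u ∈ U, IsConj u x
  npc : ∀ u ∈ U, HasNormalPComplement 3 (Cg u)
  c9 : ∀ u ∈ U, (Nat.card (Cg u)).factorization 3 = 2
  gen : ∀ Q : Subgroup G, IsPGroup 3 Q → IsGeneralizedCharacter Q fun x : Q => phi z x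

theorem not_conj_one {x : G} (h : orderOf x = 3) : ¬ IsConj x 1 := fun e => by
  rw [isConj_one_left.1 e, orderOf_one] at h
  exact absurd h (by norm_num)

theorem floor_cast {w : ℂ} (h : ∃ n : ℤ, w = n) : ((⌊w.re⌋ : ℤ) : ℂ) = w := by
  obtain ⟨n, rfl⟩ := h
  simp

/-- The value of `χ` at `u`. -/
noncomputable def dv (u : G) (χ : IrrCharacter G) : ℤ := ⌊(χ.1 u).re⌋

/-- The matrix of the twist by `phi`. -/
noncomputable def Am [Fintype G] (z : G) (χ ψ : IrrCharacter G) : ℤ := ⌊(TT 3 (phi z) χ ψ).re⌋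

namespace Fu

variable {z : G} {U : Finset G} (h : Fu z U)
include h

theorem oz' : orderOf z⁻¹ = 3 := by rw [orderOf_inv, h.oz]

theorem vals {x : G} (hx : ∃ k : ℕ, orderOf x = 3 ^ k) :
    (ind 1 x = 1 ∧ ind z x = 0 ∧ ind z⁻¹ x = 0 ∧ (∑ u ∈ U, ind u) x = 0) ∨
    (ind 1 x = 0 ∧ ind z x = 1 ∧ ind z⁻¹ x = 0 ∧ (∑ u ∈ U, ind u) x = 0) ∨
    (ind 1 x = 0 ∧ ind z x = 0 ∧ ind z⁻¹ x = 1 ∧ (∑ u ∈ U, ind u) x = 0) ∨
    (ind 1 x = 0 ∧ ind z x = 0 ∧ ind z⁻¹ x = 0 ∧ (∑ u ∈ U, ind u) x = 1) := by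
  have k : ∀ {a b : G}, IsConj a x → ¬ IsConj a b → ind b x = 0 := fun h1 h2 =>
    ind_of_not fun h3 => h2 (h1.trans h3.symm)
  have k' : ∀ {a : G}, IsConj a x → (∀ u ∈ U, ¬ IsConj a u) → (∑ u ∈ U, ind u) x = 0 :=
    fun h1 h2 => by
      rw [Finset.sum_apply]; exact Finset.sum_eq_zero fun u hu => k h1 (h2 u hu)
  rcases h.all x hx with rfl | h1 | h1 | ⟨u, hu, h1⟩
  · exact Or.inl ⟨ind_of (IsConj.refl _), ind_of_not (not_conj_one h.oz),
      ind_of_not (not_conj_one h.oz'), k' (IsConj.refl _) fun u hu e => not_conj_one (h.oU u hu) e.symm⟩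
  · exact Or.inr (Or.inl ⟨k h1 (not_conj_one h.oz), ind_of h1, k h1 h.zz, k' h1 h.zU⟩)
  · exact Or.inr (Or.inr (Or.inl ⟨k h1 (not_conj_one h.oz'), k h1 fun e => h.zz e.symm, ind_of h1,
      k' h1 h.zU'⟩))
  · refine Or.inr (Or.inr (Or.inr ⟨k h1 (not_conj_one (h.oU u hu)), k h1 fun e => h.zU u hu e.symm,
      k h1 fun e => h.zU' u hu e.symm, ?_⟩))
    rw [Finset.sum_apply, Finset.sum_eq_single u (fun v hv hne => k h1 fun e => hne (h.UU u hu v hv e).symm)
      fun e => absurd hu e, ind_of h1]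

variable [Fintype G] {M : Ideal AlgInt} (hM : IsPModular 3 M)

theorem part (χ ψ : IrrCharacter G) : TT 3 (ind 1) χ ψ + TT 3 (ind z) χ ψ + TT 3 (ind z⁻¹) χ ψ +
    ∑ u ∈ U, TT 3 (ind u) χ ψ = if χ = ψ then 1 else 0 := by
  rw [← TT_one (p := 3), ← TT_sum, ← TT_add, ← TT_add, ← TT_add]
  refine TT_congr (fun x hx => ?_) χ ψ
  simp only [Pi.add_apply, Pi.one_apply]
  rcases h.vals hx with ⟨a, b, c, d⟩ | ⟨a, b, c, d⟩ | ⟨a, b, c, d⟩ | ⟨a, b, c, d⟩ <;>
    rw [a, b, c, d] <;> norm_num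

theorem TT_norm (χ : IrrCharacter G) : TT 3 (phi z * fun g => conj (phi z g)) χ χ =
    9 - 9 * ∑ u ∈ U, TT 3 (ind u) χ χ := by
  have h1 := h.part χ χ
  rw [if_pos rfl] at h1
  rw [TT_congr (φ' := (9 : ℂ) • (ind 1 + ind z + ind z⁻¹)) fun x hx => ?_, TT_smul, TT_add, TT_add]
  · linear_combination 9 * h1
  · simp only [Pi.add_apply, Pi.smul_apply, Pi.mul_apply, smul_eq_mul]
    rw [conj_phi, phi_apply]
    rcases h.vals hx with ⟨a, b, c, -⟩ | ⟨a, b, c, -⟩ | ⟨a, b, c, -⟩ | ⟨a, b, c, -⟩ <;> rw [a, b, c]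
    · norm_num
    · linear_combination 9 * om3
    · linear_combination 9 * om3
    · norm_num

theorem TT_re (χ ψ : IrrCharacter G) : TT 3 (phi z) χ ψ + TT 3 (fun g => conj (phi z g)) χ ψ =
    6 * TT 3 (ind 1) χ ψ - 3 * TT 3 (ind z) χ ψ - 3 * TT 3 (ind z⁻¹) χ ψ := by
  rw [← TT_add, TT_congr (φ' := (6 : ℂ) • ind 1 + (-3 : ℂ) • ind z + (-3 : ℂ) • ind z⁻¹)
    fun x _ => ?_, TT_add, TT_add, TT_smul, TT_smul, TT_smul]
  · ring
  · simp only [Pi.add_apply, Pi.smul_apply, smul_eq_mul]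
    rw [conj_phi, phi_apply]
    linear_combination (3 * ind z x + 3 * ind z⁻¹ x) * om_sum

theorem cast_Am (χ ψ : IrrCharacter G) : (Am z χ ψ : ℂ) = TT 3 (phi z) χ ψ :=
  floor_cast (exists_int_TT (phi_class z) h.gen χ ψ)

theorem cast_Am' (χ ψ : IrrCharacter G) : (Am z χ ψ : ℂ) = TT 3 (fun g => conj (phi z g)) ψ χ := by
  rw [← conj_TT, ← h.cast_Am, map_intCast]

include hM

theorem cast_cZ {χ : IrrCharacter G} (hχ : χ ∈ principalBlock M G) (ψ : IrrCharacter G) :
    (H21.cZ 3 (principalBlock M G) χ ψ : ℂ) = 27 * TT 3 (ind 1) χ ψ := by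
  rw [cZ_eq hM hχ, H21.defect_principal hM, h.card]; norm_num

variable [Fintype (IrrCharacter G)]

theorem count : ((fB (principalBlock M G)).card : ℂ) = blockRank 3 (principalBlock M G) +
    ∑ χ ∈ fB (principalBlock M G), TT 3 (ind z) χ χ +
    ∑ χ ∈ fB (principalBlock M G), TT 3 (ind z⁻¹) χ χ + U.card := by
  have h1 := Finset.sum_congr (rfl (a := fB (principalBlock M G))) fun χ _ => h.part χ χ
  rw [Finset.sum_add_distrib, Finset.sum_add_distrib, Finset.sum_add_distrib, Finset.sum_comm,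
    trace_one hM H21.isPBlock_principal, Finset.sum_congr (rfl (a := U)) (g := fun _ => 1) fun u hu => by
      rw [trace_ind hM ⟨1, h.oU u hu⟩, (H21.blockRank_principal_eq_one_iff hM).2 (h.npc u hu),
        Nat.cast_one]] at h1
  simpa using h1.symm

theorem count' : (fB (principalBlock M G)).card = blockRank 3 (principalBlock M G) +
    blockRank 3 (principalBlock M (Cg z)) + blockRank 3 (principalBlock M (Cg z⁻¹)) + U.card := by
  have h1 := h.count hM
  rw [trace_ind hM ⟨1, h.oz⟩, trace_ind hM ⟨1, h.oz'⟩] at h1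
  exact_mod_cast h1

variable (hr : ∀ u ∈ U, IsConj u u⁻¹)
include hr

omit hM [Fintype (IrrCharacter G)] in
theorem cast_dv {u : G} (hu : u ∈ U) (χ : IrrCharacter G) : (dv u χ : ℂ) = χ.1 u := by
  obtain ⟨d, hd, -⟩ := exists_int_val χ (h.oU u hu) (hr u hu)
  exact floor_cast ⟨d, hd⟩

omit [Fintype (IrrCharacter G)] in
theorem TT_u {u : G} (hu : u ∈ U) {χ ψ : IrrCharacter G} (hχ : χ ∈ principalBlock M G)
    (hψ : ψ ∈ principalBlock M G) : 9 * TT 3 (ind u) χ ψ = dv u χ * dv u ψ := by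
  have h1 := TT_ind_npc hM ⟨1, h.oU u hu⟩ (h.npc u hu) hχ hψ
  rw [h.c9 u hu, ← classFun_of_isConj (irr_class ψ) (hr u hu)] at h1
  rw [h.cast_dv hr hu, h.cast_dv hr hu, ← h1]; norm_num

omit [Fintype (IrrCharacter G)] in
theorem TT_s {χ ψ : IrrCharacter G} (hχ : χ ∈ principalBlock M G) (hψ : ψ ∈ principalBlock M G) :
    9 * ∑ u ∈ U, TT 3 (ind u) χ ψ = (∑ u ∈ U, dv u χ * dv u ψ : ℤ) := by
  rw [Finset.mul_sum]; push_cast
  exact Finset.sum_congr rfl fun u hu => h.TT_u hM hr hu hχ hψ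

omit hM [Fintype (IrrCharacter G)] in
theorem dv_triv {u : G} (hu : u ∈ U) : dv u (H21.triv G) = 1 := by
  have := h.cast_dv hr hu (H21.triv G)
  rw [H21.triv_apply] at this
  exact_mod_cast this

theorem cmb (hU : U.Nonempty) : Cmb (fB (principalBlock M G))
    (fun χ => blockHeight 3 (principalBlock M G) χ.1 = 0) U dv (Am z)
    (H21.cZ 3 (principalBlock M G)) (blockRank 3 (principalBlock M G)) (H21.triv G)
    fun χ => charDegree χ.1 := by
  have hB : IsPBlock M (principalBlock M G) := H21.isPBlock_principal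
  have ht := H21.triv_mem_principal (G := G) hM.2.1
  have hd : (3 : ℤ) ^ blockDefect 3 (principalBlock M G) = 27 := by
    rw [H21.defect_principal hM, h.card]; norm_num
  refine ⟨mem_fB.2 ht, H21.height_triv _, by simp [H21.triv_coe, H21.charDegree_one], hU,
    fun u hu => h.dv_triv hr hu, fun u hu v hv => ?_, fun u hu χ _ => ?_, fun u hu => ?_,
    fun χ hχ => ?_, fun χ hχ => ?_, fun χ hχ ψ hψ => ?_, fun χ hχ ψ hψ => ?_, ?_,
    fun u hu χ hχ => ?_, fun χ hχ h0 ψ hψ => ?_, fun χ hχ h0 ψ _ h1 => ?_⟩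
  · have h1 := TT_mul hM hB (ind_class u) (ind v) ht (H21.triv G)
    have h2 : ind u * ind v = if u = v then ind u else 0 := by
      funext x
      by_cases e : IsConj u x
      · split_ifs with e'
        · rw [Pi.mul_apply, ← e', ind_of e, one_mul]
        · rw [Pi.mul_apply, ind_of_not fun e2 => e' (h.UU u hu v hv (e.trans e2.symm)), mul_zero]
          rfl
      · rw [Pi.mul_apply, ind_of_not e, zero_mul]
        split_ifs
        · exact (ind_of_not e).symm
        · rfl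
    have h3 : ((∑ χ ∈ fB (principalBlock M G), dv u χ * dv v χ : ℤ) : ℂ) =
        81 * TT 3 (ind u * ind v) (H21.triv G) (H21.triv G) := by
      rw [← h1, Finset.mul_sum]; push_cast
      refine Finset.sum_congr rfl fun χ hχ => ?_
      have h4 := h.TT_u hM hr hu ht (mem_fB.1 hχ)
      have h5 := h.TT_u hM hr hv (mem_fB.1 hχ) ht
      rw [h.dv_triv hr hu] at h4
      rw [h.dv_triv hr hv] at h5
      push_cast at h4 h5
      linear_combination -(9 * TT 3 (ind v) χ (H21.triv G)) * h4 - (dv u χ) * h5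
    rw [h2] at h3
    split_ifs at h3 ⊢ with e
    · have h4 := h.TT_u hM hr hu ht ht
      rw [h.dv_triv hr hu] at h4
      push_cast at h4
      have : ((∑ χ ∈ fB (principalBlock M G), dv u χ * dv v χ : ℤ) : ℂ) = (9 : ℤ) := by
        rw [h3]; push_cast; linear_combination 9 * h4
      exact_mod_cast this
    · rw [TT_zero, mul_zero] at h3
      exact_mod_cast h3
  · obtain ⟨d, hd, h1⟩ := exists_int_val χ (h.oU u hu) (hr u hu)
    have h2 : dv u χ = d := by exact_mod_cast (h.cast_dv hr hu χ).trans hd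
    rw [H21.height_principal_eq_zero_iff hM, h2, h1]
  · have h1 := H21.sum_deg_mul_apply_eq_zero hM hB (x := u) (by rw [h.oU u hu])
    simp only [← H21.cast_deg, ← h.cast_dv hr hu] at h1
    exact_mod_cast h1
  · have h1 := TT_mul hM hB (phi_class z) (fun g => conj (phi z g)) (mem_fB.1 hχ) χ
    rw [h.TT_norm, h.TT_s hM hr (mem_fB.1 hχ) (mem_fB.1 hχ)] at h1
    simp only [← h.cast_Am, ← h.cast_Am'] at h1
    exact_mod_cast h1
  · have h1 := TT_mul hM hB (isClassFunction_conj (phi_class z)) (phi z) (mem_fB.1 hχ) χ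
    rw [mul_comm _ (phi z), h.TT_norm, h.TT_s hM hr (mem_fB.1 hχ) (mem_fB.1 hχ)] at h1
    simp only [← h.cast_Am, ← h.cast_Am'] at h1
    exact_mod_cast h1
  · have h1 := h.part χ ψ
    have h2 := h.TT_re χ ψ
    have h3 := h.TT_s hM hr (mem_fB.1 hχ) (mem_fB.1 hψ)
    have h4 := h.cast_cZ hM (mem_fB.1 hχ) ψ
    rw [← h.cast_Am, ← h.cast_Am'] at h2
    have : (H21.cZ 3 (principalBlock M G) χ ψ : ℂ) = (((if χ = ψ then 9 else 0) -
        ∑ u ∈ U, dv u χ * dv u ψ + 3 * (Am z χ ψ + Am z ψ χ) : ℤ) : ℂ) := by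
      rw [Int.cast_add, Int.cast_sub, ← h3]
      split_ifs at h1 ⊢ <;> push_cast <;> linear_combination h4 + 9 * h1 - 3 * h2
    exact_mod_cast this
  · rw [← hd]; exact H21.sum_cZ_mul_cZ hM hB (mem_fB.1 hχ) (mem_fB.1 hψ)
  · rw [← hd]; exact (H21.pow_mul_blockRank_eq_sum hM hB).symm
  · have h1 := TT_mul hM hB (ind_class 1) (ind u) (mem_fB.1 hχ) (H21.triv G)
    have h2 : ind 1 * ind u = 0 := by
      funext x
      by_cases e : IsConj u x
      · rw [Pi.mul_apply, ind_of_not fun e2 => not_conj_one (h.oU u hu) (e.trans e2.symm), zero_mul]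
        rfl
      · rw [Pi.mul_apply, ind_of_not e, mul_zero]; rfl
    rw [h2, TT_zero] at h1
    have h3 : ((∑ ξ ∈ fB (principalBlock M G), H21.cZ 3 (principalBlock M G) χ ξ * dv u ξ : ℤ) : ℂ) =
        243 * 0 := by
      rw [← h1, Finset.mul_sum]; push_cast
      refine Finset.sum_congr rfl fun ξ hξ => ?_
      have h5 := h.TT_u hM hr hu (mem_fB.1 hξ) ht
      rw [h.dv_triv hr hu] at h5
      push_cast at h5
      rw [h.cast_cZ hM (mem_fB.1 hχ)]
      linear_combination -(27 * TT 3 (ind 1) χ ξ) * h5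
    rw [mul_zero] at h3
    exact_mod_cast h3
  · exact H21.cZ_ne_zero_of_height_zero hM hB (mem_fB.1 hχ) h0 (mem_fB.1 hψ)
  · refine Dvd.dvd.trans ?_ (H21.pow_succ_dvd_cZ_of_height_ne_zero hM hB (mem_fB.1 hχ) h0
      (mem_fB.1 ‹_›))
    exact pow_dvd_pow (3 : ℤ) (show 2 ≤ _ by omega)

/-- The case of a central `z`. -/
theorem central (hU : U.Nonempty) (hc : ∀ g, z * g = g * z) (huz : ∀ u ∈ U, IsConj u (z * u)) :
    blockRank 3 (principalBlock M G) + U.card = 6 := by
  have hB : IsPBlock M (principalBlock M G) := H21.isPBlock_principal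
  have c := h.cmb hM hr hU
  have hc' : ∀ g, z⁻¹ * g = g * z⁻¹ := fun g => (Commute.inv_left (hc g) :)
  have z3 : z ^ 3 = 1 := h.oz ▸ pow_orderOf_eq_one z
  have z3' : z⁻¹ ^ 3 = 1 := by rw [inv_pow, z3, inv_one]
  have w3 := fun χ : IrrCharacter G => H20.cw_pow_eq_one χ hc z3
  have w3' := fun χ : IrrCharacter G => H20.cw_pow_eq_one χ hc' z3'
  have ww : ∀ χ : IrrCharacter G, H20.cw χ z * H20.cw χ z⁻¹ = 1 := fun χ => by
    rw [← H20.cw_mul χ hc, mul_inv_cancel, H20.cw_one]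
  have h1 := h.count hM
  simp only [TT_central (p := 3) ⟨1, h.oz⟩ hc, TT_central (p := 3) ⟨1, h.oz'⟩ hc', cube_norm (w3 _),
    cube_norm (w3' _), one_mul, trace_one hM hB] at h1
  have h2 : ∀ χ ∈ (fB (principalBlock M G)).filter
      (fun χ => blockHeight 3 (principalBlock M G) χ.1 = 0), H20.cw χ z + H20.cw χ z⁻¹ = 2 :=
    fun χ hχ => by
      obtain ⟨u, hu⟩ := hU
      have h3 := classFun_of_isConj (irr_class χ) (huz u hu)
      rw [H20.irr_mul_eq_cw χ hc, ← h.cast_dv hr hu] at h3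
      have h4 : (dv u χ : ℂ) ≠ 0 := Int.cast_ne_zero.2 fun e =>
        (c.dH u hu χ (Finset.mem_filter.1 hχ).1).1 (Finset.mem_filter.1 hχ).2 (e ▸ dvd_zero 3)
      have h5 : H20.cw χ z = 1 := mul_right_cancel₀ h4 (by rw [← h3, one_mul])
      have h6 := ww χ
      rw [h5, one_mul] at h6
      rw [h5, h6]; norm_num
  have h3 : ∀ χ ∈ (fB (principalBlock M G)).filter
      (fun χ => ¬ blockHeight 3 (principalBlock M G) χ.1 = 0), H20.cw χ z + H20.cw χ z⁻¹ = -1 :=
    fun χ hχ => by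
      obtain ⟨hχ, hn⟩ := Finset.mem_filter.1 hχ
      have h6 := ww χ
      have h5 : H20.cw χ z ≠ 1 := fun e => by
        rw [e, one_mul] at h6
        have h7 := h.part χ (H21.triv G)
        have h8 := h.TT_s hM hr (mem_fB.1 hχ) (mem_fB.1 c.tB)
        have h9 : ∀ g, H20.cw (H21.triv G) g = 1 := fun g => by simp [H20.cw, H21.triv_apply]
        rw [TT_central ⟨1, h.oz⟩ hc, TT_central ⟨1, h.oz'⟩ hc', e, h6, h9, h9, map_one,
          if_neg fun e : χ = _ => hn (e ▸ c.tH)] at h7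
        rw [c.s0 hχ hn] at h8
        refine (c.mH hχ hn c.tB c.tH).2 (Int.cast_eq_zero (α := ℂ).1 ?_)
        rw [h.cast_cZ hM (mem_fB.1 hχ)]
        push_cast at h8
        linear_combination 9 * h7 - h8
      have h7 := cube_sum (w3 χ) h5
      linear_combination h7 + H20.cw χ z * H20.cw χ z * h6 - H20.cw χ z⁻¹ * w3 χ
  have h4 : ∑ χ ∈ fB (principalBlock M G), (H20.cw χ z + H20.cw χ z⁻¹) *
      H21.cZ 3 (principalBlock M G) χ χ = 0 := by
    have h5 := trace_cw hM hB ⟨1, h.oz⟩ (fun e => not_conj_one h.oz (e ▸ IsConj.refl _)) hc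
    have h6 := trace_cw hM hB ⟨1, h.oz'⟩ (fun e => not_conj_one h.oz' (e ▸ IsConj.refl _)) hc'
    rw [← mul_zero 27, ← add_zero 0]
    conv_rhs => enter [2]; congr; rw [← h5]; rfl; rw [← h6]
    rw [← Finset.sum_add_distrib, Finset.mul_sum]
    exact Finset.sum_congr rfl fun χ hχ => by rw [h.cast_cZ hM (mem_fB.1 hχ)]; ring
  rw [← Finset.sum_filter_add_sum_filter_not _ fun χ => blockHeight 3 (principalBlock M G) χ.1 = 0,
    Finset.sum_congr rfl fun χ hχ => by rw [h2 χ hχ],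
    Finset.sum_congr (rfl (a := Finset.filter (fun χ => ¬ _) _)) fun χ hχ => by rw [h3 χ hχ],
    ← Finset.mul_sum, ← Finset.mul_sum, ← Int.cast_sum, ← Int.cast_sum, c.tr1] at h4
  have h5 := c.tr
  rw [← Finset.sum_filter_add_sum_filter_not _ fun χ => blockHeight 3 (principalBlock M G) χ.1 = 0,
    c.tr1] at h5
  have h6 := Finset.card_filter_add_card_filter_not (s := fB (principalBlock M G))
    fun χ => blockHeight 3 (principalBlock M G) χ.1 = 0
  have h7 := H21.blockRank_pos hM hB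
  have h8 := c.main
  norm_cast at h1 h4
  omega

/-- The case of a nontrivial inertial quotient. -/
theorem real (hU : U.Nonempty) (h1 : blockRank 3 (principalBlock M (Cg z)) + U.card = 6)
    (h2 : blockRank 3 (principalBlock M (Cg z⁻¹)) + U.card = 6) :
    (fB (principalBlock M G)).card + 2 * U.card = 18 ∧
      ((fB (principalBlock M G)).filter fun χ => blockHeight 3 (principalBlock M G) χ.1 = 0).card = 6 ∧
      blockRank 3 (principalBlock M G) + U.card = 6 := by
  have h3 := h.count' hM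
  have h6 := Finset.card_filter_add_card_filter_not (s := fB (principalBlock M G))
    fun χ => blockHeight 3 (principalBlock M G) χ.1 = 0
  have h8 := (h.cmb hM hr hU).main
  omega

omit hr in
/-- The nilpotent case. -/
theorem nilp (hU : U.card = 8) (h0 : HasNormalPComplement 3 G) (h1 : HasNormalPComplement 3 (Cg z))
    (h2 : HasNormalPComplement 3 (Cg z⁻¹)) : (fB (principalBlock M G)).card = 11 ∧
      ((fB (principalBlock M G)).filter fun χ => blockHeight 3 (principalBlock M G) χ.1 = 0).card = 9 ∧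
      blockRank 3 (principalBlock M G) = 1 := by
  have hB : IsPBlock M (principalBlock M G) := H21.isPBlock_principal
  have h3 := h.count' hM
  have hl := (H21.blockRank_principal_eq_one_iff hM).2 h0
  rw [hl, (H21.blockRank_principal_eq_one_iff hM).2 h1, (H21.blockRank_principal_eq_one_iff hM).2 h2,
    hU] at h3
  refine ⟨h3, ?_, hl⟩
  have ht := H21.triv_mem_principal (G := G) hM.2.1
  have h4 := rank_one_cZ hM hB hl ht ht
  rw [H21.defect_principal hM, h.card, H21.triv_coe, H21.charDegree_one,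
    ← Finset.sum_filter_add_sum_filter_not _ fun χ => blockHeight 3 (principalBlock M G) χ.1 = 0] at h4
  have h6 := Finset.card_filter_add_card_filter_not (s := fB (principalBlock M G))
    fun χ => blockHeight 3 (principalBlock M G) χ.1 = 0
  set S0 := (fB (principalBlock M G)).filter fun χ => blockHeight 3 (principalBlock M G) χ.1 = 0
  set S1 := (fB (principalBlock M G)).filter fun χ => ¬ blockHeight 3 (principalBlock M G) χ.1 = 0
  have a0 : ∀ χ ∈ S0, 0 ≤ (charDegree χ.1 : ℤ) * charDegree χ.1 - 1 ∧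
      3 ∣ (charDegree χ.1 : ℤ) * charDegree χ.1 - 1 := fun χ hχ => by
    have h5 := (H21.height_principal_eq_zero_iff hM χ).1 (Finset.mem_filter.1 hχ).2
    have h7 := H21.deg_pos χ
    generalize charDegree χ.1 = n at *
    refine ⟨by nlinarith, ?_⟩
    obtain ⟨q, rfl | rfl⟩ : ∃ q, n = 3 * q + 1 ∨ n = 3 * q + 2 := ⟨n / 3, by omega⟩
    · exact ⟨3 * q * q + 2 * q, by push_cast; ring⟩
    · exact ⟨3 * q * q + 4 * q + 1, by push_cast; ring⟩
  have a1 : ∀ χ ∈ S1, 0 ≤ (charDegree χ.1 : ℤ) * charDegree χ.1 - 9 ∧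
      3 ∣ (charDegree χ.1 : ℤ) * charDegree χ.1 - 9 := fun χ hχ => by
    have h5 := not_not.1 (mt (H21.height_principal_eq_zero_iff hM χ).2 (Finset.mem_filter.1 hχ).2)
    have h7 := H21.deg_pos χ
    generalize charDegree χ.1 = n at *
    obtain ⟨q, rfl⟩ := h5
    have : 1 ≤ q := by omega
    exact ⟨by push_cast; nlinarith, 3 * q * q - 3, by push_cast; ring⟩
  have b0 := Finset.sum_nonneg fun χ hχ => (a0 χ hχ).1
  have b1 := Finset.sum_nonneg fun χ hχ => (a1 χ hχ).1
  have c0 := Finset.dvd_sum fun χ hχ => (a0 χ hχ).2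
  have c1 := Finset.dvd_sum fun χ hχ => (a1 χ hχ).2
  rw [Finset.sum_sub_distrib, Finset.sum_const, nsmul_eq_mul] at b0 b1 c0 c1
  change (∑ χ ∈ S0, _ + ∑ χ ∈ S1, _) * _ = _ at h4
  generalize ∑ χ ∈ S0, (charDegree χ.1 : ℤ) * charDegree χ.1 = x at *
  generalize ∑ χ ∈ S1, (charDegree χ.1 : ℤ) * charDegree χ.1 = y at *
  have h7 : x + y ∣ 27 := ⟨_, by simpa using h4.symm⟩
  have h8 := Int.le_of_dvd (by norm_num) h7
  have h9 : x + y = 27 := by
    have h10 : 11 ≤ x + y := by omega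
    generalize x + y = w at *
    interval_cases w <;> omega
  omega

end Fu

end Cfsg.Agent.H23.X27
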